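import Cfsg.Agent.H4.AuP
import Cfsg.Agent.H1.Fitting

/-! The `p'`-core of the centraliser of an automorphism of prime order: abstract part. -/

set_option autoImplicit false

namespace H4.Au
open Cfsg Subgroup H4.As
open scoped commutatorElement

section Abs
variable {K : Type*} [Group K] {p : ℕ}

lemma mem_of_cop {H : Subgroup K} {g : K} {a b : ℕ} (h : a.Coprime b) (ha : g ^ a ∈ H)
    (hb : g ^ b ∈ H) : g ∈ H := by
  obtain ⟨u, v, e⟩ := Nat.isCoprime_iff_coprime.2 h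
  have : g = (g ^ a) ^ u * (g ^ b) ^ v := by
    rw [← zpow_natCast, ← zpow_natCast, ← zpow_mul, ← zpow_mul, ← zpow_add, mul_comm _ u,
      mul_comm _ v, e, zpow_one]
  rw [this]
  exact H.mul_mem (H.zpow_mem ha _) (H.zpow_mem hb _)

/-- The fixed points. -/
abbrev fx (x : MulAut K) : Subgroup K := MonoidHom.eqLocus x.toMonoidHom (MonoidHom.id K)

lemma mem_fx {x : MulAut K} {k : K} : k ∈ fx x ↔ x k = k := Iff.rfl

/-- Data forcing the `p'`-core of the centraliser to be trivial. -/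
def Dat (p : ℕ) (x : MulAut K) : Prop := ∃ L : Subgroup K, L ≤ fx x ∧
  (∀ k, x k = k → ∃ j, k ^ p ^ j ∈ L) ∧
  (∀ N, NormalIn L N → (∀ n ∈ N, ∃ k : ℕ, k.Coprime p ∧ n ^ k = 1) → N = ⊥) ∧
  ∀ α : MulAut K, (∀ l ∈ L, α l = l) → ∃ j, α ^ p ^ j = 1

lemma fx_conj (α x : MulAut K) : fx (α * x * α⁻¹) = (fx x).map α.toMonoidHom := by
  ext k
  constructor
  · intro h
    refine ⟨α⁻¹ k, ?_, by simp⟩
    have h' : α (x (α⁻¹ k)) = k := h
    exact mem_fx.2 (α.injective (by rw [h']; simp))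
  · rintro ⟨k, hk, rfl⟩
    change α (x (α⁻¹ (α k))) = α k
    rw [MulAut.inv_apply, MulEquiv.symm_apply_apply, mem_fx.1 hk]

lemma card_fx_conj (α x : MulAut K) : Nat.card (fx (α * x * α⁻¹)) = Nat.card (fx x) := by
  rw [fx_conj, card_map_of_injective α.injective]

lemma Dat.conj {x : MulAut K} (h : Dat p x) (α : MulAut K) : Dat p (α * x * α⁻¹) := by
  obtain ⟨L, h1, h2, h3, h4⟩ := h
  refine ⟨L.map α.toMonoidHom, fx_conj α x ▸ map_mono h1, fun k hk => ?_, fun N hN hc => ?_,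
    fun β hβ => ?_⟩
  · obtain ⟨k, hk', rfl⟩ : k ∈ (fx x).map α.toMonoidHom := fx_conj α x ▸ hk
    obtain ⟨j, hj⟩ := h2 k hk'
    exact ⟨j, _, hj, map_pow _ _ _⟩
  · have := h3 (N.comap α.toMonoidHom) ⟨fun n hn => ?_, fun l hl n hn => ?_⟩ fun n hn => ?_
    · rw [← map_comap_eq_self_of_surjective (f := α.toMonoidHom) α.surjective N, this,
        Subgroup.map_bot]
    · obtain ⟨l, hl, e⟩ := hN.1 hn
      exact α.injective e ▸ hl
    · simpa using hN.2 _ ⟨l, hl, rfl⟩ _ hn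
    · obtain ⟨k, h1, h2⟩ := hc _ hn
      exact ⟨k, h1, α.injective (by rw [map_pow, map_one]; exact h2)⟩
  · obtain ⟨j, hj⟩ := h4 (α⁻¹ * β * α⁻¹⁻¹) fun l hl => by
      have := hβ _ ⟨l, hl, rfl⟩
      simp only [MulEquiv.toMonoidHom_eq_coe, MonoidHom.coe_coe] at this
      simp [this]
    rw [conj_pow, conj_eq_one_iff] at hj
    exact ⟨j, hj⟩

lemma conj_inj (hZ : center K = ⊥) : Function.Injective (MulAut.conj : K →* MulAut K) := by
  rw [injective_iff_map_eq_one]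
  intro k hk
  rw [← mem_bot, ← hZ, mem_center_iff]
  intro g
  have := DFunLike.congr_fun hk g
  simp only [MulAut.conj_apply, MulAut.one_apply, mul_inv_eq_iff_eq_mul] at this
  exact this.symm

lemma conj_cent {x : MulAut K} {k : K} (h : x k = k) :
    MulAut.conj k ∈ centralizer ({x} : Set (MulAut K)) := by
  rw [mem_centralizer_singleton_iff, eq_comm, ← mul_inv_eq_iff_eq_mul, mul_conj, h]

variable [Finite K] (hZ : center K = ⊥) {A : Subgroup (MulAut K)}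
  (hinn : ∀ k, MulAut.conj k ∈ A) {x : MulAut K}
include hZ hinn

lemma core_eq (h : Dat p x) : pPrimeCore p ↥(A ⊓ centralizer {x}) = ⊥ := by
  obtain ⟨L, h1, h2, h3, h4⟩ := h
  set M := (pPrimeCore p ↥(A ⊓ centralizer {x})).map (A ⊓ centralizer {x}).subtype with hM
  have hc : (Nat.card M).Coprime p := by
    rw [hM, card_map_of_injective (subtype_injective _)]; exact H1.coprime_pPrimeCore
  have hn : ∀ c ∈ A ⊓ centralizer {x}, ∀ m ∈ M, c * m * c⁻¹ ∈ M := by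
    rintro c hc _ ⟨m, hm, rfl⟩
    exact ⟨_, Normal.conj_mem inferInstance m hm ⟨c, hc⟩, rfl⟩
  have ho : ∀ m ∈ M, m ^ Nat.card M = 1 := fun m hm =>
    congrArg Subtype.val (pow_card_eq_one' (x := (⟨m, hm⟩ : M)))
  have hone : ∀ m ∈ M, ∀ j, m ^ p ^ j = 1 → m = 1 := fun m hm j e =>
    (pow_eq_one_iff_of_coprime (hc.pow_right j)).1 ⟨ho m hm, e⟩
  have hcl : ∀ l, x l = l → MulAut.conj l ∈ A ⊓ centralizer {x} := fun l hl =>
    ⟨hinn l, conj_cent hl⟩
  have hN := h3 (L ⊓ M.comap MulAut.conj) ⟨inf_le_left, fun l hl n hn' =>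
    ⟨L.mul_mem (L.mul_mem hl hn'.1) (L.inv_mem hl), by
      have := hn _ (hcl l (h1 hl)) _ hn'.2
      rwa [← map_mul, ← map_inv, ← map_mul] at this⟩⟩ fun n hn' =>
    ⟨_, hc, conj_inj hZ (by rw [map_pow, map_one]; exact ho _ hn'.2)⟩
  rw [← map_eq_bot_iff_of_injective _ (subtype_injective _), ← hM, eq_bot_iff]
  intro m hm
  have hmx : m * x = x * m := by
    obtain ⟨m, -, rfl⟩ := hm
    exact mem_centralizer_singleton_iff.1 m.2.2
  obtain ⟨j, hj⟩ := h4 m fun l hl => by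
    have e1 : x (m l) = m l := by
      rw [← MulAut.mul_apply, ← hmx, MulAut.mul_apply, mem_fx.1 (h1 hl)]
    have e2 : MulAut.conj (m l * l⁻¹) ∈ M := by
      rw [map_mul, ← mul_conj, map_inv, mul_assoc, mul_assoc, ← mul_assoc (MulAut.conj l)]
      exact M.mul_mem hm (hn _ (hcl l (h1 hl)) _ (M.inv_mem hm))
    obtain ⟨j, hj⟩ := h2 (m l * l⁻¹) (by rw [map_mul, map_inv, e1, mem_fx.1 (h1 hl)])
    have e3 : (m l * l⁻¹) ^ p ^ j ∈ L ⊓ M.comap MulAut.conj :=
      ⟨hj, mem_comap.2 (by rw [map_pow]; exact M.pow_mem e2 _)⟩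
    rw [hN, mem_bot] at e3
    have := hone _ e2 j (by rw [← map_pow, e3, map_one])
    exact mul_inv_eq_one.1 (conj_inj hZ (this.trans (map_one _).symm))
  exact hone m hm j hj

lemma core_ne (h0 : fx x ≠ ⊥) (hc : p.Coprime (Nat.card (fx x))) :
    pPrimeCore p ↥(A ⊓ centralizer {x}) ≠ ⊥ := fun e => h0 <| by
  set N := ((fx x).map MulAut.conj).subgroupOf (A ⊓ centralizer {x})
  have hle : (fx x).map MulAut.conj ≤ A ⊓ centralizer {x} := by
    rintro _ ⟨k, hk, rfl⟩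
    exact ⟨hinn k, conj_cent hk⟩
  haveI : N.Normal := ⟨by
    rintro n ⟨k, hk, e⟩ g
    refine ⟨g.1 k, ?_, ?_⟩
    · have := mem_centralizer_singleton_iff.1 g.2.2
      rw [SetLike.mem_coe, mem_fx, ← MulAut.mul_apply, ← this, MulAut.mul_apply, mem_fx.1 hk]
    · rw [← mul_conj, e]; rfl⟩
  have h1 : N ≤ ⊥ := e ▸ H1.le_pPrimeCore (by
    rw [Nat.card_congr (subgroupOfEquivOfLe hle).toEquiv, card_map_of_injective (conj_inj hZ)]
    exact hc.symm)
  rw [eq_bot_iff]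
  intro k hk
  have := h1 (show (⟨MulAut.conj k, hle ⟨k, hk, rfl⟩⟩ : ↥(A ⊓ centralizer {x})) ∈ N from ⟨k, hk, rfl⟩)
  exact conj_inj hZ ((congrArg Subtype.val this).trans (map_one _).symm)

theorem core_iff [hp : Fact p.Prime] {y α : MulAut K} (e : x = α * y * α⁻¹) (h0 : fx y ≠ ⊥)
    (h : p ∣ Nat.card (fx y) → Dat p y) :
    pPrimeCore p ↥(A ⊓ centralizer {x}) ≠ ⊥ ↔ p.Coprime (Nat.card (fx x)) := by
  subst e
  refine ⟨fun h1 => ?_, core_ne hZ hinn ?_⟩
  · rw [hp.out.coprime_iff_not_dvd, card_fx_conj]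
    exact fun h2 => h1 (core_eq hZ hinn ((h h2).conj α))
  · rwa [fx_conj, Ne, map_eq_bot_iff_of_injective _ α.injective]

end Abs

section NP
variable {G G' : Type*} [Group G] [Group G'] {p : ℕ}

/-- No normal `p'`-subgroup modulo `Z`. -/
def NP (p : ℕ) (Z T : Subgroup G) : Prop :=
  ∀ N, NormalIn T N → (∀ n ∈ N, ∃ k : ℕ, k.Coprime p ∧ n ^ k ∈ Z) → N ≤ Z

lemma NP.map {Z T : Subgroup G} (h : NP p Z T) (Φ : G →* G') {Z' : Subgroup G'}
    (hZ : ∀ g ∈ T, Φ g ∈ Z' ↔ g ∈ Z) : NP p Z' (T.map Φ) := fun N hN hc n hn => by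
  obtain ⟨t, ht, rfl⟩ := hN.1 hn
  refine (hZ t ht).2 (h (T ⊓ N.comap Φ) ⟨inf_le_left, fun a ha b hb =>
    ⟨T.mul_mem (T.mul_mem ha hb.1) (T.inv_mem ha), ?_⟩⟩ (fun b hb => ?_) ⟨ht, hn⟩)
  · simpa using hN.2 _ ⟨a, ha, rfl⟩ _ hb.2
  · obtain ⟨k, h1, h2⟩ := hc _ hb.2
    exact ⟨k, h1, (hZ _ (T.pow_mem hb.1 k)).1 (by rwa [map_pow])⟩

lemma np_of_qs [hp : Fact p.Prime] {Z T : Subgroup G} [Finite T] (hZ : Z ≤ center G)
    (perf : ⁅T, T⁆ = T) (qs : ∀ N, NormalIn T N → N ≤ Z ∨ N = T) (hd : p ∣ Nat.card T) :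
    NP p Z T := fun N hN hc => (qs N hN).resolve_right <| by
  rintro rfl
  have h1 := card_commutator_dvd_index_center_pow N
  rw [commutator_subgroup_eq_top perf.ge, card_top] at h1
  obtain ⟨g, hg⟩ := exists_prime_orderOf_dvd_card' (G := N ⧸ center N) p
    (hp.out.dvd_of_dvd_pow (hd.trans h1))
  obtain ⟨g, rfl⟩ := QuotientGroup.mk_surjective g
  obtain ⟨k, h2, h3⟩ := hc g g.2
  have : (g : N ⧸ center N) ^ k = 1 := by
    rw [← QuotientGroup.mk_pow, QuotientGroup.eq_one_iff, mem_center_iff]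
    exact fun a => Subtype.ext (mem_center_iff.1 (hZ h3) a)
  rw [← orderOf_dvd_iff_pow_eq_one, hg] at this
  exact hp.out.one_lt.ne' (Nat.eq_one_of_dvd_coprimes h2 this dvd_rfl)

lemma np_top {S : Type*} [Group S] (h : ∀ N : Subgroup S, N.Normal →
    (∀ n ∈ N, ∃ k : ℕ, k.Coprime p ∧ n ^ k = 1) → N = ⊥) : NP p (⊥ : Subgroup S) ⊤ :=
  fun N hN hc => (h N ⟨fun n hn g => hN.2 g trivial n hn⟩ hc).le

end NP

section Car
variable {S G : Type*} [Group S] [Group G] (C : Car S G) {p : ℕ}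

lemma Car.mem_center {s : S} : s ∈ center S ↔ C.e s ∈ C.Z :=
  ⟨fun h => C.cen _ fun t => by rw [← map_mul, ← map_mul, mem_center_iff.1 h t],
    fun h => mem_center_iff.2 fun t => C.inj (by rw [map_mul, map_mul, C.cenZ _ h])⟩

lemma Car.perf' : ⁅C.e.range, C.e.range⁆ = C.e.range := by
  rw [MonoidHom.range_eq_map, ← map_commutator, ← commutator_def, C.perf]

lemma Car.np [Finite S] [Fact p.Prime] [IsSimpleGroup (S ⧸ center S)] (hd : p ∣ Nat.card S) :
    NP p C.Z C.e.range := by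
  haveI : Finite C.e.range := Finite.of_equiv _ (MonoidHom.ofInjective C.inj).toEquiv
  refine np_of_qs (fun z hz => mem_center_iff.2 fun g => (C.cenZ z hz g).symm) C.perf'
    (fun N hN => ?_) (by rwa [← Nat.card_congr (MonoidHom.ofInjective C.inj).toEquiv])
  have hN' : (N.comap C.e).Normal := ⟨fun x hx g => by simpa using hN.2 _ ⟨g, rfl⟩ _ hx⟩
  rcases IsSimpleGroup.eq_bot_or_eq_top_of_normal _
    (hN'.map (QuotientGroup.mk' (center S)) (QuotientGroup.mk'_surjective _)) with h1 | h1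
  · refine Or.inl fun x hx => ?_
    obtain ⟨y, rfl⟩ := hN.1 hx
    have := (Subgroup.map_eq_bot_iff _).1 h1 (show y ∈ N.comap C.e from hx)
    rw [QuotientGroup.ker_mk'] at this
    exact C.mem_center.1 this
  · refine Or.inr (le_antisymm hN.1 ?_)
    have h2 := congrArg (comap (QuotientGroup.mk' _)) h1
    rw [comap_map_eq, QuotientGroup.ker_mk', comap_top] at h2
    have := perfect_le_of_sup (H := N.comap C.e) le_rfl C.perf h2.ge
    rintro _ ⟨y, rfl⟩
    exact this trivial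

include C in
lemma Car.center_bot : center (S ⧸ center S) = ⊥ := by
  rw [eq_bot_iff]
  intro k hk
  obtain ⟨s, rfl⟩ := QuotientGroup.mk_surjective k
  have := ((Car.rep_inn (C := C) s).conj_eq_one).1 (by
    ext g
    rw [MulAut.conj_apply, ← mem_center_iff.1 hk g]; simp)
  exact (QuotientGroup.eq_one_iff _).2 (C.mem_center.2 this)

variable {C} {θ : MulAut G} {x : MulAut (S ⧸ center S)}

lemma Car.Rep.tw_mem (hx : C.Rep θ x) {s : S} (h : x (s : S ⧸ center S) = s) :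
    θ (C.e s) * (C.e s)⁻¹ ∈ C.Z := by
  obtain ⟨s', h1, h2⟩ := hx.exists s
  rw [h, QuotientGroup.eq] at h2
  have := C.mem_center.1 ((inferInstance : (center S).Normal).conj_mem _ h2 s)
  rw [← h1]
  simpa [mul_assoc] using this

lemma Car.Rep.fix_of (hx : C.Rep θ x) {s : S} (h : θ (C.e s) = C.e s) :
    x (s : S ⧸ center S) = s := hx.ind s s h.symm

lemma Car.Rep.exists_norm (hx : C.Rep θ x) (hp : x ^ p = 1) {s : S}
    (h : x (s : S ⧸ center S) = s) :
    ∃ t : S, θ (C.e t) = C.e t ∧ (t : S ⧸ center S) = (s : S ⧸ center S) ^ p := by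
  have key : ∀ i, ∃ t : S, C.e t = tn θ (C.e s) i ∧
      (t : S ⧸ center S) = (s : S ⧸ center S) ^ i := fun i => by
    induction i with
    | zero => exact ⟨1, map_one _, by simp⟩
    | succ i ih =>
      obtain ⟨t, h1, h2⟩ := ih
      obtain ⟨s', h3, h4⟩ := (hx.pow i).exists s
      have : (x ^ i) (s : S ⧸ center S) = s := by
        clear h1 h2 h3 h4
        induction i with
        | zero => rfl
        | succ i ih => rw [pow_succ, MulAut.mul_apply, h, ih]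
      exact ⟨t * s', by rw [map_mul, h1, h3]; rfl,
        by rw [QuotientGroup.mk_mul, h2, ← h4, this, pow_succ]⟩
  obtain ⟨t, h1, h2⟩ := key p
  refine ⟨t, ?_, h2⟩
  have e1 := tn_succ' θ (C.e s) p
  have e2 : tn θ (C.e s) (p + 1) = tn θ (C.e s) p * C.e s := by
    rw [tn, (show C.Rep (θ ^ p) 1 from hp ▸ hx.pow p).triv s]
  have e3 : t * s = s * t := by
    rw [← QuotientGroup.mk_pow, eq_comm, QuotientGroup.eq] at h2
    have := mem_center_iff.1 h2 s
    rw [← mul_assoc, ← inv_pow, ((Commute.refl s).inv_right.pow_right p).eq, mul_assoc,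
      mul_assoc] at this
    exact (mul_left_cancel this).symm
  rw [e2, ← h1, ← map_mul, e3, map_mul] at e1
  exact (mul_left_cancel e1).symm

theorem Car.Rep.dat (hx : C.Rep θ x) (hp : x ^ p = 1) {T : Subgroup G}
    (hT : ∀ g, g ∈ T ↔ g ∈ C.e.range ∧ θ g = g) (hN : NP p C.Z T)
    (h3 : ∀ α : MulAut (S ⧸ center S),
      (∀ s, C.e s ∈ T → α (s : S ⧸ center S) = s) → ∃ j, α ^ p ^ j = 1) : Dat p x := by
  refine ⟨(T.comap C.e).map (QuotientGroup.mk' _), ?_, fun k hk => ?_, fun N h1 h2 => ?_,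
    fun α h => h3 α fun s hs => h _ ⟨s, hs, rfl⟩⟩
  · rintro _ ⟨s, hs, rfl⟩
    exact hx.fix_of ((hT _).1 hs).2
  · obtain ⟨s, rfl⟩ := QuotientGroup.mk_surjective k
    obtain ⟨t, h1, h2⟩ := hx.exists_norm hp hk
    exact ⟨1, t, (hT _).2 ⟨⟨t, rfl⟩, h1⟩, by rw [pow_one, ← h2]; rfl⟩
  · have := hN (T ⊓ (N.comap (QuotientGroup.mk' _)).map C.e) ⟨inf_le_left, fun a ha b hb =>
      ⟨T.mul_mem (T.mul_mem ha hb.1) (T.inv_mem ha), ?_⟩⟩ fun b hb => ?_
    · rw [eq_bot_iff]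
      intro n hn
      obtain ⟨s, hs, rfl⟩ := h1.1 hn
      exact (QuotientGroup.eq_one_iff _).2 (C.mem_center.2 (this ⟨hs, s, hn, rfl⟩))
    · obtain ⟨a, rfl⟩ := ((hT _).1 ha).1
      obtain ⟨-, b, hb, rfl⟩ := hb
      exact ⟨a * b * a⁻¹, by simpa using h1.2 _ ⟨a, ha, rfl⟩ _ hb, by simp⟩
    · obtain ⟨-, b, hb, rfl⟩ := hb
      obtain ⟨k, h3, h4⟩ := h2 _ hb
      refine ⟨k, h3, ?_⟩
      rw [← map_pow, ← C.mem_center, ← QuotientGroup.eq_one_iff]
      exact h4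

theorem Car.Rep.dvd_fix [Finite S] [Fact p.Prime] (hx : C.Rep θ x) (hp : x ^ p = 1)
    {T : Subgroup G} (hT : ∀ g, g ∈ T ↔ g ∈ C.e.range ∧ θ g = g) (h : p ∣ Nat.card (fx x)) :
    p ∣ Nat.card T := by
  classical
  set P := (fx x).comap (QuotientGroup.mk' (center S))
  choose φ h1 h2 using hx.exists
  have hP : ∀ s ∈ P, φ s ∈ P := fun s hs => by
    have : x (s : S ⧸ center S) = s := hs
    change x (φ s : S ⧸ center S) = φ s
    rw [← h2, this, this]
  let f : Function.End P := fun s => ⟨φ s, hP _ s.2⟩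
  have hf : ∀ i (s : P), C.e ((f ^ i) s : P) = (θ ^ i) (C.e s) := fun i s => by
    induction i with
    | zero => rfl
    | succ i ih => rw [pow_succ', pow_succ', MulAut.mul_apply, ← ih, ← h1]; rfl
  haveI := Fintype.ofFinite P
  have h3 := Equiv.Perm.card_fixedPoints_modEq (f := f) (p := p) (n := 1) (funext fun s =>
    Subtype.ext (C.inj (by
      rw [pow_one, hf, (show C.Rep (θ ^ p) 1 from hp ▸ hx.pow p).triv]; rfl)))
  have h4 : Nat.card f.fixedPoints = Nat.card T := by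
    refine Nat.card_congr (Equiv.ofBijective (fun s => ⟨C.e s.1, (hT _).2 ⟨⟨_, rfl⟩, ?_⟩⟩)
      ⟨fun a b e => Subtype.ext (Subtype.ext (C.inj (congrArg Subtype.val e))), ?_⟩)
    · rw [← h1]; exact congrArg (fun s : P => C.e s) s.2
    · rintro ⟨g, hg⟩
      obtain ⟨⟨s, rfl⟩, h5⟩ := (hT _).1 hg
      exact ⟨⟨⟨s, hx.fix_of h5⟩, Subtype.ext (C.inj ((h1 s).trans h5))⟩, rfl⟩
  rw [← Nat.card_eq_fintype_card, ← Nat.card_eq_fintype_card, h4] at h3
  exact (h3.dvd_iff dvd_rfl).1 (h.trans (card_dvd_of_surjective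
    ((QuotientGroup.mk' (center S)).subgroupComap (fx x))
    (MonoidHom.subgroupComap_surjective_of_surjective _ _ (QuotientGroup.mk'_surjective _))))

end Car

end H4.Au
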