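import Cfsg.Agent.H4.CpA

/-! The `p'`-core of the centraliser of an automorphism of prime order: semilinear maps. -/

set_option autoImplicit false

namespace H4.Au
open Matrix Cfsg Cfsg.Geo Subgroup Module H4.As
open scoped MatrixGroups commutatorElement

section Semi
variable {F₀ F : Type*} [Field F₀] [Field F] {K : Kind F₀} {V W : Type*} [AddCommGroup V]
  [Module F₀ V] [AddCommGroup W] [Module F W] {f : Form K V}

variable (f) in
/-- Enough room in the complements of the hyperbolic planes. -/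
def Wide : Prop := (∃ s, s ≠ 0 ∧ K.T s = 0) ∨
  ((2 : F₀) ≠ 0 ∧ ∀ u w, f.Hyp u w → ∃ v, f.B u v = 0 ∧ f.B w v = 0 ∧ f.B v v ≠ 0)

theorem semi_abs {j ρ : F₀ →+* F} {J R : V →+ W} (hJ : ∀ c v, J (c • v) = j c • J v)
    (hR : ∀ c v, R (c • v) = ρ c • R v) (iJ : Function.Injective J) (iR : Function.Injective R)
    (φ : V → W →ₗ[F] F) (hφ : ∀ u x, φ u (J x) = j (f.B u x)) (hW : Wide f) {u w : V}
    (h : f.Hyp u w) {v₀ : V} (h0 : v₀ ≠ 0) (h1 : f.B u v₀ = 0) (h2 : f.B w v₀ = 0)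
    (H : ∀ x, f.Q x = 0 → ∃ c : F, R x = c • J x) : ∃ c : F, ∀ x, R x = c • J x := by
  obtain ⟨a, ha⟩ := H u h.Qu
  obtain ⟨b, hb⟩ := H w h.Qw
  have hε : j K.ε ≠ 0 := (map_ne_zero j).2 K.ε_ne
  have hQ : ∀ {v t}, f.B u v = 0 → f.B w v = 0 → K.T t = f.Q v → f.Q (u + v - t • w) = 0 := by
    intro v t e1 e2 e3
    rw [f.Q_sub, f.Q_add_of_perp e1, f.Q_smul, h.Qu, h.Qw]
    simp [h.Buw, Form.refl e2, e3]
  have sub : ∀ {s}, K.T s = 0 → ∀ {v t c}, f.B u v = 0 → f.B w v = 0 → K.T t = f.Q v →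
      R (u + v - t • w) = c • J (u + v - t • w) → ρ s * b = c * j s := by
    intro s hs v t c e1 e2 e3 e4
    obtain ⟨c', e5⟩ := H _ (hQ (t := t + s) e1 e2 (by rw [map_add, hs, add_zero, e3]))
    have e6 : (ρ s * b) • J w = c • J (u + v - t • w) - c' • J (u + v - (t + s) • w) := by
      rw [← e4, ← e5, ← map_sub, mul_smul, ← hb, ← hR]
      congr 1
      module
    have e7 := congrArg (φ w) e6
    have e8 := congrArg (φ u) e6
    simp only [map_sub, map_add, map_neg, map_smul, hφ, e1, e2, h.Buu, h.Buw, h.Bwu, h.Bww,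
      map_zero, map_one, smul_eq_mul, mul_zero, mul_one, neg_zero] at e7 e8
    have : c = c' := mul_right_cancel₀ hε (by linear_combination -e7)
    subst this
    linear_combination e8
  have A : ∀ {v t}, f.B u v = 0 → f.B w v = 0 → K.T t = f.Q v →
      R (u + v - t • w) = a • J (u + v - t • w) := by
    intro v t e1 e2 e3
    obtain ⟨c, hc⟩ := H _ (hQ e1 e2 e3)
    suffices c = a by rw [hc, this]
    rcases hW with ⟨s, s0, hs⟩ | ⟨two, -⟩
    · have := sub hs (v := 0) (t := 0) (c := a) (by simp) (by simp) (by simp [f.Q_zero])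
        (by simpa using ha)
      exact mul_right_cancel₀ ((map_ne_zero j).2 s0) ((sub hs e1 e2 e3 hc).symm.trans this)
    have two' : (2 : F) ≠ 0 := by rw [← map_ofNat j]; exact (map_ne_zero j).2 two
    obtain ⟨c', hc', hv⟩ : ∃ c' : F, R (u + -v - t • w) = c' • J (u + -v - t • w) ∧
        (v = 0 → c' = c) := by
      by_cases hv : v = 0
      · exact ⟨c, by simpa [hv] using hc, fun _ => rfl⟩
      · obtain ⟨c', e⟩ := H _ (hQ (v := -v) (t := t) (by simp [e1]) (by simp [e2])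
          (by rw [f.Q_neg, e3]))
        exact ⟨c', e, fun e => (hv e).elim⟩
    have e6 : (2 * a) • J u - (2 * ρ t * b) • J w =
        c • J (u + v - t • w) + c' • J (u + -v - t • w) := by
      rw [← hc, ← hc', ← map_add, show u + v - t • w + (u + -v - t • w) =
        u + u - (t • w + t • w) by abel, map_sub, map_add, map_add, hR, ha, hb]
      module
    have e7 := congrArg (φ w) e6
    have e8 := congrArg (φ u) e6
    simp only [map_sub, map_add, map_neg, map_smul, hφ, e1, e2, h.Buu, h.Buw, h.Bwu, h.Bww,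
      map_zero, map_one, smul_eq_mul, mul_zero, mul_one, neg_zero] at e7 e8
    have e9 : 2 * a = c + c' := mul_right_cancel₀ hε (by linear_combination e7)
    have : c = c' := by
      by_cases hv' : v = 0
      · exact (hv hv').symm
      have : (c - c') • J v = 0 := by
        rw [e9, show 2 * ρ t * b = (c + c') * j t by linear_combination -e8] at e6
        simp only [map_sub, map_add, map_neg, hJ] at e6
        linear_combination (norm := module) -e6
      exact sub_eq_zero.1 ((smul_eq_zero.1 this).resolve_right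
        fun e => hv' (iJ (e.trans (map_zero J).symm)))
    exact mul_left_cancel₀ two' (by linear_combination this - e9)
  have B : ∀ {v t}, f.B u v = 0 → f.B w v = 0 → K.T t = f.Q v →
      R v = a • J v + (ρ t * b - a * j t) • J w := by
    intro v t e1 e2 e3
    have := A e1 e2 e3
    simp only [map_sub, map_add, hR, hJ, ha, hb] at this
    linear_combination (norm := module) this
  have a0 : a ≠ 0 := by
    rintro rfl
    have : u = 0 := iR (by rw [ha, zero_smul, map_zero])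
    simpa [this] using h.Buw
  have hρ : ∀ l, ρ l = j l := fun l => by
    obtain ⟨t, ht⟩ := f.tv v₀
    obtain ⟨t', ht'⟩ := f.tv (l • v₀)
    have e1 := B (v := l • v₀) (by simp [h1]) (by simp [h2]) ht'
    rw [hR, B h1 h2 ht, hJ] at e1
    have e2 := congrArg (φ u) e1
    simp only [map_add, map_smul, hφ, h1, h.Buw, map_zero, map_one, smul_eq_mul] at e2
    have : (a * (ρ l - j l)) • J v₀ = 0 := by
      rw [show ρ t' * b - a * j t' = ρ l * (ρ t * b - a * j t) by linear_combination -e2] at e1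
      linear_combination (norm := module) e1
    have := (smul_eq_zero.1 this).resolve_right fun e => h0 (iJ (e.trans (map_zero J).symm))
    exact sub_eq_zero.1 ((mul_eq_zero.1 this).resolve_left a0)
  have hab : b = a := by
    rcases hW with ⟨s, s0, hs⟩ | ⟨two, hv⟩
    · have := sub hs (v := 0) (t := 0) (c := a) (by simp) (by simp) (by simp [f.Q_zero])
        (by simpa using ha)
      rw [hρ, mul_comm] at this
      exact mul_right_cancel₀ ((map_ne_zero j).2 s0) this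
    · obtain ⟨v, e1, e2, e3⟩ := hv u w h
      obtain ⟨t, ht⟩ := f.tv v
      have t0 : t ≠ 0 := by
        rintro rfl
        exact e3 (by simpa using f.B_self v 0 ht)
      have two' : (2 : F) ≠ 0 := by rw [← map_ofNat j]; exact (map_ne_zero j).2 two
      have e4 := B (v := -v) (t := t) (by simp [e1]) (by simp [e2]) (by rw [f.Q_neg, ht])
      rw [map_neg, B e1 e2 ht, map_neg] at e4
      have e5 := congrArg (φ u) e4
      simp only [map_add, map_neg, map_smul, hφ, e1, h.Buw, map_zero, map_one, smul_eq_mul,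
        hρ] at e5
      have : 2 * j t * (b - a) = 0 := by linear_combination -e5
      exact sub_eq_zero.1 ((mul_eq_zero.1 this).resolve_left
        (mul_ne_zero two' ((map_ne_zero j).2 t0)))
  refine ⟨a, fun x => ?_⟩
  obtain ⟨t, ht⟩ := f.tv (x - (K.ε * f.B w x) • u - f.B u x • w)
  have e := B (by simp [h.Buu, h.Buw]) (by simp [h.Bwu, h.Bww, mul_right_comm _ _ K.ε, K.εε]) ht
  simp only [map_sub, hR, hJ, ha, hb, hρ, hab] at e
  linear_combination (norm := module) e

end Semi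

section Mat
variable {ι : Type} [Fintype ι] [DecidableEq ι] {F₀ F : Type*} [Field F₀] [Field F]
  {j : F₀ →+* F}

/-- The semilinear map. -/
def sl (g : GL ι F) (τ : F ≃+* F) : (ι → F) →+ (ι → F) where
  toFun y := g.1 *ᵥ (τ ∘ y)
  map_zero' := by
    rw [show τ ∘ (0 : ι → F) = 0 from funext fun _ => map_zero τ, mulVec_zero]
  map_add' x y := by
    rw [show τ ∘ (x + y) = τ ∘ x + τ ∘ y from funext fun _ => map_add τ _ _, mulVec_add]

lemma sl_smul (g : GL ι F) (τ : F ≃+* F) (c : F) (y : ι → F) :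
    sl g τ (c • y) = τ c • sl g τ y := by
  change g.1 *ᵥ _ = τ c • (g.1 *ᵥ _)
  rw [show τ ∘ (c • y) = τ c • (τ ∘ y) from funext fun _ => map_mul τ _ _, mulVec_smul]

lemma sl_inj (g : GL ι F) (τ : F ≃+* F) : Function.Injective (sl g τ) := by
  rw [injective_iff_map_eq_zero]
  intro y hy
  have := gl_mulVec_eq_zero.1 hy
  funext i
  simpa using congrFun this i

lemma pt_of {a g : GL ι F} {τ : F ≃+* F}
    (h : (MulAut.conj g * fm τ : MulAut (GL ι F)) a * a⁻¹ ∈ scalars ι F) {u : ι → F} {k : ℕ}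
    (h1 : a.1 *ᵥ u = u) (h2 : ∀ w, ∃ c : F, (a.1 - 1) ^ k *ᵥ w = c • u)
    (h3 : (a.1 - 1) ^ k ≠ 0) : ∃ c : F, sl g τ u = c • u := by
  obtain ⟨z, hz⟩ := mem_sc.1 h
  rw [mul_inv_eq_iff_eq_mul] at hz
  have e : ∀ y, sl g τ (a.1 *ᵥ y) = (z : F) • a.1 *ᵥ sl g τ y := fun y => by
    have := slin_mulVec g τ a y
    rw [hz, sc_mul_coe, smul_mulVec] at this
    exact this.symm
  obtain ⟨w, hw⟩ : ∃ w, (a.1 - 1) ^ k *ᵥ w ≠ 0 := by
    by_contra hc
    push Not at hc
    exact h3 (mat_ext fun v => by rw [hc, zero_mulVec])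
  obtain ⟨c, hc⟩ := h2 w
  have hu : sl g τ u ≠ 0 := fun e => hw (by
    rw [hc, sl_inj g τ (e.trans (map_zero _).symm), smul_zero])
  have e1 : (a.1 - 1) *ᵥ sl g τ u = ((z : F)⁻¹ - 1) • sl g τ u := by
    have := e u
    rw [h1] at this
    rw [sub_mulVec, one_mulVec, sub_smul, one_smul, sub_left_inj, eq_inv_smul_iff₀ z.ne_zero,
      ← this]
  have e2 : ∀ i, (a.1 - 1) ^ i *ᵥ sl g τ u = ((z : F)⁻¹ - 1) ^ i • sl g τ u := fun i => by
    induction i with
    | zero => simp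
    | succ i ih => rw [pow_succ', ← mulVec_mulVec, ih, mulVec_smul, e1, smul_smul, pow_succ]
  have hz1 : (z : F) = 1 := by
    have := e2 (k + 1)
    obtain ⟨d, hd⟩ := h2 (sl g τ u)
    rw [pow_succ', ← mulVec_mulVec, hd, mulVec_smul, sub_mulVec, h1, one_mulVec, sub_self,
      smul_zero, eq_comm, smul_eq_zero, or_iff_left hu] at this
    exact inv_eq_one.1 (sub_eq_zero.1 (pow_eq_zero_iff (by omega) |>.1 this))
  have e3 : ∀ i y, sl g τ ((a.1 - 1) ^ i *ᵥ y) = (a.1 - 1) ^ i *ᵥ sl g τ y := fun i y => by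
    induction i with
    | zero => simp
    | succ i ih =>
      rw [pow_succ', ← mulVec_mulVec, ← mulVec_mulVec, ← ih, sub_mulVec, sub_mulVec, map_sub, e,
        hz1, one_smul, one_mulVec, one_mulVec]
  obtain ⟨d, hd⟩ := h2 (sl g τ w)
  have c0 : τ c ≠ 0 := by
    rw [map_ne_zero]
    rintro rfl
    exact hw (by rw [hc, zero_smul])
  refine ⟨(τ c)⁻¹ * d, ?_⟩
  rw [mul_smul, eq_inv_smul_iff₀ c0, ← sl_smul, ← hc, e3, hd]

/-- The point `u` is determined by a unipotent element of `T`. -/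
def PU (T : Subgroup (GL ι F₀)) (u : ι → F₀) : Prop := ∃ t ∈ T, ∃ k : ℕ, t.1 *ᵥ u = u ∧
  (∀ w, ∃ c : F₀, (t.1 - 1) ^ k *ᵥ w = c • u) ∧ (t.1 - 1) ^ k ≠ 0

variable (j) in
/-- Semilinear maps centralising `T` projectively are trivial. -/
def PT (T : Subgroup (GL ι F₀)) : Prop := ∀ (g : GL ι F) (τ : F ≃+* F),
  (∀ t ∈ T, (MulAut.conj g * fm τ : MulAut (GL ι F)) (gm j t) * (gm j t)⁻¹ ∈ scalars ι F) →
    g ∈ scalars ι F ∧ ∀ a, τ (j a) = j a

lemma PT.mono {T T' : Subgroup (GL ι F₀)} (h : PT j T) (hT : T ≤ T') : PT j T' :=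
  fun g τ H => h g τ fun t ht => H t (hT ht)

lemma PU.pt {T : Subgroup (GL ι F₀)} {u : ι → F₀} (h : PU T u) {g : GL ι F} {τ : F ≃+* F}
    (H : ∀ t ∈ T, (MulAut.conj g * fm τ : MulAut (GL ι F)) (gm j t) * (gm j t)⁻¹ ∈ scalars ι F) :
    ∃ c : F, sl g τ (j ∘ u) = c • (j ∘ u) := by
  obtain ⟨t, ht, k, h1, h2, h3⟩ := h
  have e : ((gm j t).1 - 1) ^ k = ((t.1 - 1) ^ k).map j := by
    rw [gm_coe, ← RingHom.mapMatrix_apply, ← RingHom.mapMatrix_apply, map_pow, map_sub, map_one]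
  refine pt_of (H t ht) (k := k) (by rw [gm_mulVec, h1]) (fun w => ?_) fun h => h3 ?_
  · choose c hc using h2
    refine ⟨∑ i, j (c (Pi.single i 1)) * w i, funext fun l => ?_⟩
    rw [e, Pi.smul_apply, smul_eq_mul, Finset.sum_mul, mulVec, dotProduct]
    refine Finset.sum_congr rfl fun i _ => ?_
    have := congrFun (hc (Pi.single i 1)) l
    simp only [mulVec_single_one, col_apply, Pi.smul_apply, smul_eq_mul] at this
    simp only [map_apply, this, map_mul, Function.comp_apply]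
    ring
  · rw [e] at h
    ext a b
    simpa using congrFun (congrFun h a) b

lemma fin_of [Nonempty ι] {g : GL ι F} {τ : F ≃+* F} {c : F}
    (h : ∀ v : ι → F₀, sl g τ (j ∘ v) = c • (j ∘ v)) : g ∈ scalars ι F ∧ ∀ a, τ (j a) = j a := by
  have e : ∀ i, g.1 *ᵥ Pi.single i 1 = c • (Pi.single i 1 : ι → F) := fun i => by
    have := h (Pi.single i 1)
    rw [comp_single] at this
    rw [← this]
    exact congrArg _ (comp_single (τ : F →+* F) i).symm
  have hg : g.1 = c • 1 := by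
    ext a b
    simpa [one_apply, Pi.single_apply] using congrFun (e b) a
  refine ⟨mem_sc_of hg, fun a => ?_⟩
  obtain ⟨i⟩ := ‹Nonempty ι›
  have c0 : c ≠ 0 := by
    rintro rfl
    simpa using gl_mulVec_eq_zero.1 ((e i).trans (zero_smul _ _))
  have := congrFun (h fun _ => a) i
  change (g.1 *ᵥ _) i = _ at this
  rw [hg, smul_mulVec, one_mulVec] at this
  exact mul_left_cancel₀ c0 this

theorem pt_all [Nontrivial ι] {T : Subgroup (GL ι F₀)} (h : ∀ v, v ≠ 0 → PU T v) : PT j T := by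
  intro g τ H
  have h' : ∀ v : ι → F₀, ∃ c : F, g.1 *ᵥ (τ ∘ j ∘ v) = c • (j ∘ v) := fun v => by
    by_cases hv : v = 0
    · subst hv
      refine ⟨0, ?_⟩
      rw [show τ ∘ j ∘ (0 : ι → F₀) = 0 from funext fun _ => by simp]
      simp
    · exact (h v hv).pt H
  have key : ∀ a b, a ≠ b → ∀ l : F₀, g.1 b a = 0 ∧ τ (j l) * g.1 b b = j l * g.1 a a := by
    intro a b hab l
    have e : ∀ a b, a ≠ b → g.1 b a = 0 := fun a b hab => by
      obtain ⟨c, hc⟩ := h' (Pi.single a 1)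
      have := congrFun hc b
      rw [comp_single, show τ ∘ _ = _ from comp_single (τ : F →+* F) a] at this
      simpa [hab.symm] using this
    obtain ⟨c, hc⟩ := h' (Pi.single a 1 + Pi.single b l)
    rw [show τ ∘ j ∘ (Pi.single a 1 + Pi.single b l : ι → F₀) =
      Pi.single a 1 + Pi.single b (τ (j l)) from funext fun i => by
        simp only [Function.comp_apply, Pi.add_apply, Pi.single_apply, map_add]
        split_ifs <;> simp] at hc
    have e1 := congrFun hc a
    have e2 := congrFun hc b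
    simp [mulVec_add, hab, hab.symm, e _ _ hab, e _ _ hab.symm] at e1 e2
    exact ⟨e a b hab, by rw [e1, e2, mul_comm]⟩
  obtain ⟨a, b, hab⟩ := exists_pair_ne ι
  have hg : g.1 = g.1 a a • 1 := by
    ext x y
    by_cases hxy : x = y
    · subst hxy
      by_cases hx : x = a
      · simp [hx]
      · simpa using (key a x (Ne.symm hx) 1).2
    · simp [hxy, (key y x (Ne.symm hxy) 1).1]
  refine ⟨mem_sc_of hg, fun l => ?_⟩
  have e1 := (key a b hab l).2
  have e2 := (key a b hab 1).2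
  simp only [map_one, one_mul] at e2
  rw [e2] at e1
  refine mul_right_cancel₀ (fun e => ?_) e1
  rw [e, zero_smul] at hg
  exact g.ne_zero hg

variable {K : Kind F₀} {f : Form K (ι → F₀)}

lemma pu_form (hf : f.ND) (hW : Wide f) {u : ι → F₀} (h0 : u ≠ 0) (hu : f.Q u = 0) :
    PU (f.E.map f.toGL) u := by
  obtain ⟨w, h⟩ := hf.exists_hyp h0 hu
  rcases hW with ⟨s, s0, hs⟩ | ⟨-, hv⟩
  · obtain ⟨g, hg⟩ := Form.exists_isEich (f := f) (u := u) (v := 0) hu (by simp)
      (hs.trans f.Q_zero.symm)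
    have e : ∀ y, ((f.toGL g).1 - 1) ^ 1 *ᵥ y = (-(K.ε * (s * f.B u y))) • u := fun y => by
      simp [sub_mulVec, hg.app]
    refine ⟨_, ⟨g, hg.mem_E, rfl⟩, 1, by simp [hg.fix_u], fun y => ⟨_, e y⟩, fun e' => ?_⟩
    have := e w
    rw [e'] at this
    simp [h.Buw, K.ε_ne, s0, h0] at this
  · obtain ⟨v, e1, -, e3⟩ := hv u w h
    obtain ⟨t, ht⟩ := f.tv v
    obtain ⟨g, hg⟩ := Form.exists_isEich hu e1 ht
    have e : ∀ y, ((f.toGL g).1 - 1) ^ 2 *ᵥ y = (-(f.B u y * (K.ε * f.B v v))) • u := fun y => by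
      rw [sq, ← mulVec_mulVec]
      simp only [sub_mulVec, Form.toGL_mulVec, one_mulVec]
      rw [hg.app y, sub_right_comm, add_sub_cancel_left, map_sub, map_smul, map_smul, hg.fix_u,
        hg.app v, e1]
      module
    refine ⟨_, ⟨g, hg.mem_E, rfl⟩, 2, by simp [hg.fix_u], fun y => ⟨_, e y⟩, fun e' => ?_⟩
    have := e w
    rw [e'] at this
    simp [h.Buw, K.ε_ne, e3, h0] at this

theorem pt_form [Finite F₀] (hf : f.ND) (hW : Wide f) (hd : 3 ≤ Fintype.card ι) {u w : ι → F₀}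
    (h : f.Hyp u w) : PT j (f.E.map f.toGL) := by
  intro g τ H
  haveI : Nonempty ι := Fintype.card_pos_iff.1 (by omega)
  obtain ⟨v, hv, v0⟩ := Submodule.exists_mem_ne_zero_of_ne_bot (V0_ne (by simpa) h)
  let J : (ι → F₀) →+ (ι → F) := j.toAddMonoidHom.compLeft ι
  have hJ : ∀ c v, J (c • v) = j c • J v := fun c v => funext fun i => map_mul j _ _
  have iJ : Function.Injective J := fun a b e => funext fun i => j.injective (congrFun e i)
  obtain ⟨c, hc⟩ := semi_abs (j := j) (ρ := (τ : F →+* F).comp j) (J := J)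
    (R := (sl g τ).comp J) hJ (fun c v => by
      simp only [AddMonoidHom.comp_apply, hJ, sl_smul]; rfl) iJ ((sl_inj g τ).comp iJ)
    (fun u => ∑ i, j (f.B u (Pi.single i 1)) • LinearMap.proj i) (fun u x => by
      conv_rhs => rw [pi_eq_sum_univ' x]
      simp [J, mul_comm]) hW h v0 (f.mem_perp_pair.1 hv).1 (f.mem_perp_pair.1 hv).2 fun x hx => by
      by_cases h0 : x = 0
      · exact ⟨0, by simp [h0]⟩
      · exact (pu_form hf hW h0 hx).pt H
  exact fin_of hc

lemma tau_pow [Finite F] {σ τ : F ≃+* F} (hj : ∀ a, σ a = a ↔ a ∈ j.range)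
    (h : ∀ a, τ (j a) = j a) : τ ^ orderOf σ = 1 := by
  obtain ⟨⟨_, n, rfl⟩, hn⟩ := FixedPoints.toAlgAut_surjective (zpowers σ) F
    { τ with
      commutes' := fun a => by
        obtain ⟨b, hb⟩ := (hj a).1 (a.2 ⟨σ, mem_zpowers σ⟩)
        exact (congrArg τ hb.symm).trans ((h b).trans hb) }
  have : τ = σ ^ n := RingEquiv.ext fun a => (DFunLike.congr_fun hn a).symm
  rw [this, ← zpow_natCast, zpow_comm, zpow_natCast, pow_orderOf_eq_one, _root_.one_zpow]

theorem h3_gam [Finite F] {S : Type*} [Group S] {C : Car S (GL ι F)} (hZ : C.Z = scalars ι F)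
    {σ τ : F ≃+* F} (hj : ∀ a, σ a = a ↔ a ∈ j.range) {T : Subgroup (GL ι F₀)} (hT : PT j T)
    {g k : GL ι F} {α : MulAut (S ⧸ center S)} (hα : C.Rep (MulAut.conj g * fm τ) α)
    (h : ∀ t ∈ T, ∃ s, C.e s = k * gm j t * k⁻¹ ∧ α (s : S ⧸ center S) = s) :
    α ^ orderOf σ = 1 := by
  have e : (MulAut.conj g * fm τ : MulAut (GL ι F)) =
      MulAut.conj k * (MulAut.conj (k⁻¹ * g * fm τ k) * fm τ) * (MulAut.conj k)⁻¹ := by
    ext1 a
    simp [mul_assoc]
  obtain ⟨h1, h2⟩ := hT (k⁻¹ * g * fm τ k) τ fun t ht => by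
    obtain ⟨s, e1, e2⟩ := h t ht
    have := hα.tw_mem e2
    rw [hZ, e1, e, ← center_eq_sc] at this
    have := (inferInstance : (center _).Normal).conj_mem' _ this k
    rw [← center_eq_sc]
    simpa [mul_assoc] using this
  rw [Car.conj_Z (C := C) (z := k⁻¹ * g * fm τ k) (hZ ▸ h1), one_mul] at e
  refine ((hα.pow _).congr ?_).unique Car.Rep.one
  rw [e, conj_pow, ← map_pow, tau_pow hj h2, map_one, mul_one, mul_inv_cancel]

lemma pow_mul_mem {G : Type*} [Group G] {N : Subgroup G} {g e : G} (hg : g ∈ N)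
    (he : ∀ n ∈ N, e * n * e⁻¹ ∈ N) (i : ℕ) : (g * e) ^ i * (e ^ i)⁻¹ ∈ N := by
  induction i with
  | zero => simp
  | succ i ih =>
    have := N.mul_mem hg (he _ ih)
    rwa [show g * (e * ((g * e) ^ i * (e ^ i)⁻¹) * e⁻¹) = (g * e) ^ (i + 1) * (e ^ (i + 1))⁻¹ by
      rw [pow_succ', pow_succ']; group] at this

theorem np_two [Finite F₀] (h2 : Odd (ringChar F₀)) (hf : f.ND) (hR : f.WRich) (hP : f.Prim)
    {u w : ι → F₀} (h : f.Hyp u w) {T : Subgroup (GL ι F₀)} (h1 : f.E.map f.toGL ≤ T)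
    (h3 : T ≤ f.toGL.range) : NP 2 (scalars ι F₀) T := by
  intro N hN hc
  have hn : ∀ e ∈ f.E, ∀ n ∈ N.comap f.toGL, e * n * e⁻¹ ∈ N.comap f.toGL := fun e he n hn => by
    simpa using hN.2 _ (h1 ⟨e, he, rfl⟩) _ hn
  rcases Form.normal_dichotomy hf hR hP h _ hn with h4 | h4
  · intro n hn
    obtain ⟨n, rfl⟩ := h3 (hN.1 hn)
    obtain ⟨c, hc⟩ := h4 n hn
    exact mem_sc_of (c := c) (mat_ext fun v => by simp [hc, smul_mulVec])
  exfalso
  obtain ⟨g, hg, c, c0, e⟩ := h4 w (fun e => by simpa [e] using h.Buw) h.Qw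
  have b0 : f.B u ((g⁻¹ : f.Isom).1 u) ≠ 0 := by
    rw [← Form.isom_B_left, e]
    simp [h.Bwu, K.ε_ne, c0]
  obtain ⟨a, v, t, ha, e1⟩ := Form.exists_eich_map (x := w)
    (y := (f.B u ((g⁻¹ : f.Isom).1 u))⁻¹ • (g⁻¹ : f.Isom).1 u) h.Qu
    (by rw [f.Q_smul, Form.isom_Q, h.Qu, h.Qw, mul_zero])
    (by rw [map_smul, smul_eq_mul, inv_mul_cancel₀ b0, h.Buw])
    (by simp [h.Buw])
  obtain ⟨i, hi⟩ := InU.pe (⟨v, t, ha⟩ : InU a u)
  have h5 := pow_mul_mem hg (hn a ha.mem_E) (ringChar F₀ ^ i)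
  rw [hi, inv_one, mul_one] at h5
  obtain ⟨k, hk, h6⟩ := hc _ h5
  rw [← map_pow, ← pow_mul] at h6
  obtain ⟨m, hm⟩ : Odd (ringChar F₀ ^ i * k) := h2.pow.mul (Nat.coprime_two_right.1 hk)
  have key : ∀ m, ∃ d : F₀, d ≠ 0 ∧ ((g * a) ^ (2 * m + 1) : f.Isom).1 u = d • w := fun m => by
    have e2 : (g * a : f.Isom).1 u = c • w := by rw [Form.isom_mul_apply, ha.fix_u, e]
    induction m with
    | zero => exact ⟨c, c0, by simpa using e2⟩
    | succ m ih =>
      obtain ⟨d, d0, hd⟩ := ih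
      refine ⟨d * (f.B u ((g⁻¹ : f.Isom).1 u))⁻¹ * c,
        mul_ne_zero (mul_ne_zero d0 (inv_ne_zero b0)) c0, ?_⟩
      rw [show 2 * (m + 1) + 1 = 2 * m + 1 + 1 + 1 by ring, pow_succ', pow_succ',
        Form.isom_mul_apply, Form.isom_mul_apply (g * a), hd, map_smul,
        map_smul, Form.isom_mul_apply g a w, e1, map_smul, Form.isom_apply_inv, map_smul, e2,
        smul_smul, smul_smul]
  obtain ⟨d, d0, hd⟩ := key m
  obtain ⟨z, hz⟩ := mem_sc.1 h6
  rw [← hm, ← Form.toGL_mulVec, hz, sc_mulVec] at hd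
  simpa [h.Buu, h.Buw, d0.symm] using congrArg (f.B u) hd

end Mat

end H4.Au
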