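import Cfsg.Agent.H4.CpB
import Cfsg.Agent.H5.GC8
import Cfsg.Agent.S0247
import Cfsg.Agent.S0270

/-! The `p'`-core of the centraliser of an automorphism of prime order: symplectic groups. -/

set_option autoImplicit false

namespace H4.Au
open Matrix Cfsg Cfsg.Geo Subgroup Module H4.As
open scoped MatrixGroups commutatorElement

section Gen
variable {ι : Type} [Fintype ι] [DecidableEq ι] {F₀ F : Type*} [Field F₀] [Field F] [Finite F]
  {j : F₀ →+* F} {S : Type*} [Group S] {C : Car S (GL ι F)} {p : ℕ}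

variable (C) in
/-- Automorphisms induced by semilinear maps. -/
def Gam : Subgroup (MulAut (S ⧸ center S)) where
  carrier := {α | ∃ g τ, C.Rep (MulAut.conj g * fm τ) α}
  one_mem' := ⟨1, 1, Car.Rep.one.congr (by simp)⟩
  mul_mem' := fun ⟨_, _, h⟩ ⟨_, _, h'⟩ => ⟨_, _, (h.mul h').congr (slin_mul _ _ _ _)⟩
  inv_mem' := fun ⟨_, _, h⟩ => ⟨_, _, h.inv.congr (slin_inv _ _)⟩

omit [Finite F] in
lemma pow_fa (hT : PT (RingHom.id F) C.e.range) {g : GL ι F} {σ : F ≃+* F}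
    {x : MulAut (S ⧸ center S)} (h : C.Rep (MulAut.conj g * fm σ) x) (hp : x ^ p = 1) :
    σ ^ p = 1 := by
  have h1 := h.pow p
  rw [hp, conj_mul_pow, ← map_pow] at h1
  refine RingEquiv.ext (hT (tn (fm σ) g p) (σ ^ p) ?_).2
  rintro _ ⟨s, rfl⟩
  rw [gm_id, h1.triv, mul_inv_cancel]
  exact one_mem _

theorem main_of [Finite S] [Nontrivial (S ⧸ center S)] [Fact p.Prime] (hZ : C.Z = scalars ι F)
    {θ : MulAut (GL ι F)} {y : MulAut (S ⧸ center S)} (hy : C.Rep θ y) (hp : y ^ p = 1)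
    {σ : F ≃+* F} (hj : ∀ a, σ a = a ↔ a ∈ j.range) (hσ : σ ^ p = 1) (k : GL ι F)
    {T : Subgroup (GL ι F₀)}
    (hT : ∀ g, (∃ t ∈ T, k * gm j t * k⁻¹ = g) ↔ g ∈ C.e.range ∧ θ g = g) (pt : PT j T)
    (np : p ∣ Nat.card T → NP p (scalars ι F₀) T)
    (hΓ : ∀ α : MulAut (S ⧸ center S),
      (∀ s, θ (C.e s) = C.e s → α (s : S ⧸ center S) = (s : S ⧸ center S)) →
      α ∈ Gam C ∨ (σ = 1 ∧ α * y⁻¹ ∈ Gam C) ∨ ∃ i, α ^ p ^ i = 1) :
    fx y ≠ ⊥ ∧ (p ∣ Nat.card (fx y) → Dat p y) := by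
  let Φ : GL ι F₀ →* GL ι F := (MulAut.conj k).toMonoidHom.comp (gm j)
  have hΦ : Function.Injective Φ := (MulAut.conj k).injective.comp gm_inj
  have hT' : ∀ g, g ∈ T.map Φ ↔ g ∈ C.e.range ∧ θ g = g := hT
  have hs : ∀ t, Φ t ∈ C.Z ↔ t ∈ scalars ι F₀ := fun t => by
    rw [hZ, ← gm_mem_sc (j := j), ← center_eq_sc]
    exact (normal_iff inferInstance k _).symm
  have hg : ∀ α ∈ Gam C, (∀ s, θ (C.e s) = C.e s → α (s : S ⧸ center S) = s) →
      α ^ orderOf σ = 1 := by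
    rintro α ⟨g, τ, h⟩ H
    refine h3_gam hZ hj pt h (k := k) fun t ht => ?_
    obtain ⟨⟨s, h1⟩, h2⟩ := (hT _).1 ⟨t, ht, rfl⟩
    exact ⟨s, h1, H s (by rw [h1, h2])⟩
  refine ⟨fun e => ?_, fun hd => hy.dat hp hT' ((np ?_).map Φ fun g _ => hs g) fun α H => ?_⟩
  · obtain ⟨a, ha⟩ := exists_ne (1 : S ⧸ center S)
    obtain ⟨a, rfl⟩ := QuotientGroup.mk_surjective a
    have := (pt (k⁻¹ * C.e a * k) 1 fun t ht => by
      obtain ⟨⟨s, h1⟩, h2⟩ := (hT _).1 ⟨t, ht, rfl⟩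
      have h3 : (s : S ⧸ center S) ∈ fx y := hy.fix_of (by rw [h1, h2])
      rw [e, mem_bot, QuotientGroup.eq_one_iff, C.mem_center, h1] at h3
      obtain ⟨c, hc⟩ := mem_sc.1 ((gm_mem_sc (j := j)).2 ((hs t).1 h3))
      rw [hc, map_one, mul_one, MulAut.conj_apply, ← sc_comm, mul_inv_cancel_right, mul_inv_cancel]
      exact one_mem _).1
    rw [← center_eq_sc] at this
    have := (inferInstance : (center _).Normal).conj_mem _ this k
    refine ha ((QuotientGroup.eq_one_iff _).2 (C.mem_center.2 ?_))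
    rw [hZ, ← center_eq_sc]
    simpa [mul_assoc] using this
  · rw [← card_map_of_injective hΦ]
    exact hy.dvd_fix hp hT' hd
  · have H' : ∀ s, θ (C.e s) = C.e s → α (s : S ⧸ center S) = s := fun s e =>
      H s ((hT' _).2 ⟨⟨s, rfl⟩, e⟩)
    rcases hΓ α H' with h | ⟨rfl, h⟩ | h
    · obtain ⟨c, hc⟩ := orderOf_dvd_of_pow_eq_one hσ
      exact ⟨1, by rw [pow_one, hc, pow_mul, hg α h H', one_pow]⟩
    · have := hg _ h fun s e => by
        rw [MulAut.mul_apply, ← hy.fix_of e, MulAut.inv_apply, MulEquiv.symm_apply_apply,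
          hy.fix_of e, H' s e]
      rw [orderOf_one, pow_one, mul_inv_eq_one] at this
      exact ⟨1, by rw [pow_one, this, hp]⟩
    · exact h

omit [Finite F] in
lemma fld_T {σ : F ≃+* F} (hj : ∀ a, σ a = a ↔ a ∈ j.range) {T : Subgroup (GL ι F₀)}
    (h : ∀ t, t ∈ T ↔ gm j t ∈ C.e.range) (g : GL ι F) :
    (∃ t ∈ T, 1 * gm j t * 1⁻¹ = g) ↔ g ∈ C.e.range ∧ fm σ g = g := by
  simp only [one_mul, inv_one, mul_one]
  constructor
  · rintro ⟨t, ht, rfl⟩
    exact ⟨(h t).1 ht, fm_gm hj t⟩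
  · rintro ⟨h1, h2⟩
    obtain ⟨t, rfl⟩ := exists_gm hj h2
    exact ⟨t, (h t).2 h1, rfl⟩

omit [Finite F] in
lemma iso_gm {G g : GL ι F₀} : g ∈ Iso (bil G.1) ↔ gm j g ∈ Iso (bil (gm j G).1) := by
  refine ⟨fun h => ml_one.1 (by simpa using ml_gm (j := j) (ml_one.2 h)), fun h => ?_⟩
  refine mem_Iso.2 fun u v => j.injective ?_
  rw [← bil_gm, ← bil_gm, ← gm_mulVec, ← gm_mulVec, mem_Iso.1 h]

omit [Finite F] in
lemma np_two_field [Finite F₀] (h : Nat.card F₀ = 2) {A : Type*} [Group A] (Φ : A →* GL ι F₀)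
    (hΦ : Function.Injective Φ) (hA : NP p (⊥ : Subgroup A) ⊤) :
    NP p (scalars ι F₀) Φ.range := by
  rw [MonoidHom.range_eq_map]
  refine hA.map Φ fun g _ => ⟨fun hg => ?_, fun hg => by rw [mem_bot.1 hg, map_one]; exact one_mem _⟩
  obtain ⟨c, hc⟩ := mem_sc.1 hg
  haveI : Subsingleton F₀ˣ := Finite.card_le_one_iff_subsingleton.1 (by rw [Nat.card_units, h])
  rw [Subsingleton.elim c 1, map_one, ← Φ.map_one] at hc
  exact hΦ hc

omit [Finite F] in
lemma char_two_of {r : ℕ} [Fact r.Prime] [CharP F r] (h : (2 : F) = 0) : r = 2 :=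
  (Nat.prime_dvd_prime_iff_eq Fact.out Nat.prime_two).1
    ((CharP.cast_eq_zero_iff F r 2).1 (by exact_mod_cast h))

end Gen

lemma np_S6 {p : ℕ} (hp : p.Prime) (h2 : p ≠ 2) (hd : p ∣ 720) :
    NP p (⊥ : Subgroup (Equiv.Perm (Fin 6))) ⊤ := np_top fun N hN hc => by
  by_contra hne
  haveI := Fact.mk hp
  have hle := Equiv.Perm.alternatingGroup_le_of_normal (α := Fin 6) (N := N) (by simp)
    ((nontrivial_iff_ne_bot _).2 hne)
  obtain ⟨g, hg⟩ := exists_prime_orderOf_dvd_card' (G := alternatingGroup (Fin 6)) p (by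
    have := two_mul_nat_card_alternatingGroup (α := Fin 6)
    rw [Nat.card_perm, Nat.card_eq_fintype_card (α := Fin 6), Fintype.card_fin] at this
    refine ((Nat.coprime_primes hp Nat.prime_two).2 h2).dvd_of_dvd_mul_left ?_
    rw [this]
    exact hd)
  obtain ⟨k, h3, h4⟩ := hc _ (hle g.2)
  rw [← orderOf_dvd_iff_pow_eq_one, orderOf_coe, hg] at h4
  exact hp.one_lt.ne' (Nat.eq_one_of_dvd_coprimes h3 h4 dvd_rfl)

section Sp
variable {m : ℕ} {F : Type*} [Field F]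

lemma pt_Sp [Finite F] (hm : 2 ≤ m) {F' : Type*} [Field F'] (j : F →+* F') :
    PT j (Iso (sympForm m F)) := by
  obtain ⟨u, w, h⟩ := alt_exists_hyp (spForm_ND m F) (by simp; omega)
  have := pt_form (j := j) (spForm_ND m F) (Or.inl ⟨1, one_ne_zero, rfl⟩) (by simp; omega) h
  rwa [← spGL_eq_E] at this

lemma np_Sp [Fintype F] (hm : 2 ≤ m) {p : ℕ} [hp : Fact p.Prime] (h2 : (2 : F) = 0 → p ≠ 2)
    (hd : p ∣ Nat.card (Iso (sympForm m F))) : NP p (scalars _ F) (Iso (sympForm m F)) := by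
  rw [← spE_range] at hd ⊢
  rw [← Nat.card_congr (MonoidHom.ofInjective spE_inj).toEquiv] at hd
  by_cases hs : m = 2 → 3 ≤ Fintype.card F
  · haveI := Cfsg.Agent.S0270.result (F := F) m hm hs
    exact (carSp hm hs).np hd
  · obtain ⟨rfl, h⟩ := Classical.not_imp.1 hs
    have h3 : Fintype.card F = 2 := by have := Fintype.one_lt_card (α := F); omega
    obtain ⟨e⟩ := Cfsg.Agent.S0247.result h3
    have := np_two_field (p := p) (by rw [Nat.card_eq_fintype_card, h3])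
      ((spE 2 F).comp e.symm.toMonoidHom) (spE_inj.comp e.symm.injective) (np_S6 hp.out (h2 (by
        have := FiniteField.cast_card_eq_zero F
        rw [h3] at this
        exact_mod_cast this)) (by
        rw [Nat.card_congr e.toEquiv, Nat.card_perm, Nat.card_eq_fintype_card,
          Fintype.card_fin] at hd
        exact hd))
    rwa [MonoidHom.range_comp, MonoidHom.range_eq_top.2 e.symm.surjective,
      ← MonoidHom.range_eq_map] at this

variable [Fintype F] {hm : 2 ≤ m} {hs : m = 2 → 3 ≤ Fintype.card F}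

variable (hm hs) in
/-- Automorphisms induced by semisimilarities. -/
def GamSp : Subgroup (MulAut (PSp m F)) where
  carrier := {α | ∃ g ∈ GSp m F, ∃ τ, (carSp hm hs).Rep (MulAut.conj g * fm τ) α}
  one_mem' := ⟨1, one_mem _, 1, Car.Rep.one.congr (by simp)⟩
  mul_mem' := fun ⟨_, h1, _, h⟩ ⟨_, h2, _, h'⟩ =>
    ⟨_, mul_mem h1 (fm_GSp _ h2), _, (h.mul h').congr (slin_mul _ _ _ _)⟩
  inv_mem' := fun ⟨_, h1, _, h⟩ => ⟨_, fm_GSp _ (inv_mem h1), _, h.inv.congr (slin_inv _ _)⟩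

lemma mem_GamSp {g : GL (Fin m ⊕ Fin m) F} (h1 : g ∈ GSp m F) {σ : F ≃+* F} {β : MulAut (PSp m F)}
    (h : IsInducedBySemilinearPSp g σ β) : β ∈ GamSp hm hs :=
  ⟨g, h1, σ, (overSp.nrm g h1).mul (nrmSp_fm σ), ind_slin.2 h⟩

open H5 H5.Gen in
lemma not_fix {hs : 2 = 2 → 3 ≤ Fintype.card F} (h2 : (2 : F) = 0) {β : MulAut (PSp 2 F)}
    (hβ : β ∈ GamSp le_rfl hs) (u : F) :
    β (spX (simple (D := (ambC 2).rs) (0 : Fin 2)) u : symplecticGroup (Fin 2) F) ≠
      (spX (simple (D := (ambC 2).rs) (1 : Fin 2)) (1 : F) : symplecticGroup (Fin 2) F) := by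
  intro e
  obtain ⟨g, -, τ, h⟩ := hβ
  obtain ⟨s, h1, h3⟩ := h.exists (spX (simple (D := (ambC 2).rs) (0 : Fin 2)) u)
  have h4 := QuotientGroup.eq.1 (h3.symm.trans e)
  obtain ⟨z, hz⟩ := mem_sc.1 ((carSp le_rfl hs).mem_center.1 h4)
  have hz1 : z = 1 := usq_inj h2 (Ml.unique (SF.exists_ne (sf_symp 2)) (ml_sc (sf_symp 2) z)
    (by rw [← hz, one_pow]; exact carSp_range.1 ⟨_, rfl⟩))
  rw [hz1, map_one, ← map_one (carSp le_rfl hs).e] at hz
  have h5 := inv_mul_eq_one.1 ((carSp le_rfl hs).inj hz)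
  obtain ⟨A, a1, a2⟩ := minC_X (F := F) (r := simple (D := (ambC 2).rs) (0 : Fin 2))
    (x := .inl 0) (y := .inr 1) (by decide) (by decide) u
  obtain ⟨B, b1, b2⟩ := minC_X (F := F) (r := simple (D := (ambC 2).rs) (1 : Fin 2))
    (x := .inl 1) (y := .inl 1) (by decide) (by decide) 1
  have key : ∀ w, sl g τ (A.1 *ᵥ w) = B.1 *ᵥ sl g τ w := fun w => by
    have := slin_mulVec g τ (spE 2 F A) w
    rw [show A = spX _ u from Subtype.ext a1] at this ⊢
    rw [show B = spX _ 1 from Subtype.ext b1, ← h5]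
    exact ((congrArg (fun M : GL _ F => M.1 *ᵥ sl g τ w) h1).trans this).symm
  have sg : ∀ r : Fin 2 → ℤ, ((sgC r : ℤ) : F) ≠ 0 := fun r e => by
    have := congrArg (Int.cast (R := F)) (sgC_sq r)
    simp [e] at this
  simp only [reduceCtorEq, if_false, if_true] at a2 b2
  generalize hc : u * ((sgC _ : ℤ) : F) = c at a2
  generalize hd : 1 * ((sgC _ : ℤ) : F) = d at b2
  have d0 : d ≠ 0 := hd ▸ mul_ne_zero one_ne_zero (sg _)
  have eA := a2.app
  have eB := b2.app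
  simp only [spEquiv_apply, spB] at eA eB
  have k2 : ∀ w, ∃ l : F, sl g τ (A.1 *ᵥ w - w) = l • Pi.single (.inl 1) 1 := fun w => by
    rw [map_sub, key, eB]
    exact ⟨_, by rw [smul_zero, add_zero, sub_sub_cancel_left, ← neg_smul]⟩
  by_cases c0 : c = 0
  · obtain ⟨w, hw⟩ := slin_surj g τ (Pi.single (.inr 1) 1)
    have := key w
    rw [eA, eB, c0, show sl g τ w = _ from hw.symm] at this
    simp only [Pi.single_zero, smul_zero, add_zero, zero_mul, neg_zero, mul_zero, zero_smul,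
      sub_zero, show sl g τ w = _ from hw.symm] at this
    have := congrFun this (.inl 1)
    have z0 : (spForm 2 F).B 0 (Pi.single (.inr 1) 1) = 0 := LinearMap.map_zero₂ _ _
    erw [z0] at this
    simp [altKind, d0] at this
  · obtain ⟨l, hl⟩ := k2 (Pi.single (.inr 0) 1)
    obtain ⟨l', hl'⟩ := k2 (Pi.single (.inl 1) 1)
    have e1 : sl g τ (τ.symm l' • (A.1 *ᵥ Pi.single (.inr 0) 1 - Pi.single (.inr 0) 1) -
        τ.symm l • (A.1 *ᵥ Pi.single (.inl 1) 1 - Pi.single (.inl 1) 1)) = sl g τ 0 := by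
      rw [map_sub, sl_smul, sl_smul, hl, hl', map_zero]
      simp [smul_smul, mul_comm]
    have e2 := congrFun (sl_inj g τ e1) (.inr 1)
    have l0 : l' = 0 := by simpa [eA, c0] using e2
    rw [l0, zero_smul, ← map_zero (sl g τ)] at hl'
    simpa [eA, c0, altKind] using congrFun (sl_inj g τ hl') (.inl 0)

open H5 H5.Gen in
lemma gam_or (α : MulAut (PSp m F)) : α ∈ GamSp hm hs ∨ ((2 : F) = 0 ∧ α * α ∈ GamSp hm hs ∧
    ∃ s : symplecticGroup (Fin m) F, (∀ σ, fm σ (spE m F s) = spE m F s) ∧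
      α (s : PSp m F) ≠ s) := by
  haveI : NeZero m := ⟨by omega⟩
  by_cases h : m = 2 → (2 : F) ≠ 0
  · refine Or.inl ((closure_le (GamSp hm hs)).2 ?_ ((gammaPSp_eq hm h).ge (mem_top α)))
    rintro β ⟨g, σ, h1, h2⟩
    exact mem_GamSp h1 h2
  obtain ⟨rfl, h2⟩ := Classical.not_imp.1 h
  rw [not_not] at h2
  have hι := (symplecticGroup (Fin 2) F).subtype_injective
  have hA := adjPSp (F := F) (m := 2) le_rfl
  have hf : ∀ σ, hA.fdHom σ ∈ GamSp hm hs := fun σ => mem_GamSp (one_mem _)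
    ((ind_fd hA (fun _ _ => rfl) (closure_spX hm) ((minC 2).map_X (σ : F →+* F))).eq hι)
  obtain ⟨γ, h4, h5⟩ := exists_graphC hA h2
  have key : ∀ α : MulAut (PSp 2 F), α ∈ GamSp hm hs ∨ α * γ⁻¹ ∈ GamSp hm hs := fun α => by
    obtain ⟨g, c, σ, γ', h6, rfl⟩ := hA.decomp (Γ := {1, γ}) (fun π h6 => by
      rcases range_C hA h6 with rfl | ⟨-, rfl, -⟩
      · exact ⟨1, by simp, StSys.st_one _⟩
      · exact ⟨γ, by simp, h4⟩) α
    have : MulAut.conj g * hA.dgHom c * hA.fdHom σ ∈ GamSp hm hs := by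
      obtain ⟨g, rfl⟩ := QuotientGroup.mk_surjective g
      exact mul_mem (mul_mem (mem_GamSp ⟨1, by simpa using mem_symplecticGroup_iff.1 g.2⟩
        ((ind_conj _ g).eq hι)) (mem_GamSp (dgl_mem_GSp c) ((ind_dg hA (fun _ _ => rfl)
          (closure_spX hm) (((minC 2).wrep F).diag_conj c)).eq hι))) (hf σ)
    rcases h6 with rfl | rfl
    · exact Or.inl (by rwa [mul_one])
    · exact Or.inr (by rwa [mul_inv_cancel_right])
  by_cases hα : α ∈ GamSp hm hs
  · exact Or.inl hα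
  have h6 := (key α).resolve_left hα
  refine Or.inr ⟨h2, (key _).resolve_right fun h7 => hα ?_,
    spX (simple (D := (ambC 2).rs) (1 : Fin 2)) 1, fun σ => Units.ext ?_, fun e => ?_⟩
  · simpa [mul_assoc] using mul_mem h7 (inv_mem h6)
  · exact ((minC 2).map_X (σ : F →+* F) _ _).trans (by rw [map_one]; rfl)
  · obtain ⟨u, hu⟩ := (h4 (1 : Fin 2) 1).1
    refine not_fix h2 h6 u (Eq.trans ?_ e)
    exact (congrArg (α * γ⁻¹ : MulAut _) hu.symm).trans (by simp; rfl)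

include hm hs in
theorem s2730 {r : ℕ} [Fact r.Prime] [CharP F r] (hK : IsSimpleGroup (PSp m F))
    (A : Subgroup (MulAut (PSp m F))) (hinn : ∀ k, MulAut.conj k ∈ A) {p : ℕ} [hp : Fact p.Prime]
    (hpr : p ≠ r) (x : MulAut (PSp m F)) (hord : orderOf x = p)
    (hnot : ¬ IsInnerDiagonalAutPSp x) :
    pPrimeCore p ↥(A ⊓ centralizer {x}) ≠ ⊥ ↔
      (IsFieldAutClassPSp x ∧ p.Coprime (Nat.card (fx x))) := by
  have hx : x ^ p = 1 := hord ▸ pow_orderOf_eq_one x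
  have h2 : (2 : F) = 0 → p ≠ 2 := fun h => char_two_of (r := r) h ▸ hpr
  obtain ⟨g, hg, σ, h⟩ : x ∈ GamSp hm hs := by
    refine (gam_or x).elim id fun ⟨h1, h3, _⟩ => mem_of_cop (a := 2) (b := p)
      ((Nat.coprime_primes Nat.prime_two hp.out).2 (h2 h1).symm) (by rwa [sq]) ?_
    rw [hx]; exact one_mem _
  have hσ : σ ^ p = 1 := pow_fa (by
    have := pt_Sp (F := F) hm (RingHom.id F)
    rwa [← spE_range] at this) h hx
  have h1 : σ ≠ 1 := by
    rintro rfl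
    exact hnot ⟨g, hg, (ind_lin (C := carSp hm hs)).1 (h.congr (by simp)).ind⟩
  have ho : orderOf σ = p := (orderOf_eq_iff_pow hp.out h1).2 hσ
  obtain ⟨y, hy⟩ := (nrmSp_fm (hm := hm) (hs := hs) σ).exists_rep
  have e : x = overSp.c ⟨g, hg⟩ * y := h.unique ((overSp.rep ⟨g, hg⟩).mul hy)
  obtain ⟨α, -, e'⟩ := langSp hy _ ⟨⟨g, hg⟩, rfl⟩ (by rw [← e, ho, hx])
  rw [← e] at e'
  have hyp : y ^ p = 1 := by rwa [e', conj_pow, conj_eq_one_iff] at hx
  obtain ⟨K, hj⟩ := exists_fix σ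
  haveI := Fintype.ofFinite K
  obtain ⟨h3, h4⟩ := main_of (C := carSp hm hs) rfl hy hyp hj hσ 1 (T := Iso (sympForm m K))
    (fld_T hj fun t => by
      rw [carSp_range, ml_one, symp_eq, symp_eq, ← gm_JU K.subtype]; exact iso_gm)
    (pt_Sp hm _) (np_Sp hm fun h => h2 (by rw [← map_ofNat K.subtype, h, map_zero]))
    fun β H => Or.inl (by
      obtain ⟨g, -, τ, h⟩ := (gam_or (hm := hm) (hs := hs) β).resolve_right
        fun ⟨_, _, s, h1, h2⟩ => h2 (H s (h1 σ))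
      exact ⟨g, τ, h⟩)
  rw [core_iff (carSp hm hs).center_bot hinn e' h3 h4]
  refine (and_iff_right ⟨α⁻¹, σ, h1, ?_⟩).symm
  rw [e', show α⁻¹ * (α * y * α⁻¹) * α⁻¹⁻¹ = y by group]
  exact fun s s' e => hy.ind s s' (Units.ext e)

end Sp

end H4.Au
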