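import Cfsg.Agent.H4.GrC

/-! Involutory graph automorphisms of unitary groups. -/

set_option autoImplicit false

namespace H4.Au
open Matrix Cfsg Cfsg.Geo Subgroup Module H4.As
open scoped MatrixGroups commutatorElement

local notation "det" => GeneralLinearGroup.det

section U
variable {F : Type*} [Field F] [Fintype F] {q n : ℕ} (hF : Fintype.card F = q ^ 2) {hn : 3 ≤ n}
  {hs : ¬ (n = 3 ∧ q = 2)} {F₀ : Type*} [Field F₀] {j : F₀ →+* F}
  (hj : ∀ a, frobE hF a = a ↔ a ∈ j.range)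

lemma mem_GUp {x : GL (Fin n) F} :
    x ∈ scalars _ F ⊔ GU n F q ↔ x * (tw (frobE hF) x)⁻¹ ∈ scalars _ F := by
  rw [mem_sc_sup]
  refine ⟨?_, fun h => let ⟨c, g, h1, e⟩ := desc_tw hF h; ⟨c, g, (mem_GU hF).2 h1, e⟩⟩
  rintro ⟨c, g, h, rfl⟩
  exact sc_twist (fun c => by rw [tw_sc]; exact sc_mem _)
    (by rw [(mem_GU hF).1 h, mul_inv_cancel]; exact one_mem _) c

lemma rangeUp : (overU (hF := hF) (hn := hn) (hs := hs) le_sup_right le_rfl).c.range =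
    inndiagPSU n F q := by
  rw [inndiagPSU_eq (hF := hF) (hn := hn) (hs := hs)]
  refine le_antisymm ?_ ?_ <;> rintro _ ⟨g, rfl⟩
  · obtain ⟨c, k, hk, e⟩ := mem_sc_sup.1 g.2
    exact (Car.Over.c_mem_map _ _ g).2 ⟨k, hk, _, sc_mem c, e⟩
  · exact (Car.Over.c_mem_map _ _ g).2 ⟨g, mem_sup_right g.2, 1, one_mem _, (one_mul _).symm⟩

lemma tw_tw (g : GL (Fin n) F) : tw (frobE hF) (tw (frobE hF) g) = g :=
  DFunLike.congr_fun ((sq _).symm.trans (tw_sq (frobE_sq hF))) g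

lemma fm_fm (g : GL (Fin n) F) : fm (frobE hF) (fm (frobE hF) g) = g := by
  rw [← MulAut.mul_apply, ← map_mul, ← sq, frobE_sq, map_one, MulAut.one_apply]

omit [Fintype F] in
lemma sc_swap {g g' x y : GL (Fin n) F} {c : Fˣ} :
    g'⁻¹ * x * g = sc c * y ↔ x = sc c * (g' * y * g⁻¹) := by
  rw [mul_assoc g', ← sc_left, ← mul_assoc (sc c), ← mul_assoc g', eq_mul_inv_iff_mul_eq,
    mul_assoc, inv_mul_eq_iff_eq_mul]

variable (hn hs j) in
/-- the form attached to a graph involution -/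
def RU (γ : MulAut (PSU n F q)) (M : GL (Fin n) F₀) : Prop :=
  ∃ g a, (carU hF hn hs).Rep (MulAut.conj (g * (fm (frobE hF) g)⁻¹) * fm (frobE hF)) γ ∧
    (tw (frobE hF) g)⁻¹ * g = sc a * gm j M

include hj

lemma tw_gm' (k : GL (Fin n) F₀) : tw (frobE hF) (gm j k) = gm j (it k) := by
  rw [tw_apply, ← gm_it, fm_gm hj]

lemma keyU {g g' : GL (Fin n) F} {a a' : Fˣ} {M M' k : GL (Fin n) F₀} (c : Fˣ)
    (h : (tw (frobE hF) g)⁻¹ * g = sc a * gm j M) (h' : (tw (frobE hF) g')⁻¹ * g' = sc a' * gm j M') :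
    sc c * (g' * gm j k * g⁻¹) ∈ scalars _ F ⊔ GU n F q ↔
      (it k)⁻¹ * M' * k * M⁻¹ ∈ scalars _ F₀ := by
  rw [mul_mem_cancel_left (mem_sup_left (sc_mem c)), mem_GUp hF, ← gm_mem_sc (j := j), ← pj_eq_one,
    ← pj_eq_one]
  have e := congrArg pj (inv_mul_eq_iff_eq_mul.1 h)
  have e' := congrArg pj (inv_mul_eq_iff_eq_mul.1 h')
  simp only [map_mul, map_inv, tw_gm' hF hj, pj_sc, one_mul] at e e' ⊢
  rw [e, e', ← conj_eq_one_iff (a := pj (tw (frobE hF) g') * pj (gm j (it k)))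
    (b := (pj (gm j (it k)))⁻¹ * _ * _ * _)]
  simp [mul_assoc]

lemma centU' {g h : GL (Fin n) F} :
    h * ((MulAut.conj (g * (fm (frobE hF) g)⁻¹) * fm (frobE hF) : MulAut _) h)⁻¹ ∈ scalars _ F ↔
      ∃ c k, h = sc c * (g * gm j k * g⁻¹) := by
  rw [show h * ((MulAut.conj (g * (fm (frobE hF) g)⁻¹) * fm (frobE hF) : MulAut _) h)⁻¹ =
    g * (g⁻¹ * h * g * (fm (frobE hF) (g⁻¹ * h * g))⁻¹) * g⁻¹ by simp [mul_assoc], ← center_eq_sc,
    Normal.mem_comm_iff inferInstance, inv_mul_cancel_left, center_eq_sc, fld_iff hj]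
  exact exists₂_congr fun c k => sc_swap

theorem gdU : GD (inndiagPSU n F q) IsGraphAutClassPSU (RU hF hn hs j) := by
  haveI : Nonempty (Fin n) := ⟨⟨0, by omega⟩⟩
  have hi : (fm (frobE hF) : MulAut (GL (Fin n) F)) ^ 2 = 1 := by rw [← map_pow, frobE_sq, map_one]
  obtain ⟨φ, -, -, hφ⟩ := faU (hF := hF) (hn := hn) (hs := hs)
  have key : ∀ g : GL (Fin n) F, g * (fm (frobE hF) g)⁻¹ ∈ scalars _ F ⊔ GU n F q ↔
      ∃ a M, (tw (frobE hF) g)⁻¹ * g = sc a * gm j M := fun g => by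
    rw [mem_GUp hF, ← fld_iff hj, ← center_eq_sc, map_mul, map_inv, tw_fm, map_mul, map_inv]
    generalize tw (frobE hF) g = y
    rw [show g * (fm (frobE hF) g)⁻¹ * (y * (fm (frobE hF) y)⁻¹)⁻¹ = (g * (fm (frobE hF) g)⁻¹ *
      fm (frobE hF) y) * y⁻¹ by group, Normal.mem_comm_iff inferInstance]
    simp [mul_assoc]
  refine ⟨?_, fun M hM => ?_, ?_, ?_⟩
  · rintro _ ⟨-, δ, x, σ, h0, h1, h2, rfl⟩ h4
    obtain ⟨d, rfl⟩ := (isIDU_iff (hF := hF) (hn := hn) (hs := hs)).1 h1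
    have h5 := (repU_fm (hF := hF) (hn := hn) (hs := hs)).1 h2
    have h6 := (overGU.rep d).mul h5
    have h7 : σ ^ 2 = 1 := by rw [← hφ _ _ _ h6, ← map_pow, ← h4, pow_orderOf_eq_one, map_one]
    obtain rfl := sq_eq_one_unique (orderOf_eq_prime h7 (by rintro rfl; simp at h0))
      (frobE_order hF)
    obtain ⟨g, c, e⟩ := h90' ((frobE_order hF).symm ▸ (overGU.pow_eq_one_iff h5 hi d).1
      (h4 ▸ pow_orderOf_eq_one _))
    obtain ⟨a, M, h8⟩ := (key g).1 ((mul_mem_cancel_left (mem_sup_left (sc_mem c))).1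
      (e ▸ mem_sup_right d.2))
    refine ⟨M, gf_iff.2 ((gm_mem_sc (j := j)).1 (pj_eq_one.1 ?_)), g, a, h6.congr ?_, h8⟩
    · have := congrArg (fun y => pj (y * tw (frobE hF) y)) h8
      simp only [map_mul, map_inv, tw_tw, tw_sc, tw_gm' hF hj, pj_sc] at this
      simpa [mul_assoc] using this.symm
    · rw [e, map_mul, Car.conj_Z (C := carU hF hn hs) (sc_mem c), one_mul]
  · obtain ⟨k, c, e⟩ := h90_tw hF (d := gm j M) (by
      rw [tw_gm' hF hj, ← map_mul]; exact gm_mem_sc.2 (gf_iff.1 hM))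
    have h1 : (tw (frobE hF) (tw (frobE hF) k)⁻¹)⁻¹ * (tw (frobE hF) k)⁻¹ = sc c⁻¹ * gm j M := by
      rw [e, ← mul_assoc, ← map_mul, map_inv, tw_tw]; simp
    generalize (tw (frobE hF) k)⁻¹ = g at h1
    obtain ⟨x, hx⟩ := (nrmU_fm (hF := hF) (hn := hn) (hs := hs) (frobE hF)).exists_rep
    let o := overU (hF := hF) (hn := hn) (hs := hs) le_sup_right le_rfl
    have h2 := (o.rep ⟨_, (key g).2 ⟨_, _, h1⟩⟩).mul hx
    refine ⟨_, ⟨hn, _, x, _, by rw [frobE_order hF]; exact even_two, (isIDU_iff (hF := hF) (hn := hn)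
      (hs := hs)).2 (inndiagPSU_eq.le ((rangeUp hF).le ⟨_, rfl⟩)), repU_fm.2 hx, rfl⟩,
      orderOf_eq_prime ((o.pow_eq_one_iff hx hi _).2 ?_) fun e => ?_, g, _, h2, h1⟩
    · simp [tn_two, fm_fm, one_mem]
    · have := frobE_order hF
      rw [← hφ _ _ _ h2, e] at this
      simp at this
  · rintro γ M ⟨g, a, h, e⟩
    rw [← rangeUp hF (hn := hn) (hs := hs)]
    refine Car.Over.cent_equiv _ h ((((MulAut.conj g).toMonoidHom.comp (gm j)).comp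
      (similarityGroup (bil M.1)).subtype).codRestrict _ fun k => by
        simpa using (keyU hF hj 1 e e).2 (sim_iff.1 k.2)) ((scalars _ F₀).subgroupOf _)
      (fun k => ?_) (fun k => (centU' hF hj).2 ⟨1, k, by simp⟩) fun x h1 h2 => ?_
    · change k.1 ∈ scalars _ F₀ ↔ g * gm j k.1 * g⁻¹ ∈ scalars _ F
      rw [← center_eq_sc (F := F), Normal.mem_comm_iff inferInstance, inv_mul_cancel_left,
        center_eq_sc, gm_mem_sc]
    · obtain ⟨c, k, rfl⟩ := (centU' hF hj).1 h2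
      exact ⟨⟨k, sim_iff.2 ((keyU hF hj c e e).1 h1)⟩, _, sc_mem c, rfl⟩
  · rintro γ M γ' M' ⟨g, a, h, e⟩ ⟨g', a', h', e'⟩
    rw [← rangeUp hF (hn := hn) (hs := hs), Car.Over.conjZ _ (nrmU_fm _) h h']
    have : ∀ x : GL (Fin n) F, (g' * (fm (frobE hF) g')⁻¹)⁻¹ * (x * (g * (fm (frobE hF) g)⁻¹) *
        (fm (frobE hF) x)⁻¹) ∈ scalars _ F ↔ ∃ c k, x = sc c * (g' * gm j k * g⁻¹) := fun x => by
      rw [show (g' * (fm (frobE hF) g')⁻¹)⁻¹ * (x * (g * (fm (frobE hF) g)⁻¹) *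
        (fm (frobE hF) x)⁻¹) = fm (frobE hF) g' * (g'⁻¹ * x * g *
          (fm (frobE hF) (g'⁻¹ * x * g))⁻¹) * (fm (frobE hF) g')⁻¹ by simp [mul_assoc],
        ← center_eq_sc, Normal.mem_comm_iff inferInstance, inv_mul_cancel_left, center_eq_sc,
        fld_iff hj]
      exact exists₂_congr fun c k => sc_swap
    refine ⟨fun ⟨x, h1, h2⟩ => Sm.symm ?_, fun h1 => ?_⟩
    · obtain ⟨c, k, rfl⟩ := (this x).1 h2
      obtain ⟨b, hb⟩ := mem_sc.1 ((keyU hF hj c e e').1 h1)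
      exact sm_bil.2 ⟨k, b, mul_inv_eq_iff_eq_mul.1 hb⟩
    · obtain ⟨k, b, hb⟩ := sm_bil.1 h1.symm
      exact ⟨_, (keyU hF hj 1 e e').2 (mem_sc.2 ⟨b, mul_inv_eq_iff_eq_mul.2 hb⟩),
        (this _).2 ⟨1, k, rfl⟩⟩

lemma mlU {g : GL (Fin n) F} {a b : Fˣ} {M k : GL (Fin n) F₀} {c : F₀ˣ} [NeZero n]
    (h : (tw (frobE hF) g)⁻¹ * g = sc a * gm j M) (hk : Ml (bil M.1) k c) :
    sc b * (g * gm j k * g⁻¹) ∈ GU n F q ↔ b ^ (q + 1) * Units.map (j : F₀ →* F) c = 1 := by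
  have e : g * gm j k * g⁻¹ = sc (Units.map (j : F₀ →* F) c) * tw (frobE hF) (g * gm j k * g⁻¹) := by
    have h1 := congrArg (gm j) (ml_bil.1 hk)
    simp only [map_mul, map_inv, gm_sc] at h1
    rw [map_mul, map_mul, map_inv, tw_gm' hF hj, eq_mul_inv_of_mul_eq (inv_mul_eq_iff_eq_mul.1 h).symm,
      eq_mul_inv_of_mul_eq (inv_mul_eq_iff_eq_mul.1 ((mul_assoc _ _ _).symm.trans h1)).symm]
    simp only [_root_.mul_inv_rev, inv_inv, mul_assoc, sc_left _ (gm j _), sc_left _ _⁻¹,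
      inv_mul_cancel_left, mul_inv_cancel_left]
    rw [← map_inv sc, sc_left _ _⁻¹, sc_left _ (gm j k), sc_left _ g]
    simp
  rw [mem_GU hF, map_mul, tw_sc, fu_frobE]
  conv_lhs => rhs; rw [e]
  rw [← mul_assoc, mul_left_inj, ← map_mul, sc_inj.eq_iff, inv_eq_iff_mul_eq_one, pow_succ,
    mul_assoc]

include hn hs in
theorem s2709 [Finite F₀] (h0 : (2 : F₀) ≠ 0 → (2 : F) ≠ 0) {γ : MulAut (PSU n F q)}
    (h : IsGraphAutClassPSU γ) (h2 : orderOf γ = 2) :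
    (Even n ∧ (2 : F₀) ≠ 0 ∧ Nonempty (↥(inndiagPSU n F q ⊓ centralizer {γ}) ≃* PGSp (n / 2) F₀) →
      splitClassCount (inndiagPSU n F q) (Inn _) γ = Nat.gcd (n / 2) (q + 1)) ∧
    (Even n ∧ (2 : F₀) ≠ 0 ∧ ¬ Nonempty (↥(inndiagPSU n F q ⊓ centralizer {γ}) ≃* PGSp (n / 2) F₀) →
      splitClassCount (inndiagPSU n F q) (Inn _) γ = Nat.gcd n (q + 1) / 2) ∧
    (¬ (Even n ∧ (2 : F₀) ≠ 0) →
      splitClassCount (inndiagPSU n F q) (Inn _) γ = Nat.gcd n (q + 1)) := by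
  haveI : NeZero n := ⟨by omega⟩
  have D := gdU hF hj (hn := hn) (hs := hs)
  obtain ⟨M, hM, r⟩ := D.ex γ h h2
  obtain ⟨e⟩ := D.cent r
  have hJ : ∀ c : F₀ˣ, Units.map (j : F₀ →* F) c ^ q = Units.map (j : F₀ →* F) c := fun c =>
    Units.ext ((Units.val_pow_eq_pow_val _ _).trans ((hj _).2 ⟨c, rfl⟩))
  have hη : (-1 : Fˣ) ∈ nrm1 (q := q) := by
    have := hJ (-1)
    rw [Units.map_neg_one] at this
    rw [mem_nrm1, pow_succ, this]; simp
  have k1 : ∀ m, n = 2 * m → ∀ (l : nrm1 (F := F) (q := q)) (u : F₀ˣ) (η : nrm1 (F := F) (q := q)),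
      η.1 = Units.map (j : F₀ →* F) u → ((∃ c : F₀ˣ, ∃ b : Fˣ, b ^ (q + 1) * Units.map j c = 1 ∧
        l.1 = b ^ n * Units.map j (c ^ m * u)) ↔ ∃ e, l = e ^ m * η) := by
    rintro m rfl l u η h1
    refine ⟨fun ⟨c, b, h3, h4⟩ => ⟨⟨b ^ 2 * Units.map j c, mem_nrm1.2 ?_⟩, Subtype.ext ?_⟩, ?_⟩
    · rw [mul_pow, pow_succ (Units.map _ c), hJ, ← sq, pow_right_comm, ← mul_pow, h3, one_pow]
    · simp [h4, h1, mul_pow, pow_mul, mul_assoc]
    · rintro ⟨e, rfl⟩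
      obtain ⟨b, hb, h3⟩ := exists_norm_one_eq hF (d := e.1) (by
        rw [← pow_succ', ← Units.val_pow_eq_pow_val, mem_nrm1.1 e.2, Units.val_one])
      lift b to Fˣ using hb.isUnit
      obtain ⟨c, hc⟩ := exists_unit hj (c := (b ^ (q + 1))⁻¹) (by
        rw [fu_frobE, inv_pow, pow_succ, mul_pow, ← fu_frobE hF, ← fu_frobE hF,
          ← MulAut.mul_apply, ← map_mul, ← sq, frobE_sq, map_one, MulAut.one_apply, mul_comm])
      refine ⟨c, b, by rw [hc, mul_inv_cancel], ?_⟩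
      have h4 : e.1 = b * (b ^ q)⁻¹ := Units.ext (by simpa using h3.symm)
      rw [map_mul, map_pow, hc, coe_mul, coe_pow, h1, h4, pow_mul, ← mul_assoc, ← mul_pow]
      congr 2
      rw [sq, pow_succ]; simp
  rw [show Nonempty (↥(inndiagPSU n F q ⊓ centralizer {γ}) ≃* PGSp (n / 2) F₀) ↔ _ from
    ⟨Nonempty.map e.symm.trans, Nonempty.map e.trans⟩, ← card_nrm1 hF]
  refine split_abs (D := nrm1 (F := F) (q := q)) (by omega) hM ⟨-1, hη⟩
    (fun h => (orderOf_coe (H := nrm1 (q := q)) ⟨-1, hη⟩).symm.trans (ord_neg (h0 h)))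
    (fun c d l => ∃ b : Fˣ,
      b ^ (q + 1) * Units.map (j : F₀ →* F) c = 1 ∧ l.1 = b ^ n * Units.map (j : F₀ →* F) d)
    (fun m hm l => by simpa using k1 m hm l 1 1 (by simp))
    (fun m hm l => by simpa using k1 m hm l (-1) ⟨-1, hη⟩ (by simp))
    (fun l => ⟨fun ⟨a, b, h3, h4⟩ => ⟨⟨b * Units.map j a, mem_nrm1.2 ?_⟩, Subtype.ext ?_⟩, ?_⟩)
    fun L hL => ?_
  · rw [mul_pow, pow_succ (Units.map _ a), hJ, ← sq, ← map_pow, h3]
  · simp [h4, mul_pow]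
  · rintro ⟨e, rfl⟩
    exact ⟨1, e, by simpa using mem_nrm1.1 e.2, by simp⟩
  obtain ⟨g, a, r, hg⟩ := r
  rw [inndiagPSU_eq (hF := hF) (hn := hn) (hs := hs), overGU.split_hom r (detU hF n) (L := L)
    (Subgroup.ext fun g => ⟨fun e => carU_range.2 ⟨g.2, congrArg Subtype.val e⟩,
      fun e => Subtype.ext (carU_range.1 e).2⟩), MonoidHom.range_eq_top.2 (detU_surj (hn := hn)),
    relIndex_top_right]
  · rintro ⟨x, h1⟩ h3
    obtain ⟨b, k, rfl⟩ := (centU' hF hj).1 h3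
    obtain ⟨c, hc⟩ := sim_iff.2 ((keyU hF hj b hg hg).1 (mem_sup_right h1))
    refine (hL _).2 ⟨c, _, ⟨k, hc, rfl⟩, b, (mlU hF hj hg hc).1 h1, ?_⟩
    change det _ = _
    simp [det_sc, det_gm]
  · intro l hl
    obtain ⟨c, _, ⟨k, hc, rfl⟩, b, h1, h3⟩ := (hL _).1 hl
    refine ⟨⟨_, (mlU hF hj hg hc).2 h1⟩, (centU' hF hj).2 ⟨b, k, rfl⟩, Subtype.ext ?_⟩
    change det _ = _
    simp [det_sc, det_gm, h3]

end U

lemma two_ne_odd {F : Type*} [Field F] [Fintype F] : (2 : F) ≠ 0 ↔ Odd (Fintype.card F) := by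
  rw [← odd_card_iff, Nat.card_eq_fintype_card]

lemma ru_one {F : Type*} [Field F] [Fintype F] {q n : ℕ} (hF : Fintype.card F = q ^ 2) {hn : 3 ≤ n}
    {hs : ¬ (n = 3 ∧ q = 2)} {F₀ : Type*} [Field F₀] {j : F₀ →+* F} {φ : MulAut (PSU n F q)}
    (h : IsFieldAutPSUOf (frobE hF) φ) : RU hF hn hs j φ 1 :=
  ⟨1, 1, (repU_fm.1 h).congr (by simp), by simp⟩

end H4.Au
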