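import Cfsg.Agent.H4.CpC
import Cfsg.Agent.H4.GrD
import Cfsg.Agent.H3.Integral
import Cfsg.Agent.S0280
import Cfsg.Agent.S0283

/-! The `p'`-core of the centraliser of an automorphism of prime order: unitary groups. -/

set_option autoImplicit false

namespace H4.Au
open Matrix Cfsg Cfsg.Geo Subgroup Module H4.As
open scoped MatrixGroups commutatorElement

local notation "det" => GeneralLinearGroup.det

section Frm
variable {ι : Type} [Fintype ι] [DecidableEq ι] {F₀ F : Type*} [Field F₀] [Field F] [Finite F₀]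
  {j : F₀ →+* F}

lemma swap_false {K : Kind F₀} {f : Form K (ι → F₀)} (h2 : Odd (ringChar F₀))
    {N : Subgroup (GL ι F₀)} (hc : ∀ n ∈ N, ∃ k : ℕ, k.Coprime 2 ∧ n ^ k ∈ scalars ι F₀)
    (hn : ∀ e ∈ f.E, ∀ n ∈ N.comap f.toGL, e * n * e⁻¹ ∈ N.comap f.toGL) {g a : f.Isom}
    (hg : g ∈ N.comap f.toGL) {u v : ι → F₀} {t : F₀} (ha : f.IsEich a u v t)
    (h0 : g.1 u ∉ F₀ ∙ u) {d : F₀} (h : a.1 (g.1 u) = d • (g⁻¹ : f.Isom).1 u) : False := by
  obtain ⟨i, hi⟩ := InU.pe (⟨v, t, ha⟩ : InU a u)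
  have h5 := pow_mul_mem hg (hn a ha.mem_E) (ringChar F₀ ^ i)
  rw [hi, inv_one, mul_one] at h5
  obtain ⟨k, hk, h6⟩ := hc _ h5
  rw [← map_pow, ← pow_mul] at h6
  obtain ⟨m, hm⟩ : Odd (ringChar F₀ ^ i * k) := h2.pow.mul (Nat.coprime_two_right.1 hk)
  have e2 : (g * a : f.Isom).1 u = g.1 u := by rw [Form.isom_mul_apply, ha.fix_u]
  have e3 : (g * a : f.Isom).1 (g.1 u) = d • u := by
    rw [Form.isom_mul_apply, h, map_smul, Form.isom_apply_inv]
  have d0 : d ≠ 0 := by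
    rintro rfl
    exact Form.isom_ne_zero (g * a) (x := g.1 u) (fun e => h0 (by rw [e]; exact zero_mem _))
      (by rw [e3, zero_smul])
  have key : ∀ m, ((g * a) ^ (2 * m + 1) : f.Isom).1 u = d ^ m • g.1 u := fun m => by
    induction m with
    | zero => simpa using e2
    | succ m ih =>
      rw [show 2 * (m + 1) + 1 = 2 * m + 1 + 1 + 1 by ring, pow_succ', pow_succ',
        Form.isom_mul_apply, Form.isom_mul_apply (g * a), ih, map_smul, map_smul, e3, map_smul,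
        e2, smul_smul, pow_succ]
  obtain ⟨z, hz⟩ := mem_sc.1 h6
  have hd := key m
  rw [← hm, ← Form.toGL_mulVec, hz, sc_mulVec] at hd
  exact h0 ((Submodule.smul_mem_iff _ (pow_ne_zero m d0)).1
    (hd ▸ Submodule.smul_mem _ _ (Submodule.mem_span_singleton_self u)))

theorem np_quad {f : Form (quadKind F₀) (ι → F₀)} (h2 : Odd (ringChar F₀)) (hf : f.ND)
    (hd : 3 ≤ Fintype.card ι) {T : Subgroup (GL ι F₀)} (h1 : f.E.map f.toGL ≤ T)
    (h3 : T ≤ f.toGL.range) : NP 2 (scalars ι F₀) T := by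
  intro N hN hc n hn0
  have hn : ∀ e ∈ f.E, ∀ n ∈ N.comap f.toGL, e * n * e⁻¹ ∈ N.comap f.toGL := fun e he n hn => by
    simpa using hN.2 _ (h1 ⟨e, he, rfl⟩) _ hn
  obtain ⟨g, rfl⟩ := h3 (hN.1 hn0)
  obtain ⟨u, w, h⟩ := quad_exists_hyp hf (by simpa)
  have hB : ∀ x, f.Q x = 0 → f.B x (g.1 x) = 0 := fun x hx => by
    by_contra b0
    have b1 : f.B x ((g⁻¹ : f.Isom).1 x) ≠ 0 := by rwa [← Form.isom_B_left, quad_symm]
    obtain ⟨a, v, t, ha, e1⟩ := Form.exists_eich_map (x := g.1 x)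
      (y := (1 : F₀) • (g⁻¹ : f.Isom).1 x) hx (by simp only [one_smul, Form.isom_Q])
      (by rw [one_smul, ← Form.isom_B_left, quad_symm]) b0
    refine swap_false h2 hc hn hn0 ha (fun e => b0 ?_) e1
    obtain ⟨c, hc⟩ := Submodule.mem_span_singleton.1 e
    rw [← hc, map_smul, Form.B_self_of_Q hx, smul_zero]
  obtain ⟨c, hc'⟩ := (quad_wrich hf (by simpa)).scalar h g fun x hx => by
    by_contra h0
    obtain ⟨y, hy, hh⟩ := hf.exists_hyp_perp h0 ((Form.isom_Q g x).trans hx)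
      (f.mem_perp_singleton.2 (hB x hx))
    obtain ⟨l, hl⟩ := Submodule.mem_span_singleton.1
      (show g.1 x + (g⁻¹ : f.Isom).1 x ∈ F₀ ∙ x from hf.perp_perp (F₀ ∙ x) ▸ f.mem_perp'.2
        fun z hz => hh.mem_of_singular (f.mem_perp_singleton.2 (hB x hx)) hy
          (LinearMap.ker (f.B (g.1 x + (g⁻¹ : f.Isom).1 x))).toAddSubgroup (fun z hz hQ => by
            have e := hB (x + z) (by
              rw [Form.Q_add_of_perp (f.mem_perp_singleton.1 hz), hx, hQ, add_zero])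
            have e' := Form.isom_B_left g z x
            show f.B _ z = 0
            simp only [map_add, LinearMap.add_apply, hB x hx, hB z hQ] at e ⊢
            rw [quad_symm f _ z, quad_symm f _ z, ← e', quad_symm f _ x]
            linear_combination e) hz)
    obtain ⟨v, hv, h4⟩ := hf.exists_perp_eq' h0 l
    obtain ⟨a, t, ha⟩ := Form.exists_eich hx (f.mem_perp_singleton.1 hv)
    refine swap_false h2 hc hn hn0 ha h0 (d := -1) ?_
    rw [ha.app, hB x hx, h4]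
    simp [hl]
  exact mem_sc_of (c := c) (mat_ext fun v => by simp [hc', smul_mulVec])

omit [Finite F₀] in
lemma iso_range {K : Kind F₀} {f : Form K (ι → F₀)} {b : (ι → F₀) → (ι → F₀) → F₀}
    (hb : ∀ x y, f.B x y = b x y)
    (hQ : ∀ x y, f.B x x = f.B y y → f.Q x = f.Q y) :
    f.E.map f.toGL ≤ Iso b ⊓ specialLinear ι F₀ ∧ Iso b ⊓ specialLinear ι F₀ ≤ f.toGL.range := by
  refine ⟨?_, fun g hg => Form.exists_toGL ?_⟩
  · rintro _ ⟨g, hg, rfl⟩
    exact ⟨mem_Iso.2 fun u v => by simp only [Form.toGL_mulVec, ← hb, Form.isom_B],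
      (Form.map_toGL_SI.le ⟨g, Form.E_le_SI hg, rfl⟩).2⟩
  · have : ∀ x y, f.B (glEquiv g x) (glEquiv g y) = f.B x y := fun x y => by
      rw [hb, hb]; exact hg.1 x y
    exact ⟨this, fun x => hQ _ _ (this x x)⟩

omit [Fintype ι] [DecidableEq ι] in
lemma odd_char (h2 : (2 : F₀) ≠ 0) : Odd (ringChar F₀) :=
  (CharP.char_is_prime F₀ (ringChar F₀)).odd_of_ne_two fun e =>
    h2 (by exact_mod_cast (ringChar.spec F₀ 2).2 (by rw [e]))

theorem gf_data (h2 : (2 : F₀) ≠ 0) (hd : 3 ≤ Fintype.card ι) {M : GL ι F₀} (hM : GF M) :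
    PT j (Iso (bil M.1) ⊓ specialLinear ι F₀) ∧
      NP 2 (scalars ι F₀) (Iso (bil M.1) ⊓ specialLinear ι F₀) := by
  rcases hM with hM | hM
  · obtain ⟨f, hf, hb⟩ := exists_qf h2 hM
    obtain ⟨u, w, h⟩ := quad_exists_hyp hf (by simpa)
    obtain ⟨h1, h3⟩ := iso_range hb fun x y e => mul_left_cancel₀ h2 (by
      rwa [quad_B_self, quad_B_self] at e)
    refine ⟨(pt_form hf (Or.inr ⟨h2, fun u w h => ?_⟩) hd h).mono h1,
      np_quad (odd_char h2) hf hd h1 h3⟩
    obtain ⟨t, ht, v, a, b, c⟩ := quad_wrich hf (by simpa) u w h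
    exact ⟨v, a, b, by rw [quad_B_self, c]; exact mul_ne_zero h2 ht⟩
  · let f := altForm (bilinOf (hM.bilinear rfl)) (SF.alt h2 hM)
    have hf : f.ND := fun x hx => hM.nd' x hx
    obtain ⟨u, w, h⟩ := alt_exists_hyp hf (by simp; omega)
    obtain ⟨h1, h3⟩ := iso_range (f := f) (b := bil M.1) (fun _ _ => rfl) fun _ _ _ => rfl
    exact ⟨(pt_form hf (Or.inl ⟨1, one_ne_zero, rfl⟩) hd h).mono h1,
      np_two (odd_char h2) hf alt_rich.wrich alt_prim h h1 h3⟩

omit [Finite F₀] in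
lemma fld_T' {S : Type*} [Group S] {C : Car S (GL ι F)} {σ : F ≃+* F}
    (hj : ∀ a, σ a = a ↔ a ∈ j.range) {T : Subgroup (GL ι F₀)} {k : GL ι F}
    (h : ∀ t, t ∈ T ↔ k * gm j t * k⁻¹ ∈ C.e.range) (g : GL ι F) :
    (∃ t ∈ T, k * gm j t * k⁻¹ = g) ↔ g ∈ C.e.range ∧
      (MulAut.conj (k * (fm σ k)⁻¹) * fm σ : MulAut _) g = g := by
  constructor
  · rintro ⟨t, ht, rfl⟩
    exact ⟨(h t).1 ht, by simp [fm_gm hj, mul_assoc]⟩
  · rintro ⟨h1, h2⟩
    obtain ⟨t, ht⟩ := exists_gm hj (g := k⁻¹ * g * k) (by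
      conv_rhs => rw [← h2]
      simp [mul_assoc])
    obtain rfl : k * gm j t * k⁻¹ = g := by rw [ht]; group
    exact ⟨t, (h t).2 h1, rfl⟩

omit [Finite F₀] in
lemma det_gm_one {t : GL ι F₀} : det (gm j t) = 1 ↔ t ∈ specialLinear ι F₀ := by
  rw [det_gm]
  exact map_eq_one_iff _ (Units.map_injective j.injective)

end Frm

section U
variable {F : Type*} [Field F] [Fintype F] {q n : ℕ} (hF : Fintype.card F = q ^ 2) (hn : 3 ≤ n)
include hF hn

lemma pt_SU {F' : Type*} [Field F'] (j : F →+* F') :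
    PT j (GU n F q ⊓ specialLinear (Fin n) F) := by
  obtain ⟨u, w, h⟩ := u_exists_hyp (uForm_ND hF n) (by simp; omega)
  rw [su_eq_E hF hn]
  exact pt_form (uForm_ND hF n) (Or.inl u_tz) (by simpa) h

lemma np_SU {p : ℕ} [hp : Fact p.Prime] (h2 : p ≠ 2)
    (hd : p ∣ Nat.card ↥(GU n F q ⊓ specialLinear (Fin n) F)) :
    NP p (scalars _ F) (GU n F q ⊓ specialLinear (Fin n) F) := by
  by_cases hs : ¬ (n = 3 ∧ q = 2)
  · haveI := Cfsg.Agent.S0283.result hF n hn hs
    rw [← suE_range] at hd ⊢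
    exact (carU hF hn hs).np
      (by rwa [Nat.card_congr (MonoidHom.ofInjective (carU hF hn hs).inj).toEquiv])
  obtain ⟨rfl, rfl⟩ := not_not.1 hs
  obtain rfl : p = 3 := by
    have := hd.trans (card_dvd_of_le inf_le_left)
    rw [card_GU hF, show _ * ∏ i ∈ Finset.range 3, _ = 2 ^ 3 * 3 ^ 4 by decide] at this
    rcases (Nat.Prime.dvd_mul hp.out).1 this with h | h
    · exact absurd ((Nat.prime_dvd_prime_iff_eq hp.out Nat.prime_two).1
        (hp.out.dvd_of_dvd_pow h)) h2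
    · exact (Nat.prime_dvd_prime_iff_eq hp.out Nat.prime_three).1 (hp.out.dvd_of_dvd_pow h)
  have two : (2 : F) = 0 := by
    have := FiniteField.cast_card_eq_zero F
    rw [hF] at this
    exact pow_eq_zero_iff two_ne_zero |>.1 (by exact_mod_cast this)
  rw [su_eq_E hF hn]
  have hf := uForm_ND hF 3
  generalize uForm hF 3 = f at hf
  intro N hN hc
  have hn : ∀ e ∈ f.E, ∀ n ∈ N.comap f.toGL, e * n * e⁻¹ ∈ N.comap f.toGL := fun e he n hn => by
    simpa using hN.2 _ ⟨e, he, rfl⟩ _ hn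
  obtain ⟨u, w, h⟩ := u_exists_hyp hf (by simp)
  rcases Form.normal_dichotomy hf u_wrich u_prim h _ hn with h4 | h4
  · intro n hn
    obtain ⟨n, -, rfl⟩ := hN.1 hn
    obtain ⟨c, hc⟩ := h4 n hn
    exact mem_sc_of (c := c) (mat_ext fun v => by simp [hc, smul_mulVec])
  exfalso
  obtain ⟨g, hg, c, c0, e⟩ := h4 w (fun e => by simpa [e] using h.Buw) h.Qw
  obtain ⟨t, ht⟩ := Form.exists_isEich (f := f) (v := 0) (t := 1) h.Qu (by simp)
    (by rw [uT, f.Q_zero, map_one, one_add_one_eq_two, two])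
  have c3 : c ^ 2 * c = 1 := by
    rw [← pow_succ]; simpa [hF] using FiniteField.pow_card_sub_one_eq_one c c0
  have e1 : ∀ y, (g * t * g⁻¹ * t⁻¹ : f.Isom).1 y =
      y - f.B u y • u - (f.B w y - f.B u y) • w := fun y => by
    rw [Form.isom_mul_apply, (ht.conj g).app, ht.inv.app, e]
    simp only [map_zero, neg_zero, smul_zero, add_zero, LinearMap.zero_apply, zero_add, map_one,
      Form.B_smul_left, uσ, map_sub, map_smul, h.Bwu, show (uKind hF).ε = 1 from rfl, one_mul,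
      smul_eq_mul, mul_one, smul_smul]
    congr 2
    linear_combination (f.B w y - f.B u y) * c3
  have m1 : g * t * g⁻¹ * t⁻¹ ∈ N.comap f.toGL := by
    simpa only [mul_assoc] using mul_mem hg (hn t ht.mem_E _ (inv_mem hg))
  generalize g * t * g⁻¹ * t⁻¹ = a at e1 m1
  obtain ⟨k, h5, h6⟩ := hc _ m1
  obtain ⟨z, hz⟩ := mem_sc.1 (mem_of_cop h5 h6 (by
    rw [← map_pow, show a ^ 3 = 1 from Form.isom_ext fun y => ?_, map_one]
    · exact one_mem _
    rw [pow_three, Form.isom_mul_apply, Form.isom_mul_apply, e1, e1, e1]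
    simp only [map_sub, map_smul, h.Buu, h.Buw, h.Bwu, h.Bww, show (uKind hF).ε = 1 from rfl,
      smul_eq_mul, Form.isom_one_apply]
    linear_combination (norm := module) (two * (2 * f.B w y - 4 * f.B u y)) • u +
      (two * (6 * f.B u y - 4 * f.B w y)) • w))
  have := e1 w
  rw [← Form.toGL_mulVec, hz, sc_mulVec] at this
  simpa [h.Buu, h.Buw, h.Bwu, h.Bww, show (uKind hF).ε = 1 from rfl] using congrArg (f.B w) this

omit hn in
lemma hs_U (hK : IsSimpleGroup (PSU n F q)) : ¬ (n = 3 ∧ q = 2) := by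
  rintro ⟨rfl, rfl⟩
  have h := Cfsg.Agent.S0280.result hF 3 (by norm_num)
  have h1 : Nat.card (PSU 3 F 2) = 72 := by
    simp only [Finset.prod_range_succ, Finset.prod_range_zero] at h
    norm_num at h
    omega
  haveI : Finite (PSU 3 F 2) := Nat.finite_of_card_ne_zero (by rw [h1]; norm_num)
  letI : CommGroup (PSU 3 F 2) := { (inferInstance : Group _) with
    mul_comm := IsSimpleGroup.comm_iff_isSolvable.2 (H3.burnside_pq (p := 2) (q := 3) (a := 3)
      (b := 2) Nat.prime_two Nat.prime_three (by rw [h1]; norm_num)) }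
  have := IsSimpleGroup.prime_card (α := PSU 3 F 2)
  rw [h1] at this
  norm_num at this

theorem s2687 {r : ℕ} [hr : Fact r.Prime] [CharP F r] (hK : IsSimpleGroup (PSU n F q))
    (A : Subgroup (MulAut (PSU n F q))) (hinn : ∀ k, MulAut.conj k ∈ A) {p : ℕ}
    [hp : Fact p.Prime] (hpr : p ≠ r) (x : MulAut (PSU n F q)) (hord : orderOf x = p)
    (hnot : ¬ IsInnerDiagonalAutPSU x) :
    pPrimeCore p ↥(A ⊓ centralizer {x}) ≠ ⊥ ↔
      ((∃ γ φ : MulAut (PSU n F q), IsInnerDiagonalAutPSU γ ∧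
        (∃ σ : F ≃+* F, IsFieldAutPSUOf σ φ) ∧ x = φ.trans γ) ∧
        p.Coprime (Nat.card (fx x))) := by
  haveI : NeZero n := ⟨by omega⟩
  have hs := hs_U hF hK
  have hx : x ^ p = 1 := hord ▸ pow_orderOf_eq_one x
  have hΓ : ∀ α, α ∈ Gam (carU hF hn hs) := fun α =>
    let ⟨g, σ, _, h⟩ := autU (hF := hF) (hn := hn) (hs := hs) α; ⟨g, σ, h⟩
  obtain ⟨g, y, σ, hy, e⟩ := decompU (hF := hF) (hn := hn) (hs := hs) x
  rw [and_iff_right ⟨_, y, isIDU_iff.2 ⟨g, rfl⟩, ⟨σ, repU_fm.2 hy⟩, e⟩]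
  have hσ : σ ^ p = 1 := pow_fa (by
    have := pt_SU hF hn (RingHom.id F)
    rwa [← suE_range] at this) (e ▸ (overGU.rep g).mul hy) hx
  have h1 : σ ≠ 1 := by
    rintro rfl
    exact hnot (isIDU_iff.2 ⟨g, by
      rw [e, hy.unique (Car.Rep.one.congr (map_one _).symm), mul_one]⟩)
  have ho : orderOf σ = p := (orderOf_eq_iff_pow hp.out h1).2 hσ
  rcases hp.out.eq_two_or_odd' with rfl | hodd
  · obtain ⟨K, hj⟩ := exists_fix (frobE hF)
    obtain ⟨M, hM, k, a, h3, h4⟩ := (gdU hF hj (hn := hn) (hs := hs)).ex x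
      ⟨hn, _, y, σ, by rw [ho]; exact even_two, isIDU_iff.2 ⟨g, rfl⟩, repU_fm.2 hy, e⟩ hord
    obtain ⟨h5, h6⟩ := gf_data (j := K.subtype) (fun h => hpr (char_two_of (F := F) (by
      rw [← map_ofNat K.subtype, h, map_zero])).symm) (by simpa) hM
    obtain ⟨h7, h8⟩ := main_of (C := carU hF hn hs) rfl h3 hx hj (frobE_sq hF) k
      (fld_T' hj fun t => by
        rw [carU_range, mem_inf, ← det_gm_one (j := K.subtype)]
        refine and_congr ⟨fun h => ?_, fun h => ?_⟩ (by simp)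
        · simpa using (mlU hF hj (b := 1) h4 (ml_one.2 h)).2 (by simp)
        · obtain ⟨c, hc⟩ := sim_iff.2 ((keyU hF hj 1 h4 h4).1 (mem_sup_right (by simpa)))
          have := (mlU hF hj (b := 1) h4 hc).1 (by simpa)
          rw [one_pow, one_mul] at this
          obtain rfl := (map_eq_one_iff _ (Units.map_injective K.subtype.injective)).1 this
          exact ml_one.1 hc)
      h5 (fun _ => h6) fun α _ => Or.inl (hΓ α)
    exact core_iff (carU hF hn hs).center_bot hinn (α := 1) (by simp) h7 h8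
  obtain ⟨f, hq⟩ : ∃ f, q = r ^ f := by
    obtain ⟨m, -, hm⟩ := FiniteField.card F r
    obtain ⟨f, -, h⟩ := (Nat.dvd_prime_pow hr.out).1
      (show q ∣ r ^ (m : ℕ) from ⟨q, by rw [← hm, hF, sq]⟩)
    exact ⟨f, h⟩
  have hf : 1 ≤ f := Nat.pos_of_ne_zero (by
    rintro rfl
    have := two_le_of_card_sq hF
    simp [hq] at this)
  obtain ⟨α, -, e'⟩ := langU' hq hf (ho ▸ hodd) hy _ ⟨g, rfl⟩ (by rw [← e, ho, hx])
  rw [← e] at e'
  have hyp : y ^ p = 1 := by rwa [e', conj_pow, conj_eq_one_iff] at hx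
  obtain ⟨h2, h3⟩ := embU.{_, 0} (hF := hF) hq (ho ▸ hodd)
  haveI := Fintype.ofFinite (GaloisField r (2 * (f / orderOf σ)))
  have hF₀ : Fintype.card (GaloisField r (2 * (f / orderOf σ))) = _ :=
    Nat.card_eq_fintype_card.symm.trans (GaloisField.card r _ (by
      have := Nat.div_pos (Nat.le_of_dvd hf h2) (orderOf_pos σ); omega))
  obtain ⟨j, hj, hτ⟩ := h3 _ hF₀
  replace hF₀ := hF₀.trans (show _ = (r ^ (f / orderOf σ)) ^ 2 by rw [mul_comm, pow_mul])
  obtain ⟨h7, h8⟩ := main_of (C := carU hF hn hs) rfl hy hyp hj hσ 1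
    (fld_T hj fun t => by rw [carU_range, mem_inf, ← gm_GU (hF := hF) hF₀ hτ, det_gm_one])
    (pt_SU hF₀ hn j) (np_SU hF₀ hn (by rintro rfl; exact absurd hodd (by decide))) fun α _ => Or.inl (hΓ α)
  exact core_iff (carU hF hn hs).center_bot hinn e' h7 h8

end U

end H4.Au
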