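import Cfsg.Agent.H4.CpD
import Cfsg.Agent.H4.Trv
import Cfsg.Agent.S0249
import Cfsg.Agent.S0250

/-! The `p'`-core of the centraliser of an automorphism of prime order: linear groups. -/

set_option autoImplicit false

namespace H4.Au
open Matrix Cfsg Cfsg.Geo Subgroup Module H4.As
open scoped MatrixGroups commutatorElement

local notation "det" => GeneralLinearGroup.det

lemma dvd_fx {K : Type*} [Group K] [Finite K] {p : ℕ} [Fact p.Prime] {x : MulAut K}
    (hx : x ^ p = 1) (h : p ∣ Nat.card K) : p ∣ Nat.card (fx x) := by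
  have hP : IsPGroup p (zpowers x) := by
    rintro ⟨_, k, rfl⟩
    exact ⟨1, Subtype.ext (by
      show (x ^ k) ^ p ^ 1 = 1
      rw [pow_one, ← zpow_natCast, zpow_comm, zpow_natCast, hx, _root_.one_zpow])⟩
  have := (hP.card_modEq_card_fixedPoints K).dvd_iff dvd_rfl |>.1 h
  rwa [Nat.card_congr (Equiv.setCongr (show MulAction.fixedPoints (zpowers x) K = fx x from
    Set.ext fun k => ⟨fun h => h ⟨x, mem_zpowers x⟩, fun h g =>
      (zpowers_le_of_mem (H := MulAction.stabilizer (MulAut K) k) h) g.2⟩))] at this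

lemma not_simple {G : Type*} [Group G] {N : ℕ} (h : Nat.card G = N) (h0 : N ∣ 2 ^ 3 * 3 ^ 2)
    (hN : ¬ N.Prime) : ¬ IsSimpleGroup G := fun _ => by
  haveI : Finite G := Nat.finite_of_card_ne_zero (by rintro e; simp [← h, e] at h0)
  letI : CommGroup G := { (inferInstance : Group _) with
    mul_comm := IsSimpleGroup.comm_iff_isSolvable.2
      (H3.burnside_pq Nat.prime_two Nat.prime_three (h ▸ h0)) }
  exact hN (h ▸ IsSimpleGroup.prime_card (α := G))

lemma np_S3 : NP 3 (⊥ : Subgroup (Equiv.Perm (Fin 3))) ⊤ := np_top fun N hN hc => by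
  refine (eq_bot_iff_forall _).2 fun n hn => by_contra fun h => ?_
  obtain ⟨g, h1, h2⟩ := (by decide +kernel : ∀ n : Equiv.Perm (Fin 3), n ≠ 1 →
    ∃ g : Equiv.Perm (Fin 3), g * n * g⁻¹ * n⁻¹ ≠ 1 ∧ (g * n * g⁻¹ * n⁻¹) ^ 3 = 1) n h
  obtain ⟨k, h3, h4⟩ := hc _ (mul_mem (hN.conj_mem n hn g) (inv_mem hn))
  exact h1 (mem_of_cop (H := ⊥) h3 h4 h2)

section L
variable {n : ℕ} {F : Type*} [Field F]

/-- the standard alternating matrix -/
def J2 (F : Type*) [Field F] : GL (Fin 2) F :=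
  ⟨!![0, 1; -1, 0], !![0, -1; 1, 0], by simp [← one_fin_two], by simp [← one_fin_two]⟩

lemma bil_J2 (u v : Fin 2 → F) : bil (J2 F).1 u v = u 0 * v 1 - u 1 * v 0 := by
  show u ⬝ᵥ ((J2 F).1 *ᵥ v) = _
  simp [J2, dotProduct, mulVec, sub_eq_add_neg]

lemma iso_J2 {g : GL (Fin 2) F} (h : det g = 1) : g ∈ Iso (bil (J2 F).1) := mem_Iso.2 fun u v => by
  have := congrArg Units.val h
  rw [GeneralLinearGroup.val_det_apply, det_fin_two, Units.val_one] at this
  simp only [bil_J2, mulVec, dotProduct, Fin.sum_univ_two]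
  linear_combination (u 0 * v 1 - u 1 * v 0) * this

lemma pt_SL (hn : 2 ≤ n) {F' : Type*} [Field F'] (j : F →+* F') :
    PT j (specialLinear (Fin n) F) := by
  haveI : Nontrivial (Fin n) := Fin.nontrivial_iff_two_le.2 hn
  refine pt_all fun v hv => ?_
  obtain ⟨x, hx⟩ : ∃ x, x ∉ F ∙ v := by
    by_contra hc
    push Not at hc
    have := finrank_span_singleton (K := F) hv
    rw [show F ∙ v = ⊤ from eq_top_iff.2 fun x _ => hc x, finrank_top, finrank_fin_fun] at this
    omega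
  obtain ⟨φ, h1, h2⟩ := exists_dual_eq1 hx (1 : F)
  have e : ∀ w, ((tvGL h1).1 - 1) ^ 1 *ᵥ w = φ w • v := fun w => by
    rw [pow_one, sub_mulVec, tvGL_mulVec, one_mulVec, add_sub_cancel_left]
  refine ⟨tvGL h1, tvGL_mem h1, 1, by simp [tvGL_mulVec, h1], fun w => ⟨_, e w⟩, fun h => hv ?_⟩
  simpa [h, h2] using (e x).symm

variable [Fintype F]

lemma np_SL (hn : 2 ≤ n) {p : ℕ} [hp : Fact p.Prime] (h2 : (p : F) ≠ 0)
    (hd : p ∣ Nat.card (specialLinear (Fin n) F)) :
    NP p (scalars _ F) (specialLinear (Fin n) F) := by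
  rw [show specialLinear (Fin n) F = _ from range_toGL.symm] at hd ⊢
  rw [← Nat.card_congr
    (MonoidHom.ofInjective SpecialLinearGroup.toGL_injective).toEquiv] at hd
  by_cases hs : n = 2 → 4 ≤ Fintype.card F
  · haveI : IsSimpleGroup (Matrix.ProjectiveSpecialLinearGroup (Fin n) F) := by
      rcases hn.eq_or_lt with rfl | h
      · exact ProjectiveSpecialLinearGroup.rank_two_simple (by simpa using hs rfl)
      · exact Cfsg.Agent.S0249.result n h
    exact (carSL hn hs).np hd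
  obtain ⟨rfl, h⟩ := Classical.not_imp.1 hs
  have h0 := FiniteField.cast_card_eq_zero F
  have h24 : ∀ k, p ∣ 2 ^ k * 3 → p = 2 ∨ p = 3 := fun k h =>
    ((Nat.Prime.dvd_mul hp.out).1 h).imp (fun h => (Nat.prime_dvd_prime_iff_eq hp.out
      Nat.prime_two).1 (hp.out.dvd_of_dvd_pow h))
      (Nat.prime_dvd_prime_iff_eq hp.out Nat.prime_three).1
  rw [card_sl2, Nat.card_eq_fintype_card] at hd
  obtain h3 | h3 : Fintype.card F = 2 ∨ Fintype.card F = 3 := by
    have := Fintype.one_lt_card (α := F); omega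
  all_goals rw [h3] at hd h0
  · obtain rfl : p = 3 := (h24 1 hd).resolve_left (by rintro rfl; exact h2 h0)
    obtain ⟨e⟩ := Cfsg.Agent.S0250.result h3
    have := np_two_field (by rw [Nat.card_eq_fintype_card, h3])
      (SpecialLinearGroup.toGL.comp e.symm.toMonoidHom)
      (SpecialLinearGroup.toGL_injective.comp e.symm.injective) np_S3
    rwa [MonoidHom.range_comp, MonoidHom.range_eq_top.2 e.symm.surjective,
      ← MonoidHom.range_eq_map] at this
  · obtain rfl : p = 2 := (h24 3 hd).resolve_right (by rintro rfl; exact h2 h0)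
    let f := altForm (Matrix.toBilin' (J2 F).1) fun v => by
      rw [toBilin'_apply']; exact (bil_J2 v v).trans (by ring)
    have hb : ∀ x y, f.B x y = bil (J2 F).1 x y := fun x y => toBilin'_apply' _ x y
    have hf : f.ND := fun x hx => by
      have a := hx ![1, 0]
      have b := hx ![0, 1]
      simp [hb, bil_J2] at a b
      ext i; fin_cases i <;> simpa
    obtain ⟨u, w, h⟩ := alt_exists_hyp hf (by simp)
    obtain ⟨h1, h4⟩ := iso_range hb fun _ _ _ => rfl
    rw [inf_eq_right.2 fun g hg => iso_J2 hg] at h1 h4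
    rw [range_toGL]
    exact np_two (odd_char (by exact_mod_cast h2)) hf alt_rich.wrich alt_prim h h1 h4

local notation "PSL" => Matrix.ProjectiveSpecialLinearGroup (Fin n) F

lemma hs_L (hK : IsSimpleGroup PSL) : n = 2 → 4 ≤ Fintype.card F := by
  rintro rfl
  by_contra h
  have e := card_psl_mul (ι := Fin 2) (F := F)
  rw [card_sl2, Nat.card_eq_fintype_card (α := F)] at e
  obtain h3 | h3 : Fintype.card F = 2 ∨ Fintype.card F = 3 := by
    have := Fintype.one_lt_card (α := F); omega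
  all_goals rw [h3] at e
  · exact not_simple (N := 6) (by simpa using e) (by norm_num) (by norm_num) hK
  · exact not_simple (N := 12) (by simp at e; omega) (by norm_num) (by norm_num) hK

variable {hn : 2 ≤ n} {hs : n = 2 → 4 ≤ Fintype.card F}
  {y₀ : MulAut (ProjectiveSpecialLinearGroup (Fin n) F)} (hι : (carSL hn hs).Rep it y₀)

include hn hs in
lemma two_dvd_PSL (h3 : 3 ≤ n) (h2 : (2 : F) ≠ 0) : 2 ∣ Nat.card PSL := by
  obtain ⟨s, hs'⟩ := (carSL_range (hn := hn) (hs := hs)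
    (g := dg1 ⟨0, by omega⟩ (-1) * dg1 ⟨1, by omega⟩ (-1))).2 (by simp [det_dg1])
  refine (orderOf_eq_prime (x := (s : PSL)) (p := 2) ?_ fun e => ?_) ▸ orderOf_dvd_natCard _
  · rw [← QuotientGroup.mk_pow, show s ^ 2 = 1 from (carSL hn hs).inj ?_, QuotientGroup.mk_one]
    rw [map_pow, hs', map_one]
    ext a b
    by_cases h : a = b <;> simp [dg1, sq, h, Function.update_apply]
    split_ifs <;> simp
  · obtain ⟨z, hz⟩ := mem_sc.1 ((carSL hn hs).mem_center.1 ((QuotientGroup.eq_one_iff s).1 e))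
    rw [hs'] at hz
    have a := congrArg (fun g : GL (Fin n) F => g.1 ⟨0, by omega⟩ ⟨0, by omega⟩) hz
    have b := congrArg (fun g : GL (Fin n) F => g.1 ⟨2, by omega⟩ ⟨2, by omega⟩) hz
    simp [dg1, sc_coe] at a b
    exact h2 (by linear_combination b - a)

include hι

lemma gamSL_or (α : MulAut PSL) :
    α ∈ Gam (carSL hn hs) ∨ (3 ≤ n ∧ α * y₀⁻¹ ∈ Gam (carSL hn hs)) := by
  obtain ⟨g, θ, β, rfl | rfl, σ, h, rfl⟩ := decompSL (hn := hn) (hs := hs) α
  · exact Or.inl ⟨g, σ, ((overSL.rep g).mul h).congr (by simp)⟩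
  have h1 : _ * y₀⁻¹ ∈ Gam (carSL hn hs) :=
    ⟨g, σ, (((overSL.rep g).mul h).mul hι.inv).congr (by simp [mul_assoc])⟩
  rcases hn.eq_or_lt with rfl | h3
  · refine Or.inl ((mul_mem_cancel_right (inv_mem ?_)).1 h1)
    refine ⟨J2 F, 1, by simpa using overSL.nrm (J2 F) trivial, fun s s' e => hι.ind s s' ?_⟩
    have := ml_bil.1 (ml_one.2 (iso_J2 ((carSL_range (hn := hn) (hs := hs)).1 ⟨s, rfl⟩)))
    rw [map_one, one_mul, mul_assoc, inv_mul_eq_iff_eq_mul] at this
    simpa [e, mul_inv_eq_iff_eq_mul] using this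
  · exact Or.inr ⟨h3, h1⟩

lemma not_fixL (h3 : 3 ≤ n) {α : MulAut PSL} (h : α * y₀⁻¹ ∈ Gam (carSL hn hs))
    (H : ∀ s : SL(n, F), (∀ σ, fm σ ((carSL hn hs).e s) = (carSL hn hs).e s) →
      α (s : PSL) = s) : False := by
  obtain ⟨g, τ, h⟩ := h
  have h1 := h.mul hι
  rw [inv_mul_cancel_right] at h1
  let i : Fin n := ⟨0, by omega⟩
  have key : ∀ k, k ≠ i → ∃ c : F, g.1 *ᵥ Pi.single k 1 = c • Pi.single i 1 := fun k hk => by
    let s := SpecialLinearGroup.transvection hk.symm (1 : F)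
    have e0 : ∀ σ, fm σ ((carSL hn hs).e s) = (carSL hn hs).e s := fun σ => by
      ext a b
      show σ (transvection i k 1 a b) = transvection i k 1 a b
      simp [transvection, one_apply, single, apply_ite σ]
    obtain ⟨z, hz⟩ := mem_sc.1 (h1.tw_mem (H s e0))
    rw [mul_inv_eq_iff_eq_mul, MulAut.mul_apply, MulAut.mul_apply, fm_it, e0, MulAut.conj_apply,
      mul_inv_eq_iff_eq_mul] at hz
    have e : ∀ y, g.1 *ᵥ (y - y i • Pi.single k 1) =
        (z : F) • (g.1 *ᵥ y + (g.1 *ᵥ y) k • Pi.single i 1) := fun y => by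
      have := congrArg (fun a : GL (Fin n) F => a.1 *ᵥ y) hz
      simp only [mul_assoc, sc_mul_coe, smul_mulVec] at this
      simp only [Units.val_mul, ← mulVec_mulVec, it_coe, ← map_inv] at this
      refine (congrArg _ ?_).trans (this.trans (congrArg _ ?_))
      · show _ = ((s⁻¹).1)ᵀ *ᵥ y
        rw [SpecialLinearGroup.transvection_inv]
        simp [SpecialLinearGroup.transvection, transvection, add_mulVec, single_mulVec_eq,
          sub_eq_add_neg]
      · show transvection i k (1 : F) *ᵥ _ = _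
        generalize g.1 *ᵥ y = w
        simp [transvection, add_mulVec, single_mulVec_eq]
    have z1 : (z : F) = 1 := by
      by_contra z1
      obtain ⟨y, hg⟩ : ∃ y, g.1 *ᵥ y = Pi.single i 1 :=
        ⟨(g⁻¹).1 *ᵥ _, by rw [mulVec_mulVec, Units.mul_inv, one_mulVec]⟩
      have e1 := e y
      rw [hg, Pi.single_eq_of_ne hk, zero_smul, add_zero, ← hg, ← mulVec_smul, ← sub_eq_zero,
        ← mulVec_sub, gl_mulVec_eq_zero] at e1
      have yi : y i = 0 := (mul_eq_zero.1 (show (1 - z : F) * y i = 0 by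
        simpa [hk.symm, sub_mul] using congrFun e1 i)).resolve_left (sub_ne_zero.2 (Ne.symm z1))
      rw [yi, zero_smul, sub_zero, ← one_smul F y, smul_smul, mul_one, ← sub_smul, smul_eq_zero,
        or_iff_right (sub_ne_zero.2 (Ne.symm z1))] at e1
      simpa [e1] using congrFun hg i
    refine ⟨-(g.1 *ᵥ Pi.single i 1) k, ?_⟩
    have := e (Pi.single i 1)
    rw [z1, one_smul, mulVec_sub, Pi.single_eq_same, one_smul, sub_eq_add_neg, add_right_inj,
      neg_eq_iff_eq_neg, ← neg_smul] at this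
    exact this
  obtain ⟨a, ha⟩ := key ⟨1, by omega⟩ (by simp [i])
  obtain ⟨b, hb⟩ := key ⟨2, by omega⟩ (by simp [i])
  have e := congrFun (gl_mulVec_eq_zero.1 (show g.1 *ᵥ (b • Pi.single ⟨1, by omega⟩ 1 -
    a • Pi.single ⟨2, by omega⟩ 1) = 0 by
      rw [mulVec_sub, mulVec_smul, mulVec_smul, ha, hb, smul_comm, sub_self])) ⟨2, by omega⟩
  have a0 : a = 0 := by simpa using e
  rw [a0, zero_smul] at ha
  simpa using gl_mulVec_eq_zero.1 ha

omit hι in
include hn in
theorem s2686 {r : ℕ} [hr : Fact r.Prime] [CharP F r] (hK : IsSimpleGroup PSL)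
    (A : Subgroup (MulAut PSL)) (hinn : ∀ k, MulAut.conj k ∈ A) {p : ℕ}
    [hp : Fact p.Prime] (hpr : p ≠ r) (x : MulAut PSL) (hord : orderOf x = p)
    (hnot : ¬ IsInnerDiagonalAutPSL x) :
    pPrimeCore p ↥(A ⊓ centralizer {x}) ≠ ⊥ ↔
      ((∃ γ φ : MulAut PSL, IsInnerDiagonalAutPSL γ ∧ IsFieldAutPSL φ ∧ x = φ.trans γ) ∧
        p.Coprime (Nat.card (fx x))) := by
  have hs := hs_L hK
  have hx : x ^ p = 1 := hord ▸ pow_orderOf_eq_one x
  have hZ := (carSL hn hs).center_bot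
  have hp0 : (p : F) ≠ 0 := fun h => hpr ((Nat.prime_dvd_prime_iff_eq hr.out hp.out).1
    ((CharP.cast_eq_zero_iff F r p).1 h)).symm
  have hT : PT (RingHom.id F) (carSL hn hs).e.range := by
    have := pt_SL (F := F) hn (RingHom.id F)
    rwa [show specialLinear (Fin n) F = _ from range_toGL.symm] at this
  obtain ⟨y₀, hι⟩ := (nrmSL_it (hn := hn) (hs := hs)).exists_rep
  by_cases hΓ : x ∈ Gam (carSL hn hs)
  · obtain ⟨g, σ, h⟩ := hΓ
    have hσ : σ ^ p = 1 := pow_fa hT h hx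
    obtain ⟨y, hy⟩ := (nrmSL_fm (hn := hn) (hs := hs) σ).exists_rep
    have e : x = overSL.c ⟨g, trivial⟩ * y := h.unique ((overSL.rep ⟨g, trivial⟩).mul hy)
    have h1 : σ ≠ 1 := by
      rintro rfl
      exact hnot (isID_iff.2 ⟨_, by
        rw [e, hy.unique (Car.Rep.one.congr (map_one _).symm), mul_one]⟩)
    have ho : orderOf σ = p := (orderOf_eq_iff_pow hp.out h1).2 hσ
    rw [and_iff_right ⟨_, y, isID_iff.2 ⟨_, rfl⟩, ⟨σ, fun s s' e => hy.ind s s' (Units.ext e)⟩, e⟩]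
    obtain ⟨α, -, e'⟩ := langSL_fm hy _ ⟨⟨g, trivial⟩, rfl⟩ (by rw [← e, ho, hx])
    rw [← e] at e'
    have hyp : y ^ p = 1 := by rwa [e', conj_pow, conj_eq_one_iff] at hx
    obtain ⟨K, hj⟩ := exists_fix σ
    haveI := Fintype.ofFinite K
    obtain ⟨h3, h4⟩ := main_of (C := carSL hn hs) rfl hy hyp hj hσ 1
      (fld_T hj fun t => by rw [carSL_range, det_gm_one]) (pt_SL hn _)
      (np_SL hn fun h => hp0 (by rw [← map_natCast K.subtype, h, map_zero]))
      fun β H => Or.inl ((gamSL_or hι β).resolve_right fun ⟨h1, h2⟩ =>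
        not_fixL hι h1 h2 fun s h => H s (h σ))
    exact core_iff hZ hinn e' h3 h4
  obtain ⟨h3, h4⟩ := (gamSL_or hι x).resolve_left hΓ
  have key : ∀ {y}, y * y₀⁻¹ ∈ Gam (carSL hn hs) → ∀ α, α ∈ Gam (carSL hn hs) ∨
      ((1 : F ≃+* F) = 1 ∧ α * y⁻¹ ∈ Gam (carSL hn hs)) := fun h α =>
    (gamSL_or hι α).imp_right fun h' => ⟨rfl, by simpa using mul_mem h'.2 (inv_mem h)⟩
  obtain rfl : p = 2 := by
    by_contra h2
    refine hΓ (mem_of_cop ((Nat.coprime_primes Nat.prime_two hp.out).2 (Ne.symm h2))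
      ((key h4 _).resolve_right fun h => hΓ (by simpa [sq] using h.2)) ?_)
    rw [hx]; exact one_mem _
  have h2 : (2 : F) ≠ 0 := by exact_mod_cast hp0
  refine iff_of_false (fun h => ?_) ?_
  swap
  · rintro ⟨⟨γ, φ, h1, ⟨σ, h5⟩, rfl⟩, -⟩
    obtain ⟨g, rfl⟩ := (isID_iff (hn := hn) (hs := hs)).1 h1
    exact hΓ ⟨g, σ, (overSL.rep g).mul (repSL_fm h5)⟩
  suffices ∃ y α, x = α * y * α⁻¹ ∧ fx y ≠ ⊥ ∧ (2 ∣ Nat.card (fx y) → Dat 2 y) by
    obtain ⟨y, α, e, h5, h6⟩ := this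
    exact absurd ((core_iff hZ hinn e h5 h6).1 h) (Nat.Prime.dvd_iff_not_coprime hp.out |>.1
      (dvd_fx hx (two_dvd_PSL (hn := hn) (hs := hs) h3 h2)))
  have hj : ∀ a : F, (1 : F ≃+* F) a = a ↔ a ∈ (RingHom.id F).range := fun a => by simp
  obtain ⟨g, σ, h5⟩ := id h4
  have h6 := h5.mul hι
  rw [inv_mul_cancel_right, mul_assoc] at h6
  obtain ⟨y, hy⟩ := ((nrmSL_fm (hn := hn) (hs := hs) σ).mul nrmSL_it).exists_rep
  have e : x = overSL.c ⟨g, trivial⟩ * y := h6.unique ((overSL.rep ⟨g, trivial⟩).mul hy)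
  by_cases h1 : σ = 1
  · subst h1
    obtain ⟨M, hM, h7⟩ := (gdL (hn := hn) (hs := hs) h3).ex x
      ⟨h3, _, y, isID_iff.2 ⟨_, rfl⟩, Rep.isIT (hy.congr (by simp)), e⟩ hord
    obtain ⟨h8, h9⟩ := gf_data (j := RingHom.id F) h2 (by simpa) hM
    refine ⟨x, 1, by simp, main_of (C := carSL hn hs) rfl h7 hx hj (one_pow _) 1 (fun g => ?_) h8
      (fun _ => h9) fun α _ => (key h4 α).imp_right Or.inl⟩
    simp only [gm_id, one_mul, inv_one, mul_one, exists_eq_right]
    rw [mem_inf, and_comm, carSL_range, ← ml_one, ml_bil, map_one, one_mul, mul_assoc,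
      inv_mul_eq_iff_eq_mul, MulAut.mul_apply, MulAut.conj_apply, inv_inv, mul_assoc,
      inv_mul_eq_iff_eq_mul, eq_comm]
    rfl
  have hσ : σ ^ 2 = 1 := by
    have := h6.pow 2
    rw [hx, conj_mul_pow, (fm_comm_it σ).mul_pow, sq it, it_mul_it, mul_one, ← map_pow] at this
    simpa using pow_fa (p := 1) hT this (one_pow _)
  obtain ⟨q, hF, rfl⟩ := exists_frobE (orderOf_eq_prime hσ h1)
  obtain ⟨α, -, e'⟩ := langSL_tw hF hy _ ⟨⟨g, trivial⟩, rfl⟩ (by rw [← e, hx])
  rw [← e] at e'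
  obtain ⟨u, w, h7⟩ := u_exists_hyp (uForm_ND hF n) (by simp; omega)
  refine ⟨y, α, e', main_of (C := carSL hn hs) rfl hy (by
    rwa [e', conj_pow, conj_eq_one_iff] at hx) hj (one_pow _) 1 (fun g => ?_) (pt_SU hF h3 _)
    (fun _ => np_two (odd_char h2) (uForm_ND hF n) u_wrich u_prim h7 (su_eq_E hF h3).ge
      ((su_eq_E hF h3).le.trans (map_le_range _ _))) fun α _ => (key ⟨1, frobE hF,
        (hy.mul hι.inv).congr (by simp)⟩ α).imp_right Or.inl⟩
  simp only [gm_id, one_mul, inv_one, mul_one, exists_eq_right]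
  rw [mem_inf, and_comm, carSL_range, mem_GU hF]
  rfl

end L

end H4.Au
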