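import Cfsg.Agent.H4.GrB

/-! Involutory graph automorphisms of linear groups. -/

set_option autoImplicit false

namespace H4.Au
open Matrix Cfsg Cfsg.Geo Subgroup Module H4.As
open scoped MatrixGroups commutatorElement

local notation "det" => GeneralLinearGroup.det

lemma Car.Over.conjZ {S G : Type*} [Group S] [Group G] {C : Car S G} {H : Subgroup G}
    (o : C.Over H) {θ : MulAut G} (hθ : C.Nrm θ) {a b : G} {β β' : MulAut (S ⧸ center S)}
    (h : C.Rep (MulAut.conj a * θ) β) (h' : C.Rep (MulAut.conj b * θ) β') :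
    IsConjUnder o.c.range β β' ↔ ∃ k ∈ H, b⁻¹ * (k * a * (θ k)⁻¹) ∈ C.Z := by
  obtain ⟨x, hx⟩ := hθ.exists_rep
  have key : ∀ k : H, β' = o.c k * β * (o.c k)⁻¹ ↔ b⁻¹ * (k * a * (θ k)⁻¹) ∈ C.Z := fun k => by
    rw [← Car.Rep.conj_eq_one (((h'.mul hx.inv).inv.mul ((((o.rep k).mul h).mul (o.rep k).inv).mul
      hx.inv)).congr (by ext g; simp [mul_assoc])), inv_mul_eq_one, mul_left_inj]
  exact ⟨by rintro ⟨_, ⟨k, rfl⟩, e⟩; exact ⟨k, k.2, (key k).1 e⟩,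
    fun ⟨k, hk, e⟩ => ⟨_, ⟨⟨k, hk⟩, rfl⟩, (key ⟨k, hk⟩).2 e⟩⟩

lemma split_abs {n : ℕ} {F D : Type*} [Field F] [Finite F] [CommGroup D] [Finite D] [IsCyclic D]
    (hn : 0 < n) {M : GL (Fin n) F} (hM : GF M) (η : D) (hη : (2 : F) ≠ 0 → orderOf η = 2)
    (T : Fˣ → Fˣ → D → Prop)
    (h1 : ∀ m, n = 2 * m → ∀ l, (∃ c, T c (c ^ m) l) ↔ ∃ e, l = e ^ m)
    (h2 : ∀ m, n = 2 * m → ∀ l, (∃ c, T c (-c ^ m) l) ↔ ∃ e, l = e ^ m * η)
    (h3 : ∀ l, (∃ a, T (a ^ 2) (a ^ n) l) ↔ ∃ e, l = e ^ n) {s : ℕ}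
    (hs : ∀ L : Subgroup D, (∀ l, l ∈ L ↔ ∃ c d, MD (bil M.1) c d ∧ T c d l) → s = L.index) :
    (Even n ∧ (2 : F) ≠ 0 ∧ Nonempty (projQuot (similarityGroup (bil M.1)) ≃* PGSp (n / 2) F) →
      s = Nat.gcd (n / 2) (Nat.card D)) ∧
    (Even n ∧ (2 : F) ≠ 0 ∧ ¬ Nonempty (projQuot (similarityGroup (bil M.1)) ≃* PGSp (n / 2) F) →
      s = Nat.gcd n (Nat.card D) / 2) ∧ (¬ (Even n ∧ (2 : F) ≠ 0) → s = Nat.gcd n (Nat.card D)) := by
  classical
  obtain ⟨t1, t2, t3⟩ := md_tri hn hM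
  refine ⟨fun h => ?_, fun h => ?_, fun h => ?_⟩
  · rw [hs (powMonoidHom (n / 2)).range fun l => ?_, IsCyclic.index_powMonoidHom_range, Nat.gcd_comm]
    simp [t1 h, h1 _ (Nat.two_mul_div_two_of_even h.1).symm, eq_comm]
  · have e := (zpowers η).card_mul_index
    rw [Nat.card_zpowers, hη h.2.1] at e
    have e' := (Nat.two_mul_div_two_of_even h.1).symm
    rw [hs ((powMonoidHom (n / 2)).range ⊔ zpowers η) fun l => ?_, index_sup_cyc,
      IsCyclic.index_powMonoidHom_range, Nat.gcd_comm _ (n / 2), Nat.gcd_assoc,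
      Nat.gcd_eq_right (zpowers η).index_dvd_card, ← e]
    · conv_rhs => rw [e', Nat.gcd_mul_left, Nat.mul_div_cancel_left _ two_pos]
    simp only [t2 h, or_and_right, exists_or, exists_eq_left, h1 _ e', h2 _ e', mem_sup]
    constructor
    · rintro ⟨_, ⟨c, rfl⟩, z, hz, rfl⟩
      rw [mem_zpowers_iff_mem_range_orderOf, hη h.2.1] at hz
      obtain ⟨k, hk, rfl⟩ := Finset.mem_image.1 hz
      have : k = 0 ∨ k = 1 := by simp at hk; omega
      rcases this with rfl | rfl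
      exacts [.inl ⟨c, by simp⟩, .inr ⟨c, by simp⟩]
    · rintro (⟨c, rfl⟩ | ⟨c, rfl⟩)
      exacts [⟨_, ⟨c, rfl⟩, 1, one_mem _, mul_one _⟩, ⟨_, ⟨c, rfl⟩, η, mem_zpowers η, rfl⟩]
  · rw [hs (powMonoidHom n).range fun l => ?_, IsCyclic.index_powMonoidHom_range, Nat.gcd_comm]
    simp only [t3 h, MonoidHom.mem_range, powMonoidHom_apply, eq_comm (b := l), ← h3]
    exact ⟨fun ⟨a, e⟩ => ⟨_, _, ⟨a, rfl, rfl⟩, e⟩, by rintro ⟨_, _, ⟨a, rfl, rfl⟩, e⟩; exact ⟨a, e⟩⟩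

lemma ord_neg {F : Type*} [Field F] (h2 : (2 : F) ≠ 0) : orderOf (-1 : Fˣ) = 2 :=
  orderOf_eq_prime (by simp) fun h => h2 (by
    have := congrArg Units.val h
    simp only [Units.val_neg, Units.val_one] at this
    linear_combination -this)

section L
variable {n : ℕ} {F : Type*} [Field F] [Fintype F] {hn : 2 ≤ n} {hs : n = 2 → 4 ≤ Fintype.card F}

local notation "PSL" => ProjectiveSpecialLinearGroup (Fin n) F

omit [Fintype F] in
lemma exists_tr (h3 : 3 ≤ n) : ∃ s : SpecialLinearGroup (Fin n) F, s.1.trace ≠ (s⁻¹).1.trace := by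
  let i : Fin n := ⟨0, by omega⟩
  let j : Fin n := ⟨1, by omega⟩
  let k : Fin n := ⟨2, by omega⟩
  have ij : i ≠ j := by simp [i, j]
  have jk : j ≠ k := by simp [k, j]
  have ki : k ≠ i := by simp [i, k]
  let t : ∀ {a b : Fin n}, a ≠ b → F → SpecialLinearGroup (Fin n) F := fun h c =>
    ⟨transvection _ _ c, det_transvection_of_ne _ _ h c⟩

  have e : ∀ {a b : Fin n} (h : a ≠ b), (t h 1)⁻¹ = t h (-1) := fun h =>
    inv_eq_of_mul_eq_one_right (Subtype.ext (by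
      change transvection _ _ _ * transvection _ _ _ = 1
      simp [transvection_mul_transvection_same _ _ h]))
  refine ⟨t ij 1 * t jk 1 * t ki 1, ?_⟩
  rw [_root_.mul_inv_rev, _root_.mul_inv_rev, e ij, e jk, e ki]
  change trace ((1 + single i j 1) * (1 + single j k 1) * (1 + single k i (1 : F))) ≠
    trace ((1 + single k i (-1)) * ((1 + single j k (-1)) * (1 + single i j (-1 : F))))
  simp [mul_add, add_mul, ij, jk, ki, ij.symm, jk.symm, ki.symm]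

omit [Fintype F] in
lemma cent_it {ι : Type} [Fintype ι] [DecidableEq ι] {M g : GL ι F} :
    g * ((MulAut.conj M⁻¹ * it : MulAut _) g)⁻¹ ∈ scalars ι F ↔ g ∈ similarityGroup (bil M.1) := by
  rw [sim_iff, ← center_eq_sc, show g * ((MulAut.conj M⁻¹ * it : MulAut _) g)⁻¹ =
    (g * M⁻¹) * ((it g)⁻¹ * M) by simp [mul_assoc], Normal.mem_comm_iff inferInstance, ← mul_assoc]

theorem gdL (h3 : 3 ≤ n) : GD (inndiagPSL n F) IsGraphAutClassPSL
    fun γ M => (carSL hn hs).Rep (MulAut.conj M⁻¹ * it) γ := by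
  haveI : Nonempty (Fin n) := ⟨⟨0, by omega⟩⟩
  have hi : (it : MulAut (GL (Fin n) F)) ^ 2 = 1 := (sq _).trans it_mul_it
  have key : ∀ M : GL (Fin n) F, tn it M⁻¹ 2 ∈ scalars _ F ↔ GF M := fun M => by
    rw [tn_two, gf_iff, map_inv, ← _root_.mul_inv_rev, inv_mem_iff, ← center_eq_sc,
      Normal.mem_comm_iff inferInstance]
  rw [inndiagPSL_eq (hn := hn) (hs := hs)]
  refine ⟨?_, fun M hM => ?_, fun {γ M} h => ?_, fun {γ M γ' M'} h h' => ?_⟩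
  · rintro _ ⟨-, δ, γ, h1, h2, rfl⟩ h4
    obtain ⟨g, rfl⟩ := (isID_iff (hn := hn) (hs := hs)).1 h1
    refine ⟨g.1⁻¹, (key _).1 ?_, ?_⟩ <;> rw [inv_inv]
    · exact (overSL.pow_eq_one_iff (repSL_it h2) hi g).1 (h4 ▸ pow_orderOf_eq_one _)
    · exact (overSL.rep g).mul (repSL_it h2)
  · obtain ⟨x, hx⟩ := (nrmSL_it (hn := hn) (hs := hs)).exists_rep
    have h1 := (overSL.rep ⟨M⁻¹, trivial⟩).mul hx
    refine ⟨_, ⟨h3, _, x, (isID_iff (hn := hn) (hs := hs)).2 ⟨⟨M⁻¹, trivial⟩, rfl⟩, Rep.isIT hx,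
      rfl⟩, orderOf_eq_prime ((overSL.pow_eq_one_iff hx hi ⟨M⁻¹, trivial⟩).2 ((key M).2 hM))
      fun e => ?_, h1⟩
    obtain ⟨s, h4⟩ := exists_tr (F := F) h3
    have := congrArg (fun g : GL (Fin n) F => g.1.trace) (h1.eq_one_iff.1 e s)
    simp only [MulAut.mul_apply, MulAut.conj_apply, Units.val_mul, inv_inv] at this
    rw [trace_mul_cycle, Units.mul_inv, one_mul, it_coe, trace_transpose, ← map_inv] at this
    exact h4 this.symm
  · exact overSL.cent_equiv h (inclusion (le_top : similarityGroup (bil M.1) ≤ ⊤))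
      ((scalars _ F).subgroupOf _) (fun g => Iff.rfl) (fun g => cent_it.2 g.2)
      fun g _ hg => ⟨⟨g, cent_it.1 hg⟩, 1, one_mem _, (one_mul _).symm⟩
  · rw [overSL.conjZ nrmSL_it h h', sm_bil]
    have : ∀ k : GL (Fin n) F, M'⁻¹⁻¹ * (k * M⁻¹ * (it k)⁻¹) ∈ scalars _ F ↔
        ∃ c, (it k⁻¹)⁻¹ * M * k⁻¹ = sc c * M' := fun k => by
      rw [← inv_mem_iff, mem_sc]
      exact exists_congr fun c => by
        rw [← mul_inv_eq_iff_eq_mul]; simp [mul_assoc]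
    exact ⟨fun ⟨k, _, e⟩ => ⟨_, (this k).1 e⟩,
      fun ⟨k, e⟩ => ⟨k⁻¹, trivial, (this _).2 (by rwa [inv_inv])⟩⟩

theorem s2702 (h3 : 3 ≤ n) {γ : MulAut PSL} (h : IsGraphAutClassPSL γ) (h2 : orderOf γ = 2) :
    (Even n ∧ (2 : F) ≠ 0 ∧ Nonempty (↥(inndiagPSL n F ⊓ centralizer {γ}) ≃* PGSp (n / 2) F) →
      splitClassCount (inndiagPSL n F) (Inn PSL) γ = Nat.gcd (n / 2) (Fintype.card F - 1)) ∧
    (Even n ∧ (2 : F) ≠ 0 ∧ ¬ Nonempty (↥(inndiagPSL n F ⊓ centralizer {γ}) ≃* PGSp (n / 2) F) →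
      splitClassCount (inndiagPSL n F) (Inn PSL) γ = Nat.gcd n (Fintype.card F - 1) / 2) ∧
    (¬ (Even n ∧ (2 : F) ≠ 0) →
      splitClassCount (inndiagPSL n F) (Inn PSL) γ = Nat.gcd n (Fintype.card F - 1)) := by
  have D := gdL (F := F) (hn := by omega) (hs := by omega) h3
  obtain ⟨M, hM, r⟩ := D.ex γ h h2
  obtain ⟨e⟩ := D.cent r
  rw [show Nonempty (↥(inndiagPSL n F ⊓ centralizer {γ}) ≃* PGSp (n / 2) F) ↔ _ from
    ⟨Nonempty.map e.symm.trans, Nonempty.map e.trans⟩, ← Nat.card_eq_fintype_card,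
    ← Nat.card_units]
  refine split_abs (by omega) hM (-1) ord_neg (fun _ d l => l = d) (by simp) (by simp) (by simp)
    fun L hL => ?_
  rw [inndiagPSL_eq (hn := by omega) (hs := by omega)]
  refine splitSL r (fun g hg => ?_) fun l hl => ?_
  · obtain ⟨c, hc⟩ := cent_it.1 hg
    exact (hL _).2 ⟨c, _, ⟨g, hc, rfl⟩, rfl⟩
  · obtain ⟨c, _, ⟨g, hc, rfl⟩, rfl⟩ := (hL _).1 hl
    exact ⟨g, cent_it.2 ⟨c, hc⟩, rfl⟩

end L

end H4.Au
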