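import Cfsg.Agent.H4.AuP
import Cfsg.Agent.H4.GrC
import Cfsg.Agent.H4.TbE

/-! Lang's theorem for field automorphisms of orthogonal groups. -/

set_option autoImplicit false

namespace H4.Au
open Matrix Cfsg Cfsg.Geo Subgroup Module H4.As
open scoped MatrixGroups commutatorElement

local notation "GO" => quadSimilarityGroup
local notation "QF" F "," ι => Form (quadKind F) (ι → F)

lemma hasTS_congr {F V W : Type*} [Field F] [AddCommGroup V] [Module F V] [AddCommGroup W]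
    [Module F W] {f : Form (quadKind F) V} {f' : Form (quadKind F) W} (e : V ≃ₗ[F] W) {c : F}
    (hc : c ≠ 0) (h : ∀ x, f'.Q (e x) = c * f.Q x) {m : ℕ} : f.HasTS m ↔ f'.HasTS m := by
  refine ⟨fun ⟨U, h1, h2⟩ => ⟨U.map e.toLinearMap, (quad_TS_iff _).2 ?_, ?_⟩,
    fun ⟨U, h1, h2⟩ => ⟨U.map e.symm.toLinearMap, (quad_TS_iff _).2 ?_, ?_⟩⟩
  · rintro _ ⟨x, hx, rfl⟩
    rw [LinearEquiv.coe_coe, h, h1.1 x hx, mul_zero]
  · rwa [LinearEquiv.finrank_map_eq]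
  · rintro _ ⟨x, hx, rfl⟩
    have := h (e.symm x)
    rw [e.apply_symm_apply, h1.1 x hx] at this
    exact (mul_eq_zero.1 this.symm).resolve_left hc
  · rwa [LinearEquiv.finrank_map_eq]

lemma prop_aux {T0 T1 T2 T3 A G G' R : Prop} (a1 : (T0 ↔ T3) → (A ↔ R))
    (a2 : (T1 ↔ T0) → (G ↔ A)) (a3 : (T1 ↔ T3) → (G ↔ R)) (a4 : (T2 ↔ T0) → (G' ↔ A))
    (a5 : (T2 ↔ T3) → (G' ↔ R)) (a6 : ¬ R) (a7 : A) (h : G ↔ G') : T1 ↔ T2 := by
  by_cases T0 <;> by_cases T1 <;> by_cases T2 <;> by_cases T3 <;> simp_all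

lemma lang_trans {A A' : Type*} [Group A] [Group A'] (e : A ≃* A') {H : Subgroup A}
    {H' : Subgroup A'} (hH : ∀ h, h ∈ H ↔ e h ∈ H') (hN : H'.Normal) {x : A} {r : ℕ}
    (hx : orderOf x = r) (h : orderOf (e x) = r → ∀ δ ∈ H', (δ * e x) ^ r = 1 →
      IsConjUnder H' (e x) (δ * e x)) {δ : A} (hδ : δ ∈ H) :
    orderOf (δ * x) = r ↔ IsConjUnder H x (δ * x) := by
  have := lang_abs (α := 1) hN (by simp) ((e.orderOf_eq x).trans hx) h ((hH δ).1 hδ)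
  rwa [← map_mul, e.orderOf_eq, cu_congr e hH] at this

section Gen
variable {ι μ : Type} [Fintype ι] [DecidableEq ι] [Fintype μ] [DecidableEq μ] {F F₀ : Type*}
  [Field F] [Field F₀] {j : F₀ →+* F} {σ : F ≃+* F} {f : QF F, ι}

lemma fix_odd (ho : Odd (orderOf σ)) {z : F} (h : σ (σ z) = z) : σ z = z := by
  obtain ⟨k, hk⟩ := ho
  have e : ∀ i, (σ ^ (2 * i)) z = z := fun i => by
    induction i with
    | zero => rfl
    | succ i ih => rw [mul_add, pow_add, mul_one, sq]; exact (congrArg _ h).trans ih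
  have := DFunLike.congr_fun (pow_orderOf_eq_one σ) z
  rw [hk, pow_succ'] at this
  exact (congrArg σ (e k)).symm.trans this

lemma aniso_odd (hj : ∀ a, σ a = a ↔ a ∈ j.range) (ho : Odd (orderOf σ)) {a b : F₀}
    (hab : ∀ z₁ z₂ : F₀, z₁ ^ 2 + a * z₁ * z₂ + b * z₂ ^ 2 = 0 → z₁ = 0 ∧ z₂ = 0) (z₁ z₂ : F)
    (h : z₁ ^ 2 + j a * z₁ * z₂ + j b * z₂ ^ 2 = 0) : z₁ = 0 ∧ z₂ = 0 := by
  by_cases h2 : z₂ = 0
  · exact ⟨by simpa [h2] using h, h2⟩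
  have ha := (hj _).2 ⟨a, rfl⟩
  have h1 : (z₁ / z₂) ^ 2 + j a * (z₁ / z₂) + j b = 0 := by field_simp; linear_combination h
  generalize z₁ / z₂ = z at h1
  have h3 := congrArg σ h1
  simp only [map_add, map_mul, map_pow, ha, (hj _).2 ⟨b, rfl⟩, map_zero] at h3
  obtain ⟨w, rfl⟩ := (hj z).1 (by
    rcases mul_eq_zero.1 (show (σ z - z) * (σ z + z + j a) = 0 by linear_combination h3 - h1)
      with h4 | h4
    · exact sub_eq_zero.1 h4
    · have h5 := congrArg σ h4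
      simp only [map_add, ha, map_zero] at h5
      exact fix_odd ho (by linear_combination h5 - h4))
  simpa using (hab w 1 (j.injective (by simpa using h1))).2

omit [Fintype μ] [DecidableEq μ] in
lemma ext_j {f f' : QF F, ι} (h : ∀ v : ι → F₀, f.Q (j ∘ v) = f'.Q (j ∘ v)) (w : ι → F) :
    f.Q w = f'.Q w :=
  quad_ext (span_T j (LinearEquiv.refl F _)) (by rintro _ ⟨v, rfl⟩; exact h v) (by
    rintro _ ⟨v, rfl⟩ _ ⟨w, rfl⟩
    have : j ∘ (v + w) = j ∘ v + j ∘ w := by ext; simp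
    simp only [LinearEquiv.refl_apply, quad_B_eq, ← this, h]) w

variable (f j) in
/-- `f₁` is a form of `f` over the subfield, in the coordinates `u`. -/
def DF (u : GL ι F) (f₁ : QF F₀, ι) : Prop :=
  ∃ a : Fˣ, ∀ v, f.Q (u.1 *ᵥ (j ∘ v)) = a * j (f₁.Q v)

variable {u u' e e' : GL ι F} {f₁ f₂ : QF F₀, ι}

lemma DF.tr (h : DF j f u f₁) : ∃ a, Tr f₁ f j a fun g => u * gm j g * u⁻¹ :=
  let ⟨a, h⟩ := h; ⟨a, glEquiv u, h, fun _ => (psi_gl _ _).symm⟩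

lemma DF.nd (h : DF j f u f₁) (hf : f.ND) : f₁.ND := let ⟨_, t⟩ := h.tr; t.nd' hf

lemma exists_DF [Nonempty ι] (hf : f.ND) (hj : ∀ a, σ a = a ↔ a ∈ j.range)
    (hσ : ∀ v, f.Q (σ ∘ v) = σ (f.Q v)) (h : u * (fm σ u)⁻¹ ∈ GO f.Q) : ∃ f₁, DF j f u f₁ := by
  obtain ⟨l, hl⟩ := h
  have e : ∀ v, f.Q (u.1 *ᵥ (σ ∘ v)) = l * σ (f.Q (u.1 *ᵥ v)) := fun v => by
    rw [← hσ, ← fm_mulVec, ← hl, mulVec_mulVec, ← Units.val_mul, inv_mul_cancel_right]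
  obtain ⟨v, hv⟩ : ∃ v : ι → F₀, f.Q (u.1 *ᵥ (j ∘ v)) ≠ 0 := by
    by_contra hc
    push Not at hc
    obtain ⟨w, hw⟩ := exists_Q_ne (pbq_ND hf u)
    exact hw ((ext_j (j := j) (f' := scaleForm 0 f) (by simpa [scaleForm_Q, pbq_Q]) w).trans
      (zero_mul _))
  have e1 := e (j ∘ v)
  rw [show σ ∘ j ∘ v = j ∘ v from funext fun i => (hj _).2 ⟨_, rfl⟩] at e1
  generalize f.Q (u.1 *ᵥ (j ∘ v)) = a at hv e1
  have hv' : σ a ≠ 0 := (map_ne_zero σ).2 hv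
  obtain ⟨f₁, h1⟩ := exists_desc hj (f := scaleForm a⁻¹ (pbq f u.1)) fun w => by
    rw [scaleForm_Q, scaleForm_Q, pbq_Q, pbq_Q, e, map_mul, map_inv₀, ← mul_assoc,
      show a⁻¹ * l = (σ a)⁻¹ by field_simp; exact e1.symm]
  exact ⟨f₁, Units.mk0 a hv, fun w => by
    rw [← h1, scaleForm_Q, pbq_Q, Units.val_mk0, mul_inv_cancel_left₀ hv]⟩

lemma DF.cob (h : DF j f u f₁) (h' : DF j f u' f₂) {c : F₀} (hc : c ≠ 0)
    {φ : (ι → F₀) ≃ₗ[F₀] (ι → F₀)} (hφ : ∀ v, f₂.Q (φ v) = c * f₁.Q v) :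
    u' * gm j (glEquiv.symm φ) * u⁻¹ ∈ GO f.Q := by
  obtain ⟨a, h⟩ := h
  obtain ⟨a', h'⟩ := h'
  refine ⟨a' * Units.mk0 (j c) ((map_ne_zero j).2 hc) * a⁻¹, fun w => ?_⟩
  have := ext_j (j := j) (f := pbq f (u' * gm j (glEquiv.symm φ)).1)
    (f' := scaleForm (a' * j c * (a : F)⁻¹) (pbq f u.1)) (fun v => by
      rw [scaleForm_Q, pbq_Q, pbq_Q, Units.val_mul, ← mulVec_mulVec, gm_mulVec, h', h,
        glEquiv_symm_mulVec, hφ, map_mul]
      field_simp) ((u⁻¹).1 *ᵥ w)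
  rw [scaleForm_Q, pbq_Q, pbq_Q, mulVec_mulVec, mulVec_mulVec, Units.mul_inv, one_mulVec] at this
  simpa using this

lemma DF.hasTS (h : DF j f u f₁) {M₀ : QF F₀, μ} {M : QF F, μ}
    (hM : ∀ v, M.Q (j ∘ v) = j (M₀.Q v)) {φ : (μ → F₀) ≃ₗ[F₀] (ι → F₀)} (hφ : M₀.IsIso f₁ φ)
    {m : ℕ} : M.HasTS m ↔ f.HasTS m := by
  obtain ⟨a, h⟩ := h
  let ε : μ ≃ ι := Fintype.equivOfCardEq (by simpa using φ.finrank_eq)
  let k := glEquiv.symm ((LinearEquiv.funCongrLeft F₀ F₀ ε).trans φ)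
  refine hasTS_congr ((LinearEquiv.funCongrLeft F F ε).symm.trans (glEquiv (u * gm j k)))
    a.ne_zero fun x => ?_
  have := ext_j (j := j) (f := pbq f (u * gm j k).1)
    (f' := scaleForm a (M.comap (LinearEquiv.funCongrLeft F F ε).toLinearMap)) (fun v => by
      rw [scaleForm_Q, pbq_Q, Units.val_mul, ← mulVec_mulVec, gm_mulVec, h, glEquiv_symm_mulVec,
        LinearEquiv.trans_apply, hφ.Q, ← hM]
      rfl) ((LinearEquiv.funCongrLeft F F ε).symm x)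
  rwa [scaleForm_Q, Form.comap_Q, LinearEquiv.coe_coe, LinearEquiv.apply_symm_apply] at this

variable [Finite F₀] (hf : f.ND) {m : ℕ} (he : Fintype.card ι = 2 * m)
include hf he

lemma DF.hasTS_of (h : DF j f u f₁) (h1 : f₁.HasTS m) : f.HasTS m := by
  haveI := Fintype.ofFinite F₀
  obtain ⟨φ, hφ⟩ := even_exists_isIso (plusForm_ND F₀ m) (h.nd hf) (finrank_plus F₀ m)
    (by simpa) (iff_of_true (plusForm_hasTS m) h1)
  exact (h.hasTS (plus_bc j) hφ).1 (plusForm_hasTS m)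

lemma DF.hasTS_odd [Finite F] (h : DF j f u f₁) (hj : ∀ a, σ a = a ↔ a ∈ j.range) (ho : Odd (orderOf σ)) :
    f₁.HasTS m ↔ f.HasTS m := by
  refine ⟨h.hasTS_of hf he, fun h1 => by_contra fun h2 => ?_⟩
  rcases m with _ | m
  · exact h2 f₁.hasTS_zero
  obtain ⟨a, b, hab⟩ := exists_aniso (F := F₀)
  haveI := Fintype.ofFinite F₀
  obtain ⟨φ, hφ⟩ := even_exists_isIso (minusForm_ND m hab) (h.nd hf) (m := m + 1)
    (by simp; omega) (by simpa) (iff_of_false (minusForm_not_hasTS m hab) h2)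
  exact minusForm_not_hasTS m (aniso_odd hj ho hab) ((h.hasTS (minus_bc j a b) hφ).2 h1)

end Gen

section Coc
variable {ι : Type} [Fintype ι] [DecidableEq ι] {F F₀ : Type*} [Field F] [Field F₀] [Finite F]
  {j : F₀ →+* F} {σ : F ≃+* F} {f : QF F, ι} {e e' : GL ι F} {f₁ f₂ : QF F₀, ι}

variable (f j σ) in
/-- the form attached to a cocycle -/
def Coc (e : GL ι F) (f₁ : QF F₀, ι) : Prop :=
  ∃ u c, e = sc c * (u * (fm σ u)⁻¹) ∧ DF j f u f₁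

variable (hf : f.ND) (hn : 5 ≤ Fintype.card ι) (hj : ∀ a, σ a = a ↔ a ∈ j.range)
  (hσ : ∀ v, f.Q (σ ∘ v) = σ (f.Q v))
include hj

include hf hn hσ in
lemma exists_coc (h1 : e ∈ GO f.Q) (h2 : tn (fm σ) e (orderOf σ) ∈ scalars ι F) :
    ∃ f₁, Coc j σ f e f₁ := by
  haveI : Nonempty ι := Fintype.card_pos_iff.1 (by omega)
  obtain ⟨u, c, rfl⟩ := h90' h2
  obtain ⟨f₁, h⟩ := exists_DF hf hj hσ ((mul_mem_cancel_left (sc_le_GO (sc_mem c))).1 h1)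
  exact ⟨f₁, u, c, rfl, h⟩

omit [Finite F] in
lemma cob_mem (u u' : GL ι F) (c c' : Fˣ) (k : GL ι F₀) : (sc c' * (u' * (fm σ u')⁻¹))⁻¹ *
    (u' * gm j k * u⁻¹ * (sc c * (u * (fm σ u)⁻¹)) * (fm σ (u' * gm j k * u⁻¹))⁻¹) ∈
      scalars ι F := pj_eq_one.1 (by simp [fm_gm hj, mul_assoc])

include hf in
theorem Coc.conj_odd [Finite F₀] (h : Coc j σ f e f₁) (h' : Coc j σ f e' f₂)
    (ho : Odd (Fintype.card ι)) :
    ∃ k ∈ GO f.Q, e'⁻¹ * (k * e * (fm σ k)⁻¹) ∈ scalars ι F := by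
  obtain ⟨u, c, rfl, h⟩ := h
  obtain ⟨u', c', rfl, h'⟩ := h'
  obtain ⟨a, ha, φ, hφ⟩ := odd_similar (h.nd hf) (h'.nd hf) (by simpa) rfl
  exact ⟨_, h.cob h' ha hφ.Q, cob_mem hj _ _ _ _ _⟩

variable {m : ℕ} (he : Fintype.card ι = 2 * m)
include hf hn he

theorem Coc.conj_even [Finite F₀] (h : Coc j σ f e f₁) (h' : Coc j σ f e' f₂)
    (ht : f₁.HasTS m ↔ f₂.HasTS m) :
    ∃ k ∈ G0 f, e'⁻¹ * (k * e * (fm σ k)⁻¹) ∈ scalars ι F := by
  haveI : Nonempty ι := Fintype.card_pos_iff.1 (by omega)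
  obtain ⟨u, c, rfl, h⟩ := h
  obtain ⟨u', c', rfl, h'⟩ := h'
  haveI := Fintype.ofFinite F₀
  obtain ⟨φ, hφ⟩ := even_exists_isIso (h.nd hf) (h'.nd hf) (by simpa) (by simpa) ht
  have h1 := h.cob h' one_ne_zero (φ := φ) (by simpa using hφ.Q)
  by_cases h2 : u' * gm j (glEquiv.symm φ) * u⁻¹ ∈ G0 f
  · exact ⟨_, h2, cob_mem hj _ _ _ _ _⟩
  obtain ⟨v, hv⟩ := exists_Q_ne (h'.nd hf)
  obtain ⟨a, t⟩ := h'.tr
  obtain ⟨w, hw, -, h3⟩ := t.rf hv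
  refine ⟨u' * gm j (rf f₂ v hv * glEquiv.symm φ) * u⁻¹, ?_, cob_mem hj _ _ _ _ _⟩
  have := mul_mem_G0 hf hn he (iso_le_GO (toGL_mem _)) h1 (rf_not_mem hf hn he w hw) h2
  rw [show f.toGL _ = _ from h3.symm] at this
  simpa [mul_assoc] using this

omit hj in
include hσ in
lemma same_G0 {k : GL ι F} (hk : k ∈ G0 f) (h : e'⁻¹ * (k * e * (fm σ k)⁻¹) ∈ scalars ι F) :
    e ∈ G0 f ↔ e' ∈ G0 f := by
  have h1 : fm σ k ∈ G0 f := ((tr_gm (j := (σ : F →+* F)) hσ).mem_G0 hf hn he).1 hk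
  rw [← mul_mem_cancel_left hk, ← mul_mem_cancel_right (inv_mem h1),
    ← mul_inv_cancel_left e' (k * e * _), mul_mem_cancel_right (sc_le_G0 he h)]

include hσ in
theorem lang_G0 [Finite F₀] (hp : (orderOf σ).Prime) (h1 : e ∈ GO f.Q) (h1' : e' ∈ GO f.Q)
    (h2 : tn (fm σ) e (orderOf σ) ∈ scalars ι F) (h2' : tn (fm σ) e' (orderOf σ) ∈ scalars ι F)
    (h : e ∈ G0 f ↔ e' ∈ G0 f) : ∃ k ∈ G0 f, e'⁻¹ * (k * e * (fm σ k)⁻¹) ∈ scalars ι F := by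
  haveI : Nonempty ι := Fintype.card_pos_iff.1 (by omega)
  obtain ⟨f₁, c⟩ := exists_coc hf hn hj hσ h1 h2
  obtain ⟨f₂, c'⟩ := exists_coc hf hn hj hσ h1' h2'
  refine c.conj_even hf hn hj he c' ?_
  rcases hp.eq_two_or_odd' with h3 | ho
  swap
  · obtain ⟨_, _, -, d⟩ := c
    obtain ⟨_, _, -, d'⟩ := c'
    rw [d.hasTS_odd hf he hj ho, d'.hasTS_odd hf he hj ho]
  obtain ⟨f₀, h4⟩ := exists_desc hj hσ
  have c0 : Coc j σ f 1 f₀ := ⟨1, 1, by simp, 1, by simpa using h4⟩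
  obtain ⟨v, hv⟩ := exists_Q_ne ((tr_gm h4).nd' hf)
  obtain ⟨w, hw, -, h5⟩ := (tr_gm h4).rf hv
  obtain ⟨f₃, c3⟩ := exists_coc hf hn hj hσ (e := rf f w hw) (iso_le_GO (toGL_mem _)) (by
    rw [h3, tn_two, ← h5, fm_gm hj, h5, rf_mul_self]; exact one_mem _)
  have key : ∀ {a b g g'}, Coc j σ f a g → Coc j σ f b g' → (g.HasTS m ↔ g'.HasTS m) →
      (a ∈ G0 f ↔ b ∈ G0 f) := fun x y z =>
    let ⟨_, a, b⟩ := x.conj_even hf hn hj he y z; same_G0 hf hn hσ he a b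
  exact prop_aux (key c0 c3) (key c c0) (key c c3) (key c' c0) (key c' c3)
    (rf_not_mem hf hn he w hw) (one_mem _) h

end Coc

section Rp
variable {ι : Type} [Fintype ι] [DecidableEq ι] {F : Type*} [Field F] [Finite F]
  {σ : F ≃+* F} {f : QF F, ι} {hf : f.ND} {hn : 5 ≤ Fintype.card ι} {e e' : GL ι F}
  {x x' : MulAut (POmega F f.Q)} {r : ℕ}

lemma ord_O (hr : r.Prime) (h1 : σ ≠ 1) (hx : (carO hf hn).Rep (MulAut.conj e * fm σ) x)
    (h : x ^ r = 1) : orderOf σ = r ∧ tn (fm σ) e (orderOf σ) ∈ scalars ι F := by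
  have h2 := hx.pow r
  rw [h, conj_mul_pow, ← map_pow] at h2
  have h3 := semi_triv carO_E hf (by omega) (quad_iso3 _) h2
  rw [h3, map_one, mul_one] at h2
  obtain rfl := (orderOf_eq_iff_pow hr h1).2 h3
  exact ⟨rfl, h2.conj_eq_one.1 rfl⟩

variable (hσ : ∀ v, f.Q (σ ∘ v) = σ (f.Q v)) (hr : r.Prime) (h1 : σ ≠ 1) (a : e ∈ GO f.Q)
  (a' : e' ∈ GO f.Q) (hx : (carO hf hn).Rep (MulAut.conj e * fm σ) x)
  (hx' : (carO hf hn).Rep (MulAut.conj e' * fm σ) x') (h : x ^ r = 1) (h' : x' ^ r = 1)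
include hσ hr h1 a a' hx hx' h h'

theorem langO_odd (ho : Odd (Fintype.card ι)) :
    IsConjUnder (overGO (hf := hf) (hn := hn)).c.range x x' := by
  obtain ⟨K, hj⟩ := exists_fix σ
  obtain ⟨f₁, c⟩ := exists_coc hf hn hj hσ a (ord_O hr h1 hx h).2
  obtain ⟨f₂, c'⟩ := exists_coc hf hn hj hσ a' (ord_O hr h1 hx' h').2
  exact (overGO.conjZ (tr_gm (j := (σ : F →+* F)) hσ).nrm hx hx').2 (c.conj_odd hf hj c' ho)

theorem langO_even {m : ℕ} (he : Fintype.card ι = 2 * m) (h0 : e ∈ G0 f ↔ e' ∈ G0 f) :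
    IsConjUnder (overG0 hf hn he).c.range x x' := by
  obtain ⟨K, hj⟩ := exists_fix σ
  exact ((overG0 hf hn he).conjZ (tr_gm (j := (σ : F →+* F)) hσ).nrm hx hx').2
    (lang_G0 hf hn hj hσ he ((ord_O hr h1 hx h).1 ▸ hr) a a' (ord_O hr h1 hx h).2
      (ord_O hr h1 hx' h').2 h0)

omit a' hx' h' in
theorem langO {m : ℕ} (he : Fintype.card ι = 2 * m) : ∀ δ ∈ (overG0 hf hn he).c.range,
    (δ * x) ^ r = 1 → IsConjUnder (overG0 hf hn he).c.range x (δ * x) := by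
  rintro _ ⟨d, rfl⟩ h2
  exact langO_even hσ hr h1 a (mul_mem (G0_le d.2) a) hx
    ((((overG0 hf hn he).rep d).mul hx).congr (by rw [map_mul, mul_assoc])) h h2 he
    (mul_mem_cancel_left d.2).symm

end Rp

section St
variable {F : Type*} [Field F] [Fintype F] {m : ℕ}

lemma normalB (h2 : (2 : F) ≠ 0) (hm : 3 ≤ m) {hn} :
    (overGO (hf := oddForm_ND F m h2) (hn := hn)).c.range.Normal := by
  haveI : NeZero m := ⟨by omega⟩
  haveI := Fact.mk (exists_ne_zero_one_of_two h2)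
  exact normal_GO _ hn (H5.Gen.gammaPOo_eq hm)

theorem s2735 (hodd : Odd (Fintype.card F)) (hm : 3 ≤ m) (x δ : MulAut (POmega F (oddForm F m).Q))
    (hx : IsFieldAutClassPOmega (oddForm F m).Q x) {r : ℕ} (hr : r.Prime) (hxr : orderOf x = r)
    (hδ : δ ∈ pgoAut F (oddForm F m).Q) :
    orderOf (δ * x) = r ↔ IsConjUnder (pgoAut F (oddForm F m).Q) x (δ * x) := by
  have h2 := two_ne_of_odd hodd
  have hf := oddForm_ND F m h2
  have hn : 5 ≤ Fintype.card (Unit ⊕ (Fin m ⊕ Fin m)) := by simp; omega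
  rw [pgoAut_eq (hf := hf) (hn := hn)] at *
  obtain ⟨α, φ, σ, h0, h, e⟩ := hx
  have h1 := (rep_fm hf hn (odd_bc (σ : F →+* F)) h).congr (θ' := MulAut.conj 1 * fm σ) (by simp)
  refine lang_abs (normalB h2 hm) e hxr (fun h3 => ?_) hδ
  rintro _ ⟨d, rfl⟩ h4
  exact langO_odd (odd_bc (σ : F →+* F)) hr h0 (one_mem _) d.2 h1
    (((overGO.rep d).mul h1).congr (by simp)) (h3 ▸ pow_orderOf_eq_one φ) h4 ⟨m, by simp; omega⟩

theorem s2736 (hm : 4 ≤ m) (x δ : MulAut (POmega F (plusForm F m).Q))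
    (hx : IsFieldAutClassPOmega (plusForm F m).Q x ∨ IsGraphFieldAutClassPOmegaPlus m x) {r : ℕ}
    (hr : r.Prime) (hxr : orderOf x = r) {I : Subgroup (MulAut (POmega F (plusForm F m).Q))}
    (hI : inndiagPOmegaPlus m F = I) (hδ : δ ∈ I) :
    orderOf (δ * x) = r ↔ IsConjUnder I x (δ * x) := by
  have hf := plusForm_ND F m
  have hn : 5 ≤ Fintype.card (Fin m ⊕ Fin m) := by simp; omega
  obtain rfl := hI.symm.trans (inndiagP_eq hn)
  suffices ∃ α x' e σ, σ ≠ 1 ∧ e ∈ GO (plusForm F m).Q ∧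
      (carO hf hn).Rep (MulAut.conj e * fm σ) x' ∧ α * x * α⁻¹ = x' by
    obtain ⟨α, x', e, σ, h1, h2, h3, h4⟩ := this
    exact lang_abs (normalP hn hm) h4 hxr (fun h5 => langO (plus_bc (σ : F →+* F)) hr h1 h2 h3
      (h5 ▸ pow_orderOf_eq_one x') (card_pm m)) hδ
  rcases hx with ⟨α, φ, σ, h0, h, e⟩ | ⟨α, γ, φ, σ, v, ρ, h1, hv, -, h4, h5, h6, h7⟩
  · exact ⟨α, φ, 1, σ, h0, one_mem _,
      (rep_fm hf hn (plus_bc (σ : F →+* F)) h).congr (by simp), e⟩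
  obtain rfl : ρ = rf (plusForm F m) v hv :=
    Units.ext (h4.trans (rf_coe (f := plusForm F m) v hv).symm)
  have h8 := iso_le_GO (toGL_mem ((plusForm F m).reflx v hv))
  exact ⟨α, _, _, σ, h1, h8, (Car.Rep.mk ((overGO (hf := hf) (hn := hn)).nrm _ h8)
    (ind_lin.2 h5)).mul (rep_fm hf hn (plus_bc (σ : F →+* F)) h6), h7⟩

variable {a b : F} (hab : ∀ z₁ z₂ : F, z₁ ^ 2 + a * z₁ * z₂ + b * z₂ ^ 2 = 0 → z₁ = 0 ∧ z₂ = 0)
  (hm : 3 ≤ m)
include hab hm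

lemma transM {a' b' : F}
    (hab' : ∀ z₁ z₂ : F, z₁ ^ 2 + a' * z₁ * z₂ + b' * z₂ ^ 2 = 0 → z₁ = 0 ∧ z₂ = 0)
    (ψ : POmega F (minusForm F m a b).Q ≃* POmega F (minusForm F m a' b').Q) (x) :
    x ∈ (overG0 (minusForm_ND m hab) (five_le hm) (card_mm m)).c.range ↔ MulAut.congr ψ x ∈
      (overG0 (minusForm_ND m hab') (five_le hm) (card_mm m)).c.range := by
  have hn := five_le hm
  have he := card_mm m
  have hN := minusForm_ND m hab
  have hN' := minusForm_ND m hab'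
  obtain ⟨g, hg⟩ := minus_iso (m := m) hab' hab
  have t0 : Tr (minusForm F m a b) (minusForm F m a' b') (RingHom.id F) 1 (MulAut.conj g) :=
    tr_conj (by simpa using hg)
  have t1 : Tr (minusForm F m a' b') (minusForm F m a b) (RingHom.id F) 1
      (MulAut.conj g⁻¹) := tr_conj fun v => by simp [← hg]
  exact (overG0 hN hn he).transport (overG0 hN' hn he) (MulAut.conj g) (fun k => by
    rw [carO_range, carO_range]
    exact ⟨t0.om hN hn, fun e => by simpa [mul_assoc] using t1.om hN' hn e⟩)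
    (fun _ => t0.mem_G0 hN hn he) (normal_G0 hN' hn he (s2696 hab' hm)) ψ x

theorem s2737 (x δ : MulAut (POmega F (minusForm F m a b).Q))
    (hx : IsFieldAutClassPOmegaMinus m x) {r : ℕ} (hr : r.Prime) (hxr : orderOf x = r)
    {I : Subgroup (MulAut (POmega F (minusForm F m a b).Q))}
    (hI : inndiagPOmegaMinus m F a b = I) (hδ : δ ∈ I) :
    orderOf (δ * x) = r ↔ IsConjUnder I x (δ * x) := by
  have hn := five_le hm
  obtain rfl := hI.symm.trans (inndiagM_eq hab hn)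
  obtain ⟨a', b', ψ, σ, hab', h0, ha, hb, h⟩ := hx
  have hN' := minusForm_ND m hab'
  have hσ : ∀ v, (minusForm F m a' b').Q (σ ∘ v) = σ ((minusForm F m a' b').Q v) := fun v => by
    simpa [ha, hb] using minus_bc (σ : F →+* F) a' b' v
  have h1 : (carO hN' hn).Rep (fm σ) (MulAut.congr ψ x) := rep_fm hN' hn hσ h
  have h5 := transM hab hm hab' ψ
  exact lang_trans (MulAut.congr ψ) h5 (normal_G0 hN' hn (card_mm m) (s2696 hab' hm)) hxr
    (fun h6 => langO hσ hr h0 (one_mem _) (h1.congr (by simp)) (h6 ▸ pow_orderOf_eq_one _)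
      (card_mm m)) hδ

end St

end H4.Au
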