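import Cfsg.Agent.H4.CpE
import Cfsg.Agent.H4.LgA

/-! The `p'`-core of the centraliser of an automorphism of prime order: orthogonal groups. -/

set_option autoImplicit false

namespace H4.Au
open Matrix Cfsg Cfsg.Geo Subgroup Module H4.As
open scoped MatrixGroups commutatorElement

local notation "GO" => quadSimilarityGroup
local notation "QF" F "," ι => Form (quadKind F) (ι → F)

section Gen
variable {ι : Type} [Fintype ι] [DecidableEq ι] {F F₀ : Type*} [Field F] [Field F₀]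
  {j : F₀ →+* F} {σ : F ≃+* F} {f : QF F, ι} {g : GL ι F}

lemma pair_mul {h : GL ι F} {τ : F ≃+* F} (a : IsSemisimilarityPair f.Q g σ)
    (b : IsSemisimilarityPair f.Q h τ) : IsSemisimilarityPair f.Q (g * fm σ h) (σ * τ) := by
  obtain ⟨c, a⟩ := a
  obtain ⟨d, b⟩ := b
  refine ⟨c * fu σ d, fun v => ?_⟩
  have := a (h.1 *ᵥ (τ ∘ v))
  erw [b] at this
  rw [Units.val_mul, ← mulVec_mulVec]
  erw [fm_mulVec σ h (τ ∘ v), this]
  simp [mul_assoc]

lemma pair_inv (a : IsSemisimilarityPair f.Q g σ) :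
    IsSemisimilarityPair f.Q (fm σ⁻¹ g⁻¹) σ⁻¹ := by
  obtain ⟨c, a⟩ := a
  refine ⟨Units.map (σ.symm : F →* F) c⁻¹, fun v => σ.injective ?_⟩
  have := a (σ.symm ∘ ((g⁻¹).1 *ᵥ v))
  simp only [Function.comp_apply, RingEquiv.apply_symm_apply] at this
  erw [gl_mulVec_cancel'] at this
  erw [fm_mulVec σ⁻¹ g⁻¹ v]
  rw [this, map_mul]
  erw [σ.apply_symm_apply, σ.apply_symm_apply, Units.inv_mul_cancel_left]
  rfl

lemma pair_GO (hσ : ∀ v, f.Q (σ ∘ v) = σ (f.Q v)) (a : IsSemisimilarityPair f.Q g σ) :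
    g ∈ GO f.Q := by
  obtain ⟨c, a⟩ := a
  refine ⟨c, fun v => ?_⟩
  have := a (σ.symm ∘ v)
  rw [← hσ] at this
  simpa [Function.comp_def] using this

lemma pt_odd [Finite F₀] {f₁ : QF F₀, ι} (h2 : (2 : F₀) ≠ 0) (hf : f₁.ND)
    (hd : 3 ≤ Fintype.card ι) : PT j (f₁.E.map f₁.toGL) := by
  obtain ⟨u, w, h⟩ := quad_exists_hyp hf (by simpa)
  refine pt_form hf (Or.inr ⟨h2, fun u w h => ?_⟩) hd h
  obtain ⟨t, ht, v, a, b, c⟩ := quad_wrich hf (by simpa) u w h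
  exact ⟨v, a, b, by rw [quad_B_self, c]; exact mul_ne_zero h2 ht⟩

variable [Finite F] {hf : f.ND} {hn : 5 ≤ Fintype.card ι}

lemma gamO (h : gammaPOmega F f.Q = ⊤) (α : MulAut (POmega F f.Q)) :
    ∃ g σ, IsSemisimilarityPair f.Q g σ ∧ (carO hf hn).Rep (MulAut.conj g * fm σ) α := by
  have hα : α ∈ Subgroup.closure _ := h.ge (mem_top α)
  induction hα using Subgroup.closure_induction with
  | mem β hβ => exact let ⟨g, σ, h1, h2⟩ := hβ; ⟨g, σ, h1, rep_slin h1 h2⟩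
  | one => exact ⟨1, 1, ⟨1, by simp⟩, Car.Rep.one.congr (by simp)⟩
  | mul β γ _ _ h1 h2 =>
    obtain ⟨_, _, a, b⟩ := h1
    obtain ⟨_, _, c, d⟩ := h2
    exact ⟨_, _, pair_mul a c, (b.mul d).congr (slin_mul _ _ _ _)⟩
  | inv β _ h1 => exact let ⟨_, _, a, b⟩ := h1; ⟨_, _, pair_inv a, b.inv.congr (slin_inv _ _)⟩

lemma simpleO (hf : f.ND) (hn : 5 ≤ Fintype.card ι) : IsSimpleGroup (POmega F f.Q) :=
  haveI := quad_isSimple hf (by simpa)
  (H4.pomegaEquiv f).isSimpleGroup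

theorem fldO [Finite F₀] {p : ℕ} [hp : Fact p.Prime] (hΓ : gammaPOmega F f.Q = ⊤)
    {y : MulAut (POmega F f.Q)} {u : GL ι F}
    (hy : (carO hf hn).Rep (MulAut.conj (u * (fm σ u)⁻¹) * fm σ) y) (hyp : y ^ p = 1)
    (hj : ∀ a, σ a = a ↔ a ∈ j.range) (ho : orderOf σ = p) {f₁ : QF F₀, ι} (h : DF j f u f₁)
    (pt : PT j (f₁.E.map f₁.toGL)) (h2 : p = 2 → (2 : F) ≠ 0) :
    fx y ≠ ⊥ ∧ (p ∣ Nat.card (fx y) → Dat p y) := by
  haveI : Nonempty ι := Fintype.card_pos_iff.1 (by omega)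
  haveI := simpleO hf hn
  have hf₁ := h.nd hf
  obtain ⟨a, t⟩ := h.tr
  let T := (omegaGL f.Q).comap ((MulAut.conj u).toMonoidHom.comp (gm j))
  have h1 : omegaGL f₁.Q ≤ T := fun g hg => t.om hf₁ hn hg
  have h3 : T ≤ isometryGroup F₀ f₁.Q := fun g hg => (t.mem_iso hf₁).2 (omega_le _ hg)
  refine main_of (C := carO hf hn) rfl hy hyp hj (ho ▸ pow_orderOf_eq_one σ) u (T := T)
    (fld_T' hj fun t => carO_range.symm) (pt.mono (omegaGL_eq_E hf₁ hn ▸ h1)) (fun hd => ?_)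
    fun α _ => Or.inl (let ⟨g, τ, _, h⟩ := gamO (hf := hf) (hn := hn) hΓ α; ⟨g, τ, h⟩)
  rcases hp.out.eq_two_or_odd' with rfl | hodd
  · exact np_quad (odd_char ((two_ne_iff j).1 (h2 rfl))) hf₁ (by omega)
      (omegaGL_eq_E hf₁ hn ▸ h1) fun g hg => exists_toGL (h3 hg)
  have e : T = (carO hf₁ hn).e.range := le_antisymm (fun g hg => by
    obtain ⟨h4, d, -, h5, h6⟩ := t.dk_sp hf₁ hn (h3 hg)
    obtain ⟨-, h7, h8⟩ := (mem_om hf hn).1 hg
    have h9 := h4.symm.trans h7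
    refine carO_range.2 ((mem_om hf₁ hn).2 ⟨h3 hg, h9, ?_⟩)
    rw [if_pos h9, one_mul, chi_odd hj (ho ▸ hodd), ← h5] at h6
    exact h6.symm.trans h8) fun g hg => h1 (carO_range.1 hg)
  rw [e] at hd ⊢
  haveI := simpleO hf₁ hn
  exact (carO hf₁ hn).np
    (by rwa [Nat.card_congr (MonoidHom.ofInjective (carO hf₁ hn).inj).toEquiv])

end Gen

theorem s2731 {F : Type*} [Field F] [Fintype F] (hodd : Odd (Fintype.card F)) {m : ℕ} (hm : 3 ≤ m)
    (A : Subgroup (MulAut (POmega F (oddForm F m).Q))) (hinn : ∀ k, MulAut.conj k ∈ A) {p : ℕ}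
    [hp : Fact p.Prime] (x : MulAut (POmega F (oddForm F m).Q)) (hord : orderOf x = p)
    (hnot : ¬ IsSimilarityInducedAutPOmega (oddForm F m).Q x) :
    pPrimeCore p ↥(A ⊓ centralizer {x}) ≠ ⊥ ↔
      (IsFieldAutClassPOmega (oddForm F m).Q x ∧ p.Coprime (Nat.card (fx x))) := by
  have h2 := two_ne_of_odd hodd
  have hf := oddForm_ND F m h2
  have hn : 5 ≤ Fintype.card (Unit ⊕ (Fin m ⊕ Fin m)) := by simp; omega
  haveI : NeZero m := ⟨by omega⟩
  haveI := Fact.mk (exists_ne_zero_one_of_two h2)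
  have hΓ : gammaPOmega F (oddForm F m).Q = ⊤ := H5.Gen.gammaPOo_eq hm
  have hx : x ^ p = 1 := hord ▸ pow_orderOf_eq_one x
  obtain ⟨g, σ, h0, h⟩ := gamO (hf := hf) (hn := hn) hΓ x
  have hσ := odd_bc (m := m) (σ : F →+* F)
  have hg := pair_GO hσ h0
  have h1 : σ ≠ 1 := by
    rintro rfl
    exact hnot ⟨g, hg, (ind_lin (C := carO hf hn)).1 (h.congr (by simp)).ind⟩
  have ho := (ord_O hp.out h1 h hx).1
  obtain ⟨y, hy⟩ := (Tr.nrm (hf := hf) (hn := hn) (θ := fm σ) (tr_gm hσ)).exists_rep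
  have hyp : y ^ p = 1 := (hy.pow p).unique (Car.Rep.one.congr (by
    rw [← map_pow, ← ho, pow_orderOf_eq_one, map_one]))
  obtain ⟨α, -, e⟩ := langO_odd hσ hp.out h1 (one_mem _) hg (hy.congr (by simp)) h hyp hx
    ⟨m, by simp; omega⟩
  obtain ⟨K, hj⟩ := exists_fix σ
  have h2' := (two_ne_iff K.subtype).1 h2
  obtain ⟨h3, h4⟩ := fldO (hf := hf) (hn := hn) hΓ (u := 1) (hy.congr (by simp)) hyp hj ho
    (f₁ := oddForm K m) ⟨1, fun v => by simpa using odd_bc K.subtype v⟩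
    (pt_odd h2' (oddForm_ND K m h2') (by omega)) fun _ => h2
  rw [core_iff (carO hf hn).center_bot hinn e h3 h4]
  refine (and_iff_right ⟨α⁻¹, y, σ, h1, fun s s' e => hy.ind s s' (Units.ext e), ?_⟩).symm
  rw [e]; group

end H4.Au
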