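import Cfsg.Agent.H4.GrB

/-! Involutory graph automorphisms of the even-dimensional orthogonal groups. -/

set_option autoImplicit false

namespace H4.Au
open Matrix Cfsg Cfsg.Geo Subgroup Module H4.As
open scoped MatrixGroups commutatorElement

local notation "det" => GeneralLinearGroup.det
local notation "GO" => quadSimilarityGroup
local notation "SO" => specialIsometryGL
local notation "pol" => QuadraticMap.polar
local notation "QF" F "," ι => Form (quadKind F) (ι → F)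

lemma comm_step {A : Type*} [Group A] {N K H : Subgroup A} (h1 : (N.subgroupOf K).Normal)
    (h2 : (N.subgroupOf H).Normal) (h4 : N.relIndex K = 4) (h : K ≤ H) {k g r : A} (hk : k ∈ K)
    (hg : g ∈ H) (hr : r ∈ H) (h7 : g * r ∈ K) (h3 : k * (g * k * g⁻¹)⁻¹ ∈ N) :
    k * r * k⁻¹ * r⁻¹ ∈ N := by
  haveI := Fact.mk Nat.prime_two
  have key : ∀ {H : Subgroup A} [(N.subgroupOf H).Normal] (x y : H),
      Commute (x : H ⧸ N.subgroupOf H) y ↔ x.1 * y.1 * x.1⁻¹ * y.1⁻¹ ∈ N := fun x y =>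
    commutatorElement_eq_one_iff_commute.symm.trans (q1 ⁅x, y⁆)
  have h8 := (key ⟨k, hk⟩ ⟨_, h7⟩).1
    ((IsPGroup.isMulCommutative_of_card_eq_prime_sq (p := 2) h4).is_comm.comm _ _)
  have h9 := (key ⟨k, h hk⟩ (⟨g, hg⟩ * ⟨_, hr⟩)).2 h8
  have h10 := (key ⟨k, h hk⟩ ⟨g, hg⟩).2 (by simpa [mul_assoc] using h3)
  have h11 := h10.inv_right.mul_right h9
  rwa [QuotientGroup.mk_mul, inv_mul_cancel_left, key] at h11

variable {ι : Type} [Fintype ι] [DecidableEq ι] {F : Type*} [Field F] {f : QF F, ι}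

lemma exists_G (hf : f.ND) : ∃ G : GL ι F, (∀ x y, f.B x y = bil G.1 x y) ∧ f.disc = chi G.1.det := by
  obtain ⟨G, hG⟩ := exists_gram (sf_pol hf)
  have e : ∀ x y, f.B x y = bil G.1 x y := fun x y => by rw [← hG, polar_eq_B]
  refine ⟨G, e, ?_⟩
  rw [disc_eq f (Pi.basisFun F _)]
  congr 2
  ext i j
  simp [Form.gram_app, e, gf_single]

section Cp
open Polynomial
variable {g : Matrix ι ι F} {c : F} {m : ℕ} (he : Fintype.card ι = 2 * m) (h1 : g * g = c • 1)
include he h1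

lemma cp_mul : g.charpoly * (-g).charpoly = (X ^ 2 - C c) ^ (2 * m) := by
  rw [charpoly, charpoly, ← det_mul, ← he,
    show g.charmatrix * (-g).charmatrix = (X ^ 2 - C c) • 1 from ?_, det_smul, det_one, mul_one]
  rw [charmatrix, charmatrix, map_neg, sub_neg_eq_add, sub_mul, mul_add, mul_add, ← map_mul,
    ← map_mul, h1, (scalar_commute _ (fun _ => Commute.all _ _) _).eq]
  ext i j : 1
  by_cases h : i = j <;> simp [h, sq, add_comm (C _ * X)]

omit h1 in
lemma det_of_cp (h : Associated g.charpoly ((X ^ 2 - C c) ^ m)) : g.det = (-c) ^ m := by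
  rw [det_eq_sign_charpoly_coeff, eq_of_monic_of_associated (charpoly_monic g)
    ((monic_X_pow_sub_C c two_ne_zero).pow m) h, he, coeff_zero_eq_eval_zero]
  simp

lemma det_neg_conj (h3 : (-g).charpoly = g.charpoly) : g.det = (-c) ^ m := by
  have h4 := cp_mul he h1
  rw [h3, ← sq, mul_comm 2, pow_mul] at h4
  exact det_of_cp he ((sq_eq_sq_iff_eq_or_eq_neg.1 h4).elim (· ▸ Associated.refl _)
    (· ▸ (Associated.refl _).neg_left))

lemma det_nonsq (hc : ¬ IsSquare c) : g.det = (-c) ^ m := by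
  obtain ⟨i, -, h⟩ := (dvd_prime_pow (X_pow_sub_C_irreducible_of_prime Nat.prime_two
    fun b hb => hc ⟨b, by rw [← hb, sq]⟩).prime _).1 ⟨_, (cp_mul he h1).symm⟩
  have := natDegree_eq_of_degree_eq (degree_eq_degree_of_associated h)
  rw [charpoly_natDegree_eq_dim, natDegree_pow, natDegree_X_pow_sub_C, he] at this
  obtain rfl : i = m := by omega
  exact det_of_cp he h

end Cp

variable [Finite F] (hf : f.ND) (hn : 5 ≤ Fintype.card ι) {m : ℕ} (he : Fintype.card ι = 2 * m)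
  (h2 : (2 : F) ≠ 0)
include hf hn h2

lemma ca_of_pair {g : GL ι F} {a : Fˣ} (hg : QM f g a) {v w : ι → F} (hv : f.Q v ≠ 0)
    (hw : f.Q w ≠ 0) (h : ¬ IsSquare (f.Q v * f.Q w))
    (hc : ∀ x, (rf f v hv * rf f w hw).1 *ᵥ (g.1 *ᵥ x) = g.1 *ᵥ ((rf f v hv * rf f w hw).1 *ᵥ x)) :
    CA f (MulAut.conj g) := by
  refine ⟨_, (rf_rf hf hn h2 hv hw).1, ?_, (rf_rf hf hn h2 hv hw).2.trans (chi_eq_neg_one.2 h)⟩
  have : rf f v hv * rf f w hw * g = g * (rf f v hv * rf f w hw) :=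
    Units.ext (matrix_ext_mulVec fun x => by
      rw [Units.val_mul _ g, Units.val_mul g, ← mulVec_mulVec, ← mulVec_mulVec, hc])
  rw [MulAut.conj_apply, ← this, mul_inv_cancel_right, mul_inv_cancel]
  exact one_mem _

lemma ca_sq {g : GL ι F} (hg : QM f g 1) (h1 : g * g = 1) : CA f (MulAut.conj g) := by
  have e : ∀ x, g.1 *ᵥ (g.1 *ᵥ x) = x := fun x => by
    rw [mulVec_mulVec, ← Units.val_mul, h1, Units.val_one, one_mulVec]
  let E : F → Submodule F (ι → F) := fun ε => LinearMap.ker (g.1.mulVecLin - ε • LinearMap.id)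
  have hE : ∀ ε x, x ∈ E ε ↔ g.1 *ᵥ x = ε • x := fun ε x => by simp [E, sub_eq_zero]
  have key : ∀ ε : F, ε * ε = 1 → 2 ≤ finrank F (E ε) → CA f (MulAut.conj g) := fun ε h3 h4 => by
    have nd : f.NDOn (E ε) := fun x hx h => hf x fun y => mul_left_cancel₀ h2 (by
      have h5 := h (y + ε • g.1 *ᵥ y) ((hE _ _).2 (by
        rw [mulVec_add, mulVec_smul, e, smul_add, smul_smul, h3, one_smul, add_comm]))
      have h6 := hg.B x (g.1 *ᵥ y)
      rw [e, (hE _ _).1 hx] at h6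
      simp only [map_add, map_smul, smul_eq_mul, Form.B_smul_left, quadKind_σ, Units.val_one,
        one_mul] at h5 h6
      linear_combination h5 + ε * h6 - f.B x y * h3)
    obtain ⟨a, ha⟩ := exists_nonsq h2
    obtain ⟨v, hv, h5⟩ := quad_exists_Q_eq nd h4 one_ne_zero
    obtain ⟨w, hw, h6⟩ := quad_exists_Q_eq nd h4 a.ne_zero
    have h7 : ∀ u ∈ E ε, ∀ x, f.B u (g.1 *ᵥ x) • u = f.B u x • g.1 *ᵥ u := fun u hu x => by
      have := hg.B u x
      rw [(hE _ _).1 hu] at this ⊢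
      simp only [Form.B_smul_left, quadKind_σ, Units.val_one, one_mul] at this
      rw [smul_smul, ← this, mul_right_comm, h3, one_mul]
    refine ca_of_pair hf hn h2 hg (v := v) (w := w) (by simp [h5]) (by simp [h6]) (by simpa [h5, h6])
      fun x => ?_
    rw [Units.val_mul, ← mulVec_mulVec, ← mulVec_mulVec, rf_mulVec, rf_mulVec, rf_mulVec,
      rf_mulVec]
    simp only [mulVec_sub, mulVec_smul, mul_smul, ← h7 v hv, ← h7 w hw]
  by_cases h3 : 2 ≤ finrank F (E 1)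
  · exact key 1 (one_mul 1) h3
  refine key (-1) (by simp) ?_
  have h4 := LinearMap.finrank_range_add_finrank_ker (g.1.mulVecLin - (1 : F) • LinearMap.id)
  have h5 : LinearMap.range (g.1.mulVecLin - (1 : F) • LinearMap.id) ≤ E (-1) := by
    rintro _ ⟨x, rfl⟩
    simp [hE, mulVec_sub, e]
  have h6 := Submodule.finrank_mono h5
  simp only [finrank_fintype_fun_eq_card] at h4
  change _ + finrank F (E 1) = _ at h4
  omega

lemma ca_nonsq (hT : f.HasTS 3) {g : GL ι F} {c : Fˣ} (hg : QM f g c) (h1 : g * g = sc c)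
    (hc : ¬ IsSquare (c : F)) : CA f (MulAut.conj g) := by
  have e : ∀ x, g.1 *ᵥ (g.1 *ᵥ x) = (c : F) • x := fun x => by
    rw [mulVec_mulVec, ← Units.val_mul, h1, sc_mulVec]
  have s : ∀ x y, f.B (g.1 *ᵥ x) y = f.B x (g.1 *ᵥ y) := fun x y =>
    mul_left_cancel₀ c.ne_zero (by rw [← hg.B x, e, map_smul, smul_eq_mul])
  obtain ⟨T, hT, h3⟩ := hT
  let f' : QF F, ι := symForm h2 (f.B.compl₂ g.1.mulVecLin) ⟨fun x y =>
    show f.B x (g.1 *ᵥ y) = f.B y (g.1 *ᵥ x) by rw [← s, quad_symm]⟩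
  obtain ⟨u, hu, h4, h5⟩ := quad_iso3 f' T h3.ge
  have h6 : f.B u (g.1 *ᵥ u) = 0 := (div_eq_zero_iff.1 ((symForm_Q _ _ _ u).symm.trans h5)).resolve_right h2
  have h7 := hT.2 u hu u hu
  obtain ⟨w, h9, h8⟩ := hf.exists_perp_eq (U := F ∙ g.1 *ᵥ u) (x := u) (fun h => by
    obtain ⟨a, ha⟩ := Submodule.mem_span_singleton.1 h
    have := e u
    rw [← ha, mulVec_smul, mulVec_smul, e, smul_smul, smul_smul] at this
    have h8 : (a * a * c) • u = u := by
      conv_rhs => rw [← ha, ← ha, mulVec_smul, e, smul_smul, smul_smul]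
    have h9 := smul_left_injective F h4 (h8.trans (one_smul _ _).symm)
    exact hc ⟨a * c, by linear_combination -c * h9⟩) 1
  rw [Form.mem_perp_singleton] at h9
  obtain ⟨v, h10, h11⟩ : ∃ v, f.Q v = 1 ∧ f.B v (g.1 *ᵥ v) = 0 := by
    refine ⟨w + (1 - f.Q w) • u - (f.B w (g.1 *ᵥ w) / (2 * c)) • g.1 *ᵥ u, ?_, ?_⟩
    · apply mul_left_cancel₀ h2
      rw [← quad_B_self]
      simp only [map_add, map_sub, map_smul, LinearMap.add_apply, LinearMap.sub_apply,
        Form.B_smul_left, quadKind_σ, smul_eq_mul, quad_symm f w u, quad_symm f w (g.1 *ᵥ u), h8, h9,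
        h7, h6, quad_symm f (g.1 *ᵥ u) u, hg.B, quad_B_self f w]
      ring
    · simp only [mulVec_add, mulVec_sub, mulVec_smul, e, map_add, map_sub, map_smul,
        LinearMap.add_apply, LinearMap.sub_apply, Form.B_smul_left, quadKind_σ, smul_eq_mul,
        quad_symm f w u, quad_symm f w (g.1 *ᵥ u), h8, h9, h7, h6, quad_symm f (g.1 *ᵥ u) u, hg.B,
        ← s u w]
      field_simp
      ring
  have h12 : f.Q (g.1 *ᵥ v) = c := by rw [hg, h10, mul_one]
  refine ca_of_pair hf hn h2 hg (v := v) (w := g.1 *ᵥ v) (by simp [h10]) (by simp [h12])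
    (by simpa [h10, h12]) fun x => ?_
  simp only [Units.val_mul, ← mulVec_mulVec, rf_mulVec, mulVec_sub, mulVec_smul, h10, h12, e, hg.B,
    map_sub, map_smul, h11, ← s v x]
  match_scalars <;> simp [mul_right_comm]

include he

omit [Finite F] hn in
lemma qm_sq [Nonempty ι] {g : GL ι F} (h0 : g ∈ GO f.Q) (h1 : g ∉ G0 f) {c : Fˣ}
    (hc : g * g = sc c) : QM f g c := by
  obtain ⟨a, ha⟩ := h0
  have h4 := congrArg Units.val ((QM.mul ha ha).unique hf (hc ▸ qm_sc c))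
  rw [Units.val_mul, Units.val_pow_eq_pow_val, ← sq, sq_eq_sq_iff_eq_or_eq_neg] at h4
  rcases h4 with h4 | h4
  · exact Units.ext h4 ▸ ha
  obtain ⟨G, hG, -⟩ := exists_G hf
  refine absurd ((mem_G0 h2 he).2 ⟨a, ha, Units.ext ?_⟩) h1
  rw [Units.val_pow_eq_pow_val, h4]
  have : g.1ᵀ * G.1 = -(G.1 * g.1) := by
    refine gf_ext (σ := RingHom.id F) fun x y => mul_left_cancel₀ c.ne_zero ?_
    have h5 := QM.B ha x (g.1 *ᵥ y)
    rw [mulVec_mulVec, ← Units.val_mul, hc, sc_mulVec, map_smul, hG, hG, h4] at h5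
    have h6 := gf_mulVec (RingHom.id F) G.1 g.1 1 x y
    have h7 := gf_mulVec (RingHom.id F) G.1 1 g.1 x y
    simp only [one_mulVec, RingHom.coe_id, map_id, mul_one, transpose_one, one_mul] at h6 h7
    rw [← neg_one_smul F, gf_smul, ← h6, ← h7]
    simpa using h5
  refine det_neg_conj he (by rw [← Units.val_mul, hc, sc_coe]) ?_
  rw [← charpoly_transpose g.1, ← charpoly_units_conj G (-g.1), mul_neg, ← this]
  simp

omit [Finite F] hf hn h2 he in
lemma exists_inv {g : GL ι F} {c : Fˣ} (ha : QM f g c) (hc : g * g = sc c) (h : IsSquare (c : F)) :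
    ∃ b, QM f (sc b * g) 1 ∧ sc b * g * (sc b * g) = 1 := by
  obtain ⟨b, hb⟩ := h
  lift b to Fˣ using (IsUnit.mul_iff.1 (hb ▸ c.isUnit)).1
  obtain rfl : c = b * b := Units.ext hb
  exact ⟨b⁻¹, by simpa [sq] using (qm_sc b⁻¹).mul ha, by
    rw [mul_assoc, sc_left, hc, ← map_mul, ← map_mul]; simp⟩

lemma ca_inv (hT : f.HasTS 3) {g : GL ι F} (h0 : g ∈ GO f.Q) (h1 : g ∉ G0 f)
    (h3 : g * g ∈ scalars ι F) : CA f (MulAut.conj g) := by
  haveI : Nonempty ι := Fintype.card_pos_iff.1 (by omega)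
  obtain ⟨c, hc⟩ := mem_sc.1 h3
  have ha := qm_sq hf he h2 h0 h1 hc
  by_cases h5 : IsSquare (c : F)
  · obtain ⟨b, h6, h7⟩ := exists_inv ha hc h5
    have := ca_sq hf hn h2 h6 h7
    rwa [map_mul, Car.conj_Z (C := carO hf hn) (sc_mem _), one_mul] at this
  · exact ca_nonsq hf hn h2 hT ha hc h5

lemma not_cb_even (hm : Even m) {g : GL ι F} (h0 : g ∈ GO f.Q) (h1 : g ∉ G0 f)
    (h3 : g * g ∈ scalars ι F) : ¬ CB f (MulAut.conj g) := by
  haveI : Nonempty ι := Fintype.card_pos_iff.1 (by omega)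
  obtain ⟨c, hc⟩ := mem_sc.1 h3
  have ha := qm_sq hf he h2 h0 h1 hc
  have hc' : g.1 * g.1 = (c : F) • 1 := by rw [← Units.val_mul, hc, sc_coe]
  have h4 : g.1.det ≠ (-c) ^ m := fun h => h1 ((mem_G0 h2 he).2 ⟨c, ha, Units.ext (by
    simpa [hm.neg_pow] using h)⟩)
  rintro ⟨k, hk, a, h5, h6, h7⟩
  obtain ⟨e, h8⟩ := mem_sc.1 h5
  have h9 : k * g * k⁻¹ = sc e * g := by rw [← h8, MulAut.conj_apply]; group
  have h10 := ((h6.mul ha).mul h6.inv).unique hf (h9 ▸ (qm_sc e).mul ha)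
  rw [mul_inv_cancel_comm, right_eq_mul] at h10
  rcases sq_eq_one_iff.1 (show (e : F) ^ 2 = 1 by rw [← Units.val_pow_eq_pow_val, h10]; rfl) with h11 | h11
  swap
  · refine h4 (det_neg_conj he hc' ?_)
    rw [← charpoly_units_conj k g.1, ← Units.val_mul, ← coe_units_inv, ← Units.val_mul, h9,
      sc_mul_coe, h11, neg_one_smul]
  obtain ⟨b, h12, h13⟩ := exists_inv ha hc (not_not.1 (mt (det_nonsq he hc') h4))
  obtain ⟨s, hs⟩ := exists_toGL (qm_one.1 h12)
  have h14 : dick s ≠ 1 := fun h => h1 ((mul_mem_cancel_left (sc_le_G0 he (sc_mem b))).1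
    ((iso_G0 hf hn he (qm_one.1 h12)).2 (by rw [← hs, dk_toGL, h])))
  have h15 : ∀ x, s.1 (s.1 x) = x := fun x => by
    rw [← Form.toGL_mulVec, ← Form.toGL_mulVec, hs, mulVec_mulVec, ← Units.val_mul, h13,
      Units.val_one, one_mulVec]
  have h16 : ∀ x, k.1 *ᵥ s.1 x = s.1 (k.1 *ᵥ x) := fun x => by
    rw [← Form.toGL_mulVec, ← Form.toGL_mulVec, hs, mulVec_mulVec, mulVec_mulVec, ← Units.val_mul,
      ← Units.val_mul, sc_left, mul_inv_eq_iff_eq_mul.1 h9, show e = 1 from Units.ext h11, map_one,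
      one_mul, mul_assoc]
  have nd : f.NDOn (mov s) := by
    rintro _ ⟨x, rfl⟩ h
    refine hf _ fun y => mul_left_cancel₀ h2 ?_
    have h17 := h _ ⟨y, rfl⟩
    have h18 := Form.isom_B s (x - s.1 x) y
    simp only [LinearMap.sub_apply, LinearMap.id_apply, LinearEquiv.coe_coe, map_sub, h15]
      at h17 h18 ⊢
    linear_combination h17 - h18
  have hW : ∀ x ∈ mov s, k.1.mulVecLin x ∈ mov s := by
    rintro _ ⟨x, rfl⟩
    exact ⟨k.1 *ᵥ x, by simp [mulVec_sub, h16]⟩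
  let φ := LinearEquiv.ofInjectiveEndo (k.1.mulVecLin.restrict hW) fun x y h =>
    Subtype.ext (mulVec_injective_of_isUnit k.isUnit (congrArg Subtype.val h))
  have h19 := (quad_isIso_of_Q (f := scaleForm (a : F) (f.restrict (mov s))) (f' := f.restrict (mov s))
    (e := φ) fun x => h6 x).disc_eq
  rw [scaleForm_disc a.ne_zero (f.restrict_ND.2 nd), right_eq_mul, chi_eq_neg_one.2 h7] at h19
  exact h14 h19

lemma not_cb (hd : f.disc = 1) {g : GL ι F} (h0 : g ∈ GO f.Q) (h1 : g ∉ G0 f) :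
    ¬ CB f (MulAut.conj g) := by
  haveI : Nonempty ι := Fintype.card_pos_iff.1 (by omega)
  rintro ⟨k, hk, a, h3, h4, h5⟩
  obtain ⟨v, hv, h6⟩ := exists_rf hf
  have h7 := mul_mem_G0 hf hn he h0 h6 h1 (rf_not_mem hf hn he v hv)
  refine comm_not_mem hf hn he h2 hd h4 h5 hv ?_
  have := comm_step (normal_ZO hf hn (overG0 hf hn he)) (normal_ZO hf hn overGO)
    (by rw [idx_ZO_G0 hf hn he h2, if_pos hd]) G0_le hk h0 h6 h7 (mem_sup_left h3)
  rwa [inv_eq_of_mul_eq_one_right (rf_mul_self v hv)] at this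

theorem split_inv (hT : f.HasTS 3) {g : GL ι F} (h0 : g ∈ GO f.Q) (h1 : g ∉ G0 f)
    {γ : MulAut (POmega F f.Q)} (h : (carO hf hn).Rep (MulAut.conj g) γ) (h3 : orderOf γ = 2) :
    (splitClassCount (overG0 hf hn he).c.range (Inn _) γ = 1 ∨
      splitClassCount (overG0 hf hn he).c.range (Inn _) γ = 2) ∧
      (f.disc = 1 ∨ Even m → splitClassCount (overG0 hf hn he).c.range (Inn _) γ = 2) := by
  have h4 := (h.mul h).congr (map_mul _ _ _).symm
  rw [← sq γ, ← h3, pow_orderOf_eq_one] at h4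
  rw [split_G0 hf hn he h2 (fun c => by
    rw [MulAut.conj_apply, ← sc_comm, mul_inv_cancel_right]; exact sc_mem c) h,
    if_pos (ca_inv hf hn he h2 hT h0 h1 (h4.conj_eq_one.1 rfl)), one_mul]
  exact ⟨by split_ifs <;> simp, fun hd => if_neg (hd.elim (not_cb hf hn he h2 · h0 h1)
    (not_cb_even hf hn he h2 · h0 h1 (h4.conj_eq_one.1 rfl)))⟩

omit hn in
lemma ts_of_semi {g : GL ι F} {σ : F ≃+* F} (hσ : orderOf σ = 2) (h : IsSemisimilarityPair f.Q g σ)
    (h1 : g * fm σ g ∈ scalars ι F) (hm : 0 < m) : f.HasTS m := by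
  haveI : Nonempty ι := Fintype.card_pos_iff.1 (by omega)
  obtain ⟨c, hc⟩ := h
  obtain ⟨l, hl⟩ := mem_sc.1 h1
  obtain ⟨K, hK⟩ := exists_fix σ
  have hs : σ * σ = 1 := by rw [← sq, ← hσ, pow_orderOf_eq_one]
  have hs' : ∀ a, σ (σ a) = a := fun a => DFunLike.congr_fun hs a
  have h3 : QM f (g * fm σ g) (c * fu σ c) := fun v => by
    have : v = σ ∘ σ ∘ v := funext fun i => (hs' _).symm
    conv_lhs => rw [this, Units.val_mul, ← mulVec_mulVec, fm_mulVec]
    erw [hc, hc]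
    simp [hs', mul_assoc]
  have h4 := h3.unique hf (hl ▸ qm_sc l)
  obtain ⟨G, hG, hd⟩ := exists_G hf
  have h5 : (it g)⁻¹ * G * g = sc c * fm σ G := Units.ext (Matrix.ext fun i j => by
    have := T_B (j := (σ : F →+* F)) (e := glEquiv g) (c := c) (f₀ := f) (f := f) hc
      (Pi.single i 1) (Pi.single j 1)
    rw [comp_single, comp_single, hG, hG] at this
    rw [Units.val_mul, Units.val_mul, it_inv_coe, sc_mul_coe]
    refine ((gf_single (RingHom.id F) _ i j).symm.trans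
      ((gf_mulVec (RingHom.id F) G.1 g.1 g.1 _ _).symm.trans this)).trans ?_
    simp [gf_single])
  have h6 := congrArg det h5
  have h7 := congrArg det hl
  simp only [map_mul, map_inv, det_it, det_sc, det_fm, inv_inv, he] at h6 h7
  obtain ⟨b, hb⟩ := h90_units (σ := σ) (c := det g * (c ^ m)⁻¹) (by
    rw [hσ, tn_two, map_mul, mul_mul_mul_comm, h7, map_inv, map_pow, ← mul_inv, ← mul_pow, h4,
      pow_mul, mul_inv_cancel])
  have h8 : fu σ (det G * b ^ 2) = det G * b ^ 2 := by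
    rw [map_mul, map_pow, ← mul_right_inj (c ^ (2 * m)), ← mul_assoc, ← h6,
      mul_inv_eq_iff_eq_mul.1 hb, mul_comm 2, pow_mul]
    simp [sq, mul_comm, mul_left_comm, mul_assoc]
  obtain ⟨d, h9⟩ := (hK _).1 (congrArg Units.val h8)
  have h10 := chi_eq_one.2 (sq_two hK hσ d)
  rw [h9, Units.val_mul, mul_comm, Units.val_pow_eq_pow_val, chi_sq_mul b.ne_zero] at h10
  rw [hasTS_iff_disc h2 hf (by simpa), hd, show chi (-1 : F) = 1 from chi_eq_one.2
    (by simpa using sq_two hK hσ (-1)), one_pow]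
  exact h10

omit hf hn he in
theorem s2719 {m : ℕ} (hm : 3 ≤ m) {a b : F}
    (hab : ∀ z₁ z₂ : F, z₁ ^ 2 + a * z₁ * z₂ + b * z₂ ^ 2 = 0 → z₁ = 0 ∧ z₂ = 0)
    (γ : MulAut (POmega F (minusForm F m a b).Q)) {I : Subgroup (MulAut _)}
    (hI : inndiagPOmegaMinus m F a b = I) (h4 : γ ∉ I) (hγ2 : orderOf γ = 2) :
    (splitClassCount I (Inn _) γ = 1 ∨ splitClassCount I (Inn _) γ = 2) ∧
      (¬ (Even m ∧ Nat.card F % 4 = 1) → splitClassCount I (Inn _) γ = 2) := by
  have hn := five_le hm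
  have he := card_mm m
  have hf := minusForm_ND m hab
  have hT := minusForm_not_hasTS m hab
  obtain rfl := hI.symm.trans (inndiagM_eq hab hn)
  obtain ⟨g, σ, h0, r⟩ := autO (hf := hf) (hn := hn) he (by omega) hT γ
  obtain ⟨φ, -, -, hφ⟩ := faM hab hm
  have h6 : γ ^ 2 = 1 := (orderOf_eq_prime_iff.1 hγ2).1
  have h1 : σ ^ 2 = 1 := by rw [← hφ _ _ _ r, ← map_pow, h6, map_one]
  have h3 := r.mul r
  rw [slin_mul, ← sq σ, h1, map_one, mul_one, ← sq γ, h6] at h3
  obtain rfl : σ = 1 := by_contra fun h => hT (ts_of_semi hf he h2 (orderOf_eq_prime h1 h) h0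
    (h3.conj_eq_one.1 rfl) (by omega))
  rw [map_one, mul_one] at r
  have h5 : (minusForm F m a b).HasTS m := by
    let φ : (Fin m → F) →ₗ[F] ((Fin m ⊕ Fin m) ⊕ Fin 2 → F) :=
      { toFun := fun x => Sum.elim (Sum.elim x 0) 0
        map_add' := fun x y => by ext ((i | i) | i) <;> simp
        map_smul' := fun c x => by ext ((i | i) | i) <;> simp }
    refine ⟨LinearMap.range φ, (quad_TS_iff _).2 ?_, by
      rw [LinearMap.finrank_range_of_inj fun x y h => funext fun i => congrFun h (.inl (.inl i))]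
      simp⟩
    rintro _ ⟨x, rfl⟩
    simp [minusForm_Q, quadFormMinus, φ]
  have := split_inv hf hn he h2 (h5.mono hm) h0
    (fun h => h4 ⟨⟨g, h⟩, ((overG0 hf hn he).rep ⟨g, h⟩).unique r⟩) r hγ2
  refine ⟨this.1, fun h => this.2 ?_⟩
  have := Nat.odd_iff.1 (odd_card_iff.2 h2)
  rw [disc_minus_iff hab h2, Nat.even_add_one]
  by_cases h6 : Even m
  · exact .inl ⟨h6, by simp only [h6, true_and] at h; omega⟩
  · exact .inr h6

end H4.Au
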