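import Cfsg.Agent.H4.CpF
import Cfsg.Agent.H4.GrE

/-! Maps commuting with Eichler transformations. -/

set_option autoImplicit false

namespace H4.Au
open Matrix Cfsg Cfsg.Geo Subgroup Module H4.As
open scoped MatrixGroups commutatorElement

local notation "GO" => quadSimilarityGroup
local notation "QF" F "," ι => Form (quadKind F) (ι → F)

section Abs
variable {K V : Type*} [Field K] [AddCommGroup V] [Module K V]

lemma eig_one {α β : V →ₗ[K] K} {u v y : V} {t z : K} (h1 : α u = 0) (h2 : α v = 0) (h3 : β u = 0)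
    (h0 : y ≠ 0) (h : y = z • (y + α y • v - (β y + t * α y) • u)) : z = 1 := by
  by_contra hz
  have hz' := sub_ne_zero.2 hz
  have e1 := congrArg α h
  simp only [map_smul, map_sub, map_add, h1, h2, smul_eq_mul, mul_zero, add_zero, sub_zero] at e1
  have a1 : α y = 0 := (mul_eq_zero.1 (show (z - 1) * α y = 0 by linear_combination -e1)).resolve_left hz'
  have e2 := congrArg β h
  simp only [a1, map_smul, map_sub, h3, smul_eq_mul, mul_zero, add_zero, sub_zero,
    zero_smul] at e2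
  have a2 : β y = 0 := (mul_eq_zero.1 (show (z - 1) * β y = 0 by linear_combination -e2)).resolve_left hz'
  simp only [a1, a2, zero_smul, mul_zero, add_zero, sub_zero] at h
  exact h0 ((smul_eq_zero_iff_right hz').1 (by rw [sub_smul, ← h, one_smul, sub_self]))

variable {F₀ W : Type*} [Field F₀] [Finite F₀] [AddCommGroup W] [Module F₀ W]
  [FiniteDimensional F₀ W] {f₁ : Form (quadKind F₀) W}

theorem semi_add (hf : f₁.ND) (hd : 5 ≤ finrank F₀ W) {j : F₀ →+* K} {J R : W →+ V}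
    (φ : W → V →ₗ[K] K) (hφ : ∀ u x, φ u (J x) = j (f₁.B u x))
    (H : ∀ x, f₁.Q x = 0 → ∃ c : K, R x = c • J x) : ∃ c : K, ∀ x, R x = c • J x := by
  have ind : ∀ {x y z z' : W} {a b : K}, f₁.Q x = 0 → f₁.Q y = 0 → f₁.B x y = 0 → f₁.B z x = 1 → f₁.B z y = 0 →
      f₁.B z' x = 0 → f₁.B z' y = 1 → R x = a • J x → R y = b • J y → a = b := by
    intro x y z z' a b h1 h2 h3 h4 h5 h6 h7 ha hb
    obtain ⟨c, hc⟩ := H (x + y) (by rw [Form.Q_add_of_perp h3, h1, h2, add_zero])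
    rw [map_add, map_add, ha, hb] at hc
    have e1 := congrArg (φ z) hc
    have e2 := congrArg (φ z') hc
    simp [hφ, h4, h5, h6, h7] at e1 e2
    rw [e1, e2]
  obtain ⟨u, w, h⟩ := quad_exists_hyp hf (by omega)
  have hX := V0_nd hf h
  have hd' : 3 ≤ finrank F₀ (V0 f₁ u w) := by have := h.finrank_perp; unfold V0; omega
  obtain ⟨v, hv, v0, hQ⟩ := quad_iso3 f₁ _ hd'
  obtain ⟨c, hc⟩ := H v hQ
  obtain ⟨v', hv', h1⟩ := hX.exists_eq hv v0 1
  rw [quad_symm] at h1
  have key : ∀ {u w}, f₁.Hyp u w → f₁.B u v = 0 → f₁.B w v = 0 → f₁.B v' u = 0 → ∀ l : F₀,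
      R (l • u) = c • J (l • u) := fun {u w} h a b d l => by
    by_cases l0 : l = 0
    · simp [l0]
    obtain ⟨c', e⟩ := H (l • u) (by rw [quad_Q_smul, h.Qu, mul_zero])
    rwa [← ind (z := l⁻¹ • w) (z' := v') (by rw [quad_Q_smul, h.Qu, mul_zero]) hQ (by simp [a])
      (by simp [h.Bwu, l0]) (by simp [b]) (by simp [d]) h1 e hc]
  rw [Form.mem_perp_pair] at hv hv'
  have ku := key h hv.1 hv.2 (Form.refl hv'.1)
  have kw := key ⟨h.Qw, h.Qu, by rw [quad_symm, h.Buw]⟩ hv.2 hv.1 (Form.refl hv'.2)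
  let S : AddSubgroup W := (R - (DistribSMul.toAddMonoidHom V c).comp J).ker
  have hS : ∀ x, x ∈ S ↔ R x = c • J x := fun x => sub_eq_zero
  refine ⟨c, fun x => (hS x).1 ?_⟩
  have := (quad_iso3 f₁).mem_of_singular hX hd' S (fun y hy hQ' => (hS y).2 (by
    by_cases y0 : y = 0
    · simp [y0]
    obtain ⟨c', e⟩ := H y hQ'
    obtain ⟨y', hy', h2⟩ := hX.exists_eq hy y0 1
    rw [Form.mem_perp_pair] at hy hy'
    rwa [ind (z := w) (z' := y') (a := c) (b := c') h.Qu hQ' hy.1 (by simp [h.Bwu]) hy.2 (Form.refl hy'.1)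
      (by rw [quad_symm, h2]) (by simpa using ku 1) e]))
    (v := x - f₁.B w x • u - f₁.B u x • w)
    (f₁.mem_perp_pair.2 ⟨by simp [h.Buu, h.Buw], by simp [h.Bwu, h.Bww]⟩)
  simpa using S.add_mem (S.add_mem this ((hS _).2 (kw (f₁.B u x)))) ((hS _).2 (ku (f₁.B w x)))

end Abs

section Pt
variable {ι : Type} [Fintype ι] [DecidableEq ι] {F F₀ : Type*} [Field F] [Field F₀] [Finite F₀]
  {j : F₀ →+* F} {f₁ : QF F₀, ι}

theorem pt_quad (hf : f₁.ND) (hd : 5 ≤ Fintype.card ι) : PT j (f₁.E.map f₁.toGL) := by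
  intro g τ H
  haveI : Nonempty ι := Fintype.card_pos_iff.1 (by omega)
  obtain ⟨G, hG, -⟩ := exists_G hf
  let φ : (ι → F₀) → (ι → F) →ₗ[F] F := fun u => toBilin' (gm j G).1 (j ∘ u)
  have hφ : ∀ u x, φ u (j ∘ x) = j (f₁.B u x) := fun u x => by
    rw [hG, ← bil_gm]; exact toBilin'_apply' _ _ _
  let J : (ι → F₀) →+ (ι → F) := (j : F₀ →+ F).compLeft ι
  have hs : ∀ (c : F₀) (x : ι → F₀), j ∘ (c • x) = j c • (j ∘ x) := fun c x => by ext; simp
  obtain ⟨c, hc⟩ := semi_add hf (by simpa) (J := J) (R := (sl g τ).comp J) φ hφ fun u hu => by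
    by_cases u0 : u = 0
    · exact ⟨0, by simp [u0]⟩
    have y0 : sl g τ (j ∘ u) ≠ 0 := fun e => u0 (funext fun i => by
      simpa using congrFun (sl_inj g τ (e.trans (map_zero _).symm)) i)
    have key : ∀ v, f₁.B u v = 0 → φ u (sl g τ (j ∘ u)) • (j ∘ v) =
        (φ v (sl g τ (j ∘ u)) + j (f₁.Q v) * φ u (sl g τ (j ∘ u))) • (j ∘ u) := fun v hv => by
      obtain ⟨a, ha⟩ := quad_exists_eich hu hv
      have e : ∀ y, (gm j (f₁.toGL a)).1 *ᵥ y =
          y + φ u y • (j ∘ v) - (φ v y + j (f₁.Q v) * φ u y) • (j ∘ u) := fun y => by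
        have := LinearMap.ext_on (f := (gm j (f₁.toGL a)).1.mulVecLin)
          (g := LinearMap.id + (φ u).smulRight (j ∘ v) - (φ v + j (f₁.Q v) • φ u).smulRight (j ∘ u))
          (span_T j (LinearEquiv.refl F _)) (by
            rintro _ ⟨x, rfl⟩
            simp only [LinearEquiv.refl_apply, mulVecLin_apply, gm_mulVec, Form.toGL_mulVec,
              ha.app x, LinearMap.sub_apply, LinearMap.add_apply, LinearMap.smulRight_apply,
              LinearMap.smul_apply, hφ, LinearMap.id_apply]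
            ext; simp)
        simpa using LinearMap.congr_fun this y
      obtain ⟨z, hz⟩ := mem_sc.1 (H _ ⟨a, ha.mem_E, rfl⟩)
      rw [mul_inv_eq_iff_eq_mul] at hz
      have e1 := slin_mulVec g τ (gm j (f₁.toGL a)) (j ∘ u)
      rw [hz, sc_mul_coe, smul_mulVec, gm_mulVec, Form.toGL_mulVec, ha.fix_u, e] at e1
      have := eig_one (by rw [hφ, Form.B_self_of_Q hu, map_zero]) (by rw [hφ, hv, map_zero])
        (by rw [hφ, Form.refl hv, map_zero]) y0 e1.symm
      rw [this, one_smul, add_sub_assoc, add_eq_left, sub_eq_zero] at e1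
      exact e1
    obtain ⟨w, h⟩ := hf.exists_hyp u0 hu
    change ∃ c : F, sl g τ (j ∘ u) = c • (j ∘ u)
    generalize sl g τ (j ∘ u) = y at key
    obtain ⟨v, hv, v0⟩ := Submodule.exists_mem_ne_zero_of_ne_bot (V0_ne (by simp; omega) h)
    obtain ⟨v', hv', h1⟩ := (V0_nd hf h).exists_ne hv v0
    rw [Form.mem_perp_pair] at hv hv'
    have a1 : φ u y = 0 := by
      simpa [hφ, h1, Form.refl hv.1] using congrArg (φ v) (key v' hv'.1)
    have a2 : ∀ v, f₁.B u v = 0 → φ v y = 0 := fun v hv => by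
      simpa [hφ, a1, h.Bwu] using congrArg (φ w) (key v hv).symm
    have lin : ∀ (x : ι → F₀) (l : F₀) y, φ (x - l • w) y = φ x y - j l * φ w y := fun x l y => by
      simp only [φ, show j ∘ (x - l • w) = j ∘ x - j l • (j ∘ w) by ext; simp, map_sub, map_smul]
      rfl
    refine ⟨φ w y, sub_eq_zero.1 (gl_mulVec_eq_zero.1 (funext fun i => ?_ :
      (gm j G).1 *ᵥ _ = 0))⟩
    have e := a2 (Pi.single i 1 - f₁.B u (Pi.single i 1) • w) (by simp [h.Buw])
    have e' : φ (Pi.single i 1) (y - φ w y • (j ∘ u)) = 0 := by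
      rw [lin] at e
      rw [map_sub, map_smul, hφ, quad_symm, smul_eq_mul]
      linear_combination e
    simpa [φ, toBilin'_apply', comp_single] using e'
  exact fin_of hc

end Pt

section Pc
variable {K V : Type*} [Field K] [Finite K] [AddCommGroup V] [Module K V]
  {f : Form (quadKind K) V} {μ : Type} [Fintype μ] [DecidableEq μ] {J : (μ → K) →ₗ[K] V}
  (h2 : (2 : K) ≠ 0) (hf : (f.comap J).ND) (hd : 3 ≤ Fintype.card μ)
include h2 hf hd

omit [DecidableEq μ] in
lemma pt_sing {s : V →+ V} (hs : Function.Injective s)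
    (H : ∀ a u v t, f.IsEich a (J u) (J v) t → ∃ z : K, ∀ y, s (a.1 y) = z • a.1 (s y))
    (u : μ → K) (hu : (f.comap J).Q u = 0) : ∃ c : K, s (J u) = c • J u := by
  by_cases u0 : u = 0
  · exact ⟨0, by simp [u0]⟩
  obtain ⟨w, h⟩ := hf.exists_hyp u0 hu
  obtain ⟨t, t0, v, h3, -, h4⟩ := quad_wrich hf (by simpa) u w h
  obtain ⟨a, ha⟩ := quad_exists_eich (f := f) hu h3
  obtain ⟨z, hz⟩ := H a u v _ ha
  have huw : f.B (J u) (J w) = 1 := h.Buw
  have e : ∀ y, a.1 y = y + f.B (J u) y • J v - (f.B (J v) y + f.Q (J v) * f.B (J u) y) • J u :=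
    fun y => by simpa using ha.app y
  have e1 := hz (J u)
  rw [ha.fix_u, e] at e1
  obtain rfl := eig_one (Form.B_self_of_Q ha.Qu) ha.Buv (Form.refl ha.Buv) (fun e => by
    have : J u = 0 := hs (e.trans (map_zero _).symm)
    simp [quad_symm f (J u), this] at huw) e1
  have e2 : ∀ y, a.1 (a.1 y - y) - (a.1 y - y) = (-(f.B (J u) y * f.B (J v) (J v))) • J u := fun y => by
    rw [e y, sub_right_comm, add_sub_cancel_left, map_sub, map_smul, map_smul, ha.fix_u, e (J v),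
      ha.Buv]
    module
  have b0 : f.B (J v) (J v) ≠ 0 := by
    rw [quad_B_self]; exact mul_ne_zero h2 (h4.trans_ne t0)
  have e3 := e2 (-(f.B (J v) (J v))⁻¹ • J w)
  rw [map_smul (f.B (J u)), huw, smul_eq_mul, mul_one, neg_mul, neg_neg, inv_mul_cancel₀ b0,
    one_smul] at e3
  exact ⟨_, (congrArg s e3).symm.trans (by rw [map_sub, hz, map_sub, hz, one_smul, one_smul, e2])⟩

omit [DecidableEq μ] in
lemma pt_semi {s : V →+ V} (hs : Function.Injective s) {ρ : K →+* K}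
    (hρ : ∀ c y, s (c • y) = ρ c • s y)
    (H : ∀ a u v t, f.IsEich a (J u) (J v) t → ∃ z : K, ∀ y, s (a.1 y) = z • a.1 (s y)) :
    ∃ c : K, ∀ u, s (J u) = c • J u := by
  have iJ : Function.Injective J := (injective_iff_map_eq_zero J).2 fun u hu =>
    hf u fun y => by simp [hu]
  obtain ⟨u, w, h⟩ := quad_exists_hyp hf (by simpa)
  obtain ⟨t, t0, v, h3, h4, h5⟩ := quad_wrich hf (by simpa) u w h
  refine semi_abs (j := RingHom.id K) (ρ := ρ) (J := J.toAddMonoidHom) (R := s.comp J.toAddMonoidHom)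
    (fun c v => by simp) (fun c v => by simp [hρ]) iJ (hs.comp iJ) (fun u => f.B (J u))
    (fun _ _ => rfl) (Or.inr ⟨h2, fun u w h => ?_⟩) h (v₀ := v) (fun e => t0 ?_) h3 h4
    (pt_sing h2 hf hd hs H)
  · obtain ⟨t, ht, v, a, b, c⟩ := quad_wrich hf (by simpa) u w h
    exact ⟨v, a, b, by rw [quad_B_self, c]; exact mul_ne_zero h2 ht⟩
  · rw [e, Form.Q_zero] at h5; exact h5.symm

theorem np_pc {N : Subgroup f.Isom} (hW : ∀ n ∈ N, ∀ y, ∃ y', n.1 (J y) = J y')
    (hn : ∀ a u v t, f.IsEich a (J u) (J v) t → ∀ n ∈ N, a * n * a⁻¹ ∈ N)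
    (hc : ∀ n ∈ N, ∃ k : ℕ, k.Coprime 2 ∧ ∃ c : K, ∀ y, (n ^ k).1 y = c • y) :
    ∀ n ∈ N, ∃ c : K, ∀ y, n.1 (J y) = c • J y := by
  have iJ : Function.Injective J := (injective_iff_map_eq_zero J).2 fun u hu =>
    hf u fun y => by simp [hu]
  let N₁ : Subgroup (f.comap J).Isom :=
    { carrier := {g | ∃ n ∈ N, ∀ y, J (g.1 y) = n.1 (J y)}
      one_mem' := ⟨1, one_mem _, fun _ => rfl⟩
      mul_mem' := fun ⟨n, h1, h2⟩ ⟨n', h3, h4⟩ => ⟨_, mul_mem h1 h3, fun y => by
        rw [Form.isom_mul_apply, Form.isom_mul_apply, h2, h4]⟩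
      inv_mem' := fun {g} ⟨n, h1, h2⟩ => ⟨_, inv_mem h1, fun y => n.1.injective (by
        rw [← h2, Form.isom_apply_inv, Form.isom_apply_inv])⟩ }
  haveI : Finite (f.comap J).Isom := Finite.of_injective _ Form.toGL_injective
  have hE : (f.comap J).E ≤ normalizer N₁ := (closure_le _).2 (by
    rintro a ⟨u, v, t, ha⟩
    obtain ⟨b, hb⟩ := Form.exists_isEich (f := f) ha.Qu ha.Buv ha.Tt
    have e : ∀ y, J (a.1 y) = b.1 (J y) := fun y => by rw [ha.app, hb.app]; simp
    refine mem_normalizer_fintype ?_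
    rintro g ⟨n, h3, h4⟩
    refine ⟨_, hn b u v t hb n h3, fun y => ?_⟩
    obtain ⟨y, rfl⟩ := a.1.surjective y
    simp only [Form.isom_mul_apply, e, h4, Form.isom_inv_apply])
  have := np_quad (T := (normalizer N₁).map (f.comap J).toGL) (odd_char h2) hf hd (map_mono hE)
    (map_le_range _ _) (N₁.map (f.comap J).toGL) ⟨map_mono le_normalizer, by
      rintro _ ⟨a, ha, rfl⟩ _ ⟨g, hg, rfl⟩
      exact ⟨_, (mem_normalizer_iff.1 ha g).1 hg, by simp⟩⟩ (by
      rintro _ ⟨g, ⟨n, h3, h4⟩, rfl⟩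
      obtain ⟨k, h5, c, h6⟩ := hc n h3
      have : ∀ i y, J ((g ^ i).1 y) = (n ^ i).1 (J y) := fun i => by
        induction i with
        | zero => exact fun _ => rfl
        | succ i ih => intro y; rw [pow_succ', pow_succ', Form.isom_mul_apply, Form.isom_mul_apply,
            h4, ih]
      exact ⟨k, h5, mem_sc_of (c := c) (mat_ext fun y => iJ (by
        rw [← map_pow, Form.toGL_mulVec, this, h6, smul_mulVec, one_mulVec, map_smul]))⟩)
  intro n hn'
  choose r hr using hW n hn'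
  let L : (μ → K) →ₗ[K] (μ → K) :=
    { toFun := r
      map_add' := fun a b => iJ (by simp only [map_add, ← hr])
      map_smul' := fun a b => iJ (by simp only [map_smul, ← hr, RingHom.id_apply]) }
  have hL : Function.Injective L := fun a b e => iJ (n.1.injective (by rw [hr, hr]; exact congrArg J e))
  obtain ⟨c, hc'⟩ := mem_sc.1 (this ⟨⟨LinearEquiv.ofInjectiveEndo L hL, (Form.mem_Isom _).2
    ⟨fun a b => by change f.B (J (r a)) (J (r b)) = _; rw [← hr, ← hr, Form.isom_B]; rfl,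
      fun a => by change f.Q (J (r a)) = _; rw [← hr, Form.isom_Q]; rfl⟩⟩,
    ⟨n, hn', fun y => (hr y).symm⟩, rfl⟩)
  refine ⟨c, fun y => ?_⟩
  have := congrArg (fun g : GL μ K => J (g.1 *ᵥ y)) hc'
  simp only [Form.toGL_mulVec, sc_mulVec, map_smul] at this
  exact (hr y).trans this

end Pc

end H4.Au
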