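import Cfsg.Agent.H4.CpG

/-! Graph involutions of orthogonal groups: the `2'`-core of the centraliser. -/

set_option autoImplicit false

namespace H4.Au
open Matrix Cfsg Cfsg.Geo Subgroup Module H4.As
open scoped MatrixGroups commutatorElement

local notation "GO" => quadSimilarityGroup
local notation "QF" F "," ι => Form (quadKind F) (ι → F)
local notation "det" => GeneralLinearGroup.det

variable {ι : Type} [Fintype ι] [DecidableEq ι] {F : Type*} [Field F] {f : QF F, ι} {g : GL ι F}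

variable (f g) in
/-- the centraliser in `Ω` -/
abbrev TG : Subgroup (GL ι F) := omegaGL f.Q ⊓ centralizer {g}

variable (g) in
/-- polynomials in `g` -/
def AB (h : GL ι F) : Prop := ∃ a b : F, ∀ y, h.1 *ᵥ y = a • y + b • g.1 *ᵥ y

variable (f g) in
/-- the structure of the centraliser -/
def SG : Prop := (∀ N, NormalIn (TG f g) N → (∀ n ∈ N, ∃ k : ℕ, k.Coprime 2 ∧ n ^ k ∈ scalars ι F) →
    ∀ n ∈ N, AB g n) ∧ ∀ h τ, IsSemisimilarityPair f.Q h τ → (∀ t ∈ TG f g,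
      (MulAut.conj h * fm τ : MulAut (GL ι F)) t * t⁻¹ ∈ scalars ι F) → τ = 1 ∧ AB g h

lemma TG_comm {t : GL ι F} (ht : t ∈ TG f g) (y : ι → F) :
    t.1 *ᵥ (g.1 *ᵥ y) = g.1 *ᵥ (t.1 *ᵥ y) := by
  rw [mulVec_mulVec, mulVec_mulVec, ← Units.val_mul, mem_centralizer_singleton_iff.1 ht.2,
    Units.val_mul]

lemma tau_one {h : GL ι F} {τ : F ≃+* F} {y : ι → F} (hy : y ≠ 0)
    (H : ∀ a : F, sl h τ (a • y) = a • sl h τ y) : τ = 1 := RingEquiv.ext fun a =>
  smul_left_injective F (fun e => hy (sl_inj h τ (e.trans (map_zero _).symm)))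
    ((sl_smul h τ a y).symm.trans (H a))

lemma AB.sq {c : Fˣ} (hf : f.ND) (hg : QM f g c) (h1 : g * g = sc c) {h : GL ι F} {l : Fˣ}
    (hl : QM f h l) (H : AB g h) : h * h = sc l := by
  obtain ⟨a, b, H⟩ := H
  have s : ∀ x y, f.B (g.1 *ᵥ x) y = f.B x (g.1 *ᵥ y) := fun x y =>
    mul_left_cancel₀ c.ne_zero (by
      rw [← hg.B x, mulVec_mulVec, ← Units.val_mul, h1, sc_mulVec, map_smul, smul_eq_mul])
  refine Units.ext (mat_ext fun y => hf.ext' fun x => ?_)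
  rw [sc_mulVec, map_smul, smul_eq_mul, ← hl.B, Units.val_mul, ← mulVec_mulVec, H x,
    H (h.1 *ᵥ y)]
  simp [s]

lemma exists_DF' {F₀ : Type*} [Field F₀] {j : F₀ →+* F} {σ : F ≃+* F} {u : GL ι F} [Nonempty ι]
    (hf : f.ND) (hj : ∀ a, σ a = a ↔ a ∈ j.range) {l : F}
    (e : ∀ v, f.Q (u.1 *ᵥ (σ ∘ v)) = l * σ (f.Q (u.1 *ᵥ v))) : ∃ f₁, DF j f u f₁ := by
  obtain ⟨v, hv⟩ : ∃ v : ι → F₀, f.Q (u.1 *ᵥ (j ∘ v)) ≠ 0 := by
    by_contra hc
    push Not at hc
    obtain ⟨w, hw⟩ := exists_Q_ne (pbq_ND hf u)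
    exact hw ((ext_j (j := j) (f' := scaleForm 0 f) (by simpa [scaleForm_Q, pbq_Q]) w).trans
      (zero_mul _))
  have e1 := e (j ∘ v)
  rw [show σ ∘ j ∘ v = j ∘ v from funext fun i => (hj _).2 ⟨_, rfl⟩] at e1
  generalize f.Q (u.1 *ᵥ (j ∘ v)) = a at hv e1
  have hv' : σ a ≠ 0 := (map_ne_zero σ).2 hv
  obtain ⟨f₁, h1⟩ := exists_desc hj (f := scaleForm a⁻¹ (pbq f u.1)) fun w => by
    rw [scaleForm_Q, scaleForm_Q, pbq_Q, pbq_Q, e, map_mul, map_inv₀, ← mul_assoc,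
      show a⁻¹ * l = (σ a)⁻¹ by field_simp; exact e1.symm]
  exact ⟨f₁, Units.mk0 a hv, fun w => by
    rw [← h1, scaleForm_Q, pbq_Q, Units.val_mk0, mul_inv_cancel_left₀ hv]⟩

variable [Finite F] (hf : f.ND) (hn : 5 ≤ Fintype.card ι) (h2 : (2 : F) ≠ 0)
include hf hn

lemma odd_mem_om {t : GL ι F} (ht : t ∈ isometryGroup F f.Q) {k : ℕ} (hk : Odd k) (h : t ^ k = 1) :
    t ∈ omegaGL f.Q := by
  have e : ∀ i, dk f (t ^ i) = dk f t ^ i ∧ sp f (t ^ i) = sp f t ^ i := fun i => by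
    induction i with
    | zero => simp only [pow_zero]; exact ⟨dk_one, sp_one hf⟩
    | succ i ih => rw [pow_succ, dk_mul hf hn (pow_mem ht i) ht, sp_mul hf hn (pow_mem ht i) ht,
        ih.1, ih.2, pow_succ, pow_succ]; exact ⟨rfl, rfl⟩
  have := e k
  rw [h, dk_one, sp_one hf] at this
  refine (mem_om hf hn).2 ⟨ht, ?_, ?_⟩
  · rcases Int.units_eq_one_or (dk f t) with e | e
    exacts [e, by simp [e, hk.neg_one_pow] at this]
  · rcases Int.units_eq_one_or (sp f t) with e | e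
    exacts [e, by simp [e, hk.neg_one_pow] at this]

include h2

section Piece
variable {K : Type*} [Field K] [Finite K] [Algebra F K] [Module K (ι → F)]
  [IsScalarTower F K (ι → F)] {fK : Form (quadKind K) (ι → F)} {μ : Type} [Fintype μ]
  [DecidableEq μ] {J : (μ → K) →ₗ[K] (ι → F)}
  (hI : ∀ a : fK.Isom, ∀ y, f.Q (a.1 y) = f.Q y)
  (hC : ∀ a u v t, fK.IsEich a (J u) (J v) t → ∀ y, a.1 (g.1 *ᵥ y) = g.1 *ᵥ a.1 y)
include hI hC

omit [Fintype μ] [DecidableEq μ] in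
lemma psi_mem : ∃ Ψ : fK.Isom →* GL ι F, (∀ a y, (Ψ a).1 *ᵥ y = a.1 y) ∧
    ∀ a u v t, fK.IsEich a (J u) (J v) t → Ψ a ∈ TG f g := by
  let Ψ : fK.Isom →* GL ι F := glEquiv.symm.toMonoidHom.comp
    (MonoidHom.mk' (fun a => a.1.restrictScalars F) fun _ _ => rfl)
  have e : ∀ a y, (Ψ a).1 *ᵥ y = a.1 y := fun a y => glEquiv_symm_mulVec _ _
  refine ⟨Ψ, e, fun a u v t ha => ⟨?_, mem_centralizer_singleton_iff.2 (Units.ext
    (mat_ext fun y => by simp only [Units.val_mul, ← mulVec_mulVec, e, hC a u v t ha]))⟩⟩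
  obtain ⟨i, hi⟩ := InU.pe (⟨_, t, ha⟩ : InU a (J u))
  exact odd_mem_om hf hn (qm_one.1 fun y => by simp [e, hI])
    (odd_char ((two_ne_iff (algebraMap F K)).2 h2)).pow (by rw [← map_pow, hi, map_one])

omit [Fintype μ] [DecidableEq μ] in
lemma piece_B {h : GL ι F} {τ : F ≃+* F} (H : ∀ t ∈ TG f g,
    (MulAut.conj h * fm τ : MulAut (GL ι F)) t * t⁻¹ ∈ scalars ι F) (a : fK.Isom) (u v : μ → K)
    (t : K) (ha : fK.IsEich a (J u) (J v) t) :
    ∃ z : K, ∀ y, sl h τ (a.1 y) = z • a.1 (sl h τ y) := by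
  obtain ⟨Ψ, e, h3⟩ := psi_mem hf hn h2 hI hC
  obtain ⟨z, hz⟩ := mem_sc.1 (H _ (h3 a u v t ha))
  rw [mul_inv_eq_iff_eq_mul] at hz
  refine ⟨algebraMap F K z, fun y => ?_⟩
  have := slin_mulVec h τ (Ψ a) y
  rw [hz, sc_mul_coe, smul_mulVec, e, e] at this
  rw [algebraMap_smul]
  exact this.symm

lemma piece_A (hJ : (fK.comap J).ND) (hd : 3 ≤ Fintype.card μ)
    (hT : ∀ t ∈ TG f g, ∃ a : fK.Isom, (∀ y, a.1 y = t.1 *ᵥ y) ∧ ∀ y, ∃ y', a.1 (J y) = J y')
    {N : Subgroup (GL ι F)} (hN : NormalIn (TG f g) N)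
    (hc : ∀ n ∈ N, ∃ k : ℕ, k.Coprime 2 ∧ n ^ k ∈ scalars ι F) {n : GL ι F} (h : n ∈ N) :
    ∃ c : K, ∀ y, n.1 *ᵥ J y = c • J y := by
  obtain ⟨Ψ, e, h3⟩ := psi_mem hf hn h2 hI hC
  obtain ⟨a, h4, -⟩ := hT n (hN.1 h)
  obtain rfl : Ψ a = n := Units.ext (mat_ext fun y => by rw [e, h4])
  simp only [e]
  refine np_pc ((two_ne_iff (algebraMap F K)).2 h2) hJ hd (N := N.comap Ψ) (fun n h y => ?_)
    (fun a u v t ha n h => by simpa using hN.2 _ (h3 a u v t ha) _ h) (fun n h => ?_) a h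
  · obtain ⟨b, h5, h6⟩ := hT _ (hN.1 h)
    rw [← e, ← h5]; exact h6 y
  · obtain ⟨k, h5, h6⟩ := hc _ h
    obtain ⟨z, hz⟩ := mem_sc.1 h6
    exact ⟨k, h5, algebraMap F K z, fun y => by
      rw [← e, map_pow, hz, sc_mulVec, algebraMap_smul]⟩

end Piece

variable {m : ℕ} (he : Fintype.card ι = 2 * m) (h0 : g ∉ G0 f)
include he h0

theorem sg_nonsq (hm : 4 ≤ m) {c : Fˣ} (hg : QM f g c) (h1 : g * g = sc c)
    (hc : ¬ IsSquare (c : F)) : SG f g := by
  have e : ∀ x, g.1 *ᵥ (g.1 *ᵥ x) = (c : F) • x := fun x => by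
    rw [mulVec_mulVec, ← Units.val_mul, h1, sc_mulVec]
  have s : ∀ x y, f.B (g.1 *ᵥ x) y = f.B x (g.1 *ᵥ y) := fun x y =>
    mul_left_cancel₀ c.ne_zero (by rw [← hg.B x, e, map_smul, smul_eq_mul])
  have hm' : 5 ≤ m := by
    refine lt_of_le_of_ne hm fun e => h0 ((mem_G0 h2 he).2 ⟨c, hg, Units.ext ?_⟩)
    have := det_nonsq he (g := g.1) (c := (c : F)) (by rw [← Units.val_mul, h1, sc_coe]) hc
    rw [← e] at this ⊢
    simpa [show ∀ x : F, (-x) ^ 4 = x ^ 4 from fun x => by ring] using this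
  haveI : Fact (∀ r : F, r ^ 2 ≠ c + 0 * r) := ⟨fun r h => hc ⟨r, by linear_combination -h⟩⟩
  let K := QuadraticAlgebra F c 0
  haveI : Finite K := Module.finite_of_finite F
  let φ : K →ₐ[F] End F (ι → F) := QuadraticAlgebra.lift ⟨g.1.mulVecLin, by
    refine LinearMap.ext fun v => ?_; simp [e, -mulVec_mulVec]⟩
  letI : Module K (ι → F) := Module.compHom _ φ.toRingHom
  have hs : ∀ (k : K) (v : ι → F), k • v = k.re • v + k.im • g.1 *ᵥ v := fun _ _ => rfl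
  haveI : IsScalarTower F K (ι → F) := ⟨fun a k v => by simp [hs, mul_smul, K]⟩
  haveI : FiniteDimensional K (ι → F) := Module.Finite.of_restrictScalars_finite F K _
  let β : (ι → F) → (ι → F) → K := fun u v => ⟨f.B u (g.1 *ᵥ v), f.B u v⟩
  have b1 : ∀ u v, β u v = β v u := fun u v => by
    ext <;> simp only [β]
    exacts [by rw [← s, quad_symm], quad_symm _ _ _]
  have b2 : ∀ (k : K) u v, β u (k • v) = k • β u v := fun k u v => by
    ext <;> simp [β, hs, mulVec_add, mulVec_smul, e, K] <;> ring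
  have b3 : ∀ u v w, β u (v + w) = β u v + β u w := fun u v w => by
    ext <;> simp [β, mulVec_add, K]
  have h2K := (two_ne_iff (algebraMap F K)).2 h2
  let fK := symForm h2K (LinearMap.mk₂ K β (fun u v w => by rw [b1, b3, b1 w, b1 w])
    (fun k u v => by rw [b1, b2, b1 v]) b3 b2) ⟨b1⟩
  let J := (Module.finBasis K (ι → F)).equivFun.symm
  have hr : finrank K (ι → F) = m := by
    have := finrank_mul_finrank F K (ι → F)
    rw [QuadraticAlgebra.finrank_eq_two, finrank_fintype_fun_eq_card, he] at this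
    omega
  have hJ : (fK.comap J.toLinearMap).ND := fun u hu => J.map_eq_zero_iff.1 (hf _ fun v => by
    obtain ⟨v, rfl⟩ := J.surjective v
    exact congrArg QuadraticAlgebra.im (hu v))
  have hI : ∀ a : fK.Isom, ∀ y, f.Q (a.1 y) = f.Q y := fun a y => mul_left_cancel₀ h2 (by
    rw [← quad_B_self, ← quad_B_self]; exact congrArg QuadraticAlgebra.im (Form.isom_B a y y))
  have hC : ∀ a u v t, fK.IsEich a (J.toLinearMap u) (J.toLinearMap v) t →
      ∀ y, a.1 (g.1 *ᵥ y) = g.1 *ᵥ a.1 y := fun a _ _ _ _ y => by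
    simpa [hs] using a.1.map_smul (QuadraticAlgebra.omega : K) y
  refine ⟨fun N hN hc n h => ?_, fun h τ _ H => ?_⟩
  · obtain ⟨k, hk⟩ := piece_A hf hn h2 hI hC hJ (by simp; omega) (fun t ht => ⟨⟨{
        (glEquiv t).toAddEquiv with
        map_smul' := fun k v => by simp [hs, mulVec_add, mulVec_smul, TG_comm ht] },
        (quad_mem_Isom _).2 fun v => congrArg (· / 2) (by
          have := (qm_one.2 (omega_le _ ht.1)).B
          change β (t.1 *ᵥ v) (t.1 *ᵥ v) = β v v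
          simp [β, ← TG_comm ht, this, -mulVec_mulVec])⟩, fun _ => rfl,
      fun y => ⟨_, (J.apply_symm_apply _).symm⟩⟩) hN hc h
    exact ⟨k.re, k.im, fun y => by simpa [hs] using hk (J.symm y)⟩
  · obtain ⟨k, hk⟩ := semi_add hJ (by simp; omega) (j := RingHom.id K)
      (J := J.toLinearMap.toAddMonoidHom) (R := (sl h τ).comp J.toLinearMap.toAddMonoidHom)
      (fun u => fK.B (J u)) (fun _ _ => rfl)
      (pt_sing h2K hJ (by simp; omega) (sl_inj h τ) (piece_B hf hn h2 hI hC H))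
    have hk' : ∀ y, sl h τ y = k • y := fun y => by simpa using hk (J.symm y)
    obtain ⟨i⟩ : Nonempty ι := Fintype.card_pos_iff.1 (by omega)
    obtain rfl := tau_one (h := h) (τ := τ) (y := Pi.single i 1) (by simp) fun a => by
      rw [hk', hk', hs, hs, mulVec_smul]; module
    exact ⟨rfl, k.re, k.im, hk'⟩

theorem sg_sq (hg : QM f g 1) (h1 : g * g = 1) : SG f g := by
  have e : ∀ x, g.1 *ᵥ (g.1 *ᵥ x) = x := fun x => by
    rw [mulVec_mulVec, ← Units.val_mul, h1, Units.val_one, one_mulVec]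
  have s : ∀ x y, f.B (g.1 *ᵥ x) y = f.B x (g.1 *ᵥ y) := fun x y => by
    simpa [e] using hg.B x (g.1 *ᵥ y)
  let E : F → Submodule F (ι → F) := fun ε => LinearMap.ker (g.1.mulVecLin - ε • LinearMap.id)
  have hE : ∀ ε x, x ∈ E ε ↔ g.1 *ᵥ x = ε • x := fun ε x => by simp [E, sub_eq_zero]
  have pr : ∀ ε : F, ε * ε = 1 → ∀ y, y + ε • g.1 *ᵥ y ∈ E ε := fun ε h3 y => (hE _ _).2 (by
    rw [mulVec_add, mulVec_smul, e, smul_add, smul_smul, h3, one_smul, add_comm])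
  have nd : ∀ ε : F, ε * ε = 1 → f.NDOn (E ε) := fun ε h3 x hx h => hf x fun y =>
    mul_left_cancel₀ h2 (by
      have h5 := h _ (pr ε h3 y)
      rw [map_add, map_smul, ← s, (hE _ _).1 hx] at h5
      simp only [smul_eq_mul, Form.B_smul_left, quadKind_σ] at h5
      linear_combination h5 - f.B x y * h3)
  have cpl : IsCompl (E 1) (E (-1)) := ⟨Submodule.disjoint_def.2 fun x a b =>
    (smul_eq_zero_iff_right h2).1 (by
      linear_combination (norm := module) (hE _ _).1 b - (hE _ _).1 a),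
    codisjoint_iff.2 (eq_top_iff.2 fun y _ => (Submodule.smul_mem_iff _ h2).1 (by
      convert Submodule.add_mem_sup (pr 1 (by simp) y) (pr (-1) (by simp) y) using 1
      module))⟩
  have o1 : Odd (finrank F (E (-1))) := by
    by_contra ho
    have hle : E (-1) ≤ (E (-1)).comap g.1.mulVecLin := fun x hx => by
      rw [Submodule.mem_comap, mulVecLin_apply, (hE _ _).1 hx]; exact Submodule.smul_mem _ _ hx
    have := g.1.mulVecLin.det_eq_det_mul_det _ hle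
    rw [show g.1.mulVecLin.restrict (p := E (-1)) (q := E (-1)) hle = (-1 : F) • LinearMap.id from
        LinearMap.ext fun x => Subtype.ext ((hE (-1) _).1 x.2),
      show (E (-1)).mapQ _ _ hle = LinearMap.id from Submodule.linearMap_qext _
        (LinearMap.ext fun x => (Submodule.Quotient.eq _).2 (by
          simpa [sub_eq_add_neg] using neg_mem (pr (-1) (by simp) x))),
      LinearMap.det_smul, (Nat.not_odd_iff_even.1 ho).neg_one_pow, ← toLin'_apply',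
      LinearMap.det_toLin'] at this
    exact h0 ((mem_G0 h2 he).2 ⟨1, hg, Units.ext (by simpa using this)⟩)
  have sum := Submodule.finrank_add_eq_of_isCompl cpl
  rw [finrank_fintype_fun_eq_card] at sum
  have o2 : Odd (finrank F (E 1)) := by
    rw [Nat.odd_iff] at o1 ⊢; omega
  have fin : ∀ h : GL ι F, (∀ ε : F, ε * ε = 1 → Odd (finrank F (E ε)) →
      ∃ c : F, ∀ y ∈ E ε, h.1 *ᵥ y = c • y) → AB g h := fun h H => by
    obtain ⟨a, ha⟩ := H 1 (by simp) o2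
    obtain ⟨b, hb⟩ := H (-1) (by simp) o1
    refine ⟨(a + b) / 2, (a - b) / 2, fun y => smul_right_injective _ h2 ?_⟩
    have e1 := ha _ (pr 1 (by simp) y)
    have e2 := hb _ (pr (-1) (by simp) y)
    simp only [mulVec_add, mulVec_smul, smul_add, smul_smul, mul_div_cancel₀ _ h2] at e1 e2 ⊢
    linear_combination (norm := module) e1 + e2
  have one : ∀ (h : GL ι F) ε, (∀ y ∈ E ε, h.1 *ᵥ y ∈ E ε) → finrank F (E ε) = 1 →
      ∃ c : F, ∀ y ∈ E ε, h.1 *ᵥ y = c • y := fun h ε H h3 => by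
    obtain ⟨v, -, hv⟩ := finrank_eq_one_iff'.1 h3
    obtain ⟨c, hc⟩ := hv ⟨_, H v v.2⟩
    refine ⟨c, fun y hy => ?_⟩
    obtain ⟨d, hd⟩ := hv ⟨y, hy⟩
    obtain rfl : d • v.1 = y := congrArg Subtype.val hd
    rw [mulVec_smul, ← show c • v.1 = h.1 *ᵥ v.1 from congrArg Subtype.val hc, smul_comm]
  let J := fun ε => (E ε).subtype ∘ₗ (Module.finBasis F (E ε)).equivFun.symm.toLinearMap
  have hs : ∀ ε, ∀ y ∈ E ε, ∃ u, y = J ε u := fun ε y hy =>
    ⟨(Module.finBasis F (E ε)).equivFun ⟨y, hy⟩, by simp [J, -Basis.equivFun_apply,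
      -Basis.equivFun_symm_apply]⟩
  have hm : ∀ ε u, J ε u ∈ E ε := fun ε u => Subtype.prop _
  have hJ : ∀ ε : F, ε * ε = 1 → (f.comap (J ε)).ND := fun ε h3 u hu =>
    (Module.finBasis F (E ε)).equivFun.symm.map_eq_zero_iff.1 (Subtype.ext
      (nd ε h3 _ (hm ε u) fun y hy => by obtain ⟨v, rfl⟩ := hs ε y hy; exact hu v))
  have hC : ∀ ε : F, ε * ε = 1 → ∀ a u v t, f.IsEich a (J ε u) (J ε v) t →
      ∀ y, a.1 (g.1 *ᵥ y) = g.1 *ᵥ a.1 y := fun ε h3 a u v t ha y => by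
    rw [ha.app, ha.app]
    simp only [mulVec_add, mulVec_sub, mulVec_smul, ← s, (hE _ _).1 (hm ε _), Form.B_smul_left,
      quadKind_σ, quadKind_ε]
    module
  have three : ∀ {k : ℕ}, Odd k → k ≠ 1 → 3 ≤ Fintype.card (Fin k) := fun h h' => by
    rw [Nat.odd_iff] at h; simp; omega
  refine ⟨fun N hN hc n h => fin n fun ε h3 ho => ?_, fun h τ hp H => ?_⟩
  · have inv : ∀ t ∈ TG f g, ∀ y ∈ E ε, t.1 *ᵥ y ∈ E ε := fun t ht y hy => (hE _ _).2 (by
      rw [← TG_comm ht, (hE _ _).1 hy, mulVec_smul])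
    by_cases h4 : finrank F (E ε) = 1
    · exact one n ε (inv n (hN.1 h)) h4
    obtain ⟨c, hc⟩ := piece_A hf hn h2 Form.isom_Q (hC ε h3) (hJ ε h3) (three ho h4)
      (fun t ht => by
        obtain ⟨a, rfl⟩ := exists_toGL (omega_le _ ht.1)
        exact ⟨a, fun y => (Form.toGL_mulVec a y).symm, fun y => hs ε _
          (Form.toGL_mulVec a _ ▸ inv _ ht _ (hm ε y))⟩) hN hc h
    exact ⟨c, fun y hy => by obtain ⟨u, rfl⟩ := hs ε y hy; exact hc u⟩
  have big : ∀ ε : F, ε * ε = 1 → 3 ≤ Fintype.card (Fin (finrank F (E ε))) →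
      ∃ c : F, ∀ y ∈ E ε, sl h τ y = c • y := fun ε h3 h4 => by
    obtain ⟨c, hc⟩ := pt_semi h2 (hJ ε h3) h4 (sl_inj h τ) (ρ := τ) (sl_smul h τ)
      (piece_B hf hn h2 Form.isom_Q (hC ε h3) H)
    exact ⟨c, fun y hy => by obtain ⟨u, rfl⟩ := hs ε y hy; exact hc u⟩
  obtain rfl : τ = 1 := by
    obtain ⟨ε, h3, h4⟩ : ∃ ε : F, ε * ε = 1 ∧ 3 ≤ finrank F (E ε) := by
      by_cases h : 3 ≤ finrank F (E 1)
      exacts [⟨1, by simp, h⟩, ⟨-1, by simp, by omega⟩]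
    obtain ⟨c, hc⟩ := big ε h3 (by simpa)
    obtain ⟨y, hy, y0⟩ := Submodule.exists_mem_ne_zero_of_ne_bot (p := E ε) fun e => by
      rw [e, finrank_bot] at h4; omega
    exact tau_one y0 fun a => by rw [hc _ (Submodule.smul_mem _ _ hy), hc y hy, smul_comm]
  refine ⟨rfl, fin h fun ε h3 ho => ?_⟩
  by_cases h4 : finrank F (E ε) = 1
  swap
  · exact big ε h3 (three ho h4)
  obtain ⟨l, hl⟩ := pair_GO (fun _ => rfl) hp
  have h5 : -ε * -ε = 1 := by rw [neg_mul_neg, h3]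
  obtain ⟨c, hc⟩ := big (-ε) h5 (by
    rcases mul_self_eq_one_iff.1 h3 with rfl | rfl
    · simp; omega
    · rw [neg_neg]; simp; omega)
  refine one h ε (fun y hy => (hE _ _).2 ?_) h4
  have := nd _ h5 _ (pr _ h5 (h.1 *ᵥ y)) fun w hw => by
    have a1 := QM.B hl y w
    have a2 := s y w
    have a3 := s (h.1 *ᵥ y) w
    have a4 : h.1 *ᵥ w = c • w := hc w hw
    rw [(hE _ _).1 hy, (hE _ _).1 hw] at a2
    rw [(hE _ _).1 hw] at a3
    by_cases w0 : w = 0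
    · simp [w0]
    have c0 : c ≠ 0 := fun e => w0 (gl_mulVec_eq_zero.1 (by rw [a4, e, zero_smul]))
    simp only [a4, map_add, map_smul, smul_eq_mul, Form.B_smul_left, quadKind_σ,
      LinearMap.add_apply, a3] at a1 a2 ⊢
    have a5 : f.B y w = 0 := mul_left_cancel₀ h2 (by linear_combination ε * a2 - 2 * f.B y w * h3)
    rw [a5, mul_zero, mul_eq_zero, or_iff_right c0] at a1
    simp [a1]
  linear_combination (norm := module) (-ε) • this - h3 • g.1 *ᵥ (h.1 *ᵥ y)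

theorem dat_graph (hm : 4 ≤ m) (hΓ : gammaPOmega F f.Q = ⊤) (hg : g ∈ GO f.Q)
    {x : MulAut (POmega F f.Q)} (hx : (carO hf hn).Rep (MulAut.conj g) x) (hp : x ^ 2 = 1) :
    Dat 2 x := by
  haveI : Nonempty ι := Fintype.card_pos_iff.1 (by omega)
  have key : ∀ g c, QM f g c → g * g = sc c → SG f g → (carO hf hn).Rep (MulAut.conj g) x →
      Dat 2 x := fun g c h3 h4 h5 hx => by
    refine hx.dat hp (T := TG f g) (fun t => and_congr carO_range.symm
      (mem_centralizer_singleton_iff.trans (by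
        rw [MulAut.conj_apply, mul_inv_eq_iff_eq_mul, eq_comm]))) (fun N hN hc n h => ?_)
      fun α H => ?_
    · obtain ⟨k, h6, h7⟩ := hc n h
      refine mem_of_cop h6 h7 ?_
      rw [sq, (h5.1 N hN hc n h).sq hf h3 h4 (qm_one.2 (omega_le _ (hN.1 h).1))]
      exact sc_mem _
    · obtain ⟨h, τ, h6, h7⟩ := gamO (hf := hf) (hn := hn) hΓ α
      obtain ⟨rfl, h8⟩ := h5.2 h τ h6 fun t ht => by
        obtain ⟨s, rfl⟩ := (carO_range (hf := hf) (hn := hn)).2 ht.1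
        exact h7.tw_mem (H s ht)
      obtain ⟨l, hl⟩ := pair_GO (fun _ => rfl) h6
      have := h7.mul h7
      rw [map_one, mul_one, ← map_mul, h8.sq hf h3 h4 hl] at this
      exact ⟨1, by rw [pow_one, sq]; exact this.conj_eq_one.2 (sc_mem l)⟩
  have h3 := hx.mul hx
  rw [← map_mul, ← sq x, hp] at h3
  obtain ⟨c, hc⟩ := mem_sc.1 (h3.conj_eq_one.1 rfl)
  have ha := qm_sq hf he h2 hg h0 hc
  by_cases h4 : IsSquare (c : F)
  · obtain ⟨b, h5, h6⟩ := exists_inv ha hc h4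
    refine key _ 1 h5 (by rw [h6, map_one]) (sg_sq hf hn h2 he (by
      rwa [mul_mem_cancel_left (sc_le_G0 he (sc_mem b))]) h5 h6) (hx.congr ?_)
    rw [map_mul, Car.conj_Z (C := carO hf hn) (sc_mem b), one_mul]
  · exact key g c ha hc (sg_nonsq hf hn h2 he h0 hm ha hc h4) hx

omit he h0 in
lemma two_dvd_O : 2 ∣ Nat.card (POmega F f.Q) := by
  obtain ⟨u, w, h⟩ := quad_exists_hyp hf (by simp; omega)
  obtain ⟨v, hv, h1⟩ := quad_exists_Q_eq (V0_nd hf h) (c := 1)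
    (by have := h.finrank_perp; simp at this; unfold V0; omega) one_ne_zero
  rw [Form.mem_perp_pair] at hv
  have h3 : f.Q (u + w) = 1 := by rw [quad_Q_add, h.Qu, h.Qw, h.Buw]; simp
  have a : f.Q v ≠ 0 := by simp [h1]
  have b : f.Q (u + w) ≠ 0 := by simp [h3]
  have e : ∀ y, (rf f v a * rf f (u + w) b).1 *ᵥ y =
      y - f.B v y • v - (f.B u y + f.B w y) • (u + w) := fun y => by
    rw [Units.val_mul, ← mulVec_mulVec, rf_mulVec, rf_mulVec]
    simp [h1, h3, Form.refl hv.1, Form.refl hv.2, sub_right_comm]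
  obtain ⟨s, hs⟩ := (carO_range (hf := hf) (hn := hn) (g := rf f v a * rf f (u + w) b)).2
    ((mem_om hf hn).2 ⟨mul_mem (toGL_mem _) (toGL_mem _), by
      rw [dk_mul hf hn (toGL_mem _) (toGL_mem _), dk_rf hf, dk_rf hf]; simp, by
      rw [sp_mul hf hn (toGL_mem _) (toGL_mem _), sp_rf hf, sp_rf hf, h1, h3, chi_one, mul_one]⟩)
  refine (orderOf_eq_prime (x := (s : POmega F f.Q)) (p := 2) ?_ fun e' => ?_) ▸
    orderOf_dvd_natCard _
  · rw [← QuotientGroup.mk_pow, show s ^ 2 = 1 from (carO hf hn).inj ?_, QuotientGroup.mk_one]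
    rw [map_pow, hs, map_one, sq]
    refine Units.ext (mat_ext fun y => ?_)
    rw [Units.val_mul, ← mulVec_mulVec, e, e]
    simp [quad_B_self, h1, h.Qu, h.Qw, h.Buw, h.Bwu, hv.1, hv.2, Form.refl hv.1, Form.refl hv.2]
    module
  · obtain ⟨z, hz⟩ := mem_sc.1 ((carO hf hn).mem_center.1 ((QuotientGroup.eq_one_iff s).1 e'))
    have a1 := congrArg (f.B w) (e (u - w))
    have a2 := congrArg (f.B w) (e (u + w))
    rw [← hs, hz, sc_mulVec] at a1 a2
    simp [h.Buu, h.Bww, h.Buw, h.Bwu, Form.refl hv.1, Form.refl hv.2] at a1 a2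
    rw [a1] at a2
    have := congrArg Units.val a2
    simp only [Units.val_neg, Units.val_one] at this
    exact h2 (by linear_combination this)

omit h0 he h2 in
lemma desc_O {σ : F ≃+* F} {x : MulAut (POmega F f.Q)} (h0 : IsSemisimilarityPair f.Q g σ)
    (h : (carO hf hn).Rep (MulAut.conj g * fm σ) x) (h3 : tn (fm σ) g (orderOf σ) ∈ scalars ι F)
    {F₀ : Type*} [Field F₀] {j : F₀ →+* F} (hj : ∀ a, σ a = a ↔ a ∈ j.range) :
    ∃ u f₁, (carO hf hn).Rep (MulAut.conj (u * (fm σ u)⁻¹) * fm σ) x ∧ DF j f u f₁ := by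
  haveI : Nonempty ι := Fintype.card_pos_iff.1 (by omega)
  obtain ⟨u, c, rfl⟩ := h90' h3
  rw [map_mul, Car.conj_Z (C := carO hf hn) (sc_mem c), one_mul] at h
  obtain ⟨l, h0⟩ := h0
  obtain ⟨f₁, d⟩ := exists_DF' hf hj (u := u) (l := (c : F)⁻¹ ^ 2 * l) fun v => by
    have := h0 (u.1 *ᵥ v)
    rw [show (fun i => σ ((u.1 *ᵥ v) i)) = _ from (fm_mulVec σ u v).symm, mulVec_mulVec,
      ← Units.val_mul, mul_assoc, inv_mul_cancel_right, sc_mul_coe, smul_mulVec,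
      quad_Q_smul] at this
    rw [mul_assoc, ← this]
    field_simp
  exact ⟨u, f₁, h, d⟩

omit h0 he h2 in
lemma fld_trans {σ : F ≃+* F} {x : MulAut (POmega F f.Q)} {u : GL ι F}
    (h : (carO hf hn).Rep (MulAut.conj (u * (fm σ u)⁻¹) * fm σ) x)
    {F₀ : Type*} [Field F₀] {j : F₀ →+* F} (hj : ∀ a, σ a = a ↔ a ∈ j.range) {f₁ f₀ : QF F₀, ι}
    (d : DF j f u f₁) {f' : QF F, ι} (hf' : f'.ND) (h1 : ∀ v, f'.Q (j ∘ v) = j (f₀.Q v))
    {φ : (ι → F₀) ≃ₗ[F₀] (ι → F₀)} (hφ : f₀.IsIso f₁ φ) : ∃ ψ : POmega F f.Q ≃* POmega F f'.Q,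
      IsFieldAutPOmegaOf f'.Q σ ((ψ.symm.trans x).trans ψ) := by
  obtain ⟨e, d⟩ := d
  obtain ⟨k, hk⟩ : ∃ k, k = u * gm j (glEquiv.symm φ) := ⟨_, rfl⟩
  have hq : ∀ w, f.Q (k.1 *ᵥ w) = e * f'.Q w :=
    ext_j (j := j) (f := pbq f k.1) (f' := scaleForm e f') fun v => by
      rw [scaleForm_Q, pbq_Q, hk, Units.val_mul, ← mulVec_mulVec, gm_mulVec, d,
        glEquiv_symm_mulVec, hφ.Q, h1]
  have t0 := tr_conj hq
  have t1 : Tr f f' (RingHom.id F) e⁻¹ (MulAut.conj k⁻¹) := tr_conj fun v => by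
    rw [← Units.inv_mul_cancel_left e (Form.Q _ _), ← hq, gl_mulVec_cancel']
  obtain ⟨ψ, hψ⟩ := (carO hf hn).transport (carO hf' hn) (MulAut.conj k⁻¹) fun g => by
    rw [carO_range, carO_range]
    exact ⟨t1.om hf hn, fun e => by simpa [mul_assoc] using t0.om hf' hn e⟩
  have h7 := (hψ _ _ h).congr (θ' := fm σ) (by
    ext1 y
    simp [hk, fm_gm hj, mul_assoc])
  exact ⟨ψ, fun s s' e => h7.ind s s' (Units.ext e)⟩

omit h2 he h0 in
theorem graph_O {m : ℕ} (he : Fintype.card ι = 2 * m) (hm : 4 ≤ m) (hΓ : gammaPOmega F f.Q = ⊤)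
    {p : ℕ} [hp : Fact p.Prime] (h2 : p = 2 → (2 : F) ≠ 0) (hg : g ∈ GO f.Q) (h3 : g ∉ G0 f)
    {x : MulAut (POmega F f.Q)} (h : (carO hf hn).Rep (MulAut.conj g) x) (hx : x ^ p = 1) :
    p = 2 ∧ Dat p x := by
  obtain rfl : p = 2 := by
    by_contra e
    have h4 := h.pow p
    rw [hx, ← map_pow] at h4
    exact h3 (mem_of_cop ((Nat.coprime_primes hp.out Nat.prime_two).2 e)
      (sc_le_G0 he (h4.conj_eq_one.1 rfl)) (sq g ▸ mul_mem_G0 hf hn he hg hg h3 h3))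
  exact ⟨rfl, dat_graph hf hn (h2 rfl) he h3 hm hΓ hg h hx⟩

end H4.Au
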