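import Cfsg.Agent.H4.CpH

/-! The `p'`-core of the centraliser of an automorphism of prime order: minus type. -/

set_option autoImplicit false

namespace H4.Au
open Matrix Cfsg Cfsg.Geo Subgroup Module H4.As

theorem s2733 {F : Type*} [Field F] [Fintype F] {r : ℕ} [Fact r.Prime] [CharP F r] {m : ℕ}
    (hm : 3 ≤ m) {a b : F}
    (hab : ∀ z₁ z₂ : F, z₁ ^ 2 + a * z₁ * z₂ + b * z₂ ^ 2 = 0 → z₁ = 0 ∧ z₂ = 0)
    (A : Subgroup (MulAut (POmega F (minusForm F m a b).Q))) (hinn : ∀ k, MulAut.conj k ∈ A)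
    {p : ℕ} [hp : Fact p.Prime] (hpr : p ≠ r) (x : MulAut (POmega F (minusForm F m a b).Q))
    (hord : orderOf x = p) (hnot : ¬ IsInnerDiagonalAutPOmegaMinus m a b x) :
    pPrimeCore p ↥(A ⊓ centralizer {x}) ≠ ⊥ ↔
      (IsFieldAutClassPOmegaMinus m x ∧ p.Coprime (Nat.card (fx x))) := by
  have hf := minusForm_ND m hab
  have hn := five_le hm
  have he := card_mm m
  have hΓ := s2696 hab hm
  have hx : x ^ p = 1 := hord ▸ pow_orderOf_eq_one x
  have h2 : p = 2 → (2 : F) ≠ 0 := fun e h => hpr (e.trans (char_two_of h).symm)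
  have two : p = 2 → ¬ p.Coprime (Nat.card (fx x)) := fun e =>
    hp.out.dvd_iff_not_coprime.1 (dvd_fx hx (e.dvd.trans (two_dvd_O hf hn (h2 e))))
  obtain ⟨g, σ, h0, h⟩ := gamO (hf := hf) (hn := hn) hΓ x
  by_cases h1 : σ = 1
  · subst h1
    rw [map_one, mul_one] at h
    have hg := pair_GO (fun _ => rfl) h0
    obtain ⟨e, h3⟩ := graph_O hf hn he (by omega) hΓ h2 hg (fun e =>
      hnot ⟨g, hg, (pscm_iff hab hn hg).2 e, (ind_lin (C := carO hf hn)).1 h.ind⟩) h hx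
    exact iff_of_false (not_not.2 (core_eq (carO hf hn).center_bot hinn h3)) fun h => two e h.2
  obtain ⟨ho, h3⟩ := ord_O hp.out h1 h hx
  obtain ⟨K, hj⟩ := exists_fix σ
  obtain ⟨u, f₁, h, d⟩ := desc_O hf hn h0 h h3 hj
  have hf₁ := d.nd hf
  obtain ⟨h4, h5⟩ := fldO hΓ h hx hj ho d (pt_quad hf₁ hn) h2
  rw [core_iff (α := 1) (carO hf hn).center_bot hinn (by simp) h4 h5]
  refine ⟨fun h6 => ⟨?_, h6⟩, And.right⟩
  have hodd : Odd (orderOf σ) := ho ▸ hp.out.odd_of_ne_two fun e => two e h6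
  obtain ⟨a₀, b₀, hab₀⟩ := exists_aniso (F := K)
  have hab' := aniso_odd hj hodd hab₀
  haveI := Fintype.ofFinite K
  obtain ⟨φ, hφ⟩ := even_exists_isIso (minusForm_ND m hab₀) hf₁ (m := m + 1) (by simp; omega)
    (by simpa using he) (iff_of_false (minusForm_not_hasTS m hab₀) fun e =>
      minusForm_not_hasTS m hab (d.hasTS_of hf he e))
  obtain ⟨ψ, hψ⟩ := fld_trans hf hn h hj d (minusForm_ND m hab') (minus_bc K.subtype a₀ b₀) hφ
  exact ⟨_, _, ψ, σ, hab', h1, (hj _).2 ⟨a₀, rfl⟩, (hj _).2 ⟨b₀, rfl⟩, hψ⟩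

end H4.Au
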