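import Cfsg.Agent.H4.Cls2
import Cfsg.Agent.H4.TbB

/-! Elements of prime order of `SL₂` and the normaliser of a quaternion subgroup. -/

set_option autoImplicit false

namespace H4.Q8
open Matrix Cfsg Cfsg.Geo Subgroup H4.As QuaternionGroup
open scoped MatrixGroups

variable {F : Type*} [Field F] {M A B : Matrix (Fin 2) (Fin 2) F}

lemma ns (h : ∀ z : F, M ≠ z • 1) : M 0 1 ≠ 0 ∨ M 1 0 ≠ 0 ∨ M 0 0 ≠ M 1 1 := by
  by_contra! H
  exact h (M 0 0) (by ext i j; fin_cases i <;> fin_cases j <;> simp [H.1, H.2.1, H.2.2])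

lemma comm2 (h : ∀ z : F, M ≠ z • 1) (h1 : M * A = A * M) (h2 : M * B = B * M) : A * B = B * A := by
  have := ns h
  simp only [← Matrix.ext_iff, Fin.forall_fin_two, mul_apply, Fin.sum_univ_two] at h1 h2 ⊢
  grind

lemma tr2 (h : ∀ z : F, M ≠ z • 1) {z : F} (h1 : M * M = z • 1) : M.trace = 0 ∧ M.det = -z := by
  have := ns h
  simp only [← Matrix.ext_iff, Fin.forall_fin_two, mul_apply, Fin.sum_univ_two, trace_fin_two,
    det_fin_two, Matrix.smul_apply, one_apply_eq, one_apply_ne, ne_eq, zero_ne_one, one_ne_zero,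
    not_false_eq_true, smul_eq_mul] at h1 ⊢
  grind

lemma tr3 (h : ∀ z : F, M ≠ z • 1) {z : F} (h1 : M * M * M = z • 1) (h2 : M.det = 1) :
    M.trace ^ 2 = 1 := by
  have := ns h
  simp only [← Matrix.ext_iff, Fin.forall_fin_two, mul_apply, Fin.sum_univ_two, trace_fin_two,
    det_fin_two, Matrix.smul_apply, one_apply_eq, one_apply_ne, ne_eq, zero_ne_one, one_ne_zero,
    not_false_eq_true, smul_eq_mul] at h1 h2 ⊢
  grind

lemma wt (h2 : (2 : F) ≠ 0) (hA : A.trace = 0 ∧ A.det = 1) (hB : B.trace = 0 ∧ B.det = 1)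
    (h : B * A = -(A * B)) {t : F} (ht : t ^ 2 = 1) :
    ((t / 2) • (1 + A + B + A * B)).det = 1 ∧ ((t / 2) • (1 + A + B + A * B)).trace = t := by
  simp only [← Matrix.ext_iff, Fin.forall_fin_two, mul_apply, Fin.sum_univ_two, trace_fin_two,
    det_fin_two, Matrix.smul_apply, one_apply_eq, one_apply_ne, ne_eq, zero_ne_one, one_ne_zero,
    not_false_eq_true, smul_eq_mul, Matrix.add_apply, Matrix.neg_apply] at h hA hB ⊢
  grind

lemma conj [Finite F] {x y : GL (Fin 2) F} (hx : x.1.det = 1) (hy : y.1.det = 1)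
    (e : x.1.trace = y.1.trace) (h4 : x.1.trace ^ 2 ≠ 4) :
    ∃ g ∈ specialLinear (Fin 2) F, g⁻¹ * x * g = y := by
  obtain ⟨m, hm⟩ := isConj_iff.1 (isConj_sl_of_trace (g := ⟨_, hx⟩) (h := ⟨_, hy⟩) e h4)
  refine ⟨SpecialLinearGroup.toGL m⁻¹, mem_SL.2 m⁻¹.2, ?_⟩
  rw [← map_inv, inv_inv]
  exact Units.ext (congrArg Subtype.val hm)

theorem s5997 [Finite F] (h2 : (2 : F) ≠ 0) (h3 : (3 : F) ≠ 0) {R : Subgroup (GL (Fin 2) F)}
    (e : R ≃* QuaternionGroup 2) {r : ℕ} [hr : Fact r.Prime]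
    (hΩ : r ∣ (subgroupNormalizer R).relIndex (specialLinear (Fin 2) F)) :
    (∀ x ∈ specialLinear (Fin 2) F, (∃ z : F, (x ^ r).1 = z • (1 : Matrix _ _ F)) →
      (∀ z : F, x.1 ≠ z • (1 : Matrix _ _ F)) →
      ∃ g ∈ specialLinear (Fin 2) F, g⁻¹ * x * g ∈ subgroupNormalizer R) ↔ (r = 2 ∨ r = 3) := by
  classical
  let φ := R.subtype.comp e.symm.toMonoidHom
  have hφ : Function.Injective φ := R.subtype_injective.comp e.symm.injective
  have hR : ∀ g, φ g ∈ R := fun g => (e.symm g).2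
  have hm : ∀ g h, (φ g).1 * (φ h).1 = (φ (g * h)).1 := fun g h => by rw [map_mul]; rfl
  have nc : (φ (a 1)).1 * (φ (xa 0)).1 ≠ (φ (xa 0)).1 * (φ (a 1)).1 := fun h => by
    rw [hm, hm] at h; exact absurd (hφ (Units.ext h)) (by decide)
  have hZ : (φ (a 2)).1 = -1 := by
    obtain ⟨z, hz⟩ : ∃ z : F, (φ (a 2)).1 = z • 1 := by
      by_contra! H
      exact nc (comm2 H (by rw [hm, hm]; rfl) (by rw [hm, hm]; rfl))
    have h1 := congrFun (congrFun (hm (a 2) (a 2)) 0) 0
    rw [hz, show (a 2 * a 2 : QuaternionGroup 2) = 1 from rfl, map_one] at h1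
    simp only [smul_mul_assoc, one_mul, Matrix.smul_apply, one_apply_eq, smul_eq_mul, mul_one,
      Units.val_one] at h1
    rcases mul_self_eq_one_iff.1 h1 with rfl | rfl
    · exact absurd (hφ (Units.ext (by rw [hz, map_one]; simp) : φ (a 2) = φ 1)) (by decide)
    · simpa using hz
  have hA : (φ (a 1)).1 * (φ (a 1)).1 = -1 := (hm _ _).trans hZ
  have hB : (φ (xa 0)).1 * (φ (xa 0)).1 = -1 := (hm _ _).trans hZ
  have hBA : (φ (xa 0)).1 * (φ (a 1)).1 = -((φ (a 1)).1 * (φ (xa 0)).1) := by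
    rw [← neg_one_mul, ← hZ, hm, hm, hm]; rfl
  have tA := tr2 (fun z h => nc (by simp [h])) (hA.trans (neg_one_smul F _).symm)
  have tB := tr2 (fun z h => nc (by simp [h])) (hB.trans (neg_one_smul F _).symm)
  rw [neg_neg] at tA tB
  refine ⟨fun H => by_contra fun hne => ?_, ?_⟩
  swap
  · rintro (rfl | rfl) x hx ⟨z, hz⟩ h1
    · have h4 := (tr2 h1 (z := z) (by rw [← hz, sq]; rfl)).1
      obtain ⟨g, hg, h5⟩ := conj (mem_SL.1 hx) tA.2 (h4.trans tA.1.symm) (by
        rw [h4]; exact fun h => h2 (mul_self_eq_zero.1 (by linear_combination -h)))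
      exact ⟨g, hg, h5 ▸ le_normalizer (hR _)⟩
    have h4 := tr3 h1 (z := z) (by rw [← hz, pow_three']; rfl) (mem_SL.1 hx)
    obtain ⟨h5, h6⟩ := wt h2 tA tB hBA h4
    let w : GL (Fin 2) F := SpecialLinearGroup.toGL ⟨_, h5⟩
    obtain ⟨g, hg, h7⟩ := conj (y := w) (mem_SL.1 hx) h5 h6.symm (by
      rw [h4]; exact fun h => h3 (by linear_combination -h))
    refine ⟨g, hg, h7 ▸ mem_normalizer_fintype fun n hn => ?_⟩
    have hw : w.1 = (x.1.trace / 2) • (1 + (φ (a 1)).1 + (φ (xa 0)).1 +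
      (φ (a 1)).1 * (φ (xa 0)).1) := rfl
    clear_value w
    clear h5 h6
    generalize hA' : φ (a 1) = A at *
    generalize hB' : φ (xa 0) = B at *
    have k1 : ∀ X, A.1 * (A.1 * X) = -X := fun X => by rw [← mul_assoc, hA, neg_one_mul]
    have k2 : ∀ X, B.1 * (A.1 * X) = -(A.1 * (B.1 * X)) := fun X => by
      rw [← mul_assoc, hBA, neg_mul, mul_assoc]
    have a1 : A ∈ R.comap (MulAut.conj w).toMonoidHom := by
      change w * A * w⁻¹ ∈ R
      rw [show w * A = B * w from Units.ext (by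
        simp only [Units.val_mul, hw, smul_mul_assoc, mul_smul_comm, mul_add, add_mul, mul_assoc,
          hA, hB, hBA, k1, k2, mul_neg, mul_one, one_mul, neg_neg]
        congr 1; abel), mul_inv_cancel_right]
      exact hB' ▸ hR _
    have a2 : B ∈ R.comap (MulAut.conj w).toMonoidHom := by
      change w * B * w⁻¹ ∈ R
      rw [show w * B = A * B * w from Units.ext (by
        simp only [Units.val_mul, hw, smul_mul_assoc, mul_smul_comm, mul_add, add_mul, mul_assoc,
          hA, hB, hBA, k1, k2, mul_neg, mul_one, one_mul, neg_neg]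
        congr 1; abel), mul_inv_cancel_right]
      exact mul_mem (hA' ▸ hR _) (hB' ▸ hR _)
    obtain ⟨i, hi⟩ := (by decide : ∀ g : QuaternionGroup 2, ∃ i : Fin 4, g = a 1 ^ i.1 ∨
      g = xa 0 * a 1 ^ i.1) (e ⟨n, hn⟩)
    change n ∈ R.comap (MulAut.conj w).toMonoidHom
    rw [← show φ (e ⟨n, hn⟩) = n from congrArg Subtype.val (e.symm_apply_apply _)]
    rcases hi with hi | hi <;> rw [hi]
    · rw [map_pow, hA']; exact pow_mem a1 _
    · rw [map_mul, map_pow, hA', hB']; exact mul_mem a2 (pow_mem a1 _)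
  rw [not_or] at hne
  have r5 := hr.out.five_le_of_ne_two_of_ne_three hne.1 hne.2
  obtain ⟨x, hx⟩ := exists_prime_orderOf_dvd_card' (G := specialLinear (Fin 2) F) r
    (hΩ.trans (index_dvd_card _))
  have h1 : x.1 ^ r = 1 := by rw [← hx, ← coe_pow, pow_orderOf_eq_one]; rfl
  have h4 : ∀ z : F, x.1.1 ≠ z • 1 := fun z h => by
    have h5 := mem_SL.1 x.2
    have := Nat.le_of_dvd two_pos (hx ▸ orderOf_dvd_of_pow_eq_one (show x ^ 2 = 1 from
      Subtype.ext (Units.ext (by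
        rw [h, det_smul, det_one, mul_one, Fintype.card_fin] at h5
        simp [h, smul_pow, h5]))))
    omega
  obtain ⟨g, -, hy⟩ := H x x.2 ⟨1, by rw [h1]; simp⟩ h4
  have h5 : (g⁻¹ * x * g) ^ r = 1 := by
    rw [show g⁻¹ * x * g = g⁻¹ * x * g⁻¹⁻¹ by rw [inv_inv], conj_pow, h1]; simp
  have h6 : ∀ z : F, (g⁻¹ * x * g).1 ≠ z • 1 := fun z h => h4 z (by
    rw [show x.1 = g * (g⁻¹ * x * g) * g⁻¹ by group, Units.val_mul, Units.val_mul, h]; simp)
  generalize g⁻¹ * x * g = y at hy h5 h6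
  let ψ : Function.End R := fun n => ⟨y * n * y⁻¹, (hy n).1 n.2⟩
  have e1 : ∀ i n, ((ψ ^ i) n : GL (Fin 2) F) = y ^ i * n * (y ^ i)⁻¹ := fun i n => by
    induction i with
    | zero => simp; rfl
    | succ i ih => rw [pow_succ' ψ]; change y * ((ψ ^ i) n : GL (Fin 2) F) * y⁻¹ = _; rw [ih]; group
  haveI := Fintype.ofFinite R
  have h7 := Equiv.Perm.card_fixedPoints_modEq (f := ψ) (p := r) (n := 1)
    (funext fun v => Subtype.ext (by rw [pow_one, e1, h5]; simp; rfl))
  let C := (centralizer {y}).subgroupOf R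
  have hC : ∀ g, e.symm g ∈ C ↔ y.1 * (φ g).1 = (φ g).1 * y.1 := fun g =>
    mem_centralizer_singleton_iff.trans (eq_comm.trans Units.ext_iff)
  have h8 : Nat.card R = 8 := by rw [Nat.card_congr e.toEquiv, Nat.card_eq_fintype_card, card]
  have h9 := card_subgroup_dvd_card C
  have h10 : 1 < Nat.card C := (one_lt_card_iff_ne_bot C).2 fun h => absurd (e.symm.injective
    ((mem_bot.1 (h ▸ (hC (a 2)).2 (by simp [hZ]))).trans e.symm.map_one.symm)) (by decide)
  rw [← Nat.card_eq_fintype_card, ← Nat.card_eq_fintype_card, h8, show Nat.card (Function.fixedPoints ψ) =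
    Nat.card C from Nat.card_congr (Equiv.subtypeEquivRight fun n => Subtype.ext_iff.trans
      (mul_inv_eq_iff_eq_mul.trans (eq_comm.trans mem_centralizer_singleton_iff.symm)))] at h7
  have h11 : C = ⊤ := eq_top_of_card_eq C (by
    rw [h8] at h9 ⊢
    have h12 := Nat.le_of_dvd (by norm_num) h9
    replace h7 := (Nat.modEq_iff_dvd' h12).1 h7.symm
    by_contra h
    have := Nat.le_of_dvd (by omega) h7
    obtain rfl | rfl : r = 5 ∨ r = 6 := by omega
    · generalize Nat.card C = c at *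
      interval_cases c <;> omega
    exact absurd hr.out (by norm_num))
  exact nc (comm2 h6 ((hC _).1 (h11 ▸ mem_top _)) ((hC _).1 (h11 ▸ mem_top _)))

end H4.Q8
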