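import Cfsg.Agent.H3.SylC

/-! The normal 2-rank of a Sylow 2-subgroup of `Sp_{2n}(q)`, `q` odd. -/

set_option autoImplicit false

namespace H4.Nr
open Module Subgroup H3
open scoped MatrixGroups

universe u

lemma comm_of_sq {G : Type*} [Group G] {E : Subgroup G} (h : ∀ a ∈ E, a ^ 2 = 1) {a b : G}
    (ha : a ∈ E) (hb : b ∈ E) : a * b = b * a := by
  have e : ∀ a ∈ E, a⁻¹ = a := fun a ha => inv_eq_of_mul_eq_one_right ((sq a).symm.trans (h a ha))
  rw [← e _ (mul_mem ha hb), mul_inv_rev, e a ha, e b hb]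

variable {F : Type*} [Field F] [Fintype F]

theorem ea_le (h2 : (2 : F) ≠ 0) (n : ℕ) : ∀ (V : Type u) [AddCommGroup V] [Module F V]
    [FiniteDimensional F V] (f : Form (altKind F) V), f.ND → finrank F V = 2 * n →
    ∀ E : Subgroup f.Isom, (∀ a ∈ E, a ^ 2 = 1) → Nat.card E ≤ 2 ^ n := by
  induction n using Nat.strong_induction_on with | _ n ih => ?_
  intro V _ _ _ f hf hn E hE
  haveI : Finite V := Module.finite_of_finite F
  by_cases h : ∀ a ∈ E, (∀ v, a.1 v = v) ∨ ∀ v, a.1 v = -v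
  · rcases n with _ | n
    · haveI := Module.finrank_zero_iff.1 hn
      exact (card_le_card_group E).trans f.card_Isom_of_subsingleton.le
    refine (Nat.card_le_card_of_injective (fun a : E => ∀ v, a.1.1 v = v) fun a b e => ?_).trans
      (by simpa using Nat.pow_le_pow_right two_pos (Nat.le_add_left 1 n))
    refine Subtype.ext (Form.isom_ext fun v => ?_)
    by_cases h1 : ∀ v, a.1.1 v = v
    · rw [h1, (iff_of_eq e).1 h1]
    · rw [(h a a.2).resolve_left h1, (h b b.2).resolve_left fun h' => h1 ((iff_of_eq e).2 h')]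
  push Not at h
  obtain ⟨a, ha, ⟨u, hu⟩, w, hw⟩ := h
  let L : V →ₗ[F] V := a.1.toLinearMap - LinearMap.id
  have hP : ∀ v, v ∈ LinearMap.ker L ↔ a.1 v = v := fun v => sub_eq_zero
  have h1 : ∀ v, a.1 v + v ∈ LinearMap.ker L := fun v => (hP _).2 (by
    rw [map_add, ← Form.isom_mul_apply, ← sq, hE a ha, add_comm]; rfl)
  have h3 : f.NDOn (LinearMap.ker L) := fun p hp H => hf p fun v => mul_left_cancel₀ h2 (by
    have := H _ (h1 v)
    have e := Form.isom_B a p v
    rw [(hP p).1 hp] at e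
    rw [map_add, e] at this
    linear_combination this)
  have h4 : E ≤ f.stabSub (LinearMap.ker L) := fun g hg => Form.mem_stabSub_of_le _ fun v hv =>
    (hP _).2 (by rw [← Form.isom_mul_apply, comm_of_sq hE ha hg, Form.isom_mul_apply, (hP v).1 hv])
  obtain ⟨k, hk⟩ := alt_even_finrank _ _ _ (f.restrict_ND.2 h3) rfl
  have h5 := hf.finrank_perp (LinearMap.ker L)
  have h6 : finrank F (LinearMap.ker L) < finrank F V :=
    Submodule.finrank_lt fun e => hu ((hP u).1 (e ▸ Submodule.mem_top))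
  have h7 : finrank F (LinearMap.ker L) ≠ 0 := fun e => hw (eq_neg_of_add_eq_zero_left
    ((Submodule.eq_bot_iff _).1 (Submodule.finrank_eq_zero.1 e) _ (h1 w)))
  let φ := h3.stabEquiv.toMonoidHom.comp (inclusion h4)
  have hφ : ∀ g : E, φ g ^ 2 = 1 := fun g => by
    rw [← map_pow, show g ^ 2 = 1 from Subtype.ext (hE g g.2), map_one]
  have i1 := ih k (by omega) _ _ (f.restrict_ND.2 h3) (by omega) ((MonoidHom.fst _ _).comp φ).range
    (by rintro _ ⟨g, rfl⟩; exact congrArg Prod.fst (hφ g))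
  have i2 := ih (n - k) (by omega) _ _ (f.restrict_ND.2 (h3.perp hf)) (by omega)
    ((MonoidHom.snd _ _).comp φ).range (by rintro _ ⟨g, rfl⟩; exact congrArg Prod.snd (hφ g))
  refine (Nat.card_le_card_of_injective (((MonoidHom.fst _ _).comp φ).rangeRestrict.prod
    ((MonoidHom.snd _ _).comp φ).rangeRestrict) fun a b e =>
      (h3.stabEquiv.injective.comp (inclusion_injective h4)) (Prod.ext
        (congrArg (·.1.1) e) (congrArg (·.2.1) e))).trans ?_
  rw [Nat.card_prod, show n = k + (n - k) by omega, pow_add]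
  exact Nat.mul_le_mul i1 i2

theorem exists_nr (o : Odd (Fintype.card F)) (h2 : (2 : F) ≠ 0) (n : ℕ)
    (P : Sylow 2 (Matrix.symplecticGroup (Fin n) F)) :
    ∃ E : Subgroup P.1, E.Normal ∧ Cfsg.IsElementaryAbelian 2 E ∧ 2 ^ n ≤ Nat.card E := by
  classical
  have q1 := Fintype.one_lt_card (α := F)
  obtain ⟨T, a, -⟩ := exists_gp 2 n
  obtain ⟨S⟩ : Nonempty (Sylow 2 SL(2, F)) := inferInstance
  have nd := sumF_ND (I := Fin n) a2_ND (H4.spForm_ND 0 F)
  have d : finrank F ((Fin n → Fin 2 → F) × (Fin 0 ⊕ Fin 0 → F)) = 2 * n := by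
    simp [Module.finrank_pi_fintype, mul_comm]
  obtain ⟨e, he⟩ := H4.alt_exists_isIso _ _ _ _ _ (H4.spForm_ND n F) nd (by simp [two_mul]) d
  let w : Wr _ S.1 Unit _ := (wrI (Fin n) (a2 F) (H4.spForm 0 F)).comp ((slI F).comp S.1.subtype) 1
    (fun c d z => Subtype.ext (Matrix.SpecialLinearGroup.toLin'_injective (congrArg Subtype.val z)))
    fun _ _ _ => rfl
  obtain ⟨k1, k2⟩ := w.val_W (b := 0) (card_sylow S) (by simp) a
  obtain ⟨R, hR⟩ := sylow_of_val k1 (le_of_eq (by
    rw [k2, H4.alt_card_Isom n _ _ nd d, H4.card_sl2, Nat.card_eq_fintype_card (α := F),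
      padicValNat.mul (by positivity) (prod_sub_ne q1 n), val_odd o.pow, val_prod o q1,
      padicValNat.mul (mul_ne_zero (by omega) (by omega)) (by omega),
      padicValNat.mul (by omega) (by omega), val_odd o, val_sq q1]
    simp [add_comm]))
  generalize w = w at hR
  have o1 : orderOf (-1 : SL(2, F)) = 2 := orderOf_eq_prime (by simp) fun h => h2 (by
    have := congrFun (congrFun (congrArg Subtype.val h) 0) 0
    simp at this; linear_combination -this)
  haveI : (zpowers (-1 : SL(2, F))).Normal := ⟨by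
    rintro _ ⟨k, rfl⟩ g
    rw [((Commute.neg_one_right g).zpow_right k).eq, mul_inv_cancel_right]; exact ⟨k, rfl⟩⟩
  let z : S.1 := ⟨-1, (IsPGroup.of_card (n := 1) (by rw [Nat.card_zpowers, o1, pow_one])).le_sylow_of_normal
    S (mem_zpowers _)⟩
  have o2 : Nat.card (zpowers z) = 2 := by rw [Nat.card_zpowers, ← orderOf_coe]; exact o1
  let ψ := w.Δ.comp ((MonoidHom.inl _ _).comp (MonoidHom.compLeft (zpowers z).subtype (Fin n)))
  have hψ : Function.Injective ψ := fun a b h => funext fun i =>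
    Subtype.ext (congrFun (congrArg Prod.fst (w.inj h)) i)
  have h3 : ψ.range ≤ R.1 := by rintro _ ⟨c, rfl⟩; exact hR.ge (mem_sup_left ⟨_, rfl⟩)
  have h4 : R.1 ≤ normalizer ψ.range := hR.le.trans (sup_le (by
    rintro _ ⟨x, rfl⟩
    refine centralizer_le_normalizer _ ?_
    rintro _ ⟨c, rfl⟩
    change w.Δ _ * _ = _ * w.Δ _
    rw [← map_mul, ← map_mul]
    refine congrArg _ (Prod.ext (funext fun i => ?_) rfl)
    obtain ⟨k, hk⟩ := (c i).2
    change (c i).1 * x.1 i = x.1 i * (c i).1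
    rw [← hk]
    exact ((show Commute z (x.1 i) from Subtype.ext (Commute.neg_one_left _).eq).zpow_left k).eq) (by
    rintro _ ⟨σ, -, rfl⟩
    refine mem_normalizer_fintype ?_
    rintro _ ⟨c, rfl⟩
    exact ⟨fun i => c (σ⁻¹ i), eq_mul_inv_of_mul_eq (w.cnj σ (fun i => (c i).1) 1).symm⟩))
  let j := (H4.spEquiv n F).trans he.isomEquiv
  let θ : R.1 ≃* P.1 := (Sylow.equiv R (P.mapSurjective (f := j.toMonoidHom) j.surjective)).trans
    (P.1.equivMapOfInjective _ j.injective).symm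
  have h5 : ∀ a ∈ (ψ.range.subgroupOf R.1).map θ.toMonoidHom, a ^ 2 = 1 := by
    rintro _ ⟨⟨_, h⟩, ⟨c, rfl⟩, rfl⟩
    rw [← map_pow, show (⟨ψ c, h⟩ : R.1) ^ 2 = 1 from Subtype.ext (by
      change ψ c ^ 2 = 1
      rw [← map_pow, show c ^ 2 = 1 from funext fun i => ((congrArg (c i ^ ·) o2).symm.trans
        pow_card_eq_one'), map_one]), map_one]
  refine ⟨_, ((normal_subgroupOf_iff_le_normalizer h3).2 h4).map _ θ.surjective,
    ⟨⟨⟨fun a b => Subtype.ext (comm_of_sq h5 a.2 b.2)⟩⟩, h5⟩, le_of_eq ?_⟩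
  rw [card_map_of_injective θ.injective, Nat.card_congr (subgroupOfEquivOfLe h3).toEquiv,
    ← Nat.card_congr (MonoidHom.ofInjective hψ).toEquiv, Nat.card_fun, o2]
  simp

end H4.Nr
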