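import Cfsg.Agent.H4.ElI
import Cfsg.Agent.H4.ElF

/-! The normal 2-rank of a Sylow 2-subgroup of `GL_n(q)`, `q` odd. -/

set_option autoImplicit false

namespace H4.Nr
open Module Subgroup H3
open scoped MatrixGroups

/-- the largest normal elementary abelian 2-subgroup has order `N` -/
def NR (S : Type*) [Group S] (N : ℕ) : Prop :=
  (∃ E : Subgroup S, E.Normal ∧ Cfsg.IsElementaryAbelian 2 E ∧ N ≤ Nat.card E) ∧
    ∀ E : Subgroup S, E.Normal → Cfsg.IsElementaryAbelian 2 E → Nat.card E ≤ N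

lemma ea_of {G : Type*} [Group G] {E : Subgroup G} (h : ∀ a ∈ E, a ^ 2 = 1) :
    Cfsg.IsElementaryAbelian 2 E := ⟨⟨⟨fun a b => Subtype.ext (comm_of_sq h a.2 b.2)⟩⟩, h⟩

lemma NR.tr {A B : Type*} [Group A] [Group B] {N : ℕ} (h : NR A N) (e : A ≃* B) : NR B N := by
  obtain ⟨⟨E, h1, h2, h3⟩, h4⟩ := h
  refine ⟨⟨E.map e.toMonoidHom, h1.map _ e.surjective, ea_of ?_,
    h3.trans (card_map_of_injective e.injective).ge⟩, fun E h1 h2 =>
    (card_map_of_injective (f := e.symm.toMonoidHom) e.symm.injective).ge.trans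
      (h4 _ (h1.map _ e.symm.surjective) (ea_of ?_))⟩ <;>
  · rintro _ ⟨a, ha, rfl⟩; rw [← map_pow, h2.2 a ha, map_one]

lemma NR.syl {G G' : Type*} [Group G] [Group G'] [Finite G] [Finite G'] (j : G ≃* G') {N : ℕ}
    {W : Subgroup G'} (h : NR W N) (h1 : ∃ R : Sylow 2 G', R.1 = W) (P : Sylow 2 G) : NR P.1 N := by
  obtain ⟨R, rfl⟩ := h1
  exact h.tr ((Sylow.equiv R (P.mapSurjective (f := j.toMonoidHom) j.surjective)).trans
    (P.1.equivMapOfInjective _ j.injective).symm)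

theorem wr_nr {I D Z G : Type*} [Group D] [Group Z] [Group G] [Finite G] [Finite I]
    (w : Wr I D Z G) (T : Subgroup (Equiv.Perm I)) {z : D} (hz : orderOf z = 2)
    (hc : ∀ d, Commute z d)
    (h1 : ∀ e : D, e ^ 2 = 1 → (∀ g, Commute e (g * e * g⁻¹)) → e ∈ zpowers z)
    {c : D} (h2 : c ^ 2 ≠ 1) (hZ : ∀ y : Z, y ^ 2 = 1) :
    NR (w.WG T) (2 ^ Nat.card I * Nat.card Z) := by
  classical
  have o2 : Nat.card (zpowers z) = 2 := by rw [Nat.card_zpowers, hz]
  let ψ := w.Δ.comp ((MonoidHom.compLeft (zpowers z).subtype I).prodMap (MonoidHom.id Z))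
  have hψ : Function.Injective ψ := fun a b h => Prod.ext (funext fun i =>
    Subtype.ext (congrFun (congrArg Prod.fst (w.inj h)) i)) (congrArg Prod.snd (w.inj h) :)
  have h3 : ψ.range ≤ w.WG T := by rintro _ ⟨c, rfl⟩; exact mem_sup_left ⟨_, rfl⟩
  have h4 : w.WG T ≤ normalizer ψ.range := sup_le (by
    rintro _ ⟨x, rfl⟩
    refine centralizer_le_normalizer _ ?_
    rintro _ ⟨c, rfl⟩
    change w.Δ _ * _ = _ * w.Δ _
    rw [← map_mul, ← map_mul]
    refine congrArg _ (Prod.ext (funext fun i => ?_)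
      (comm_of_sq (E := ⊤) (fun y _ => hZ y) trivial trivial))
    obtain ⟨k, hk⟩ := (c.1 i).2
    change (c.1 i).1 * x.1 i = x.1 i * (c.1 i).1
    rw [← hk]
    exact ((hc _).zpow_left k).eq) (by
    rintro _ ⟨σ, -, rfl⟩
    refine mem_normalizer_fintype ?_
    rintro _ ⟨c, rfl⟩
    exact ⟨(fun i => c.1 (σ⁻¹ i), c.2),
      eq_mul_inv_of_mul_eq (w.cnj σ (fun i => (c.1 i).1) c.2).symm⟩)
  have h5 : Nat.card (ψ.range.subgroupOf (w.WG T)) = 2 ^ Nat.card I * Nat.card Z := by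
    rw [Nat.card_congr (subgroupOfEquivOfLe h3).toEquiv,
      ← Nat.card_congr (MonoidHom.ofInjective hψ).toEquiv, Nat.card_prod, Nat.card_fun, o2]
  refine ⟨⟨_, (normal_subgroupOf_iff_le_normalizer h3).2 h4, ea_of ?_, h5.ge⟩,
    fun E hE h6 => (card_le_of_le ?_).trans h5.le⟩
  · rintro ⟨_, h⟩ ⟨c, rfl⟩
    refine Subtype.ext (show ψ c ^ 2 = 1 from ?_)
    rw [← map_pow, show c ^ 2 = 1 from Prod.ext (funext fun i =>
      (congrArg (c.1 i ^ ·) o2).symm.trans pow_card_eq_one') (hZ _), map_one]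
  rintro ⟨x, hx⟩ h7
  obtain ⟨_, ⟨⟨d, y⟩, rfl⟩, _, ⟨σ, -, rfl⟩, rfl⟩ :=
    (coe_mul_of_right_le_normalizer_left _ _ w.nrm_Δ).le hx
  have h8 := fun i g => hE.conj_mem _ h7 ⟨w.δ i g, w.δ_mem⟩
  obtain rfl : σ = 1 := Equiv.ext fun i => by_contra fun hi => h2 (by
    have e1 : (w.δ i c * (w.Δ (d, y) * w.π σ) * (w.δ i c)⁻¹ * (w.Δ (d, y) * w.π σ)⁻¹) ^ 2 = 1 :=
      congrArg Subtype.val (h6.2 _ (mul_mem (h8 i c) (inv_mem h7)))
    rw [show w.δ i c * (w.Δ (d, y) * w.π σ) * (w.δ i c)⁻¹ * (w.Δ (d, y) * w.π σ)⁻¹ =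
      w.δ i c * w.Δ (d, y) * (w.π σ * w.δ i c * (w.π σ)⁻¹)⁻¹ * (w.Δ (d, y))⁻¹ by group, w.π_δ,
      w.δ_apply, w.δ_apply, ← map_inv, ← map_inv, ← map_mul, ← map_mul, ← map_mul, ← map_pow,
      map_eq_one_iff _ w.inj] at e1
    simpa [Pi.mulSingle_eq_of_ne (Ne.symm hi : i ≠ σ i)] using congrFun (congrArg Prod.fst e1) i)
  refine ⟨(fun i => ⟨d i, h1 _ ?_ fun g => ?_⟩, y), by simp only [map_one, mul_one]; rfl⟩
  · have e1 : (w.Δ (d, y) * w.π 1) ^ 2 = 1 := congrArg Subtype.val (h6.2 _ h7)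
    rw [map_one, mul_one, ← map_pow, map_eq_one_iff _ w.inj] at e1
    exact congrFun (congrArg Prod.fst e1) i
  · have e1 := congrArg Subtype.val (comm_of_sq h6.2 h7 (h8 i g))
    simp only [coe_mul, coe_inv, map_one, mul_one, w.δ_apply, ← map_inv, ← map_mul] at e1
    simpa [Commute, SemiconjBy] using congrFun (congrArg Prod.fst (w.inj e1)) i

variable {F : Type*} [Field F] [Fintype F]

theorem nr_one (h : Fintype.card F % 4 = 1) (n : ℕ) (P : Sylow 2 (GL (Fin n) F)) :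
    NR P.1 (2 ^ n) := by
  classical
  have q1 := Fintype.one_lt_card (α := F)
  have o : Odd (Fintype.card F) := Nat.odd_iff.2 (by omega)
  obtain ⟨T, a, -⟩ := exists_gp 2 n
  obtain ⟨ι, hι⟩ := (FiniteField.isSquare_neg_one_iff (F := F)).2 (by omega)
  obtain ⟨u, rfl⟩ : IsUnit ι := isUnit_iff_ne_zero.2 fun z => by simp [z] at hι
  have u2 : u ^ 2 = -1 := (sq u).trans (Units.ext hι.symm)
  have u4 : u ^ 4 = 1 := by rw [show 4 = 2 * 2 from rfl, pow_mul, u2]; simp
  obtain ⟨S, hS⟩ := (H7.isPGroup_zpowers (p := 2) (k := 2) u4).exists_le_sylow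
  let e' : ((Fin n → F) × (Fin 0 → F)) ≃ₗ[F] (Fin n → F) := LinearEquiv.ofFinrankEq _ _ (by simp)
  let w : Wr _ S.1 Unit _ := ((wrL F (Fin n) F (Fin 0 → F)).map (H4.linConj e').toMonoidHom
    (H4.linConj e').injective).comp ((DistribMulAction.toModuleAut F F).comp S.1.subtype) 1
    (fun c d z => Subtype.ext (Units.ext (by simpa [Units.smul_def] using DFunLike.congr_fun z 1)))
    fun _ _ _ => rfl
  obtain ⟨k1, k2⟩ := w.val_W (b := 0) (card_sylow S) (by simp) a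
  let c : S.1 := ⟨u, hS (mem_zpowers _)⟩
  have c2 : c ^ 2 ≠ 1 := fun e => neg_one_ne o (u2.symm.trans (congrArg Subtype.val e))
  have := wr_nr w T (z := c ^ 2) (orderOf_eq_prime (Subtype.ext (by
    simpa [← pow_mul] using u4)) c2) (fun _ => Commute.all _ _) (fun e he _ =>
      (unit_pm (congrArg Subtype.val he)).elim (fun h => (Subtype.ext h : e = 1) ▸ one_mem _)
        fun h => (Subtype.ext (h.trans u2.symm) : e = c ^ 2) ▸ mem_zpowers _) c2 fun _ => rfl
  simp only [Nat.card_eq_fintype_card, Fintype.card_fin, Fintype.card_unique, mul_one] at this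
  refine this.syl H4.glEquiv (sylow_of_val k1 (le_of_eq ?_)) P
  rw [k2, val_lin o, val_fact n, Nat.card_eq_fintype_card (α := Fˣ), Fintype.card_units,
    Nat.card_eq_fintype_card, Fintype.card_fin]
  have := val_gl' o q1 (n / 2) (r := n % 2) (by omega)
  rw [Nat.div_add_mod, val_sq q1, val_two (x := Fintype.card F + 1) (by omega)] at this
  rw [this]
  have e := Nat.div_add_mod n 2
  generalize n / 2 = m at e ⊢
  generalize n % 2 = r at e ⊢
  rw [← e]
  ring

omit [Fintype F] in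
lemma key3 (h2 : (2 : F) ≠ 0) {s ε : F} (hε : ε * ε = 1) (hs : s * s = -2 * ε)
    {e : Matrix (Fin 2) (Fin 2) F} {c : F} (h1 : e.trace = 0 ∧ e.det = -1)
    (h3 : !![0, ε; 1, s] * e = c • (e * !![0, ε; 1, s])) : IsSquare (-1 : F) := by
  refine ⟨e 0 0, ?_⟩
  simp only [← Matrix.ext_iff, Fin.forall_fin_two, Matrix.mul_apply, Fin.sum_univ_two,
    Matrix.trace_fin_two, Matrix.det_fin_two, Matrix.smul_apply, smul_eq_mul] at h1 h3
  simp at h3
  grind

theorem nr_three (h : Fintype.card F % 4 = 3) {m r : ℕ} (l : r ≤ 1)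
    (P : Sylow 2 (GL (Fin (2 * m + r)) F)) : NR P.1 (2 ^ (m + r)) := by
  classical
  have q1 := Fintype.one_lt_card (α := F)
  have o : Odd (Fintype.card F) := Nat.odd_iff.2 (by omega)
  have h2 := G2.two_ne o
  have ns : ¬ IsSquare (-1 : F) := fun e => FiniteField.isSquare_neg_one_iff.1 e h
  obtain ⟨s, ε, hε, hs⟩ : ∃ s ε : F, ε * ε = 1 ∧ s * s = -2 * ε := by
    by_cases h3 : IsSquare (2 : F)
    · obtain ⟨s, hs⟩ := h3; exact ⟨s, -1, by ring, by linear_combination -hs⟩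
    have : IsSquare (-2 : F) := by
      rw [← quadraticChar_one_iff_isSquare (neg_ne_zero.2 h2), ← neg_one_mul, map_mul,
        quadraticChar_neg_one_iff_not_isSquare.2 ns, quadraticChar_neg_one_iff_not_isSquare.2 h3]
      norm_num
    obtain ⟨s, hs⟩ := this; exact ⟨s, 1, by ring, by linear_combination -hs⟩
  let x : GL (Fin 2) F := Matrix.GeneralLinearGroup.mkOfDetNeZero !![0, ε; 1, s] (by
    simpa [Matrix.det_fin_two] using left_ne_zero_of_mul (hε ▸ one_ne_zero))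
  have x4 : x ^ 4 = -1 := Units.ext (by
    change (!![0, ε; 1, s] : Matrix (Fin 2) (Fin 2) F) ^ 4 = -1
    ext i j; fin_cases i <;> fin_cases j <;>
      simp [pow_succ, Matrix.mul_apply, Fin.sum_univ_two] <;> grind)
  have n1 : (-1 : GL (Fin 2) F) ≠ 1 := fun e => h2 (by
    have := congrArg (fun g : GL (Fin 2) F => g.1 0 0) e
    simp at this; linear_combination -this)
  obtain ⟨T, a, -⟩ := exists_gp 2 m
  obtain ⟨S, hS⟩ := (H7.isPGroup_zpowers (p := 2) (k := 3) (show x ^ 2 ^ 3 = 1 by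
    rw [show 2 ^ 3 = 4 * 2 from rfl, pow_mul, x4]; simp)).exists_le_sylow
  obtain ⟨Q⟩ : Nonempty (Sylow 2 ((Fin r → F) ≃ₗ[F] (Fin r → F))) := inferInstance
  let e : ((Fin m → Fin 2 → F) × (Fin r → F)) ≃ₗ[F] (Fin (2 * m + r) → F) :=
    LinearEquiv.ofFinrankEq _ _ (by simp [Module.finrank_pi_fintype, mul_comm])
  let w := ((wrL F (Fin m) (Fin 2 → F) (Fin r → F)).map (H4.linConj e).toMonoidHom
    (H4.linConj e).injective).comp (H4.glEquiv.toMonoidHom.comp S.1.subtype) Q.1.subtype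
    (H4.glEquiv.injective.comp Subtype.val_injective) Subtype.val_injective
  obtain ⟨k1, k2⟩ := w.val_W (card_sylow S) (card_sylow Q) a
  have v1 := val_gl' o q1 1 (Nat.zero_le 1)
  have v0 := val_gl' o q1 0 l
  have hQ : Nat.card Q.1 = 2 ^ r := by
    rw [card_sylow Q, val_lin o]
    simp only [mul_zero, zero_add, zero_mul, Nat.factorial_zero, padicValNat.one, add_zero] at v0
    rw [v0, val_two (x := Fintype.card F - 1) (by omega), mul_one]
  let c : S.1 := ⟨x, hS (mem_zpowers _)⟩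
  have c4 : (c ^ 4).1 = -1 := x4
  have := wr_nr w T (z := c ^ 4) (orderOf_eq_prime (Subtype.ext (by
      rw [coe_pow, c4]; simp)) fun e => n1 (c4.symm.trans (congrArg Subtype.val e)))
    (fun d => Subtype.ext (by rw [coe_mul, coe_mul, c4]; simp)) (fun g hg H => ?_) (c := c)
    (fun e => n1 (by rw [← c4, show 4 = 2 * 2 from rfl, pow_mul, e]; simp)) fun y =>
      orderOf_dvd_iff_pow_eq_one.1 ((hQ ▸ orderOf_dvd_natCard y).trans
        ((pow_dvd_pow 2 l).trans (pow_one 2).dvd))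
  · rw [hQ, Nat.card_eq_fintype_card, Fintype.card_fin, ← pow_add] at this
    refine this.syl H4.glEquiv (sylow_of_val k1 (le_of_eq ?_)) P
    rw [k2, Nat.card_congr (H4.glEquiv (ι := Fin 2) (F := F)).toEquiv, val_lin o, val_lin o,
      val_lin o, val_gl' o q1 _ l]
    simp_all
  have sq1 : ∀ g : S.1, g ^ 2 = 1 → g.1.1 * g.1.1 = (1 : F) • 1 := fun g hg => by
    rw [one_smul]; exact congrArg (·.1.1) ((sq g).symm.trans hg)
  by_cases h3 : ∀ t : F, g.1.1 ≠ t • 1
  · have h4 := Q8.tr2 h3 (sq1 g hg)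
    obtain ⟨t, ht⟩ : ∃ t : F, (g * (c * g * c⁻¹)).1.1 = t • 1 := by
      by_contra! h5
      have := (Q8.tr2 h5 (sq1 _ (by rw [(H c).mul_pow, conj_pow, hg]; simp))).2
      simp only [coe_mul, Units.val_mul, Matrix.det_mul, h4.2, coe_inv] at this
      rw [mul_right_comm c.1.1.det, ← Matrix.det_mul, Units.mul_inv, Matrix.det_one] at this
      exact h2 (by linear_combination this)
    refine absurd (key3 h2 hε hs (c := t) h4 ?_) ns
    change c.1.1 * g.1.1 = t • (g.1.1 * c.1.1)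
    have e1 : c * g = g * (g * (c * g * c⁻¹)) * c := by rw [← mul_assoc g, ← sq, hg]; group
    have e2 : c.1.1 * g.1.1 = g.1.1 * (g * (c * g * c⁻¹)).1.1 * c.1.1 := congrArg (·.1.1) e1
    rw [ht] at e2
    simpa using e2
  push Not at h3
  obtain ⟨t, ht⟩ := h3
  have := congrFun (congrFun (sq1 g hg) 0) 0
  simp only [ht, smul_mul_assoc, one_mul, Matrix.smul_apply, Matrix.one_apply_eq, smul_eq_mul,
    mul_one] at this
  rcases mul_self_eq_one_iff.1 this with rfl | rfl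
  · rw [show g = 1 from Subtype.ext (Units.ext (by simpa using ht))]; exact one_mem _
  · rw [show g = c ^ 4 from Subtype.ext (c4 ▸ Units.ext (by simpa using ht))]; exact mem_zpowers _

end H4.Nr
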