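import Cfsg.Agent.H4.AuI
import Cfsg.Agent.H4.TbE

/-! Restriction of scalars for forms. -/

set_option autoImplicit false

universe u v
namespace H4
open Module Form Submodule

section Res
variable {F K : Type*} [Field F] [Field K] [Algebra F K] {L : Kind K} {V : Type u} [AddCommGroup V]
  [Module K V] [Module F V] [IsScalarTower F K V] (f : Form L V)
  (hσ : ∀ a : F, L.σ (algebraMap F K a) = algebraMap F K a) (τ : K →ₗ[F] F)

/-- the trace form -/
def resB : LinearMap.BilinForm F V := LinearMap.mk₂ F (fun x y => τ (f.B x y)) (by simp)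
  (fun c x y => by rw [← algebraMap_smul K c x, B_smul_left, hσ, ← Algebra.smul_def, map_smul])
  (by simp)
  (fun c x y => by rw [← algebraMap_smul K c y, B_smul_right, ← Algebra.smul_def, map_smul])

lemma resB_apply (x y : V) : resB f hσ τ x y = τ (f.B x y) := rfl

lemma exists_res {L' : Kind F} {g : Form L' V} (h : ∀ a : f.Isom, a.1.restrictScalars F ∈ g.Isom)
    {W : Type v} [AddCommGroup W] [Module F W] {g' : Form L' W} {e : V ≃ₗ[F] W} (he : g.IsIso g' e) :
    ∃ φ : f.Isom →* g'.Isom, Function.Injective φ :=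
  ⟨he.isomEquiv.toMonoidHom.comp (MonoidHom.mk' (fun a => ⟨_, h a⟩) fun _ _ => rfl),
    he.isomEquiv.injective.comp fun _ _ e => Subtype.ext (LinearEquiv.ext fun x =>
      LinearEquiv.congr_fun (congrArg Subtype.val e) x)⟩

variable {f} in
include hσ in
theorem res_alt [FiniteDimensional F V] (hf : f.ND) (hτ : τ ≠ 0) (hA : ∀ x, τ (f.B x x) = 0)
    {W : Type v} [AddCommGroup W] [Module F W] [FiniteDimensional F W] {g' : Form (altKind F) W}
    (hg : g'.ND) (hn : finrank F V = finrank F W) :
    ∃ φ : f.Isom →* g'.Isom, Function.Injective φ := by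
  obtain ⟨e, he⟩ := alt_exists_isIso _ _ _ (altForm (resB f hσ τ) hA) g' (fun x hx => hf x fun y => by
    by_contra e
    refine hτ (LinearMap.ext fun c => ?_)
    have : τ _ = 0 := hx ((c / f.B x y) • y)
    simpa [e] using this) hg hn rfl
  exact exists_res f (fun a => (alt_mem_Isom _).2 fun x y => congrArg τ (isom_B a x y)) he

end Res

section U
variable {F K : Type*} [Field F] [Fintype F] [Field K] [Fintype K] {q : ℕ}
  (hK : Fintype.card K = q ^ 2) (hF : Fintype.card F = q)
include hK hF

lemma exists_sub : ∃ j : F →+* K, ∀ a, a ^ q = a ↔ a ∈ j.range := by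
  obtain ⟨p, hp⟩ := CharP.exists F
  obtain ⟨n, h1, h2⟩ := FiniteField.card F p
  haveI := Fact.mk h1
  exact (Au.exists_emb (p := p) (f := 2 * n) (by rw [hK, ← hF, h2, ← pow_mul, mul_comm])
    (Au.frobE hK)).2 F (by rw [Au.frobE_order, h2]; simp)

lemma finrank_two [Algebra F K] : finrank F K = 2 :=
  Nat.pow_right_injective (two_le_of_card_sq hK) (by
    simp only; rw [← hK, ← hF, ← Module.card_eq_pow_finrank])

theorem u_res_alt (m : ℕ) : ∃ φ : (uForm hK m).Isom →* (spForm m F).Isom, Function.Injective φ := by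
  obtain ⟨j, hj⟩ := exists_sub hK hF
  letI := j.toAlgebra
  have h2 := finrank_two hK hF
  obtain ⟨c, hc⟩ := SetLike.not_le_iff_exists.1 fun e : (⊤ : Submodule F K) ≤ F ∙ (1 : K) => by
    have := finrank_mono e
    rw [finrank_top, finrank_span_singleton one_ne_zero] at this; omega
  obtain ⟨τ, h3, h4⟩ := exists_dual_eq1 hc.2 1
  refine res_alt (fun a => (hj _).2 ⟨a, rfl⟩) τ (uForm_ND hK m) (fun e => by simp [e] at h4)
    (fun x => ?_) (spForm_ND m F) (by rw [← finrank_mul_finrank F K, h2]; simp [two_mul])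
  obtain ⟨a, ha⟩ := (hj _).1 (u_Q_fixed (uForm hK m) x)
  rw [← herm_Q, ← ha, show j a = a • (1 : K) from Algebra.algebraMap_eq_smul_one a, map_smul, h3,
    smul_zero]

theorem u_res_quad (m : ℕ) {W : Type v} [AddCommGroup W] [Module F W] [FiniteDimensional F W]
    {g' : Form (quadKind F) W} (hg : g'.ND) (hn : finrank F W = 2 * m) (ht : g'.HasTS m ↔ Even m) :
    ∃ φ : (uForm hK m).Isom →* g'.Isom, Function.Injective φ := by
  obtain ⟨j, hj⟩ := exists_sub hK hF
  letI := j.toAlgebra
  obtain ⟨τ, -, h4⟩ := exists_dual_eq (Z := ⊥) (x := (1 : K)) (by simp) (1 : F)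
  have h5 : ∀ c, c ^ q = c → τ c = 0 → c = 0 := fun c hc e => by
    obtain ⟨a, rfl⟩ := (hj _).1 hc
    rw [show j a = a • (1 : K) from Algebra.algebraMap_eq_smul_one a, map_smul, h4] at e
    simpa using e
  let f := uForm hK m
  have hσ : ∀ a : F, (uKind hK).σ (algebraMap F K a) = algebraMap F K a := fun a => (hj _).2 ⟨a, rfl⟩
  let g := quadForm (resB f hσ τ).toQuadraticMap
  have hg' : g.ND := fun x hx => uForm_ND hK m x fun y => by
    by_contra e
    obtain ⟨s, hs⟩ := exists_trace_eq_q hK (μ := 1) (one_pow q)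
    have := hx ((s / f.B x y) • y)
    rw [quadForm_B, LinearMap.BilinMap.polar_toQuadraticMap, resB_apply, resB_apply, f.symm x,
      B_smul_right, div_mul_cancel₀ _ e, ← map_add] at this
    simp [hs, h4] at this
  have hn' : finrank F (Fin m → K) = 2 * m := by
    rw [← finrank_mul_finrank F K, finrank_two hK hF]; simp
  have hc : g.cnt 0 = f.cnt 0 := Nat.card_congr (Equiv.subtypeEquivRight fun x =>
    ⟨h5 _ (u_Q_fixed f x), fun e => (congrArg τ e).trans (map_zero τ)⟩)
  obtain ⟨e, he⟩ := As.even_exists_isIso hg' hg hn' hn (by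
    rw [ht]
    rcases m with _ | m
    · simpa using g.hasTS_zero
    rw [u_cnt_zero f (uForm_ND hK _) (n := m + 1) (by simp), Nat.add_sub_cancel] at hc
    have h1 := two_le_of_card_sq hK
    have h2 : q ^ m < q ^ (m + 1) := Nat.pow_lt_pow_right h1 m.lt_succ_self
    obtain ⟨a, ha⟩ := Nat.exists_eq_add_of_le' (Nat.one_le_pow m q (by omega))
    obtain ⟨b, hb⟩ := Nat.exists_eq_add_of_le' (Nat.one_le_pow (m + 1) q (by omega))
    rw [ha, hb] at h2
    by_contra h
    by_cases h6 : g.HasTS (m + 1)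
    · rw [plus_cnt_zero g hg' hn' h6, if_neg (by tauto), Nat.card_eq_fintype_card, hF] at hc
      simp only [ha, hb, Nat.add_sub_cancel] at hc
      nlinarith
    · rw [minus_cnt_zero g hg' hn' h6, if_pos (by tauto), Nat.card_eq_fintype_card, hF] at hc
      simp only [ha, hb, Nat.add_sub_cancel] at hc
      nlinarith)
  exact exists_res f (fun a => (quad_mem_Isom _).2 fun x => congrArg τ (isom_B a x x)) he

end U
end H4
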