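import Cfsg.Agent.H4.AuP
import Cfsg.Agent.H4.RsA

/-! Symmetric and alternating forms up to similarity: the models. -/

set_option autoImplicit false

namespace H4.Au
open Matrix Cfsg Cfsg.Geo Subgroup Module H4.As
open scoped MatrixGroups commutatorElement

local notation "det" => GeneralLinearGroup.det
local notation "GO" => quadSimilarityGroup
local notation "pol" => QuadraticMap.polar

section Two
variable {F : Type*} [Field F] {m : ℕ}

/-- the graph of the action on the quotient by the first basis vector -/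
def grf {ι : Type} [Fintype ι] [DecidableEq ι] : Subgroup (GL (Unit ⊕ ι) F × GL ι F) where
  carrier := {x | ∀ v, (x.1.1 *ᵥ v) ∘ Sum.inr = x.2.1 *ᵥ (v ∘ Sum.inr)}
  mul_mem' {a b} ha hb v := by
    rw [Prod.fst_mul, Prod.snd_mul, Units.val_mul, Units.val_mul, ← mulVec_mulVec,
      ← mulVec_mulVec, ha, hb]
  one_mem' v := by simp
  inv_mem' {a} ha v := by
    have := ha ((a.1⁻¹).1 *ᵥ v)
    rw [mulVec_mulVec, Units.mul_inv, one_mulVec] at this
    rw [this, mulVec_mulVec, Prod.snd_inv, Units.inv_mul, one_mulVec, Prod.fst_inv]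

lemma two_model (h2 : (2 : F) = 0) (Q : (Fin m ⊕ Fin m → F) → F)
    (hQ : ∀ A ∈ Iso (sympForm m F), ∃ l : Fin m ⊕ Fin m → F, ∀ w,
      (l ⬝ᵥ w) ^ 2 + Q (A.1 *ᵥ w) = Q w) {H : Subgroup (GL (Unit ⊕ (Fin m ⊕ Fin m)) F)}
    (hH : ∀ g, g ∈ H ↔ (∀ v, (g.1 *ᵥ v) (.inl ()) ^ 2 + Q ((g.1 *ᵥ v) ∘ Sum.inr) =
      v (.inl ()) ^ 2 + Q (v ∘ Sum.inr)) ∧ ∀ u v, sympForm m F ((g.1 *ᵥ u) ∘ Sum.inr)
        ((g.1 *ᵥ v) ∘ Sum.inr) = sympForm m F (u ∘ Sum.inr) (v ∘ Sum.inr)) :
    Nonempty (H ≃* Iso (sympForm m F)) := by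
  haveI : CharP F 2 := CharTwo.of_one_ne_zero_of_two_eq_zero one_ne_zero h2
  let Γ := grf ⊓ H.prod (Iso (sympForm m F))
  refine equiv_range ((MonoidHom.fst _ _).comp Γ.subtype) ((MonoidHom.snd _ _).comp Γ.subtype)
    ?_ (le_antisymm ?_ fun g hg => ?_) (le_antisymm ?_ fun A hA => ?_)
  · rintro ⟨⟨g, A⟩, h1, h3, h4⟩
    change A = 1 ↔ g = 1
    constructor
    · rintro rfl
      refine Units.ext (matrix_ext_mulVec fun v => ?_)
      have e1 : (g.1 *ᵥ v) ∘ Sum.inr = v ∘ Sum.inr := (h1 v).trans (by simp)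
      have e2 := ((hH g).1 h3).1 v
      rw [e1, add_left_inj, ← sub_eq_zero, CharTwo.sub_eq_add, ← CharTwo.add_sq,
        pow_eq_zero_iff two_ne_zero, ← CharTwo.sub_eq_add, sub_eq_zero] at e2
      ext (i | i)
      · simpa using e2
      · simpa using congrFun e1 i
    · rintro rfl
      refine Units.ext (matrix_ext_mulVec fun v => ?_)
      simpa using (h1 (Sum.elim 0 v)).symm
  · rintro _ ⟨x, rfl⟩; exact x.2.2.1
  · obtain ⟨-, h3⟩ := (hH g).1 hg
    have e1 : (g.1 *ᵥ Pi.single (.inl ()) 1) ∘ Sum.inr = 0 := (sf_symp m).nd _ fun x => by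
      have := h3 ((g⁻¹).1 *ᵥ Sum.elim 0 x) (Pi.single (.inl ()) 1)
      rw [mulVec_mulVec, Units.mul_inv, one_mulVec, show (Pi.single (.inl ()) 1 :
        Unit ⊕ (Fin m ⊕ Fin m) → F) ∘ Sum.inr = 0 by ext; simp, (sf_symp m).zero'] at this
      exact this
    have e2 : ∀ v, (g.1 *ᵥ v) ∘ Sum.inr = g.1.toBlocks₂₂ *ᵥ (v ∘ Sum.inr) := fun v => by
      ext i
      have := congrFun e1 i
      simp at this
      simp [mulVec, dotProduct, Fintype.sum_sum_type, this, toBlocks₂₂]
    have e3 : g.1.toBlocks₂₂ ∈ symplecticGroup (Fin m) F := mem_symplecticGroup_iff.2 fun u v => by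
      simpa [e2] using h3 (Sum.elim 0 u) (Sum.elim 0 v)
    exact ⟨⟨(g, spE m F ⟨_, e3⟩), e2, hg, spE_range.le ⟨_, rfl⟩⟩, rfl⟩
  · rintro _ ⟨x, rfl⟩; exact x.2.2.2
  · obtain ⟨l, hl⟩ := hQ A hA
    let g : GL (Unit ⊕ (Fin m ⊕ Fin m)) F := GeneralLinearGroup.mkOfDetNeZero
      (fromBlocks 1 (replicateRow Unit l) 0 A.1) (by
        rw [det_fromBlocks_zero₂₁]; simpa using A.det_ne_zero)
    have e1 : ∀ v, (g.1 *ᵥ v) ∘ Sum.inr = A.1 *ᵥ (v ∘ Sum.inr) := fun v => by
      ext i; simp [g, fromBlocks_mulVec]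
    have e2 : ∀ v, (g.1 *ᵥ v) (.inl ()) = v (.inl ()) + l ⬝ᵥ (v ∘ Sum.inr) := fun v => by
      simp [g, fromBlocks_mulVec]; rfl
    refine ⟨⟨(g, A), e1, (hH g).2 ⟨fun v => ?_, fun u v => ?_⟩, hA⟩, rfl⟩
    · rw [e1, e2, CharTwo.add_sq, add_assoc, hl]
    · rw [e1, e1, mem_Iso.1 hA]

/-- the odd-dimensional symmetric model in characteristic two -/
def b0 (m : ℕ) (F : Type*) [Field F] (u v : Unit ⊕ (Fin m ⊕ Fin m) → F) : F :=
  u (.inl ()) * v (.inl ()) + sympForm m F (u ∘ Sum.inr) (v ∘ Sum.inr)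

lemma sf_two (h2 : (2 : F) = 0) {ι : Type} [Fintype ι] [DecidableEq ι]
    {b : (ι → F) → (ι → F) → F} (h : SF (RingHom.id F) (-1) b) : SF (RingHom.id F) 1 b := by
  rwa [show (-1 : F) = 1 by linear_combination -h2] at h

lemma sf_b0 (h2 : (2 : F) = 0) : SF (RingHom.id F) 1 (b0 m F) := by
  have h := sf_two h2 (sf_symp (F := F) m)
  refine ⟨fun _ => rfl, by simp, fun x y v => ?_, fun c x v => ?_, fun u v => ?_, fun v hv => ?_⟩
  · rw [b0, b0, b0, show (x + y) ∘ Sum.inr = x ∘ Sum.inr + y ∘ Sum.inr from rfl, h.add]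
    simp only [Pi.add_apply]; ring
  · rw [b0, b0, show (c • x) ∘ Sum.inr = c • x ∘ Sum.inr from rfl, h.smul]
    simp only [Pi.smul_apply, smul_eq_mul]; ring
  · rw [b0, b0, h.herm]; simp [mul_comm]
  · ext (i | i)
    · have := hv (Pi.single (.inl ()) 1)
      rw [b0, show (Pi.single (.inl ()) 1 :
        Unit ⊕ (Fin m ⊕ Fin m) → F) ∘ Sum.inr = 0 by ext; simp, h.zero] at this
      simpa using this
    · exact congrFun (h.nd (v ∘ Sum.inr) fun x => by simpa [b0] using hv (Sum.elim 0 x)) i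

lemma iso_b0 (h2 : (2 : F) = 0) : Nonempty (Iso (b0 m F) ≃* Iso (sympForm m F)) := by
  haveI : CharP F 2 := CharTwo.of_one_ne_zero_of_two_eq_zero one_ne_zero h2
  refine two_model h2 0 (fun A _ => ⟨0, by simp⟩) fun g => ⟨fun h => ?_, fun h u v => ?_⟩
  · have e : ∀ v, (g.1 *ᵥ v) (.inl ()) = v (.inl ()) := fun v => by
      have := mem_Iso.1 h v v
      rwa [b0, b0, symp_alt, symp_alt, add_left_inj, ← sq, ← sq, ← sub_eq_zero, CharTwo.sub_eq_add,
        ← CharTwo.add_sq, pow_eq_zero_iff two_ne_zero, ← CharTwo.sub_eq_add, sub_eq_zero] at this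
    exact ⟨fun v => by simp [e], fun u v => by simpa [b0, e] using mem_Iso.1 h u v⟩
  · have e : ∀ v, (g.1 *ᵥ v) (.inl ()) = v (.inl ()) := fun v => by
      have := h.1 v
      rwa [Pi.zero_apply, Pi.zero_apply, add_left_inj, ← sub_eq_zero, CharTwo.sub_eq_add,
        ← CharTwo.add_sq, pow_eq_zero_iff two_ne_zero, ← CharTwo.sub_eq_add, sub_eq_zero] at this
    change b0 m F (g.1 *ᵥ u) (g.1 *ᵥ v) = _
    rw [b0, b0, e, e, h.2]

lemma plus_B_two (h2 : (2 : F) = 0) (u v : Fin m ⊕ Fin m → F) :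
    (plusForm F m).B u v = sympForm m F u v := by
  rw [plusForm_B, sympForm_eq]
  exact Finset.sum_congr rfl fun i _ => by linear_combination (u (.inl i) * v (.inr i)) * h2

lemma iso_odd [Finite F] (h2 : (2 : F) = 0) :
    Nonempty (isometryGroup F (quadFormOdd m F) ≃* Iso (sympForm m F)) := by
  haveI : CharP F 2 := CharTwo.of_one_ne_zero_of_two_eq_zero one_ne_zero h2
  refine two_model h2 (plusForm F m).Q (fun A hA => ?_) fun g =>
    ⟨fun h => ⟨mem_isometryGroup.1 h, fun u v => ?_⟩, fun h => mem_isometryGroup.2 h.1⟩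
  · let r := (frobeniusEquiv F 2).symm
    have hr : ∀ c, r c ^ 2 = c := fun c => (frobeniusEquiv F 2).apply_symm_apply c
    let l : Module.Dual F (Fin m ⊕ Fin m → F) :=
      { toFun := fun v => r ((plusForm F m).Q v - (plusForm F m).Q (A.1 *ᵥ v))
        map_add' := fun u v => by
          rw [← map_add, mulVec_add, quad_Q_add, quad_Q_add]
          congr 1
          simp only [plus_B_two h2, mem_Iso.1 hA]
          ring
        map_smul' := fun c v => by
          rw [mulVec_smul, quad_Q_smul, quad_Q_smul, ← mul_sub, map_mul, show r (c ^ 2) = c from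
            (frobeniusEquiv F 2).symm_apply_apply c]; rfl }
    refine ⟨fun i => l (Pi.single i 1), fun w => ?_⟩
    have : (fun i => l (Pi.single i 1)) ⬝ᵥ w = l w := by
      conv_rhs => rw [← Finset.univ_sum_single w, map_sum]
      exact Finset.sum_congr rfl fun i _ => by
        rw [show (Pi.single i (w i) : _ → F) = w i • Pi.single i 1 by simp [← Pi.single_smul],
          map_smul, mul_comm]; rfl
    rw [this]
    exact (congrArg (· + _) (hr _)).trans (sub_add_cancel _ _)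
  · have e : ∀ u v, (oddForm F m).B u v = sympForm m F (u ∘ Sum.inr) (v ∘ Sum.inr) := fun u v => by
      rw [oddForm_B, h2, ← plus_B_two h2, plusForm_B]; simp
    rw [← e, ← e]
    simpa using ((qm_one (f := oddForm F m)).2 h).B u v

lemma pgo_odd [Finite F] (h2 : (2 : F) = 0) :
    Nonempty (projQuot (similarityGroup (b0 m F)) ≃* PGO F (quadFormOdd m F)) := by
  obtain ⟨e1⟩ := proj_equiv_iso h2 (sf_b0 (m := m) h2)
  obtain ⟨e2⟩ := iso_b0 (m := m) h2
  obtain ⟨e3⟩ := iso_odd (m := m) h2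
  refine (proj_equiv_of (iso_le_GO (f := oddForm F m)) (fun g h1 h3 => ?_) fun h hc => ?_).map
    fun e4 => e1.symm.trans (e2.trans (e3.symm.trans e4))
  · obtain ⟨c, rfl⟩ := mem_sc.1 h3
    have := (qm_sc c (Pi.single (.inl ()) 1)).symm.trans (mem_isometryGroup.1 h1 _)
    rw [usq_inj h2 (a := c) (c := 1) (Units.ext (by simpa [oddForm_Q, quadFormOdd] using this)),
      map_one]
  · obtain ⟨c, hc⟩ := hc
    obtain ⟨a, rfl⟩ := exists_usq h2 c
    exact ⟨a, sc a⁻¹ * h, qm_one.1 (by simpa using (qm_sc a⁻¹).mul hc), by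
      rw [← mul_assoc, ← map_mul]; simp⟩

/-- the even-dimensional non-alternating model in characteristic two -/
def b1 (i : Fin m) (u v : Fin m ⊕ Fin m → F) : F := sympForm m F u v + u (.inr i) * v (.inr i)

lemma symp_e (i : Fin m) (v : Fin m ⊕ Fin m → F) :
    sympForm m F v (Pi.single (.inl i) 1) = v (.inr i) := by
  simp [sympForm_eq, Pi.single_apply]

lemma sf_b1 (h2 : (2 : F) = 0) (i : Fin m) : SF (RingHom.id F) 1 (b1 (F := F) i) := by
  have h := sf_two h2 (sf_symp (F := F) m)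
  refine ⟨fun _ => rfl, by simp, fun x y v => ?_, fun c x v => ?_, fun u v => ?_, fun v hv => ?_⟩
  · rw [b1, b1, b1, h.add, Pi.add_apply]; ring
  · rw [b1, b1, h.smul, Pi.smul_apply, smul_eq_mul]; ring
  · rw [b1, b1, h.herm]; simp [mul_comm]
  · have := h.nd (v + v (.inr i) • Pi.single (.inl i) 1) fun x => by
      rw [h.add', h.smul', symp_e, ← hv x, b1]; simp [mul_comm]
    have e : v (.inr i) = 0 := by simpa using congrFun this (.inr i)
    simpa [e] using this

lemma exists_tv_b1 (h2 : (2 : F) = 0) (i : Fin m) : ∃ t : symplecticGroup (Fin m) F,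
    IsTransvection t.1 ∧ Nonempty (Iso (b1 (F := F) i) ≃* centralizer {t}) := by
  haveI : CharP F 2 := CharTwo.of_one_ne_zero_of_two_eq_zero one_ne_zero h2
  have h := sf_two h2 (sf_symp (F := F) m)
  have ht : ∀ v : Fin m ⊕ Fin m → F, transvection (.inl i) (.inr i) (1 : F) *ᵥ v =
      v + v (.inr i) • Pi.single (.inl i) 1 := fun v => by
    ext j; simp [transvection, add_mulVec, single_mulVec, Function.update_apply, Pi.single_apply]
  have sq1 : ∀ a b : F, a * a = b * b → a = b := fun a b e => by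
    rwa [← sq, ← sq, ← sub_eq_zero, CharTwo.sub_eq_add,
      ← CharTwo.add_sq, pow_eq_zero_iff two_ne_zero, ← CharTwo.sub_eq_add, sub_eq_zero] at e
  let t : symplecticGroup (Fin m) F := ⟨transvection (.inl i) (.inr i) 1,
    mem_symplecticGroup_iff.2 fun u v => by
      rw [ht, ht, h.add, h.add', h.add', h.smul, h.smul, h.smul', h.smul', symp_alt, symp_e,
        h.herm v (Pi.single _ _), symp_e]
      simp only [RingHom.id_apply]
      linear_combination (u (.inr i) * v (.inr i)) * h2⟩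
  refine ⟨t, ⟨?_, ?_⟩, Nonempty.map MulEquiv.symm (equiv_range (G₀ := centralizer {t})
    (MonoidHom.id _) ((spE m F).comp (Subgroup.subtype _)) ?_ rfl
    (S' := Iso (b1 i)) ?_ |>.map (MulEquiv.trans (by
      rw [MonoidHom.range_eq_top.2 Function.surjective_id]; exact topEquiv.symm)))⟩
  · have e : t.1 - 1 = single (.inl i) (.inr i) 1 := add_sub_cancel_left _ _
    refine le_antisymm (by rw [e, single_eq_single_vecMulVec_single]; exact rank_vecMulVec_le _ _)
      (Nat.pos_of_ne_zero fun h0 => ?_)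
    have := (Submodule.finrank_eq_zero.1 h0).le ⟨Pi.single (.inr i) 1, rfl⟩
    simpa [e] using congrFun (show _ = 0 from this) (.inl i)
  · simp [t, transvection]
  · exact fun g => ⟨fun e => Subtype.ext (spE_inj (e.trans (map_one _).symm)), by
      rintro (rfl : g = 1); exact map_one _⟩
  · ext g
    constructor
    · rintro ⟨⟨s, hs⟩, rfl⟩
      have e0 := mem_symplecticGroup_iff.1 s.2
      have e1 : ∀ v, v (.inr i) • s.1 *ᵥ Pi.single (.inl i) 1 =
          (s.1 *ᵥ v) (.inr i) • Pi.single (.inl i) 1 := fun v => by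
        have := congrArg (fun x : symplecticGroup (Fin m) F => x.1 *ᵥ v)
          (mem_centralizer_singleton_iff.1 hs)
        simpa [t, ← mulVec_mulVec, ht, mulVec_add, mulVec_smul] using this
      have e2 := e1 (Pi.single (.inr i) 1)
      have e3 := e0 (Pi.single (.inr i) 1) (Pi.single (.inl i) 1)
      rw [Pi.single_eq_same, one_smul] at e2
      rw [e2, h.smul', symp_e, symp_e, Pi.single_eq_same, RingHom.id_apply] at e3
      rw [sq1 _ 1 (e3.trans (mul_one 1).symm), one_smul] at e2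
      have e4 : ∀ v, (s.1 *ᵥ v) (.inr i) = v (.inr i) := fun v => by
        simpa [e2] using (congrFun (e1 v) (.inl i)).symm
      intro u v
      change b1 i (s.1 *ᵥ u) (s.1 *ᵥ v) = _
      rw [b1, b1, e0, e4, e4]
    · intro hg
      have e4 : ∀ v, (g.1 *ᵥ v) (.inr i) = v (.inr i) := fun v => sq1 _ _ (by
        simpa [b1, symp_alt] using mem_Iso.1 hg v v)
      have e0 : ∀ u v, sympForm m F (g.1 *ᵥ u) (g.1 *ᵥ v) = sympForm m F u v := fun u v => by
        simpa [b1, e4] using mem_Iso.1 hg u v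
      have e2 : g.1 *ᵥ Pi.single (.inl i) 1 = Pi.single (.inl i) 1 :=
        sub_eq_zero.1 (h.nd _ fun x => by
          rw [h.sub', show x = g.1 *ᵥ ((g⁻¹).1 *ᵥ x) by
            rw [mulVec_mulVec, Units.mul_inv, one_mulVec], e0, symp_e, symp_e, e4, sub_self])
      refine ⟨⟨⟨g.1, mem_symplecticGroup_iff.2 e0⟩, mem_centralizer_singleton_iff.2
        (Subtype.ext (matrix_ext_mulVec fun v => ?_))⟩, Units.ext rfl⟩
      simp [t, ← mulVec_mulVec, ht, mulVec_add, mulVec_smul, e2, e4, -mulVec_single]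

end Two
end H4.Au
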