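import Cfsg.Agent.H4.GrA

/-! Involutory graph automorphisms: the abstract classification by forms. -/

set_option autoImplicit false

namespace H4.Au
open Matrix Cfsg Cfsg.Geo Subgroup Module H4.As
open scoped MatrixGroups commutatorElement

local notation "det" => GeneralLinearGroup.det
local notation "GO" => quadSimilarityGroup
local notation "pol" => QuadraticMap.polar

section Fm
variable {ι μ : Type} [Fintype ι] [DecidableEq ι] [Fintype μ] [DecidableEq μ] {F : Type*} [Field F]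

/-- symmetric or skew Gram matrix -/
def GF (M : GL ι F) : Prop := SF (RingHom.id F) 1 (bil M.1) ∨ SF (RingHom.id F) (-1) (bil M.1)

lemma gf_iff [Nonempty ι] {M : GL ι F} : GF M ↔ M * it M ∈ scalars ι F := by
  have key : ∀ u v, gf (RingHom.id F) M.1 v u = gf (RingHom.id F) (it M)⁻¹.1 u v := fun u v => by
    rw [it_inv_coe]
    simpa using gf_swap (σ := RingHom.id F) (fun _ => rfl) M.1 v u
  have k2 : ∀ ε : F, SF (RingHom.id F) ε (bil M.1) → M * it M ∈ scalars ι F := fun ε h => by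
    have : M.1 = ε • (it M)⁻¹.1 := gf_ext (σ := RingHom.id F) fun u v => by
      rw [gf_smul, ← key]; exact h.herm v u
    exact mem_sc_of (c := ε) (by rw [Units.val_mul, this, smul_mul_assoc, Units.inv_mul])
  refine ⟨fun h => h.elim (k2 _) (k2 _), fun h => ?_⟩
  obtain ⟨c, hc⟩ := mem_sc.1 h
  have h1 := congrArg it hc
  rw [map_mul, it_it, it_sc] at h1
  have h2 : sc c⁻¹ = (sc c : GL ι F) := by
    rw [← h1, show it M * M = M⁻¹ * (M * it M) * M by group, hc, mul_assoc, sc_left]; simp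
  have h3 : (c : F) * c = 1 := by
    have := sc_inj h2
    rw [← Units.val_mul, ← Units.val_one, Units.val_inj, ← eq_inv_iff_mul_eq_one, this]
  have h4 : ∀ u v, bil M.1 u v = c * bil M.1 v u := fun u v => by
    rw [bil, key u v, ← gf_smul, ← sc_mul_coe, ← hc, mul_inv_cancel_right]
  rcases mul_self_eq_one_iff.1 h3 with e | e
  exacts [.inl (e ▸ sf_of h3 h4), .inr (e ▸ sf_of h3 h4)]

lemma exists_model {b : (μ → F) → (μ → F) → F} {ε : F} (hb : SF (RingHom.id F) ε b)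
    (h : Fintype.card ι = Fintype.card μ) :
    ∃ M : GL ι F, SF (RingHom.id F) ε (bil M.1) ∧ Sm b (bil M.1) := by
  let e : (ι → F) ≃ₗ[F] (μ → F) := LinearEquiv.ofFinrankEq _ _ (by simpa using h)
  have h1 : SF (RingHom.id F) ε fun x y => b (e x) (e y) :=
    ⟨hb.inv, hb.eps, fun x y v => by simp [hb.add], fun c x v => by simp [hb.smul],
      fun u v => hb.herm _ _, fun v hv => e.map_eq_zero_iff.1 (hb.nd _ fun x => by
        simpa using hv (e.symm x))⟩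
  obtain ⟨M, hM⟩ := exists_gram h1
  exact ⟨M, hM ▸ h1, e, 1, fun x y => by rw [← hM]; simp⟩

omit [DecidableEq ι] [Fintype ι] in
lemma SF.alt {b : (ι → F) → (ι → F) → F} (h2 : (2 : F) ≠ 0) (hb : SF (RingHom.id F) (-1) b)
    (v : ι → F) : b v v = 0 :=
  have : b v v = -1 * b v v := hb.herm v v
  mul_left_cancel₀ h2 (by linear_combination this)

omit [DecidableEq ι] in
lemma SF.not_alt [Nonempty ι] {b : (ι → F) → (ι → F) → F} (h2 : (2 : F) ≠ 0)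
    (hb : SF (RingHom.id F) 1 b) : ¬ ∀ v, b v v = 0 := fun h => by
  classical
  obtain ⟨u, v, huv⟩ := SF.exists_ne hb
  have := h (u + v)
  rw [hb.add, hb.add', hb.add', h, h, hb.herm u v] at this
  exact huv (mul_left_cancel₀ h2 (by simp only [RingHom.id_apply] at this; linear_combination this))

lemma GF.sym {M : GL ι F} (h : GF M) (ho : (2 : F) = 0 ∨ Odd (Fintype.card ι)) :
    SF (RingHom.id F) 1 (bil M.1) := by
  by_cases h2 : (2 : F) = 0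
  · exact h.elim id (sf_two h2)
  · exact h.resolve_right fun h1 => Nat.not_even_iff_odd.2 (ho.resolve_left h2)
      (even_of_symp (h1.symp (SF.alt h2 h1)))

variable [Finite F]

/-- the standard odd-dimensional form -/
lemma odd_model (m : ℕ) : ∃ b : (Unit ⊕ (Fin m ⊕ Fin m) → F) → _ → F,
    Nonempty (projQuot (similarityGroup b) ≃* PGO F (quadFormOdd m F)) ∧
      ∀ M : GL (Fin (2 * m + 1)) F, GF M → Sm (bil M.1) b := by
  have ho : Odd (Fintype.card (Fin (2 * m + 1))) := by simp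
  have hc : Fintype.card (Fin (2 * m + 1)) = Fintype.card (Unit ⊕ (Fin m ⊕ Fin m)) := by
    simp; ring
  by_cases h2 : (2 : F) = 0
  · refine ⟨b0 m F, pgo_odd h2, fun M h => sm_two h2 (h.sym (.inl h2)) (by_contra fun h1 => ?_)
      (sf_b0 h2) ⟨Pi.single (.inl ()) 1, by simp [b0, symp_alt]⟩ hc⟩
    push Not at h1
    exact Nat.not_even_iff_odd.2 ho (even_of_symp ((h.sym (.inl h2)).symp h1))
  · exact ⟨pol (oddForm F m).Q, by rw [← qsim_eq h2]; exact ⟨MulEquiv.refl _⟩,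
      fun M h => sm_odd h2 (h.sym (.inr ho)) (oddForm_ND F m h2) (hc ▸ ho) hc⟩

lemma card_proj_sym (h2 : (2 : F) ≠ 0) {b : (ι → F) → (ι → F) → F} (hb : SF (RingHom.id F) 1 b)
    {m : ℕ} (hm : 0 < m) (hn : Fintype.card ι = 2 * m) :
    Nat.card (projQuot (similarityGroup b)) ≠ Nat.card (PGSp m F) := by
  haveI : Nonempty ι := Fintype.card_pos_iff.1 (by omega)
  haveI : Nonempty (Fin m) := ⟨⟨0, hm⟩⟩
  obtain ⟨k, rfl⟩ : ∃ k, m = k + 1 := ⟨m - 1, by omega⟩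
  rw [card_proj_sim hb fun c => ⟨_, (md_two h2 hb hm hn).2 (.inl rfl)⟩, PGSp, GSp,
    card_proj_sim (sf_symp _) fun c => ⟨_, (md_symp _).2 rfl⟩, ← spE_range,
    ← Nat.card_congr (MonoidHom.ofInjective spE_inj).toEquiv, card_symplecticGroup,
    Finset.prod_range_succ]
  obtain ⟨f, hf, e⟩ := exists_qf h2 hb
  rw [show b = pol f.Q from funext₂ fun x y => by rw [polar_eq_B, e], ← iso_pol_eq h2,
    Nat.card_congr (isometryEquiv f).toEquiv]
  have hq : 2 ≤ Nat.card F := Finite.one_lt_card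
  have hq3 : Nat.card F ≠ 2 := fun h => h2 (by
    have := Fintype.ofFinite F
    rw [Nat.card_eq_fintype_card] at h
    exact_mod_cast h ▸ FiniteField.cast_card_eq_zero F)
  have hP : 0 < ∏ i ∈ Finset.range k, (Nat.card F ^ (2 * (i + 1)) - 1) :=
    Finset.prod_pos fun i _ => Nat.sub_pos_of_lt (Nat.one_lt_pow (by omega) hq)
  have hx : 3 ≤ Nat.card F ^ (k + 1) := le_trans (by omega) (Nat.le_self_pow (by omega) _)
  have h0 : 0 < Nat.card F ^ ((k + 1) * k) := by positivity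
  rw [show (k + 1) ^ 2 = (k + 1) * k + (k + 1) by ring, pow_add, mul_comm 2 (k + 1), pow_mul _ _ 2]
  have key : ∀ z, z = Nat.card F ^ (k + 1) - 1 ∨ z = Nat.card F ^ (k + 1) + 1 →
      2 * Nat.card F ^ ((k + 1) * k) * z * ∏ i ∈ Finset.range k, (Nat.card F ^ (2 * (i + 1)) - 1) ≠
      Nat.card F ^ ((k + 1) * k) * Nat.card F ^ (k + 1) * ((∏ i ∈ Finset.range k,
        (Nat.card F ^ (2 * (i + 1)) - 1)) * ((Nat.card F ^ (k + 1)) ^ 2 - 1)) := fun z hz h => by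
    generalize Nat.card F ^ (k + 1) = x at *
    obtain ⟨y, rfl⟩ : ∃ y, x = y + 3 := ⟨x - 3, by omega⟩
    rw [show (y + 3) ^ 2 - 1 = (y + 2) * (y + 4) from Nat.sub_eq_of_eq_add (by ring)] at h
    have : 2 * z = (y + 3) * ((y + 2) * (y + 4)) :=
      Nat.eq_of_mul_eq_mul_left (Nat.mul_pos h0 hP) (by linarith)
    have h3 : 2 * z ≤ 2 * (y + 4) := by omega
    nlinarith [Nat.zero_le (y * y * y), Nat.zero_le (y * y)]
  by_cases hT : f.HasTS (k + 1)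
  · rw [plus_card_Isom k _ f hf (by simpa) hT]; exact key _ (.inl rfl)
  · rw [minus_card_Isom k _ f hf (by simpa) hT]; exact key _ (.inr rfl)

lemma md_tri {n : ℕ} (hn : 0 < n) {M : GL (Fin n) F} (h : GF M) :
    (Even n ∧ (2 : F) ≠ 0 ∧ Nonempty (projQuot (similarityGroup (bil M.1)) ≃* PGSp (n / 2) F) →
      ∀ c d, MD (bil M.1) c d ↔ d = c ^ (n / 2)) ∧
    (Even n ∧ (2 : F) ≠ 0 ∧ ¬ Nonempty (projQuot (similarityGroup (bil M.1)) ≃* PGSp (n / 2) F) →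
      ∀ c d, MD (bil M.1) c d ↔ d = c ^ (n / 2) ∨ d = -c ^ (n / 2)) ∧
    (¬ (Even n ∧ (2 : F) ≠ 0) → ∀ c d, MD (bil M.1) c d ↔ ∃ a, c = a ^ 2 ∧ d = a ^ n) := by
  refine ⟨?_, ?_, fun h1 c d => ?_⟩
  · rintro ⟨⟨k, rfl⟩, h2, ⟨e⟩⟩ c d
    have hk : Fintype.card (Fin (k + k)) = 2 * ((k + k) / 2) := by simp; omega
    rcases h with h | h
    · exact absurd (Nat.card_congr e.toEquiv) (card_proj_sym h2 h (by omega) hk)
    · exact md_alt h (SF.alt h2 h) hk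
  · rintro ⟨⟨k, rfl⟩, h2, e⟩ c d
    have hk : Fintype.card (Fin (k + k)) = 2 * ((k + k) / 2) := by simp; omega
    rcases h with h | h
    · exact md_two h2 h (by omega) hk
    · exact absurd (sm_alt (sf_symp _) (symp_alt _) h (SF.alt h2 h) (by simp; omega)).proj e
  · have : (2 : F) = 0 ∨ Odd (Fintype.card (Fin n)) := by
      simpa [← Nat.not_even_iff_odd, or_comm, ← not_and_or, -not_and] using not_and_or.1 h1
    simpa using md_three (h.sym this) this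

lemma gf_one : SF (RingHom.id F) 1 (bil (1 : GL ι F).1) :=
  sf_of (mul_one 1) fun u v => by simp [gf, dotProduct_comm]

lemma ht_one (h2 : (2 : F) ≠ 0) {m : ℕ} (hn : Fintype.card ι = 2 * m) :
    HT (bil (1 : GL ι F).1) m ↔ chi (-1 : F) ^ m = 1 := by
  obtain ⟨f, hf, e⟩ := exists_qf h2 (gf_one (ι := ι) (F := F))
  have : f.gram (Pi.basisFun F _) = 1 := by
    ext i j; simp [Form.gram_app, e, gf_single, one_apply]
  rw [ht_iff h2 e, hasTS_iff_disc h2 hf (by simpa using hn), disc_eq f (Pi.basisFun F _), this,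
    det_one, chi_one, eq_comm]

lemma proj_plus (h2 : (2 : F) ≠ 0) {b : (ι → F) → (ι → F) → F} (hb : SF (RingHom.id F) 1 b)
    {m : ℕ} (hn : Fintype.card ι = 2 * m) (h : HT b m) : Sm b (pol (plusForm F m).Q) :=
  sm_even h2 hb (plusForm_ND F m) hn (by simp [two_mul]) (iff_of_true h (plusForm_hasTS _))

lemma proj_minus (h2 : (2 : F) ≠ 0) {b : (ι → F) → (ι → F) → F} (hb : SF (RingHom.id F) 1 b)
    {m : ℕ} (hn : Fintype.card ι = 2 * (m + 1)) (h : ¬ HT b (m + 1)) {a c : F}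
    (hac : ∀ z₁ z₂ : F, z₁ ^ 2 + a * z₁ * z₂ + c * z₂ ^ 2 = 0 → z₁ = 0 ∧ z₂ = 0) :
    Sm b (pol (minusForm F m a c).Q) :=
  sm_even h2 hb (minusForm_ND m hac) hn (by simp; ring)
    (iff_of_false h (minusForm_not_hasTS m hac))

end Fm

/-- graph involutions are classified by forms -/
structure GD {A : Type*} [Group A] (I : Subgroup A) (P : A → Prop) {n : ℕ} {F : Type*} [Field F]
    (R : A → GL (Fin n) F → Prop) : Prop where
  ex : ∀ γ, P γ → orderOf γ = 2 → ∃ M, GF M ∧ R γ M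
  ex' : ∀ M, GF M → ∃ γ, P γ ∧ orderOf γ = 2 ∧ R γ M
  cent : ∀ {γ M}, R γ M → Nonempty (↥(I ⊓ centralizer {γ}) ≃* projQuot (similarityGroup (bil M.1)))
  conj : ∀ {γ M γ' M'}, R γ M → R γ' M' → (IsConjUnder I γ γ' ↔ Sm (bil M.1) (bil M'.1))

namespace GD
variable {A : Type*} [Group A] {I : Subgroup A} {P : A → Prop} {n : ℕ} {F : Type*} [Field F]
  {R : A → GL (Fin n) F → Prop} (D : GD I P R) [Finite F]
include D

omit [Finite F] in
lemma cent' {γ M} (h : R γ M) {μ : Type} [Fintype μ] [DecidableEq μ] {b : (μ → F) → (μ → F) → F}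
    (e : Sm b (bil M.1)) : Nonempty (↥(I ⊓ centralizer {γ}) ≃* projQuot (similarityGroup b)) :=
  (D.cent h).elim fun e1 => e.proj.map e1.trans

theorem odd {m : ℕ} (hn : n = 2 * m + 1) {γ γ' : A} (h1 : P γ) (h2 : orderOf γ = 2) (h3 : P γ')
    (h4 : orderOf γ' = 2) : Nonempty (↥(I ⊓ centralizer {γ}) ≃* PGO F (quadFormOdd m F)) ∧
      IsConjUnder I γ γ' := by
  subst hn
  obtain ⟨b, ⟨e⟩, hb⟩ := odd_model (F := F) m
  obtain ⟨M, h5, h6⟩ := D.ex γ h1 h2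
  obtain ⟨M', h7, h8⟩ := D.ex γ' h3 h4
  exact ⟨(D.cent' h6 (hb M h5).symm).map (·.trans e),
    (D.conj h6 h8).2 ((hb M h5).trans (hb M' h7).symm)⟩

theorem plus (h2 : (2 : F) ≠ 0) {m : ℕ} (hn : n = 2 * m) {γ : A} (h : R γ 1)
    (hm : chi (-1 : F) ^ m = 1) : Nonempty (↥(I ⊓ centralizer {γ}) ≃* PGO F (quadFormPlus m F)) := by
  have hn' : Fintype.card (Fin n) = 2 * m := by simpa
  have := D.cent' h (proj_plus h2 gf_one hn' ((ht_one h2 hn').2 hm)).symm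
  rwa [← qsim_eq h2] at this

theorem minus (h2 : (2 : F) ≠ 0) {m : ℕ} (hn : n = 2 * m) {γ : A} (h : R γ 1)
    (hm : chi (-1 : F) ^ m ≠ 1) : ∃ a b : F,
      (∀ z₁ z₂ : F, z₁ ^ 2 + a * z₁ * z₂ + b * z₂ ^ 2 = 0 → z₁ = 0 ∧ z₂ = 0) ∧
      Nonempty (↥(I ⊓ centralizer {γ}) ≃* PGO F (quadFormMinus (m - 1) F a b)) := by
  obtain ⟨a, b, hab⟩ := exists_aniso (F := F)
  obtain _ | m := m
  · simp at hm
  have hn' : Fintype.card (Fin n) = 2 * (m + 1) := by simpa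
  have := D.cent' h (proj_minus h2 gf_one hn' (mt (ht_one h2 hn').1 hm) hab).symm
  rw [← qsim_eq h2] at this
  exact ⟨a, b, hab, this⟩

theorem even (h2 : (2 : F) ≠ 0) {m : ℕ} (hm : 1 ≤ m) (hn : n = 2 * m) :
    ∃ (γ₁ γ₂ γ₃ : A) (a b : F),
      (∀ z₁ z₂ : F, z₁ ^ 2 + a * z₁ * z₂ + b * z₂ ^ 2 = 0 → z₁ = 0 ∧ z₂ = 0) ∧
      P γ₁ ∧ orderOf γ₁ = 2 ∧ P γ₂ ∧ orderOf γ₂ = 2 ∧ P γ₃ ∧ orderOf γ₃ = 2 ∧
      ¬ IsConjUnder I γ₁ γ₂ ∧ ¬ IsConjUnder I γ₁ γ₃ ∧ ¬ IsConjUnder I γ₂ γ₃ ∧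
      (∀ γ, P γ → orderOf γ = 2 → IsConjUnder I γ₁ γ ∨ IsConjUnder I γ₂ γ ∨ IsConjUnder I γ₃ γ) ∧
      Nonempty (↥(I ⊓ centralizer {γ₁}) ≃* PGSp m F) ∧
      Nonempty (↥(I ⊓ centralizer {γ₂}) ≃* PGO F (quadFormPlus m F)) ∧
      Nonempty (↥(I ⊓ centralizer {γ₃}) ≃* PGO F (quadFormMinus (m - 1) F a b)) := by
  obtain ⟨a, b, hab⟩ := exists_aniso (F := F)
  obtain ⟨m, rfl⟩ : ∃ k, m = k + 1 := ⟨m - 1, by omega⟩
  have hn' : Fintype.card (Fin n) = 2 * (m + 1) := by simpa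
  haveI : Nonempty (Fin n) := ⟨⟨0, by omega⟩⟩
  obtain ⟨M₁, s1, e1⟩ := exists_model (ι := Fin n) (sf_symp (F := F) (m + 1)) (by simp; omega)
  obtain ⟨M₂, s2, e2⟩ := exists_model (ι := Fin n) (sf_pol (plusForm_ND F (m + 1)))
    (by simp; omega)
  obtain ⟨M₃, s3, e3⟩ := exists_model (ι := Fin n) (sf_pol (minusForm_ND m hab)) (by simp; omega)
  obtain ⟨γ₁, p1, o1, r1⟩ := D.ex' M₁ (.inr s1)
  obtain ⟨γ₂, p2, o2, r2⟩ := D.ex' M₂ (.inl s2)
  obtain ⟨γ₃, p3, o3, r3⟩ := D.ex' M₃ (.inl s3)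
  have c2 := D.cent' r2 e2
  have c3 := D.cent' r3 e3
  rw [← qsim_eq h2] at c2 c3
  refine ⟨γ₁, γ₂, γ₃, a, b, hab, p1, o1, p2, o2, p3, o3,
    fun h => SF.not_alt h2 s2 (((D.conj r1 r2).1 h).symm.alt (SF.alt h2 s1)),
    fun h => SF.not_alt h2 s3 (((D.conj r1 r3).1 h).symm.alt (SF.alt h2 s1)), fun h => ?_,
    fun γ p o => ?_, D.cent' r1 e1, c2, c3⟩
  · exact minusForm_not_hasTS m hab ((ht_iff h2 fun x y => (polar_eq_B _ x y).symm).1
      ((e3.trans (((D.conj r2 r3).1 h).symm.trans e2.symm)).ht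
        ((ht_iff h2 fun x y => (polar_eq_B _ x y).symm).2 (plusForm_hasTS _))))
  · obtain ⟨M, h | h, r⟩ := D.ex γ p o
    · by_cases h3 : HT (bil M.1) (m + 1)
      · exact .inr (.inl ((D.conj r2 r).2 ((proj_plus h2 h hn' h3).trans e2).symm))
      · exact .inr (.inr ((D.conj r3 r).2 ((proj_minus h2 h hn' h3 hab).trans e3).symm))
    · exact .inl ((D.conj r1 r).2 (sm_alt s1 (SF.alt h2 s1) h (SF.alt h2 h) rfl))

theorem two (h2 : (2 : F) = 0) {m : ℕ} (hm : 1 ≤ m) (hn : n = 2 * m) :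
    ∃ (γ₁ γ₃ : A) (t : symplecticGroup (Fin m) F), IsTransvection t.1 ∧
      P γ₁ ∧ orderOf γ₁ = 2 ∧ P γ₃ ∧ orderOf γ₃ = 2 ∧ ¬ IsConjUnder I γ₁ γ₃ ∧
      (∀ γ, P γ → orderOf γ = 2 → IsConjUnder I γ₁ γ ∨ IsConjUnder I γ₃ γ) ∧
      Nonempty (↥(I ⊓ centralizer {γ₁}) ≃* symplecticGroup (Fin m) F) ∧
      Nonempty (↥(I ⊓ centralizer {γ₃}) ≃* centralizer {t}) := by
  let i : Fin m := ⟨0, hm⟩
  haveI : Nonempty (Fin m) := ⟨i⟩
  obtain ⟨t, ht, ⟨e⟩⟩ := exists_tv_b1 h2 i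
  obtain ⟨M₁, s1, e1⟩ := exists_model (ι := Fin n) (sf_symp (F := F) m) (by simp; omega)
  obtain ⟨M₃, s3, e3⟩ := exists_model (ι := Fin n) (sf_b1 h2 i) (by simp; omega)
  obtain ⟨γ₁, p1, o1, r1⟩ := D.ex' M₁ (.inr s1)
  obtain ⟨γ₃, p3, o3, r3⟩ := D.ex' M₃ (.inl s3)
  have a1 := e1.symm.alt (symp_alt m)
  have a3 : ¬ ∀ v, bil M₃.1 v v = 0 := fun h => by
    simpa [b1, symp_alt] using e3.alt h (Pi.single (.inr i) 1)
  obtain ⟨c1⟩ := D.cent' r1 e1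
  obtain ⟨c3⟩ := D.cent' r3 e3
  obtain ⟨d1⟩ := proj_equiv_iso h2 (sf_symp (F := F) m)
  obtain ⟨d3⟩ := proj_equiv_iso h2 (sf_b1 h2 i)
  rw [← spE_range] at d1
  refine ⟨γ₁, γ₃, t, ht, p1, o1, p3, o3, fun h => a3 (((D.conj r1 r3).1 h).symm.alt a1),
    fun γ p o => ?_, ⟨c1.trans (d1.symm.trans (MonoidHom.ofInjective spE_inj).symm)⟩,
    ⟨c3.trans (d3.symm.trans e)⟩⟩
  obtain ⟨M, h, r⟩ := D.ex γ p o
  have h' := h.sym (.inl h2)
  by_cases h3 : ∀ v, bil M.1 v v = 0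
  · exact .inl ((D.conj r1 r).2 (sm_alt s1 a1 (by
      rwa [show (-1 : F) = 1 by linear_combination -h2]) h3 rfl))
  · exact .inr ((D.conj r3 r).2 (sm_two h2 s3 (not_forall.1 a3) h' (not_forall.1 h3) rfl))

end GD
end H4.Au
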