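import Cfsg.Agent.H4.SfD
import Cfsg.Agent.H4.AsN
import Cfsg.Agent.H4.MaxC

/-! Maximality of subfield subgroups of the classical groups. -/

set_option autoImplicit false

namespace H4

open Module Matrix Form Cfsg.Geo
open scoped MatrixGroups

variable {ι : Type} {F : Type*} [Fintype ι] [DecidableEq ι] [Field F] {K : Kind F}
  {k : Subfield F} {ζ : F}

lemma ternary [Finite F] {a b c d e g : F} (ha : a ∈ k) (hb : b ∈ k) (hc : c ∈ k) (hd : d ∈ k)
    (he : e ∈ k) (hg : g ∈ k) : ∃ x ∈ k, ∃ y ∈ k, ∃ z ∈ k, ¬ (x = 0 ∧ y = 0 ∧ z = 0) ∧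
      a * (x * x) + b * (y * y) + c * (z * z) + d * (x * y) + e * (x * z) + g * (y * z) = 0 := by
  let Q : QuadraticForm k (Fin 3 → k) := (⟨a, ha⟩ : k) • QuadraticMap.proj 0 0 +
    (⟨b, hb⟩ : k) • QuadraticMap.proj 1 1 + (⟨c, hc⟩ : k) • QuadraticMap.proj 2 2 +
    (⟨d, hd⟩ : k) • QuadraticMap.proj 0 1 + (⟨e, he⟩ : k) • QuadraticMap.proj 0 2 +
    (⟨g, hg⟩ : k) • QuadraticMap.proj 1 2
  obtain ⟨v, -, h0, h1⟩ := quad_iso3 (quadForm Q) ⊤ (by simp)
  refine ⟨v 0, (v 0).2, v 1, (v 1).2, v 2, (v 2).2, fun h => h0 ?_, ?_⟩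
  · ext i; fin_cases i
    exacts [h.1, h.2.1, h.2.2]
  · simpa [Q] using congrArg Subtype.val h1

lemma fix_decomp {σ : F →+* F} (hk : MaxSf k) (h1 : σ ≠ RingHom.id F) (h2 : ∀ a, σ (σ a) = a)
    (h3 : ∀ c ∈ k, σ c = c) : ∃ θ, ∀ c : F, ∃ x ∈ k, ∃ y ∈ k, c = x + y * θ := by
  have key : ∀ c, σ c = c → c ∈ k := fun c hc => by
    rcases hk.2 (σ.eqLocusField (RingHom.id F)) h3 with e | e
    · rw [← e]; exact hc
    · exact absurd e (As.eqLocus_ne_top h1)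
  obtain ⟨θ, hθ⟩ : ∃ θ, σ θ ≠ θ := by
    by_contra hc
    push Not at hc
    exact h1 (RingHom.ext hc)
  have e1 := sub_ne_zero.2 hθ
  have e2 := sub_ne_zero.2 hθ.symm
  refine ⟨θ, fun c => ⟨c - (c - σ c) / (θ - σ θ) * θ, key _ ?_, (c - σ c) / (θ - σ θ), key _ ?_,
    by ring⟩⟩
  · simp only [map_sub, map_mul, map_div₀, h2]; field_simp; ring
  · simp only [map_sub, map_div₀, h2]; field_simp; ring

/-- The `k`-form spanned by the columns of `P`. -/
def ratP (k : Subfield F) (P : GL ι F) : AddSubgroup (ι → F) where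
  carrier := {v | Rv k ((P⁻¹ : GL ι F).1 *ᵥ v)}
  add_mem' {u v} hu hv := by simpa only [Set.mem_setOf_eq, mulVec_add] using hu.add hv
  zero_mem' := by simpa only [Set.mem_setOf_eq, mulVec_zero] using Rv.zero
  neg_mem' {u} hu := by simpa only [Set.mem_setOf_eq, mulVec_neg] using hu.neg

variable {P : GL ι F} {f : Form K (ι → F)}

lemma mem_ratP {v : ι → F} (h : Rv k v) : P.1 *ᵥ v ∈ ratP k P := by
  change Rv k _
  rwa [As.gl_mulVec_cancel]

lemma ratP_exists {v : ι → F} (h : v ∈ ratP k P) : ∃ u, Rv k u ∧ v = P.1 *ᵥ u :=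
  ⟨_, h, (As.gl_mulVec_cancel' P v).symm⟩

lemma ratP_smul {c : F} (hc : c ∈ k) {v : ι → F} (h : v ∈ ratP k P) : c • v ∈ ratP k P := by
  change Rv k _
  rw [mulVec_smul]; exact Rv.smul hc h

lemma ratP_val (h : ∀ u v, Rv k u → Rv k v → ζ * f.B (P.1 *ᵥ u) (P.1 *ᵥ v) ∈ k) :
    ∀ x ∈ ratP k P, ∀ y ∈ ratP k P, ζ * f.B x y ∈ k := fun x hx y hy => by
  obtain ⟨u, hu, rfl⟩ := ratP_exists hx
  obtain ⟨v, hv, rfl⟩ := ratP_exists hy
  exact h u v hu hv

lemma ratP_span : Submodule.span F (ratP k P : Set (ι → F)) = ⊤ := by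
  refine eq_top_iff.2 fun v _ => ?_
  rw [← As.gl_mulVec_cancel' P v, pi_eq_sum_univ' ((P⁻¹ : GL ι F).1 *ᵥ v), mulVec_sum]
  refine Submodule.sum_mem _ fun i _ => ?_
  rw [mulVec_smul]
  exact Submodule.smul_mem _ _ (Submodule.subset_span (mem_ratP (Rv.single i)))

lemma rat_of (hf : f.ND) (hn : 13 ≤ Fintype.card ι) (h0 : ζ ≠ 0)
    (val : ∀ x ∈ ratP k P, ∀ y ∈ ratP k P, ζ * f.B x y ∈ k)
    (h3 : ∀ x ∈ ratP k P, ∀ y ∈ ratP k P, ∀ z ∈ ratP k P, ∃ a ∈ k, ∃ b ∈ k, ∃ c ∈ k,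
      ¬ (a = 0 ∧ b = 0 ∧ c = 0) ∧ f.Q (a • x + b • y + c • z) = 0)
    (tv : ∀ x ∈ ratP k P, ∃ s ∈ k, K.T (ζ * s) = f.Q (ζ • x)) (σk : ∀ c ∈ k, K.σ c ∈ k) :
    f.Rat k ζ (ratP k P) where
  nd := hf
  fd := inferInstance
  ζ0 := h0
  smul _ hc _ h := ratP_smul hc h
  val := val
  span := ratP_span
  tv := tv
  σk := σk
  dual c hc := by
    let G : Matrix ι ι F := fun i j => ζ * f.B (P.1 *ᵥ Pi.single i 1) (P.1 *ᵥ Pi.single j 1)
    have hG : ∀ v i, (G *ᵥ v) i = ζ * f.B (P.1 *ᵥ Pi.single i 1) (P.1 *ᵥ v) := fun v i => by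
      conv_rhs => rw [← (Pi.basisFun F ι).sum_repr v]
      simp only [mulVec_sum, mulVec_smul, map_sum, map_smul, Finset.mul_sum]
      simp only [G, mulVec, dotProduct, Pi.basisFun_repr, Pi.basisFun_apply, smul_eq_mul]
      exact Finset.sum_congr rfl fun j _ => by ring
    have hd : G.det ≠ 0 := fun e => by
      obtain ⟨v, v0, hv⟩ := Matrix.exists_mulVec_eq_zero_iff.2 e
      refine v0 ((As.gl_mulVec_eq_zero (P := P)).1 (hf _ fun y => refl ?_) : v = 0)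
      rw [← As.gl_mulVec_cancel' P y, ← (Pi.basisFun F ι).sum_repr ((P⁻¹ : GL ι F).1 *ᵥ y),
        mulVec_sum, map_sum, LinearMap.sum_apply]
      refine Finset.sum_eq_zero fun i _ => ?_
      have := congrFun hv i
      rw [hG, Pi.zero_apply, mul_eq_zero] at this
      rw [mulVec_smul, f.B_smul_left, Pi.basisFun_apply, this.resolve_left h0, mul_zero]
    have hGk : ∀ i j, G i j ∈ k := fun i j =>
      val _ (mem_ratP (Rv.single i)) _ (mem_ratP (Rv.single j))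
    intro i
    have e0 : cramer G (G *ᵥ ((P⁻¹ : GL ι F).1 *ᵥ c)) = G.det • ((P⁻¹ : GL ι F).1 *ᵥ c) := by
      rw [Matrix.cramer_eq_adjugate_mulVec, mulVec_mulVec, adjugate_mul, smul_mulVec, one_mulVec]
    have e := congrFun e0 i
    rw [Pi.smul_apply, smul_eq_mul, cramer_apply] at e
    rw [eq_div_of_mul_eq hd ((mul_comm _ _).trans e.symm)]
    refine k.div_mem (As.det_mem fun a b => ?_) (As.det_mem hGk)
    rw [updateCol_apply]
    split_ifs
    · rw [hG, As.gl_mulVec_cancel']; exact hc _ (mem_ratP (Rv.single a))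
    · exact hGk a b
  iso l hl hlen := by
    obtain ⟨S, x, h1, h2⟩ := exists_delta (k := k) (l.map fun y => ζ • (f.B y ∘ₗ toLin' P.1)) (by
      intro φ hφ v hv
      obtain ⟨y, hy, rfl⟩ := List.mem_map.1 hφ
      exact val y (hl y hy) _ (mem_ratP hv))
    obtain ⟨s, hs, t, ht, u, hu, e1, e2, e3⟩ := Finset.two_lt_card.1
      (show 2 < S.card by simp at h1; omega)
    obtain ⟨a, ha, b, hb, c, hc, e4, e5⟩ := h3 _ (mem_ratP (h2 s hs).1) _ (mem_ratP (h2 t ht).1)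
      _ (mem_ratP (h2 u hu).1)
    rw [← mulVec_smul, ← mulVec_smul, ← mulVec_smul, ← mulVec_add, ← mulVec_add] at e5
    refine ⟨_, mem_ratP ((((h2 s hs).1.smul ha).add ((h2 t ht).1.smul hb)).add
      ((h2 u hu).1.smul hc)), fun e => e4 ?_, e5, fun y hy => ?_⟩
    · have := (As.gl_mulVec_eq_zero (P := P)).1 e
      refine ⟨?_, ?_, ?_⟩
      · simpa [(h2 s hs).2.2 s hs, (h2 t ht).2.2 s hs, (h2 u hu).2.2 s hs, e1, e2] using
          congrFun this s
      · simpa [(h2 s hs).2.2 t ht, (h2 t ht).2.2 t ht, (h2 u hu).2.2 t ht, e1.symm, e3] using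
          congrFun this t
      · simpa [(h2 s hs).2.2 u hu, (h2 t ht).2.2 u hu, (h2 u hu).2.2 u hu, e2.symm, e3.symm] using
          congrFun this u
    · have key : ∀ s ∈ S, f.B y (P.1 *ᵥ x s) = 0 := fun s hs => by
        simpa [h0] using (h2 s hs).2.1 _ (List.mem_map.2 ⟨y, hy, rfl⟩)
      simp [mulVec_add, mulVec_smul, key s hs, key t ht, key u hu]

omit [Fintype ι] [DecidableEq ι] in
lemma tern_of [Finite F] {R : AddSubgroup (ι → F)} {k₁ : Subfield F} (hk : k₁ ≤ k) (h0 : ζ ≠ 0)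
    (h1 : ∀ c ∈ k₁, K.σ c = c) (h2 : ∀ c ∈ k₁, ∀ t, K.T (c * t) = c * K.T t)
    (h3 : ∀ x ∈ R, ζ * f.Q x ∈ k₁) (h4 : ∀ x ∈ R, ∀ y ∈ R, ζ * K.T (f.B x y) ∈ k₁) :
    ∀ x ∈ R, ∀ y ∈ R, ∀ z ∈ R, ∃ a ∈ k, ∃ b ∈ k, ∃ c ∈ k,
      ¬ (a = 0 ∧ b = 0 ∧ c = 0) ∧ f.Q (a • x + b • y + c • z) = 0 := by
  intro x hx y hy z hz
  obtain ⟨a, ha, b, hb, c, hc, e1, e2⟩ := ternary (h3 x hx) (h3 y hy) (h3 z hz) (h4 x hx y hy)
    (h4 x hx z hz) (h4 y hy z hz)
  refine ⟨a, hk ha, b, hk hb, c, hk hc, e1, mul_left_cancel₀ h0 ?_⟩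
  simp only [f.Q_add, f.Q_smul, map_add, LinearMap.add_apply, f.B_smul_left, f.B_smul_right,
    h1 a ha, h1 b hb, h1 c hc, h2 a ha, h2 b hb, h2 c hc]
  linear_combination e2

lemma sub_of_rat {g : f.Isom} {c : F} (h0 : c ≠ 0) (h : ∀ x ∈ ratP k P, c • g.1 x ∈ ratP k P) :
    f.toGL g ∈ subfieldSubgroup k P := by
  refine As.mem_subfieldSubgroup.2 ⟨c, h0, fun i j => ?_⟩
  have := h _ (mem_ratP (Rv.single j)) i
  rw [mulVec_smul, ← toGL_mulVec, mulVec_mulVec, mulVec_mulVec, mulVec_single_one] at this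
  rw [As.cjG_apply, inv_inv]
  exact this

theorem sub_max (h : f.Rat k ζ (ratP k P)) (h1 : ¬ f.E.map f.toGL ≤ subfieldSubgroup k P)
    (main : ∀ N : Subgroup f.Isom, (∀ g a b s, f.IsEich g a (ζ • b) (ζ * s) → a ∈ ratP k P →
      b ∈ ratP k P → s ∈ k → g ∈ N) →
      f.E ≤ N ∨ ∀ g ∈ N, ∃ c : F, c ≠ 0 ∧ ∀ x ∈ ratP k P, c • g.1 x ∈ ratP k P) :
    IsMaximalIn (f.E.map f.toGL) (subfieldSubgroup k P ⊓ f.E.map f.toGL) := by
  refine isMaximalIn_map toGL_injective ?_ fun N hN g hg _ hg' => ?_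
  · obtain ⟨_, ⟨g, hg, rfl⟩, h⟩ := SetLike.not_le_iff_exists.1 h1
    exact ⟨g, hg, h⟩
  refine (main N fun g a b s e ha hb hs => hN g e.mem_E
    (sub_of_rat one_ne_zero fun x hx => ?_)).resolve_right fun H => ?_
  · rw [one_smul, e.app, smul_smul, f.B_smul_left, mul_comm (f.B a x), mul_right_comm]
    exact sub_mem (add_mem hx (ratP_smul (h.val _ ha _ hx) hb)) (ratP_smul (k.mul_mem
      (eps_mem K k) (k.add_mem (h.val' hb hx) (k.mul_mem (h.val _ ha _ hx) hs))) ha)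
  · obtain ⟨c, h0, hc⟩ := H g hg
    exact hg' (sub_of_rat h0 hc)

variable [Fintype F] {r : ℕ}

theorem quad_sub_max {Q : (ι → F) → F} (hQ : IsNondegenerateQuadraticForm Q)
    (hn : 13 ≤ Fintype.card ι) (hr : r.Prime) (hF : Fintype.card F = Nat.card k ^ r) (h0 : ζ ≠ 0)
    (hP : IsQuadFormRationalStructure (fun v => ζ * Q v) k P) :
    IsMaximalIn (omegaGL Q) (subfieldSubgroup k P ⊓ omegaGL Q) := by
  have h1 := (As.big_O hQ (by omega)).not_sub (by omega) hr hF P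
  have e := omegaGL_eq_E (qForm_ND hQ) (by omega)
  rw [qForm_Q] at e
  rw [e] at h1 ⊢
  have val := ratP_val (f := qForm hQ) (As.pol_mem hP)
  have vq : ∀ x ∈ ratP k P, ζ * (qForm hQ).Q x ∈ k := fun x hx => by
    obtain ⟨u, hu, rfl⟩ := ratP_exists hx
    exact hP u hu
  have h := rat_of (qForm_ND hQ) hn h0 val (tern_of le_rfl h0 (fun _ _ => rfl) (fun _ _ _ => rfl)
    vq val) (fun x hx => ⟨_, vq x hx, by simp [Form.Q_smul, mul_assoc]⟩) fun _ h => h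
  exact sub_max h h1 fun N hN =>
    h.main_quad hN (maxSf_of hr (by rwa [Nat.card_eq_fintype_card]))

theorem sp_sub_max {m : ℕ} (hm : 7 ≤ m) (hr : r.Prime) (hF : Fintype.card F = Nat.card k ^ r)
    (h0 : ζ ≠ 0) {P : GL (Fin m ⊕ Fin m) F}
    (hP : IsFormRationalStructure (Cfsg.sympForm m F) k ζ P) :
    IsMaximalIn (Cfsg.spGL m F) (subfieldSubgroup k P ⊓ Cfsg.spGL m F) := by
  have h1 := (As.big_Sp (F := F) (Or.inl (by omega : 3 ≤ m))).not_sub (by simp; omega) hr hF P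
  rw [spGL_eq_E] at h1 ⊢
  have h := rat_of (k := k) (P := P) (spForm_ND m F) (by simp; omega) h0
    (ratP_val fun u v hu hv => by rw [spForm_B]; exact hP u v hu hv)
    (fun _ _ _ _ _ _ => ⟨1, k.one_mem, 0, k.zero_mem, 0, k.zero_mem, by simp, alt_Q _ _⟩)
    (fun x _ => ⟨0, k.zero_mem, by simp [alt_Q]⟩) fun _ h => h
  exact sub_max h h1 fun N hN => h.main_alt hN (maxSf_of hr (by rwa [Nat.card_eq_fintype_card]))

section U
variable {q n : ℕ} (hF : Fintype.card F = q ^ 2) (hn : 13 ≤ n) {P : GL (Fin n) F}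
include hF hn

omit hn in
lemma u_tern (hP : IsFormRationalStructure (Cfsg.hermForm n F q) k 1 P) :
    ∀ x ∈ ratP k P, ∀ y ∈ ratP k P, ∀ z ∈ ratP k P, ∃ a ∈ k, ∃ b ∈ k, ∃ c ∈ k,
      ¬ (a = 0 ∧ b = 0 ∧ c = 0) ∧ (uForm hF n).Q (a • x + b • y + c • z) = 0 := by
  have val := ratP_val (f := uForm hF n) fun u v hu hv => hP v u hv hu
  refine tern_of (k₁ := k ⊓ (frobq hF).eqLocusField (RingHom.id F)) inf_le_left one_ne_zero
    (fun c hc => hc.2) (fun c hc t => ?_) (fun x hx => ⟨?_, ?_⟩) fun x hx y hy => ⟨?_, ?_⟩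
  · have : frobq hF c = c := hc.2
    change c * t + frobq hF (c * t) = c * (t + frobq hF t)
    rw [map_mul, this, mul_add]
  · rw [herm_Q]; exact val x hx x hx
  · rw [herm_Q, one_mul]; exact (herm_symm _ x x).symm
  · have := val x hx y hy
    rw [one_mul] at this ⊢
    exact k.add_mem this (As.map_mem_subfield (frobq hF) this)
  · have : ∀ t, frobq hF (1 * (t + frobq hF t)) = 1 * (t + frobq hF t) := fun t => by
      rw [one_mul, map_add, frobq_frobq, add_comm]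
    exact this _

theorem su_sub_odd (hr : r.Prime) (ho : Odd r) (hk : Fintype.card F = Nat.card k ^ r)
    (hP : IsFormRationalStructure (Cfsg.hermForm n F q) k 1 P) :
    IsMaximalIn (Cfsg.GU n F q ⊓ specialLinear (Fin n) F)
      (subfieldSubgroup k P ⊓ (Cfsg.GU n F q ⊓ specialLinear (Fin n) F)) := by
  have h1 := (As.big_SU hF (by omega : 4 ≤ n)).not_sub (by simp; omega) hr hk P
  rw [su_eq_E hF (by omega)] at h1 ⊢
  have mx : MaxSf k := maxSf_of hr (by rwa [Nat.card_eq_fintype_card])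
  obtain ⟨θ, t1, t2⟩ : ∃ θ ∈ k, frobq hF θ ≠ θ := by
    by_contra hc
    push Not at hc
    obtain ⟨θ, hθ⟩ := fix_decomp mx (frobq_ne_id hF) (frobq_frobq hF) hc
    have := Nat.card_le_card_of_surjective (fun x : k × k => x.1.1 + x.2.1 * θ) fun c => by
      obtain ⟨x, hx, y, hy, e⟩ := hθ c
      exact ⟨(⟨x, hx⟩, ⟨y, hy⟩), e.symm⟩
    rw [Nat.card_prod, Nat.card_eq_fintype_card (α := F), hk, ← sq,
      Nat.pow_le_pow_iff_right (subfield_two_le k)] at this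
    have := hr.two_le
    obtain ⟨j, rfl⟩ := ho
    omega
  have t3 := As.map_mem_subfield (frobq hF) t1
  have t4 := sub_ne_zero.2 t2
  have t5 := sub_ne_zero.2 t2.symm
  have val := ratP_val (f := uForm hF n) fun u v hu hv => hP v u hv hu
  have h := rat_of (uForm_ND hF n) (by simpa) one_ne_zero val (u_tern hF hP)
    (fun x hx => ⟨_, k.mul_mem (val x hx x hx) (k.div_mem t1 (k.sub_mem t1 t3)), by
      rw [one_smul, one_mul, one_mul, herm_Q, hermKind_T]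
      simp only [map_mul, map_div₀, map_sub, frobq_frobq, ← herm_symm]
      field_simp; ring⟩) fun _ h => As.map_mem_subfield _ h
  exact sub_max h h1 fun N hN => h.main_tv hN mx (Or.inr ⟨θ, t1, t2⟩) (k.sub_mem t1 t3) t5
    (by rw [one_mul, hermKind_T, map_sub, frobq_frobq]; ring) (h.center_of (u_hZ hF))

lemma su_sub_two (hk : Fintype.card F = Nat.card k ^ 2) (h0 : ζ ≠ 0)
    (hP : IsFormRationalStructure (Cfsg.hermForm n F q) k ζ P)
    (h3 : ∀ x ∈ ratP k P, ∀ y ∈ ratP k P, ∀ z ∈ ratP k P, ∃ a ∈ k, ∃ b ∈ k, ∃ c ∈ k,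
      ¬ (a = 0 ∧ b = 0 ∧ c = 0) ∧ (uForm hF n).Q (a • x + b • y + c • z) = 0)
    (tv : (∀ c ∈ k, frobq hF c = c) → ∀ x ∈ ratP k P, ∃ s ∈ k,
      (uKind hF).T (ζ * s) = (uForm hF n).Q (ζ • x)) :
    IsMaximalIn (Cfsg.GU n F q ⊓ specialLinear (Fin n) F)
      (subfieldSubgroup k P ⊓ (Cfsg.GU n F q ⊓ specialLinear (Fin n) F)) := by
  have h1 := (As.big_SU hF (by omega : 4 ≤ n)).not_sub (by simp; omega) Nat.prime_two hk P
  rw [su_eq_E hF (by omega)] at h1 ⊢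
  have mx : MaxSf k := maxSf_of Nat.prime_two (by rwa [Nat.card_eq_fintype_card])
  have fx : ∀ c ∈ k, frobq hF c = c := fun c hc => by
    have := Fintype.ofFinite k
    have e : q = Fintype.card k := by
      rw [hF, Nat.card_eq_fintype_card] at hk
      exact Nat.pow_left_injective two_ne_zero hk
    rw [frobq_apply, e]
    exact congrArg Subtype.val (FiniteField.pow_card (⟨c, hc⟩ : k))
  obtain ⟨θ, hθ⟩ := fix_decomp mx (frobq_ne_id hF) (frobq_frobq hF) fx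
  have h := rat_of (uForm_ND hF n) (by simpa) h0
    (ratP_val (f := uForm hF n) fun u v hu hv => hP v u hv hu) h3 (tv fx)
    fun _ h => As.map_mem_subfield _ h
  exact sub_max h h1 fun N hN => h.main_two hN mx (u_hZ hF) hθ

theorem su_sub_orth (ho : Odd q) (hk : Fintype.card F = Nat.card k ^ 2)
    (hP : IsFormRationalStructure (Cfsg.hermForm n F q) k 1 P) :
    IsMaximalIn (Cfsg.GU n F q ⊓ specialLinear (Fin n) F)
      (subfieldSubgroup k P ⊓ (Cfsg.GU n F q ⊓ specialLinear (Fin n) F)) := by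
  have h2 : (2 : F) ≠ 0 := As.odd_iff.1 (by rw [hF]; exact ho.pow)
  have val := ratP_val (f := uForm hF n) fun u v hu hv => hP v u hv hu
  refine su_sub_two hF hn hk one_ne_zero hP (u_tern hF hP) fun _ x hx =>
    ⟨_, k.div_mem (val x hx x hx) (k.add_mem k.one_mem k.one_mem), ?_⟩
  rw [one_smul, one_mul, one_mul, herm_Q, hermKind_T, one_add_one_eq_two]
  simp only [map_div₀, map_ofNat, ← herm_symm]
  field_simp; ring

theorem su_sub_symp (hk : Fintype.card F = Nat.card k ^ 2) (h0 : ζ ≠ 0)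
    (hP : IsFormRationalStructure (Cfsg.hermForm n F q) k ζ P)
    (halt : ∀ u, Rv k u → Cfsg.hermForm n F q (P.1 *ᵥ u) (P.1 *ᵥ u) = 0) :
    IsMaximalIn (Cfsg.GU n F q ⊓ specialLinear (Fin n) F)
      (subfieldSubgroup k P ⊓ (Cfsg.GU n F q ⊓ specialLinear (Fin n) F)) := by
  have hq : ∀ x ∈ ratP k P, (uForm hF n).Q x = 0 := fun x hx => by
    obtain ⟨u, hu, rfl⟩ := ratP_exists hx
    exact halt u hu
  exact su_sub_two hF hn hk h0 hP (fun x hx _ _ _ _ =>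
    ⟨1, k.one_mem, 0, k.zero_mem, 0, k.zero_mem, by simp, by simp [hq x hx]⟩)
    fun _ x hx => ⟨0, k.zero_mem, by
      rw [Form.Q_smul, hq x hx, mul_zero, mul_zero, hermKind_T, map_zero, add_zero]⟩

end U

end H4
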