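import Cfsg.Agent.H4.TbH
import Cfsg.Agent.H4.SfE

/-! Non-maximal geometric subgroups: tools and stabilisers of subspaces and decompositions. -/

set_option autoImplicit false

namespace H4.As

open Matrix Cfsg Cfsg.Geo Module
open scoped MatrixGroups Kronecker commutatorElement

variable {ι μ κ : Type} [Fintype ι] [DecidableEq ι] [Fintype μ] [DecidableEq μ] [Fintype κ]
  [DecidableEq κ] {F : Type*} [Field F] {Q : (ι → F) → F}

local notation "σ₀" => RingHom.id F
local notation "pol" => QuadraticMap.polar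

lemma between {G : Type*} [Group G] {Ω S : Subgroup G} (M : Subgroup G) (h : S ⊓ Ω ≤ M)
    (h1 : ¬ M ⊓ Ω ≤ S) (h2 : ¬ Ω ≤ M) : ∃ K, S ⊓ Ω < K ∧ K < Ω := by
  obtain ⟨g, hg, h3⟩ := SetLike.not_le_iff_exists.1 h1
  exact exists_between (fun g h4 h5 => h ⟨h5, h4⟩) ⟨g, hg.2, hg.1, h3⟩
    (SetLike.not_le_iff_exists.1 h2)

lemma not_mem_dec {t m : ℕ} {D : Fin t → Submodule F (ι → F)} (hD : IsMDecomposition m D)
    {i : Fin t} {x u : ι → F} (hx : x ∈ D i) (h0 : x ≠ 0) (hu : u ∈ ⨆ j, ⨆ _ : j ≠ i, D j)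
    (hu0 : u ≠ 0) {g : GL ι F} (h : g.1 *ᵥ x = x + u) : g ∉ decompositionStabilizer D := by
  rintro ⟨π, hπ⟩
  have h2 : x + u ∈ D (π i) := by rw [← hπ, ← h]; exact ⟨x, hx, rfl⟩
  have h3 := Submodule.disjoint_def.1 (hD.indep i)
  by_cases h4 : π i = i
  · rw [h4] at h2
    exact hu0 (h3 u (by simpa using (D i).sub_mem h2 hx) hu)
  · have h5 : x + u ∈ ⨆ j, ⨆ _ : j ≠ i, D j :=
      Submodule.mem_iSup_of_mem (π i) (Submodule.mem_iSup_of_mem h4 h2)
    exact h0 (h3 x hx (by simpa using Submodule.sub_mem _ h5 hu))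

lemma finrank_inf_ge (X Y : Submodule F (ι → F)) :
    finrank F X + finrank F Y ≤ finrank F (X ⊓ Y : Submodule F (ι → F)) + Fintype.card ι := by
  have h1 := Submodule.finrank_sup_add_finrank_inf_eq X Y
  have h2 := Submodule.finrank_le (X ⊔ Y)
  rw [finrank_fintype_fun_eq_card] at h2
  omega

section Perm
variable {s : ℕ} (e : ι ≃ Fin s × κ) (P : GL ι F)

/-- Permutations of the blocks of a frame. -/
noncomputable def bp : Equiv.Perm (Fin s) →* GL ι F :=
  MonoidHom.mk' (fun π => glEquiv.symm ((tv e P).symm ≪≫ₗ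
    LinearEquiv.funCongrLeft F F (π.symm.prodCongr (Equiv.refl κ)) ≪≫ₗ tv e P)) fun π π' => by
      rw [← map_mul]
      congr 1
      ext1 v
      simp only [LinearEquiv.trans_apply, LinearEquiv.mul_apply, LinearEquiv.symm_apply_apply]
      rfl

lemma bp_tv (π : Equiv.Perm (Fin s)) (x : Fin s × κ → F) :
    (bp e P π).1 *ᵥ tv e P x = tv e P fun p => x (π⁻¹ p.1, p.2) := by
  change (glEquiv.symm _ : GL ι F).1 *ᵥ _ = _
  rw [glEquiv_symm_mulVec]
  simp only [LinearEquiv.trans_apply, LinearEquiv.symm_apply_apply]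
  rfl

variable {e P}

lemma Adapt.bp {D : Fin s → Submodule F (ι → F)} (h : Adapt D e P) (π : Equiv.Perm (Fin s))
    (i : Fin s) {v : ι → F} (hv : v ∈ D i) : (bp e P π).1 *ᵥ v ∈ D (π i) := by
  obtain ⟨x, rfl⟩ := (tv e P).surjective v
  rw [bp_tv, h]
  exact fun p hp => (h i x).1 hv _ fun e => hp (by rw [← e]; simp)

lemma Adapt.bp_mem {m : ℕ} {D : Fin s → Submodule F (ι → F)} (h : Adapt D e P)
    (hD : IsMDecomposition m D) (π : Equiv.Perm (Fin s)) :
    As.bp e P π ∈ decompositionStabilizer D :=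
  ⟨π, fun i => map_eq_of_le (fun _ hv => h.bp π i hv) (by rw [hD.finrank_eq, hD.finrank_eq])⟩

lemma bp_isom {Q₀ : (κ → F) → F} (h : ∀ x, Q (tv e P x) = ∑ i, Q₀ (blk x i))
    (π : Equiv.Perm (Fin s)) : bp e P π ∈ isometryGroup F Q := fun v _ => by
  obtain ⟨x, rfl⟩ := (tv e P).surjective v
  change Q ((bp e P π).1 *ᵥ _) = Q _
  rw [bp_tv, h, h]
  exact Equiv.sum_comp π⁻¹ fun i => Q₀ (blk x i)

lemma bp_iso {σ : F →+* F} {f : (ι → F) → (ι → F) → F} {G : Matrix κ κ F}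
    (h : pb (tv e P) f = gf σ (bm 1 fun _ => G)) (π : Equiv.Perm (Fin s)) : bp e P π ∈ Iso f :=
  fun u v => by
  obtain ⟨x, rfl⟩ := (tv e P).surjective u
  obtain ⟨y, rfl⟩ := (tv e P).surjective v
  change f ((bp e P π).1 *ᵥ _) ((bp e P π).1 *ᵥ _) = _
  rw [bp_tv, bp_tv]
  change pb (tv e P) f _ _ = pb (tv e P) f _ _
  rw [h, gf_bm, gf_bm]
  exact Equiv.sum_comp π⁻¹ fun i => gf σ G (blk x i) (blk y i)

lemma exists_c3 {a b c : Fin s} (h1 : a ≠ b) (h2 : a ≠ c) (h3 : b ≠ c) :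
    ∃ π ∈ commutator (Equiv.Perm (Fin s)), π⁻¹ a = c ∧ π⁻¹ b = a ∧ π⁻¹ c = b ∧
      (∀ d, d ≠ a → d ≠ b → d ≠ c → π⁻¹ d = d) ∧ π ^ 3 = 1 := by
  have key : ∀ d, (⁅Equiv.swap a b, Equiv.swap a c⁆⁻¹ : Equiv.Perm (Fin s)) d =
      if d = a then c else if d = b then a else if d = c then b else d := fun d => by
    simp only [commutatorElement_def, _root_.mul_inv_rev, Equiv.swap_inv, Equiv.Perm.mul_apply,
      Equiv.swap_apply_def]
    split_ifs <;> simp_all
  refine ⟨⁅Equiv.swap a b, Equiv.swap a c⁆, Subgroup.commutator_mem_commutator trivial trivial,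
    by rw [key]; simp, by rw [key]; simp [h1.symm], by rw [key]; simp [h2.symm, h3.symm],
    fun d e1 e2 e3 => by rw [key]; simp [e1, e2, e3], ?_⟩
  rw [← inv_eq_one, ← inv_pow]
  ext d
  simp only [pow_succ, pow_zero, one_mul, Equiv.Perm.mul_apply, key, Equiv.Perm.one_apply]
  split_ifs <;> simp_all

theorem not_dec_bp {t m : ℕ} {D : Fin t → Submodule F (ι → F)} (hD : IsMDecomposition m D)
    (hm : Fintype.card κ < m) (hs : m + 4 ≤ s) :
    ¬ (commutator _).map (bp e P) ≤ decompositionStabilizer D := by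
  intro hle
  have i : Fin t := ⟨0, by have := hD.two_le; omega⟩
  have dj := fun j => Submodule.disjoint_def.1 (hD.indep j)
  have inr : ∀ {j l : Fin t} {v : ι → F}, l ≠ j → v ∈ D l → v ∈ ⨆ l, ⨆ _ : l ≠ j, D l :=
    fun h hv => Submodule.mem_iSup_of_mem _ (Submodule.mem_iSup_of_mem h hv)
  have step : ∀ {a b c : Fin s}, a ≠ b → a ≠ c → b ≠ c → ∃ ρ : Fin s → Fin s,
      ρ a = c ∧ ρ b = a ∧ ρ c = b ∧ (∀ d, d ≠ a → d ≠ b → d ≠ c → ρ d = d) ∧
      ∀ y, tv e P y ∈ D i → tv e P (y - fun p => y (ρ p.1, p.2)) ∈ D i := by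
    intro a b c h1 h2 h3
    obtain ⟨π, hπ, e1, e2, e3, e4, e5⟩ := exists_c3 h1 h2 h3
    obtain ⟨τ, hτ⟩ := hle ⟨π, hπ, rfl⟩
    have mv : ∀ j, ∀ v ∈ D j, (bp e P π).1 *ᵥ v ∈ D (τ j) := fun j v hv => hτ j ▸ ⟨v, hv, rfl⟩
    refine ⟨⇑π⁻¹, e1, e2, e3, e4, fun y hy => ?_⟩
    rw [map_sub, ← bp_tv]
    refine sub_mem hy ?_
    by_cases h4 : τ i = i
    · exact h4 ▸ mv i _ hy
    exfalso
    have h5 : τ (τ i) ≠ i := fun h5 => by
      obtain ⟨x, hx, h0⟩ := dec_ne hD i
      have := mv _ _ (mv _ _ (mv _ _ hx))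
      rw [h5, mulVec_mulVec, mulVec_mulVec, ← Units.val_mul, ← Units.val_mul, ← map_mul, ← map_mul,
        ← pow_three', e5, map_one, Units.val_one, one_mulVec] at this
      exact h0 (dj i x hx (inr h4 this))
    let ψ : (D i × D (τ i)) →ₗ[F] (κ → F) × (κ → F) :=
      ((LinearMap.funLeft F F fun l => (a, l)) - LinearMap.funLeft F F fun l => (b, l)).prod
        ((LinearMap.funLeft F F fun l => (a, l)) - LinearMap.funLeft F F fun l => (c, l)) ∘ₗ
        (tv e P).symm.toLinearMap ∘ₗ (D i).subtype.coprod (D (τ i)).subtype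
    have := LinearMap.finrank_le_finrank_of_injective (f := ψ) ((injective_iff_map_eq_zero ψ).2
      fun z hz => ?_)
    · simp only [finrank_prod, hD.finrank_eq, finrank_fintype_fun_eq_card] at this
      omega
    obtain ⟨w, hw⟩ := (tv e P).surjective (z.1.1 + z.2.1)
    have f1 : ∀ l, w (a, l) = w (b, l) ∧ w (a, l) = w (c, l) := fun l => by
      have h6 := congrFun (congrArg Prod.fst hz) l
      have h7 := congrFun (congrArg Prod.snd hz) l
      simp only [ψ, LinearMap.comp_apply, LinearMap.coprod_apply, Submodule.subtype_apply, ← hw,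
        LinearEquiv.coe_coe, LinearEquiv.symm_apply_apply] at h6 h7
      exact ⟨sub_eq_zero.1 h6, sub_eq_zero.1 h7⟩
    have f2 : (bp e P π).1 *ᵥ z.1.1 + (bp e P π).1 *ᵥ z.2.1 = z.1.1 + z.2.1 := by
      rw [← mulVec_add, ← hw, bp_tv]
      congr 1
      ext ⟨d, l⟩
      by_cases d1 : d = a
      · rw [d1, e1, (f1 l).2]
      by_cases d2 : d = b
      · rw [d2, e2, (f1 l).1]
      by_cases d3 : d = c
      · rw [d3, e3, ← (f1 l).1, (f1 l).2]
      · rw [e4 d d1 d2 d3]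
    have f3 : z.1.1 = 0 := dj i _ z.1.2 (by
      rw [← sub_eq_iff_eq_add.2 f2.symm.symm]
      exact sub_mem (add_mem (inr h4 (mv _ _ z.1.2)) (inr h5 (mv _ _ z.2.2))) (inr h4 z.2.2))
    rw [f3, mulVec_zero, zero_add, zero_add] at f2
    exact Prod.ext (Subtype.ext f3) (Subtype.ext (dj _ _ z.2.2
      (inr (fun h => h4 (τ.injective h)) (f2 ▸ mv _ _ z.2.2))))
  obtain ⟨y, hy, a, b, l, hab⟩ : ∃ y, tv e P y ∈ D i ∧ ∃ a b l, y (a, l) ≠ y (b, l) := by
    by_contra hc
    push Not at hc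
    let a : Fin s := ⟨0, by omega⟩
    let ψ : D i →ₗ[F] κ → F := (LinearMap.funLeft F F fun l => (a, l)) ∘ₗ
      (tv e P).symm.toLinearMap ∘ₗ (D i).subtype
    have := LinearMap.finrank_le_finrank_of_injective (f := ψ) ((injective_iff_map_eq_zero ψ).2
      fun z hz => ?_)
    · simp only [hD.finrank_eq, finrank_fintype_fun_eq_card] at this
      omega
    refine Subtype.ext ((tv e P).symm.map_eq_zero_iff.1 (funext fun p => ?_))
    exact (hc ((tv e P).symm z) (by simp) p.1 a p.2).trans (congrFun hz p.2)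
  have h1 : a ≠ b := fun h => hab (by rw [h])
  have big : ∀ S : Finset (Fin s), S.card ≤ 4 → ∃ r, r ∉ S := fun S hS => by
    by_contra hc
    push Not at hc
    have := Finset.card_le_card (fun r _ => hc r : Finset.univ ⊆ S)
    have := hD.pos
    simp at *; omega
  obtain ⟨c, hc⟩ := big {a, b} (Finset.card_le_two.trans (by norm_num))
  simp only [Finset.mem_insert, Finset.mem_singleton, not_or] at hc
  obtain ⟨π, -, e2, -, e4, e5⟩ := step h1 (Ne.symm hc.1) (Ne.symm hc.2)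
  set z := y - fun p => y (π p.1, p.2)
  have z0 : z (b, l) ≠ 0 := by simpa [z, e2, sub_eq_zero] using hab.symm
  have z1 : ∀ r ∉ ({a, b, c} : Finset (Fin s)), z (r, l) = 0 := fun r hr => by
    simp only [Finset.mem_insert, Finset.mem_singleton, not_or] at hr
    simp [z, e4 r hr.1 hr.2.1 hr.2.2]
  have key : ∀ r : (({a, b, c} : Finset (Fin s))ᶜ : Finset (Fin s)), ∃ w, tv e P w ∈ D i ∧
      w (r, l) ≠ 0 ∧ ∀ r' : (({a, b, c} : Finset (Fin s))ᶜ : Finset (Fin s)), r' ≠ r →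
        w (r', l) = 0 := fun r => by
    obtain ⟨u, hu⟩ := big (insert r.1 {a, b, c}) ((Finset.card_insert_le _ _).trans
      (Nat.succ_le_succ Finset.card_le_three))
    rw [Finset.mem_insert, not_or] at hu
    have hr := Finset.mem_compl.1 r.2
    have d1 : b ≠ r := fun h => hr (by simp [← h])
    have d2 : b ≠ u := fun h => hu.2 (by simp [← h])
    obtain ⟨π', -, g2, g3, g4, g5⟩ := step d1 d2 (Ne.symm hu.1)
    refine ⟨_, g5 z (e5 y hy), by simpa [g2, z1 r hr] using z0, fun r' h => ?_⟩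
    have hr' := Finset.mem_compl.1 r'.2
    by_cases d3 : r'.1 = u
    · simp [d3, g3, z1 r hr, z1 u hu.2]
    · simp [g4 r' (fun h => hr' (by simp [h])) (fun e => h (Subtype.ext e)) d3]
  choose w w1 w2 w3 using key
  have := LinearIndependent.fintype_card_le_finrank (R := F) (b := fun r => (⟨_, w1 r⟩ : D i)) (by
    refine Fintype.linearIndependent_iff.2 fun c hc r => ?_
    have := congrFun (congrArg (fun v : D i => (tv e P).symm v.1) hc) (r, l)
    simp only [Submodule.coe_sum, Submodule.coe_smul, map_sum, map_smul,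
      LinearEquiv.symm_apply_apply, Finset.sum_apply, Pi.smul_apply, smul_eq_mul] at this
    rw [Finset.sum_eq_single r (fun r' _ h => by rw [w3 r' r h.symm, mul_zero]) (by simp)] at this
    simpa [w2 r] using this)
  have h3 : ({a, b, c} : Finset (Fin s)).card ≤ 3 := Finset.card_le_three
  rw [hD.finrank_eq, Fintype.card_coe, Finset.card_compl, Fintype.card_fin] at this
  omega

lemma map_bp_le {I : Subgroup (GL ι F)} (h : ∀ π, bp e P π ∈ I) :
    (commutator _).map (bp e P) ≤ ⁅I, I⁆ := by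
  rw [commutator, Subgroup.map_commutator]
  exact Subgroup.commutator_mono (by rintro _ ⟨π, -, rfl⟩; exact h π)
    (by rintro _ ⟨π, -, rfl⟩; exact h π)

end Perm

lemma omega_eq (Q : (ι → F) → F) : omegaGL Q = ⁅isometryGroup F Q, isometryGroup F Q⁆ :=
  Subgroup.map_subtype_commutator _

lemma comm_le_SL (I : Subgroup (GL ι F)) : ⁅I, I⁆ ≤ specialLinear ι F :=
  Subgroup.commutator_le.2 fun a _ b _ => by
    change GeneralLinearGroup.det _ = 1
    rw [map_commutatorElement, commutatorElement_eq_one_iff_mul_comm, mul_comm]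

section Eich
variable {K : Kind F} {f : Form K (ι → F)}

lemma eich_mv {g : f.Isom} {a b x : ι → F} {t : F} (h : f.IsEich g a b t) (h0 : a ≠ 0)
    (ha : f.B a x = 0) (hb : f.B b x ≠ 0) :
    ∃ c : F, c • a ≠ 0 ∧ (f.toGL g).1 *ᵥ x = x + c • a :=
  ⟨-(K.ε * f.B b x), smul_ne_zero (neg_ne_zero.2 (mul_ne_zero K.ε_ne hb)) h0, by
    rw [Form.toGL_mulVec, h.shift ha, neg_smul, sub_eq_add_neg]⟩

lemma eich_shift (h3 : f.Iso3) {Z : Submodule F (ι → F)} {b x : ι → F} (hb : f.B b x ≠ 0)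
    (hd : 5 ≤ finrank F Z) : ∃ g t, ∃ a ∈ Z, f.IsEich g a b t ∧
      ∃ c : F, c • a ≠ 0 ∧ (f.toGL g).1 *ᵥ x = x + c • a := by
  obtain ⟨a, ha, h0, hQ, h⟩ := h3.exists_perp Z [x, b] hd
  obtain ⟨g, t, hg⟩ := Form.exists_eich hQ (h b (by simp))
  exact ⟨g, t, a, ha, hg, eich_mv hg h0 (h x (by simp)) hb⟩

variable {t m : ℕ} {D : Fin t → Submodule F (ι → F)}

lemma not_dec_X (hf : f.ND) (h3 : f.Iso3) {X : Submodule F (ι → F)} {N : Subgroup (GL ι F)}
    (hN : ∀ g a b s, f.IsEich g a b s → a ∈ X → b ∈ X → f.toGL g ∈ N) (hD : IsMDecomposition m D)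
    (hX : m + 5 ≤ finrank F X) : ¬ N ≤ decompositionStabilizer D := by
  obtain ⟨b, hb, h0⟩ := exists_ne_of_pos (X := X) (by omega)
  obtain ⟨i, x, hx, h1⟩ : ∃ i, ∃ x ∈ D i, f.B b x ≠ 0 := by
    by_contra hc
    push Not at hc
    refine h0 (hf b fun y => ?_)
    have : iSup D ≤ LinearMap.ker (f.B b) := iSup_le fun i x hx => hc i x hx
    exact this (hD.iSup_eq_top ▸ trivial)
  have := dec_rest hD i
  have := finrank_inf_ge X (⨆ j, ⨆ _ : j ≠ i, D j)
  obtain ⟨g, s, a, ha, hg, c, h2, h4⟩ := eich_shift h3 (Z := X ⊓ ⨆ j, ⨆ _ : j ≠ i, D j) h1 (by omega)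
  exact fun hle => not_mem_dec hD hx (fun e => h1 (by simp [e])) (Submodule.smul_mem _ c ha.2) h2 h4
    (hle (hN g a b s hg ha.1 hb))

lemma stab_not_dec (hf : f.ND) (h3 : f.Iso3) (U : Submodule F (ι → F)) (hD : IsMDecomposition m D)
    (hn : 2 * m + 9 ≤ Fintype.card ι) :
    ¬ subspaceStabilizer U ⊓ f.E.map f.toGL ≤ decompositionStabilizer D := by
  have := hf.finrank_perp U
  rw [finrank_fintype_fun_eq_card] at this
  by_cases h : m + 5 ≤ finrank F U
  · exact not_dec_X hf h3 (fun g a b s hg ha hb =>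
      ⟨Form.toGL_mem_stab.2 (hg.mem_stab ha hb), g, hg.mem_E, rfl⟩) hD h
  · exact not_dec_X hf h3 (fun g a b s hg ha hb =>
      ⟨Form.toGL_mem_stab.2 (hg.mem_stab_perp ha hb), g, hg.mem_E, rfl⟩) hD (by omega)

lemma ratP_decomp {k : Subfield F} {θ : F} (h : ∀ c : F, ∃ x ∈ k, ∃ y ∈ k, c = x + y * θ)
    (P : GL ι F) (v : ι → F) : ∃ a ∈ ratP k P, ∃ b ∈ ratP k P, v = a + θ • b := by
  choose x hx y hy e using fun i => h (((P⁻¹ : GL ι F).1 *ᵥ v) i)
  refine ⟨_, mem_ratP hx, _, mem_ratP hy, ?_⟩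
  rw [← mulVec_smul, ← mulVec_add, ← gl_mulVec_cancel' P v]
  congr 1
  ext i
  rw [e i, mul_comm]; rfl

lemma sub_not_dec {k : Subfield F} {θ ζ : F} {P : GL ι F} (h : f.Rat k ζ (ratP k P))
    (hθ : ∀ c : F, ∃ x ∈ k, ∃ y ∈ k, c = x + y * θ) (hD : IsMDecomposition 2 D) :
    ¬ subfieldSubgroup k P ⊓ f.E.map f.toGL ≤ decompositionStabilizer D := by
  have i : Fin t := ⟨0, by have := hD.two_le; omega⟩
  obtain ⟨x, hx, h0⟩ := dec_ne hD i
  obtain ⟨b, hb, h1⟩ := h.exists_ne h0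
  have h2 := dec_rest hD i
  have h3 := h.nd.finrank_perp (⨆ j, ⨆ _ : j ≠ i, D j)
  rw [finrank_fintype_fun_eq_card] at h3
  let w := Module.finBasisOfFinrankEq F (f.perp (⨆ j, ⨆ _ : j ≠ i, D j)) (n := 2) (by omega)
  obtain ⟨x1, m1, x2, m2, e1⟩ := ratP_decomp hθ P x
  obtain ⟨x3, m3, x4, m4, e2⟩ := ratP_decomp hθ P (w 0)
  obtain ⟨x5, m5, x6, m6, e3⟩ := ratP_decomp hθ P (w 1)
  obtain ⟨a, ha, a0, hQ, h4⟩ := h.iso [b, x1, x2, x3, x4, x5, x6] (by simp [*]) (by simp)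
  simp only [List.mem_cons, List.not_mem_nil, or_false, forall_eq_or_imp, forall_eq] at h4
  obtain ⟨s, hs, h5⟩ := h.tv b hb
  obtain ⟨g, hg⟩ := Form.exists_isEich hQ (by rw [map_smul, Form.refl h4.1, smul_zero]) h5
  obtain ⟨c, h6, h7⟩ := eich_mv (x := x) hg a0 (Form.refl (by rw [e1]; simp [f.B_smul_left, h4]))
    (by rw [f.B_smul_left]; exact mul_ne_zero (by simpa using h.ζ0) h1)
  refine fun hle => not_mem_dec hD hx h0 (Submodule.smul_mem _ c ?_) h6 h7
    (hle ⟨sub_of_rat one_ne_zero fun x hx => ?_, g, hg.mem_E, rfl⟩)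
  · rw [← h.nd.perp_perp (⨆ j, ⨆ _ : j ≠ i, D j)]
    intro u hu
    have := congrArg Subtype.val (w.sum_repr ⟨u, hu⟩)
    simp only [Fin.sum_univ_two, Submodule.coe_add, Submodule.coe_smul] at this
    rw [← this, e2, e3]
    simp [f.B_smul_left, h4]
  · rw [one_smul, hg.app, smul_smul, f.B_smul_left, mul_comm (f.B a x), mul_right_comm]
    exact sub_mem (add_mem hx (ratP_smul (h.val _ ha _ hx) hb)) (ratP_smul (k.mul_mem
      (Form.eps_mem K k) (k.add_mem (h.val' hb hx) (k.mul_mem (h.val _ ha _ hx) hs))) ha)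

end Eich

section Quad
variable [Fintype F] (hQ : IsNondegenerateQuadraticForm Q) (hn : 13 ≤ Fintype.card ι)
  {W : Submodule F (ι → F)} {t m : ℕ} {D : Fin t → Submodule F (ι → F)}
include hQ hn

lemma omega_E : omegaGL Q = (qForm hQ).E.map (qForm hQ).toGL := by
  have e := omegaGL_eq_E (qForm_ND hQ) (by omega)
  rwa [qForm_Q] at e

theorem nm_plane (hq : Fintype.card F ≤ 3) (hW : IsNondegenerateOn (pol Q) W)
    (hd : finrank F W = 2) (hp : IsPlusTypeOn Q W) :
    ∃ K, subspaceStabilizer W ⊓ omegaGL Q < K ∧ K < omegaGL Q := by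
  obtain ⟨v, h1, h2⟩ := plane_inv hQ hq hW hd hp
  have v0 : v ≠ 0 := fun e => by
    have := hQ.1 0 v
    rw [e, smul_zero, ← e, h1] at this
    simp at this
  have h3 := finrank_span_singleton (K := F) v0
  refine between _ (h2 _ (inf_le_right.trans (omega_le Q)) ((inv_stab W).mono inf_le_left)).le_stab
    (fun hle => ?_) ((big_O hQ (by omega)).not_stab (ne_bot_of_pos (by omega))
      (ne_top_of_lt (by omega)))
  obtain ⟨x, hx, h4⟩ := SetLike.not_le_iff_exists.1 fun h : W ≤ F ∙ v => by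
    have := Submodule.finrank_mono h; omega
  obtain ⟨b, hb, h5⟩ := (qForm_ND hQ).exists_perp_eq' h4 1
  have := (qForm_ND hQ).finrank_perp W
  have := (qForm_ND hQ).finrank_perp (F ∙ v)
  have := finrank_inf_ge ((qForm hQ).perp (F ∙ v)) ((qForm hQ).perp W)
  rw [finrank_fintype_fun_eq_card] at *
  obtain ⟨g, s, a, ha, hg, c, h6, h7⟩ := eich_shift (quad_iso3 _)
    (Z := (qForm hQ).perp (F ∙ v) ⊓ (qForm hQ).perp W) (h5 ▸ one_ne_zero) (by omega)
  have h8 := mem_of_stab (hle ⟨Form.toGL_mem_stab.2 (hg.mem_stab_perp ha.1 hb),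
    omega_E hQ hn ▸ ⟨g, hg.mem_E, rfl⟩⟩) hx
  rw [h7, add_mem_cancel_left hx] at h8
  exact h6 (q_nd hQ hW _ h8 fun y hy => Form.refl (Submodule.smul_mem _ c ha.2 y hy))

lemma ts_stab {U : Submodule F (ι → F)} (hU : IsTotallySingularQuad Q U) {a x : ι → F}
    (ha : a ∈ U) (h1 : pol Q a x = 0) (h2 : x ∉ F ∙ a) :
    ∃ g ∈ subspaceStabilizer U ⊓ omegaGL Q, g.1 *ᵥ x = x + a := by
  obtain ⟨g, v, s, hg, h⟩ := Form.exists_eich_shift (qForm_ND hQ) (hU a ha) h1 h2 1
  refine ⟨(qForm hQ).toGL g, ⟨Form.toGL_mem_stab.2 (Form.mem_stabSub_of_le _ fun y hy => ?_),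
    omega_E hQ hn ▸ ⟨g, hg.mem_E, rfl⟩⟩, by rw [Form.toGL_mulVec, h, one_smul]⟩
  rw [hg.shift (((q_ts hQ).2 hU).2 a ha y hy)]
  exact sub_mem hy (U.smul_mem _ ha)

theorem nm_ts (hp : IsPlusTypeOn Q ⊤) (hW : IsTotallySingularQuad Q W)
    (hd : 2 * (finrank F W + 1) = Fintype.card ι) :
    ∃ K, subspaceStabilizer W ⊓ omegaGL Q < K ∧ K < omegaGL Q := by
  obtain ⟨U, h1, h2, h3, h4⟩ := ts_up hQ (by omega) hp hW hd
  refine between _ h4 (fun hle => ?_) ((big_O hQ (by omega)).not_stab (ne_bot_of_pos (by omega))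
    (ne_top_of_lt (by omega)))
  obtain ⟨a, ha, h5⟩ := SetLike.not_le_iff_exists.1 fun h : U ≤ W => by
    have := Submodule.finrank_mono h; omega
  obtain ⟨x, hx, h0⟩ := exists_ne_of_pos (X := W) (by omega)
  obtain ⟨g, hg, h6⟩ := ts_stab hQ hn h2 ha (((q_ts hQ).2 h2).2 a ha x (h1 hx)) fun h => by
    obtain ⟨c, rfl⟩ := Submodule.mem_span_singleton.1 h
    exact h5 ((W.smul_mem_iff fun e => h0 (by simp [e])).1 hx)
  have := mem_of_stab (hle hg) hx
  rw [h6, add_mem_cancel_left hx] at this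
  exact h5 this

theorem nm_pair (hm : Odd m) {D : Fin 2 → Submodule F (ι → F)} (hD : IsMDecomposition m D)
    (hT : ∀ i, IsTotallySingularQuad Q (D i)) :
    ∃ K, decompositionStabilizer D ⊓ omegaGL Q < K ∧ K < omegaGL Q := by
  have h1 := dec_card hD
  have h2 := hD.finrank_eq 0
  refine between _ (pair_odd hQ (by omega) hm hD hT) (fun hle => ?_)
    ((big_O hQ (by omega)).not_stab (ne_bot_of_pos (by omega)) (ne_top_of_lt (by omega)))
  obtain ⟨x, hx, h0⟩ := dec_ne hD 1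
  obtain ⟨a, ha, a0, -, h3⟩ := (quad_iso3 (qForm hQ)).exists_perp (D 0) [x] (by simp; omega)
  have h4 : a ∈ ⨆ j, ⨆ _ : j ≠ 1, D j :=
    Submodule.mem_iSup_of_mem 0 (Submodule.mem_iSup_of_mem (by decide) ha)
  obtain ⟨g, hg, h6⟩ := ts_stab hQ hn (hT 0) ha (h3 x (by simp)) (not_mem_rest hD hx h0 h4)
  exact not_mem_dec hD hx h0 h4 a0 h6 (hle hg)

lemma nm_refine (hD : IsMDecomposition m D) {s m' : ℕ} {D' : Fin s → Submodule F (ι → F)}
    (hD' : IsOrthogonalMDecomposition Q m' D') (h1 : m' < m) (h2 : m + 4 ≤ s) (h3 : m' ≤ 4)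
    (h : decompositionStabilizer D ⊓ isometryGroup F Q ≤ decompositionStabilizer D') :
    ∃ K, decompositionStabilizer D ⊓ omegaGL Q < K ∧ K < omegaGL Q := by
  let φ := (Module.finBasisOfFinrankEq F (D' ⟨0, by omega⟩)
    (hD'.decomp.decomp.finrank_eq _)).equivFun.symm
  obtain ⟨e, P, h4, h5⟩ := q_adapt hQ hD' φ (Q₀ := fun x => Q (φ x)) fun _ => rfl
  refine between _ ((inf_le_inf_left _ (omega_le Q)).trans h) (fun hle => not_dec_bp (e := e)
    (P := P) hD (by simpa) h2 (le_trans (le_inf ?_ ?_) hle))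
    ((big_O hQ (by omega)).not_dec hD'.decomp.decomp (by omega))
  · rintro _ ⟨π, -, rfl⟩
    exact h4.bp_mem hD'.decomp.decomp π
  · rw [omega_eq]; exact map_bp_le (bp_isom (Q₀ := fun x => Q (φ x)) h5)

theorem nm_three (hq : Fintype.card F = 3) (hD : IsOrthogonalMDecomposition Q 3 D) :
    ∃ K, decompositionStabilizer D ⊓ omegaGL Q < K ∧ K < omegaGL Q := by
  obtain ⟨D', h1, h2⟩ := three_refine hQ hq rfl hD
  exact nm_refine hQ hn hD.decomp.decomp h1 (by omega) (by omega) (by omega) h2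

theorem nm_planes (hD : IsOrthogonalMDecomposition Q 2 D)
    (h : Fintype.card F = 3 ∨ ((∀ i, IsPlusTypeOn Q (D i)) ∧
      (Fintype.card F = 2 ∨ Fintype.card F = 4 ∨ Fintype.card F = 5))) :
    ∃ K, decompositionStabilizer D ⊓ omegaGL Q < K ∧ K < omegaGL Q := by
  have red : Fintype.card F ≤ 3 → (∀ i, IsPlusTypeOn Q (D i)) →
      ∃ K, decompositionStabilizer D ⊓ omegaGL Q < K ∧ K < omegaGL Q := fun hq hp => by
    obtain ⟨U, h1, h2, h3⟩ := planes_red hQ hq hD hp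
    refine between _ ((inf_le_inf_left _ (omega_le Q)).trans h3.le_stab) ?_
      ((big_O hQ (by omega)).not_stab h1 h2)
    rw [omega_E hQ hn]
    exact stab_not_dec (qForm_ND hQ) (quad_iso3 _) U hD.decomp.decomp (by omega)
  have ref := fun h => (planes_refine hQ rfl hD h).elim fun D' h =>
    nm_refine hQ hn hD.decomp.decomp h.1 (by omega) (by omega) (by omega) h.2
  rcases h with h | ⟨hp, h | h | h⟩
  · exact (all_or_none hD).elim (red h.le) fun hp => ref (Or.inl ⟨h, hp⟩)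
  · exact red (by omega) hp
  · obtain ⟨k, r, P, ζ, hr, hk, h0, hP, h1⟩ := planes_four hQ h hD hp
    refine between _ ((inf_le_inf_left _ (omega_le Q)).trans h1) ?_
      ((big_O hQ (by omega)).not_sub (by omega) hr hk P)
    have hF : Fintype.card F = 2 ^ 2 := h
    have mx : MaxSf k := maxSf_of hr (by rwa [Nat.card_eq_fintype_card])
    have e : Nat.card k = 2 := by
      have h2 := subfield_two_le k
      have h3 := Nat.pow_le_pow_right (by omega : 0 < Nat.card k) hr.two_le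
      rw [← hk, hF, Nat.pow_le_pow_iff_left two_ne_zero] at h3
      omega
    obtain ⟨θ, hθ⟩ := fix_decomp mx (frobq_ne_id hF) (frobq_frobq hF) fun c hc => by
      rw [frobq_apply, ← e]; exact mem_subfield_iff.1 hc
    have val := ratP_val (f := qForm hQ) (As.pol_mem hP)
    have vq : ∀ x ∈ ratP k P, ζ * (qForm hQ).Q x ∈ k := fun x hx => by
      obtain ⟨u, hu, rfl⟩ := ratP_exists hx
      exact hP u hu
    rw [omega_E hQ hn]
    exact sub_not_dec (rat_of (qForm_ND hQ) hn h0 val (tern_of le_rfl h0 (fun _ _ => rfl)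
      (fun _ _ _ => rfl) vq val) (fun x hx => ⟨_, vq x hx, by simp [Form.Q_smul, mul_assoc]⟩)
      fun _ h => h) hθ hD.decomp.decomp
  · exact ref (Or.inr ⟨h, hp⟩)

theorem nm_four (hq : Fintype.card F = 2) (hD : IsOrthogonalMDecomposition Q 4 D)
    (hp : ∀ i, IsPlusTypeOn Q (D i)) :
    ∃ K, decompositionStabilizer D ⊓ omegaGL Q < K ∧ K < omegaGL Q := by
  obtain ⟨D', h1, -, h2⟩ := four_refine hQ hq.le hD hp
  have := dec_card hD.decomp.decomp
  exact nm_refine hQ hn hD.decomp.decomp h1 (by omega) (by omega) (by omega) h2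

end Quad

section Lin
variable {t m : ℕ} {D : Fin t → Submodule F (ι → F)}

lemma sl_stab_not_dec {W : Submodule F (ι → F)} (hW : W ≠ ⊤) (hD : IsMDecomposition m D)
    (hn : m + 2 ≤ Fintype.card ι) :
    ¬ subspaceStabilizer W ⊓ specialLinear ι F ≤ decompositionStabilizer D := by
  obtain ⟨i, x, hx, h1⟩ : ∃ i, ∃ x ∈ D i, x ∉ W := by
    by_contra hc
    push Not at hc
    exact hW (top_le_iff.1 (hD.iSup_eq_top ▸ iSup_le hc))
  obtain ⟨φ, h2, h3⟩ := exists_dual_eq h1 1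
  have := dec_rest hD i
  obtain ⟨Y, hY, h4, h5⟩ := exists_le_ker_list [φ] (⨆ j, ⨆ _ : j ≠ i, D j)
  obtain ⟨u, hu, h0⟩ := exists_ne_of_pos (X := Y) (by rw [List.length_singleton] at h4; omega)
  have h6 := h5 φ (by simp) u hu
  refine fun hle => not_mem_dec hD hx (fun e => h1 (e ▸ W.zero_mem)) (hY hu) h0 (g := tvGL h6)
    (by rw [tvGL_mulVec, h3, one_smul]) (hle ⟨mem_stab_iff.2 (map_eq_of_le (fun v hv => ?_) rfl),
      tvGL_mem h6⟩)
  rwa [tvGL_mulVec, h2 v hv, zero_smul, add_zero]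

lemma form_not_dec {K : Kind F} {f : Form K (ι → F)} (hf : f.ND) (h3 : f.Iso3)
    {M : Subgroup (GL ι F)} (hM : ∀ g, f.toGL g ∈ M) (hD : IsMDecomposition m D)
    (hn : m + 5 ≤ Fintype.card ι) : ¬ M ⊓ specialLinear ι F ≤ decompositionStabilizer D :=
  not_dec_X (X := ⊤) hf h3 (fun g a b s hg _ _ => ⟨hM g, by
    change GeneralLinearGroup.det _ = 1
    rw [Form.det_toGL]; exact Units.ext hg.det⟩) hD (by simpa)

variable [Fintype F]

theorem nm_sl (hn : 13 ≤ Fintype.card ι) (hD : IsMDecomposition m D)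
    (h : (m = 1 ∧ Fintype.card F ≤ 4) ∨ (m = 2 ∧ Fintype.card F = 2)) :
    ∃ K, decompositionStabilizer D ⊓ specialLinear ι F < K ∧ K < specialLinear ι F := by
  by_cases hI : Irr (decompositionStabilizer D ⊓ specialLinear ι F)
  swap
  · simp only [Irr, not_forall, not_or] at hI
    obtain ⟨W, h1, h2, h3⟩ := hI
    exact between _ h1.le_stab (sl_stab_not_dec h3 hD (by omega))
      ((big_SL (by omega)).not_stab h2 h3)
  have key : ∀ {ε : F} {f : (ι → F) → (ι → F) → F}, SF σ₀ ε f → decompositionStabilizer D ≤ Iso f →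
      ∃ K, decompositionStabilizer D ⊓ specialLinear ι F < K ∧ K < specialLinear ι F := by
    intro ε f hf h1
    have h2 := (inf_le_left (b := specialLinear ι F)).trans (h1.trans (Iso_le_Sim f))
    rcases c8_bilin (by omega) hf hI h2 with h3 | ⟨-, Q, hQ, h3⟩
    · exact between _ h2 (form_not_dec (aForm_ND h3) (alt_iso3 _) (fun g => Iso_le_Sim f
        fun u v => by simpa [aForm_B] using (alt_mem_Isom _).1 g.2 u v) hD (by omega))
        (sl_not_sim hf (by omega))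
    · exact between _ h3 (form_not_dec (qForm_ND hQ) (quad_iso3 _) (fun g => isom_le_quadSim Q
        fun u _ => by simpa [qForm_Q] using g.2.2 u) hD (by omega)) (sl_not_quad hQ (by omega))
  have := Fintype.one_lt_card (α := F)
  rcases h with ⟨rfl, h⟩ | ⟨rfl, h⟩
  · have lin : ∀ σ : F →+* F, (∀ a, σ (σ a) = a) → (∀ a, a ≠ 0 → a * σ a = 1) →
        ∃ f, SF σ 1 f ∧ decompositionStabilizer D ≤ Iso f := fun σ h1 h3 =>
      dec_iso hD (sf_one h1) fun a ha => by
        ext i j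
        rw [Subsingleton.elim i 0, Subsingleton.elim j 0]
        simpa [mul_apply] using h3 _ (by simpa using ha)
    rcases (by omega : Fintype.card F = 1 + 1 ∨ Fintype.card F = 2 + 1 ∨ Fintype.card F = 2 ^ 2)
      with h | h | h
    · obtain ⟨f, hf, h1⟩ := lin σ₀ (fun _ => rfl) fun a ha => by
        simp [← pow_two, pow_one a ▸ pow_card_sub ha h]
      exact key hf h1
    · obtain ⟨f, hf, h1⟩ := lin σ₀ (fun _ => rfl) fun a ha => by simp [← pow_two, pow_card_sub ha h]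
      exact key hf h1
    · obtain ⟨f, hf, h1⟩ := lin (frobq h) (frobq_frobq h) fun a ha => norm_four ha
      exact between _ (inf_le_left.trans (h1.trans (Iso_le_Sim f))) (form_not_dec hf.uF_ND
        (u_iso3 _) (fun g => Iso_le_Sim f (hf.uF_mat ▸ Form.toGL_mem g)) hD (by omega))
        (sl_not_sim hf (by omega))
  · obtain ⟨f, hf, h4⟩ := dec_iso hD sf_J2 fun a ha => by
      rw [RingHom.coe_id, map_id, t_J2, ← pow_one a.det, pow_card_sub ha.ne_zero (by omega), one_smul]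
    exact key hf h4

theorem nm_sp {m : ℕ} (hm : 7 ≤ m) (hq : Fintype.card F = 2)
    {D : Fin t → Submodule F (Fin m ⊕ Fin m → F)}
    (hD : IsNondegenerateMDecomposition (sympForm m F) 2 D) :
    ∃ K, decompositionStabilizer D ⊓ spGL m F < K ∧ K < spGL m F := by
  obtain ⟨Q, hQ, h1, h2⟩ := (sf_symp m).planes_Q (symp_alt m) hq.le hD
  refine between _ h2 (fun hle => (big_O hQ (by simp; omega)).not_dec hD.decomp (by simp; omega)
    (le_trans (le_inf (omega_le Q) ?_) hle))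
    fun h => sp_not_quad (by omega) hQ (h.trans (isom_le_quadSim Q))
  intro g hg u v
  have := isometry_le Q (omega_le Q hg) u v
  rwa [h1, h1] at this

theorem nm_su {n : ℕ} (hF : Fintype.card F = 2 ^ 2) (hn : 13 ≤ n)
    {D : Fin t → Submodule F (Fin n → F)}
    (hD : IsNondegenerateMDecomposition (Cfsg.hermForm n F 2) 2 D) :
    ∃ K, decompositionStabilizer D ⊓ SUn n F 2 < K ∧ K < SUn n F 2 := by
  obtain ⟨D', h1, h2⟩ := (sf_herm hF n).u_planes (Fintype.card_fin n) hD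
  obtain ⟨e, P, h4, h5⟩ := (sf_herm hF n).u_adapt h1
  refine between _ ((inf_le_inf_left _ inf_le_left).trans h2) (fun hle => not_dec_bp (e := e)
    (P := P) hD.decomp (by simp) (by omega) (le_trans (le_inf ?_ ?_) hle))
    ((big_SU hF (by omega)).not_dec h1.decomp (by simp; omega))
  · rintro _ ⟨π, -, rfl⟩
    exact h4.bp_mem h1.decomp π
  · exact (map_bp_le (bp_iso h5)).trans (le_inf (commutator_le_self _) (comm_le_SL _))

end Lin

end H4.As
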