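import Cfsg.Agent.H4.NmA

/-! Non-maximal geometric subgroups: tensor products and field normalisers. -/

set_option autoImplicit false

namespace H4.As

open Matrix Cfsg Cfsg.Geo Module
open scoped MatrixGroups Kronecker commutatorElement

variable {ι μ κ : Type} [Fintype ι] [DecidableEq ι] [Fintype μ] [DecidableEq μ] [Fintype κ]
  [DecidableEq κ] {F : Type*} [Field F] {Q : (ι → F) → F} {σ : F →+* F}
  {f : (ι → F) → (ι → F) → F}

local notation "σ₀" => RingHom.id F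
local notation "pol" => QuadraticMap.polar

lemma SF.kron' {ε₁ ε₂ : F} {G₁ : Matrix κ κ F} {G₂ : Matrix μ μ F} (h1 : SF σ ε₁ (gf σ G₁))
    (h2 : SF σ ε₂ (gf σ G₂)) : SF σ (ε₁ * ε₂) (gf σ (G₁ ⊗ₖ G₂)) :=
  SF.of_gram h1.inv (by rw [map_mul, mul_mul_mul_comm, h1.eps, h2.eps, one_mul])
    ((isUnit_iff_isUnit_det _).2 (by
      rw [det_kronecker]; exact (h1.gf_unit.pow _).mul (h2.gf_unit.pow _)))
    (by rw [← kroneckerMap_transpose, h1.gf_t, h2.gf_t]; ext; simp; ring)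

lemma SF.gram {ε : F} (h : SF σ ε f) : SF σ ε (gf σ (gramMatrix f)) := h.eq_gf' ▸ h

variable {d m : ℕ} {e : ι ≃ Fin d × Fin m} {P : GL ι F}

lemma struct_pb {f₁ : (Fin d → F) → (Fin d → F) → F} {f₂ : (Fin m → F) → (Fin m → F) → F}
    (h : IsTensorFormStructure σ f f₁ f₂ e P) : ∃ c : F, c ≠ 0 ∧
      pb (tv e P) (fun u v => c * f u v) = gf σ (gramMatrix f₁ ⊗ₖ gramMatrix f₂) := by
  obtain ⟨c, hc, h⟩ := h
  refine ⟨c⁻¹, inv_ne_zero hc, funext₂ fun x y => ?_⟩
  rw [gf_eq_formOfGram, ← inv_mul_cancel_left₀ hc (formOfGram _ _ _ _), ← h]; rfl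

lemma tensor_change {G₁ : Matrix (Fin d) (Fin d) F} {G₂ : Matrix (Fin m) (Fin m) F}
    (h : pb (tv e P) f = gf σ (G₁ ⊗ₖ G₂)) (c : GL (Fin d) F) :
    ∃ P', pb (tv e P') f = gf σ ((c.1ᵀ * G₁ * c.1.map σ) ⊗ₖ G₂) ∧
      tensorProductSubgroup d m e P = tensorProductSubgroup d m e P' := by
  obtain ⟨P', h1, h2⟩ := exists_change e P (kronU c 1)
  refine ⟨P', ?_, Subgroup.ext fun g => ?_⟩
  · ext x y
    have := congrFun (congrFun h ((kronU c 1).1 *ᵥ x)) ((kronU c 1).1 *ᵥ y)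
    rw [gf_mulVec, kronU_coe, ← kroneckerMap_transpose, kron_map, ← mul_kronecker_mul,
      ← mul_kronecker_mul] at this
    rw [pb, h2, h2]
    simpa [pb] using this
  · simp only [mem_tensor, h1, cjG_kronU, cjG_one]
    constructor
    · rintro ⟨a, b, h⟩
      exact ⟨c⁻¹ * a * c⁻¹⁻¹, b, by rw [← cjG_coe, cjG_inv', h]⟩
    · rintro ⟨a, b, h⟩
      exact ⟨c * a * c⁻¹, b, by rw [← cjG_coe, h]⟩

theorem nm_frame {K : Kind F} {fm : Form K (ι → F)} (hf : fm.ND) (h3 : fm.Iso3) {k : ℕ}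
    (hB : Big k (fm.E.map fm.toGL)) (hk : k ≤ 5) (hz : ∀ x y, f x y = 0 → fm.B x y = 0)
    (hΩ : fm.E.map fm.toGL ≤ similarityGroup f) (hd : 2 ≤ d) (hm : 5 ≤ m)
    {G₁ : Matrix (Fin d) (Fin d) F} {G₂ : Matrix (Fin m) (Fin m) F} {ε₁ ε₂ : F}
    (h1 : SF σ ε₁ (gf σ G₁)) (h2 : SF σ ε₂ (gf σ G₂)) (h : pb (tv e P) f = gf σ (G₁ ⊗ₖ G₂))
    {a₀ : GL (Fin d) F} {c : F} (ha : a₀.1ᵀ * G₁ * a₀.1.map σ = c • 1)
    (key : ∀ a ∈ similarityGroup (gf σ (c • (1 : Matrix (Fin d) (Fin d) F))), ∀ j,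
      ∃ i α, a.1 *ᵥ Pi.single j 1 = Pi.single i α) :
    ∃ M, tensorProductSubgroup d m e P ⊓ fm.E.map fm.toGL < M ∧ M < fm.E.map fm.toGL := by
  obtain ⟨P, h, h4⟩ := tensor_change h a₀
  rw [ha] at h
  rw [h4]
  replace h1 : SF σ ε₁ (gf σ (c • (1 : Matrix (Fin d) (Fin d) F))) := by
    convert h1.pb (glEquiv a₀)
    ext x y
    rw [← ha, ← gf_mulVec]; rfl
  haveI : Nonempty (Fin m) := ⟨⟨0, by omega⟩⟩
  obtain ⟨D, hA, hD, -⟩ := dec_of_adapt hd e P
  rw [Fintype.card_fin] at hD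
  have hn := dec_card hD
  have orth : ∀ i j, i ≠ j → ∀ x ∈ D i, ∀ y ∈ D j, fm.B x y = 0 := fun i j hij x hx y hy => by
    obtain ⟨x, rfl⟩ := (tv e P).surjective x
    obtain ⟨y, rfl⟩ := (tv e P).surjective y
    refine hz _ _ ((congrFun (congrFun h x) y).trans ?_)
    rw [gf_eq_formOfGram]
    refine Finset.sum_eq_zero fun p _ => Finset.sum_eq_zero fun p' _ => ?_
    by_cases e1 : p.1 = i
    · by_cases e2 : p'.1 = j
      · simp [one_apply, e1, e2, hij]
      · simp [(hA j y).1 hy p' e2]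
    · simp [(hA i x).1 hx p e1]
  have mem : ∀ i y, tv e P (inb i y) ∈ D i := fun i y => (hA i _).2 fun p hp => if_neg hp
  refine between (decompositionStabilizer D) (le_dec_of hD fun g hg j => ?_) (fun hle => ?_)
    (hB.not_dec hD (by nlinarith))
  · obtain ⟨a, b, rfl⟩ := mem_tensor'.1 hg.1
    have := cjU_mem_Sim.1 (hΩ hg.2)
    rw [h] at this
    obtain ⟨i, α, h5⟩ := key a (sim_left h1 h2 (h1.kron' h2) this) j
    refine ⟨i, fun v hv => ?_⟩
    obtain ⟨x, rfl⟩ := (tv e P).surjective v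
    rw [cjU_coe, cj_tv, hA]
    intro p hp
    refine Finset.sum_eq_zero fun p' _ => ?_
    by_cases e2 : p'.1 = j
    · have := congrFun h5 p.1
      rw [mulVec_single_one, Pi.single_eq_of_ne hp] at this
      simp only [kronU_coe, kroneckerMap_apply, e2]
      rw [show a.1 p.1 j = 0 from this, zero_mul, zero_mul]
    · simp [(hA j x).1 hv p' e2]
  let i₀ : Fin d := ⟨0, by omega⟩
  let i₁ : Fin d := ⟨1, by omega⟩
  have h01 : i₀ ≠ i₁ := by simp [i₀, i₁]
  obtain ⟨b, hb, b0⟩ := dec_ne hD i₀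
  obtain ⟨y, hy⟩ : ∃ y, fm.B b (tv e P (inb i₀ y)) ≠ 0 := by
    by_contra hc
    push Not at hc
    refine b0 (hf b fun y => ?_)
    have : iSup D ≤ LinearMap.ker (fm.B b) := iSup_le fun i x hx => by
      by_cases hi : i = i₀
      · obtain ⟨x, rfl⟩ := (tv e P).surjective x
        rw [← eq_inb ((hA i x).1 hx), hi]
        exact hc _
      · exact orth _ _ (Ne.symm hi) b hb x hx
    exact this (hD.iSup_eq_top ▸ trivial)
  obtain ⟨g, s, a, h5, hg, c', h6, h7⟩ := eich_shift h3 (Z := D i₀) (b := b)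
    (x := tv e P (inb i₀ y + inb i₁ y)) (by
      rwa [map_add, map_add, orth _ _ h01 b hb _ (mem _ _), add_zero]) (by rw [hD.finrank_eq]; omega)
  have hmem : fm.toGL g ∈ decompositionStabilizer D := ⟨1, fun i => mem_stab_iff.1
    (Form.toGL_mem_stab.2 (by
      by_cases hi : i = i₀
      · exact hi ▸ hg.mem_stab h5 hb
      · exact hg.mem_stab_perp (fun x hx => orth _ _ hi x hx _ h5)
          fun x hx => orth _ _ hi x hx _ hb))⟩
  obtain ⟨u, w, h8⟩ := Big.tensor_pure _ (hle ⟨hmem, g, hg.mem_E, rfl⟩) (inb i₀ y + inb i₁ y)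
    ⟨Pi.single i₀ 1 + Pi.single i₁ 1, y, fun p => by
      by_cases e1 : p.1 = i₀
      · simp [inb, e1, h01]
      · by_cases e2 : p.1 = i₁ <;> simp [inb, e1, e2, h01.symm]⟩
  obtain ⟨a, rfl⟩ := (tv e P).surjective a
  rw [h7, ← map_smul, ← map_add, LinearEquiv.symm_apply_apply] at h8
  have e1 : ∀ l, y l = u i₁ * w l := fun l => by
    simpa [inb, h01.symm, (hA _ a).1 h5 (i₁, l) h01.symm] using h8 (i₁, l)
  have e2 : u i₁ ≠ 0 := fun e => hy (by
    rw [show y = 0 from funext fun l => by rw [e1, e, zero_mul]; rfl]; simp)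
  have e3 : c' • a = (u i₀ / u i₁ - 1) • inb i₀ y := funext fun p => by
    by_cases e4 : p.1 = i₀
    · have := h8 p
      simp only [inb, e4, h01, LinearMap.coe_mk, AddHom.coe_mk, Pi.add_apply, if_true, if_false,
        Pi.smul_apply, smul_eq_mul, e1] at this ⊢
      field_simp
      linear_combination this
    · simp [inb, e4, (hA _ a).1 h5 p e4]
  rw [← map_smul, e3, map_smul] at h6
  have e5 := congrArg (fun v => fm.B b (tv e P v)) e3
  simp only [map_smul, Form.refl hg.Buv, smul_zero] at e5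
  exact h6 (by rw [(smul_eq_zero.1 e5.symm).resolve_right hy, zero_smul])

lemma key_of {c : F} (hc : c ≠ 0) (h : ∀ a : F, a ≠ 0 → a * σ a = 1)
    (hκ : Fintype.card κ ≤ 2 ∨ (Fintype.card κ ≤ 3 ∧ (2 : F) ≠ 0)) {a : GL κ F}
    (ha : a.1ᵀ * (c • 1) * a.1.map σ = c • 1) (j : κ) :
    ∃ i α, a.1 *ᵥ Pi.single j 1 = Pi.single i α := by
  refine single_of_norm h hκ (mul_left_cancel₀ hc ?_)
  rw [← gf_smul, gf_mulVec, ha, gf_single]; simp

variable [Fintype F]

theorem nm_o3 {K : Kind F} {fm : Form K (ι → F)} (hf : fm.ND) (h3 : fm.Iso3) {k : ℕ}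
    (hB : Big k (fm.E.map fm.toGL)) (hk : k ≤ 5) (hz : ∀ x y, f x y = 0 → fm.B x y = 0)
    (hΩ : fm.E.map fm.toGL ≤ similarityGroup f) (hq : Fintype.card F = 3) (hm : 5 ≤ m)
    {e : ι ≃ Fin 3 × Fin m} {G₁ : Matrix (Fin 3) (Fin 3) F} {G₂ : Matrix (Fin m) (Fin m) F} {ε₂ : F}
    (h1 : SF σ₀ 1 (gf σ₀ G₁)) (h2 : SF σ₀ ε₂ (gf σ₀ G₂)) (h : pb (tv e P) f = gf σ₀ (G₁ ⊗ₖ G₂)) :
    ∃ M, tensorProductSubgroup 3 m e P ⊓ fm.E.map fm.toGL < M ∧ M < fm.E.map fm.toGL := by
  have h2' : (2 : F) ≠ 0 := odd_iff.1 (by rw [hq]; decide)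
  obtain ⟨c, hc, a₀, ha⟩ := exists_congr_odd h2' (by simp; decide) (sf_one fun _ => rfl) h1
  refine nm_frame hf h3 hB hk hz hΩ (by omega) hm h1 h2 h ha fun a ha => ?_
  obtain ⟨l, hl, h4⟩ := gf_Sim ha
  have h5 := congrArg det h4
  have h6 := mul_self_three hq hl
  have h7 := mul_self_three hq (a := a.1.det) a.det_ne_zero
  simp only [det_mul, det_transpose, det_smul, RingHom.coe_id, Matrix.map_id, det_one, id,
    Fintype.card_fin] at h5 h6 h7
  obtain rfl : l = 1 := mul_left_cancel₀ (pow_ne_zero 3 hc) (by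
    linear_combination c ^ 3 * h7 - h5 - c ^ 3 * l * h6)
  exact key_of hc (fun _ => mul_self_three hq) (Or.inr ⟨by simp, h2'⟩) (by rw [h4, one_smul])

theorem nm_o3_quad (hQ : IsNondegenerateQuadraticForm Q) (hn : 13 ≤ Fintype.card ι)
    (hq : Fintype.card F = 3) {e : ι ≃ Fin 3 × Fin m} {f₁ : (Fin 3 → F) → (Fin 3 → F) → F}
    {f₂ : (Fin m → F) → (Fin m → F) → F} (h1 : IsSymmetricForm f₁) (h2 : IsSymmetricForm f₂)
    (h : IsTensorFormStructure id (pol Q) f₁ f₂ e P) :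
    ∃ M, tensorProductSubgroup 3 m e P ⊓ omegaGL Q < M ∧ M < omegaGL Q := by
  obtain ⟨c, hc, h⟩ := struct_pb (σ := σ₀) h
  have := Fintype.card_congr e
  have hB := big_O hQ (by omega)
  have h3 := (omega_le Q).trans ((isometry_le Q).trans (Iso_le_Sim _))
  rw [← Sim_smul hc] at h3
  rw [omega_E hQ hn] at hB h3 ⊢
  exact nm_o3 (qForm_ND hQ) (quad_iso3 _) hB (by omega)
    (fun x y h => (mul_eq_zero.1 h).resolve_left hc) h3 hq (by simp at this; omega)
    (SF.of_symm h1).gram (SF.of_symm h2).gram h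

theorem nm_o3_sp {n : ℕ} (hn : 7 ≤ n) (hq : Fintype.card F = 3)
    {e : Fin n ⊕ Fin n ≃ Fin m × Fin 3} {P : GL (Fin n ⊕ Fin n) F}
    {f₁ : (Fin m → F) → (Fin m → F) → F} {f₂ : (Fin 3 → F) → (Fin 3 → F) → F}
    (h1 : IsSymplecticForm f₁) (h2 : IsSymmetricForm f₂)
    (h : IsTensorFormStructure id (sympForm n F) f₁ f₂ e P) :
    ∃ M, tensorProductSubgroup m 3 e P ⊓ spGL n F < M ∧ M < spGL n F := by
  obtain ⟨c, hc, h⟩ := struct_pb (σ := σ₀) h
  have := Fintype.card_congr e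
  have hB := big_Sp (F := F) (Or.inl (by omega : 3 ≤ n))
  have h3 : spGL n F ≤ similarityGroup (sympForm n F) := Iso_le_Sim _
  rw [← Sim_smul hc] at h3
  rw [spGL_eq_E] at hB h3 ⊢
  rw [le_antisymm (tensor_swap e P) (tensor_swap (e.trans (Equiv.prodComm _ _)) P)]
  exact nm_o3 (spForm_ND n F) (alt_iso3 _) hB (by omega)
    (fun x y h => by rw [spForm_B]; exact (mul_eq_zero.1 h).resolve_left hc) h3 hq
    (by simp at this; omega) (SF.of_symm h2).gram (SF.of_symp h1).gram (pb_swap h)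

theorem nm_u2 {n : ℕ} (hF : Fintype.card F = 2 ^ 2) (hn : 13 ≤ n) {e : Fin n ≃ Fin 2 × Fin m}
    {P : GL (Fin n) F} {f₁ : (Fin 2 → F) → (Fin 2 → F) → F} {f₂ : (Fin m → F) → (Fin m → F) → F}
    (h1 : IsUnitaryFormPow 2 f₁) (h2 : IsUnitaryFormPow 2 f₂)
    (h : IsTensorFormStructure (fun x : F => x ^ 2) (Cfsg.hermForm n F 2) f₁ f₂ e P) :
    ∃ M, tensorProductSubgroup 2 m e P ⊓ SUn n F 2 < M ∧ M < SUn n F 2 := by
  obtain ⟨c, hc, h⟩ := struct_pb (σ := frobq hF) h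
  have := Fintype.card_congr e
  have hB := big_SU hF (by omega : 4 ≤ n)
  have h3 : SUn n F 2 ≤ similarityGroup (Cfsg.hermForm n F 2) := inf_le_left.trans (Iso_le_Sim _)
  rw [← Sim_smul hc] at h3
  rw [SUn, su_eq_E hF (by omega)] at h3 ⊢
  rw [su_eq_E hF (by omega)] at hB
  obtain ⟨a₀, ha⟩ := exists_gram_eq (sf_one (frobq_frobq hF)) (SF.of_unitPow hF h1).gram
  refine nm_frame (uForm_ND hF n) (u_iso3 _) hB (by omega) (fun x y h =>
    Form.refl ((mul_eq_zero.1 h).resolve_left hc)) h3 le_rfl (by simp at this; omega)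
    (SF.of_unitPow hF h1).gram (SF.of_unitPow hF h2).gram h (c := 1) (by rw [ha, one_smul])
    fun a ha => ?_
  obtain ⟨l, hl, h4⟩ := gf_Sim ha
  have h5 := congrFun (congrFun h4 0) 0
  have h6 : frobq hF l = l := by
    simp only [one_smul, mul_one, mul_apply, Fin.sum_univ_two, transpose_apply, map_apply,
      Matrix.smul_apply, one_apply_eq, smul_eq_mul] at h5
    rw [← h5]
    simp only [map_add, map_mul, frobq_frobq]; ring
  obtain rfl : l = 1 := mul_left_cancel₀ hl (by rw [mul_one, ← sq]; exact h6)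
  exact key_of one_ne_zero (fun _ => norm_four) (Or.inl (by simp)) (by rw [h4, one_smul])

section Fld
omit [Fintype F]

/-- A unipotent element of exponent two. -/
def unip {N : Matrix ι ι F} (h : N * N = 0) : GL ι F :=
  ⟨1 + N, 1 - N, by simp [add_mul, mul_sub, h], by simp [mul_add, sub_mul, h]⟩

open Polynomial in
lemma unip_mem {N : Matrix ι ι F} (h : N * N = 0) : unip h ∈ specialLinear ι F := by
  have h1 := (isNilpotent_charpoly_sub_pow_of_isNilpotent (M := -N) ⟨2, by simp [sq, h]⟩).eq_zero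
  have := congrArg (eval 1) (sub_eq_zero.1 h1)
  rw [eval_charpoly] at this
  simpa [mem_SL, unip] using this

lemma mem_norm_of_comm {K : Subalgebra F (Matrix ι ι F)} {g : GL ι F}
    (h : ∀ x ∈ K, g.1 * x = x * g.1) : g ∈ subalgebraNormalizer K :=
  Nrm.le_normalizer (H := cenG K) (fun g hg x hx => by rwa [hg x hx])
    fun x hx => cjG_eq_iff.2 (h x hx)

lemma nrm_adjoin {H : Subgroup (GL ι F)} {z : Matrix ι ι F}
    (h : ∀ g ∈ H, cjG g z ∈ Algebra.adjoin F {z}) : Nrm H (Algebra.adjoin F {z}) := fun g hg _ hx =>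
  (Algebra.adjoin_le (S := (Algebra.adjoin F {z}).comap (cjG g).toAlgHom) (by
    rintro _ rfl; exact h g hg)) hx

lemma Big.not_adjoin [Finite F] {k : ℕ} {Ω : Subgroup (GL ι F)} (h : Big k Ω)
    (hk : 2 * k ≤ Fintype.card ι) (h0 : 0 < k) {z : Matrix ι ι F} (hz : ∀ c : F, z ≠ c • 1) :
    ¬ Ω ≤ subalgebraNormalizer (Algebra.adjoin F {z}) := fun hle => by
  haveI : Nonempty ι := Fintype.card_pos_iff.1 (by omega)
  have hK : CommData Ω (Algebra.adjoin F {z}) := ⟨(nrm_normalizer _).mono hle, fun x hx y hy =>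
    Algebra.commute_of_mem_adjoin_singleton_of_commute hy
      (Algebra.commute_of_mem_adjoin_self hx).symm, _, Algebra.self_mem_adjoin_singleton _ _, hz⟩
  rcases comm_case' h.irr _ hK.nrm hK.comm with ⟨t, m, D, -, h1, h2⟩ | h1
  · have := dec_card h1
    have := h1.two_le
    exact h.not_dec h1 (by nlinarith) h2
  · exact h.not_field hK.one_lt h1 hle

theorem nm_field [Finite F] {r : ℕ} (h1 : 1 < r) (hr : ¬ r.Prime) (hn : r < Fintype.card ι)
    {K : Subalgebra F (Matrix ι ι F)} (hK : IsFieldSubalgebra r K) :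
    ∃ M, subalgebraNormalizer K ≤ M ∧ ¬ M ⊓ specialLinear ι F ≤ subalgebraNormalizer K ∧
      ¬ specialLinear ι F ≤ M := by
  haveI : Nonempty ι := Fintype.card_pos_iff.1 (by omega)
  have hp := Nat.minFac_prime h1.ne'
  obtain ⟨K', h2, h3⟩ := exists_sub_degree hK r.minFac_dvd hp.ne_zero
  refine ⟨_, Nrm.le_normalizer fun g hg x hx => (h3 _).2 ⟨nrm_normalizer K g hg x ((h3 x).1 hx).1,
    by rw [← map_pow, ((h3 x).1 hx).2]⟩, fun hle => ?_,
    (big_SL (by omega)).not_field hp.two_le h2⟩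
  obtain ⟨k, hk, h4⟩ : ∃ k ∈ K, k ∉ K' := by
    by_contra hc
    push Not at hc
    obtain rfl : K = K' := le_antisymm hc fun x hx => ((h3 x).1 hx).1
    exact hr (hK.finrank_eq.symm.trans h2.finrank_eq ▸ hp)
  obtain ⟨v, v0⟩ := exists_ne (0 : ι → F)
  obtain ⟨u, -, hu⟩ := SetLike.not_le_iff_exists.1 fun h : ⊤ ≤ cyc K v => by
    have := Submodule.finrank_mono h
    rw [finrank_cyc hK v0, finrank_top, finrank_fintype_fun_eq_card] at this
    omega
  letI := (isField_of h2).toField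
  letI := subMod K'
  haveI := subTower K'
  obtain ⟨φ, h5, h6⟩ := exists_dual_eq (Z := Submodule.span K' {v, u}) (x := k *ᵥ v) (fun h => by
    obtain ⟨a, b, h⟩ := Submodule.mem_span_pair.1 h
    change a.1 *ᵥ v + b.1 *ᵥ u = _ at h
    by_cases hb : b.1 = 0
    · rw [hb, zero_mulVec, add_zero, ← sub_eq_zero, ← sub_mulVec] at h
      rcases field_ker hK (sub_mem ((h3 _).1 a.2).1 hk) with e | e
      · exact h4 (sub_eq_zero.1 e ▸ a.2)
      · exact v0 (e v h)
    · obtain ⟨c, hc, e⟩ := hK.inv _ ((h3 _).1 b.2).1 hb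
      refine hu (mem_cyc.2 ⟨c * (k - a.1), mul_mem hc (sub_mem hk ((h3 _).1 a.2).1), ?_⟩)
      rw [← mulVec_mulVec, sub_mulVec, ← h, add_sub_cancel_left, mulVec_mulVec,
        hK.comm _ hc _ ((h3 _).1 b.2).1, e, one_mulVec]) 1
  have hv := h5 v (Submodule.subset_span (by simp))
  have hu' := h5 u (Submodule.subset_span (by simp))
  have hs : ∀ (x : K') y, φ (x.1 *ᵥ y) = x * φ y := fun x y => φ.map_smul x y
  let N := LinearMap.toMatrix' (
    { toFun y := (φ y).1 *ᵥ u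
      map_add' x y := by rw [map_add, Subalgebra.coe_add, add_mulVec]
      map_smul' c y := by
        have := hs (c • 1) y
        rw [Subalgebra.coe_smul, smul_mulVec, Subalgebra.coe_one, one_mulVec] at this
        simp [this, smul_mulVec] } : (ι → F) →ₗ[F] ι → F)
  have hN : ∀ y, N *ᵥ y = (φ y).1 *ᵥ u := fun y => LinearMap.toMatrix'_mulVec _ _
  have h7 : N * N = 0 := mat_ext fun y => by
    rw [← mulVec_mulVec, hN, hN, hs, hu', mul_zero, Subalgebra.coe_zero, zero_mulVec, zero_mulVec]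
  have h8 := (nrm_normalizer K).mem_cyc (hle (Subgroup.mem_inf.2 ⟨mem_norm_of_comm
    fun x hx => mat_ext fun y => ?_, unip_mem h7⟩)) (v := v) (w := k *ᵥ v) ⟨k, hk, rfl⟩
  · simp only [unip, add_mulVec, one_mulVec, hN, hv, h6, Subalgebra.coe_zero, zero_mulVec,
      add_zero, Subalgebra.coe_one] at h8
    exact hu ((add_mem_cancel_left (cyc_inv v k hk v (self_mem_cyc v))).1 h8)
  · simp only [unip, ← mulVec_mulVec, add_mulVec, one_mulVec, mulVec_add, hN, add_right_inj]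
    rw [hs ⟨x, hx⟩, Subalgebra.coe_mul, mulVec_mulVec]

/-- An element of order three of `GL₂(2)`. -/
def w2 (F : Type*) [Field F] : Matrix (Fin 2) (Fin 2) F := !![0, 1; 1, 1]

lemma w2_ns (hm : 0 < m) (e : ι ≃ Fin 2 × Fin m) (P : GL ι F) (c : F) :
    fl e P (w2 F) ≠ c • 1 := fun h => by
  haveI : Nonempty (Fin m) := ⟨⟨0, hm⟩⟩
  rw [← map_one (fl e P), ← map_smul] at h
  simpa [w2] using congrFun (congrFun (fl_injective e P h) 0) 1

lemma fl_pure (e : ι ≃ κ × μ) (P : GL ι F) (a : Matrix κ κ F) (x : κ → F) (y : μ → F) :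
    fl e P a *ᵥ tv e P (fun p => x p.1 * y p.2) = tv e P fun p => (a *ᵥ x) p.1 * y p.2 := by
  rw [fl_apply, cj_tv]
  congr 1
  ext p
  simp [mulVec, dotProduct, Fintype.sum_prod_type, one_apply, Finset.sum_mul, mul_assoc]

end Fld

lemma tensor_le_w2 (hq : Fintype.card F = 2) (e : ι ≃ Fin 2 × Fin m) (P : GL ι F) :
    tensorProductSubgroup 2 m e P ≤ subalgebraNormalizer (Algebra.adjoin F {fl e P (w2 F)}) := by
  refine Nrm.le_normalizer (nrm_adjoin fun g hg => ?_)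
  obtain ⟨a, b, rfl⟩ := mem_tensor'.1 hg
  have h2 := two_eq_zero (F := F) (Or.inl hq)
  have h01 : ∀ x : F, x = 0 ∨ x = 1 := fun x => or_iff_not_imp_left.2 (eq_one_of_two hq.le)
  have h1 : cjG a (w2 F) * cjG a (w2 F) = cjG a (w2 F) + 1 := by
    rw [← map_mul, ← map_one (cjG a), ← map_add]
    congr 1
    ext i j
    fin_cases i <;> fin_cases j <;> simp [w2]
  have : cjG a (w2 F) = w2 F ∨ cjG a (w2 F) = w2 F + 1 := by
    generalize cjG a (w2 F) = x at h1
    simp only [← Matrix.ext_iff, Fin.forall_fin_two, mul_apply, Fin.sum_univ_two,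
      Matrix.add_apply] at h1 ⊢
    have h3 : (1 : F) + 1 = 0 := by rw [one_add_one_eq_two, h2]
    rcases h01 (x 0 0) with e1 | e1 <;> rcases h01 (x 0 1) with e2 | e2 <;>
      rcases h01 (x 1 0) with e3 | e3 <;> rcases h01 (x 1 1) with e4 | e4 <;>
      simp [e1, e2, e3, e4, w2, h3] at h1 ⊢
  rw [cjG_fl]
  rcases this with h | h <;> rw [h]
  · exact Algebra.self_mem_adjoin_singleton _ _
  · rw [map_add, map_one]; exact add_mem (Algebra.self_mem_adjoin_singleton _ _) (one_mem _)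

theorem nm_sl_tensor (hn : 13 ≤ Fintype.card ι) (hq : Fintype.card F = 2) (e : ι ≃ Fin 2 × Fin m)
    (P : GL ι F) : ∃ M, tensorProductSubgroup 2 m e P ⊓ specialLinear ι F < M ∧
      M < specialLinear ι F := by
  have := Fintype.card_congr e
  obtain ⟨m, rfl⟩ : ∃ k, m = k + 2 := ⟨m - 2, by simp at this; omega⟩
  refine between _ (inf_le_left.trans (tensor_le_w2 hq e P)) (fun hle => ?_)
    ((big_SL (by omega)).not_adjoin (by omega) one_pos (w2_ns (by omega) e P))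
  have h : cj e P (w2 F ⊗ₖ single 0 1 1) * cj e P (w2 F ⊗ₖ single 0 1 1) = 0 := by
    rw [← map_mul, ← mul_kronecker_mul, single_mul_single_of_ne _ _ _ _ (by simp), kronecker_zero,
      map_zero]
  obtain ⟨u, w, h1⟩ := Big.tensor_pure _ (hle (Subgroup.mem_inf.2 ⟨mem_norm_of_comm fun x hx =>
    Algebra.commute_of_mem_adjoin_singleton_of_commute hx (by
      refine (Commute.one_left _).add_left ?_
      rw [fl_apply, Commute, SemiconjBy, ← map_mul, ← map_mul, ← mul_kronecker_mul,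
        ← mul_kronecker_mul, mul_one, one_mul]), unip_mem h⟩)) (Pi.single (0, 1) 1)
    ⟨Pi.single 0 1, Pi.single 1 1, fun ⟨i, j⟩ => by
      by_cases hi : i = 0 <;> by_cases hj : j = 1 <;> simp [hi, hj]⟩
  simp only [unip, add_mulVec, one_mulVec, cj_tv, ← map_add, LinearEquiv.symm_apply_apply] at h1
  have e1 := h1 (0, 0)
  have e2 := h1 (0, 1)
  have e3 := h1 (1, 0)
  simp [w2] at e1 e2 e3
  rcases e1 with h | h
  · simp [h] at e2
  · simp [h] at e3

omit [Fintype F] in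
lemma _root_.H4.Form.IsEich.comm {V : Type*} [AddCommGroup V] [Module F V]
    {f : Form (quadKind F) V} {J : V →ₗ[F] V} {t n : F}
    (h1 : ∀ x y, f.B (J x) y = t * f.B x y - f.B x (J y)) (h2 : ∀ x, J (J x) = t • J x - n • x)
    {g : f.Isom} {u : V} {c : F} (hg : f.IsEich g u (c • J u) 0) (x : V) :
    g.1 (J x) = J (g.1 x) := by
  simp only [hg.app, map_add, map_sub, map_smul, h2, f.B_smul_left, h1, quadKind_σ, quadKind_ε,
    smul_eq_mul]
  module

theorem nm_o_tensor (hQ : IsNondegenerateQuadraticForm Q) (hn : 13 ≤ Fintype.card ι)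
    (hq : Fintype.card F = 2) {e : ι ≃ Fin 2 × Fin m} {f₁ : (Fin 2 → F) → (Fin 2 → F) → F}
    {f₂ : (Fin m → F) → (Fin m → F) → F} (h1 : IsSymplecticForm f₁) (h2 : IsSymplecticForm f₂)
    (h : IsTensorFormStructure id (pol Q) f₁ f₂ e P)
    (hp : ∀ (x : Fin 2 → F) (y : Fin m → F), Q (tv e P fun a => x a.1 * y a.2) = 0) :
    ∃ M, tensorProductSubgroup 2 m e P ⊓ omegaGL Q < M ∧ M < omegaGL Q := by
  have := Fintype.card_congr e
  simp only [Fintype.card_prod, Fintype.card_fin] at this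
  refine between _ (inf_le_left.trans (tensor_le_w2 hq e P)) (fun hle => ?_)
    ((big_O hQ (by omega)).not_adjoin (by omega) (by omega) (w2_ns (by omega) e P))
  obtain ⟨c, hc, h⟩ := struct_pb (σ := σ₀) h
  obtain rfl := eq_one_of_two hq.le hc
  have h3 : (1 : F) + 1 = 0 := by rw [one_add_one_eq_two, two_eq_zero (F := F) (Or.inl hq)]
  have s1 := SF.of_symp h1
  have s2 := SF.of_symp h2
  have h4 : gramMatrix f₁ = !![0, 1; 1, 0] := by
    have e1 : f₁ (Pi.single 0 1) (Pi.single 1 1) = 1 := eq_one_of_two hq.le fun e => by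
      have := s1.nd' (Pi.single 0 1) fun x => by
        rw [show x = x 0 • Pi.single 0 1 + x 1 • Pi.single 1 1 by ext i; fin_cases i <;> simp]
        simp [s1.add', s1.smul', e, h1.alternating]
      simp at this
    ext i j
    fin_cases i <;> fin_cases j <;> simp [gramMatrix, h1.alternating, e1, s1.herm (Pi.single 0 1)]
    exact neg_eq_of_add_eq_zero_left h3
  have hB : ∀ x y, (qForm hQ).B (tv e P x) (tv e P y) =
      gf σ₀ (!![0, 1; 1, 0] ⊗ₖ gramMatrix f₂) x y := fun x y => by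
    rw [← h4, ← h, pb, one_mul]; rfl
  have hP : ∀ (x x' : Fin 2 → F) (y y' : Fin m → F), (qForm hQ).B (tv e P fun p => x p.1 * y p.2)
      (tv e P fun p => x' p.1 * y' p.2) = (x 0 * x' 1 + x 1 * x' 0) * f₂ y y' := fun x x' y y' => by
    rw [hB, gf_pure, ← s2.eq_gf]; simp [gf, dotProduct, mulVec]
  obtain ⟨y, y0⟩ := exists_ne_of_pos (X := (⊤ : Submodule F (Fin m → F))) (by simp; omega)
  obtain ⟨w, hw⟩ : ∃ w, f₂ y w = 1 := by
    obtain ⟨w, hw⟩ := (h2.nondegenerate y y0.2).2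
    exact ⟨w, eq_one_of_two hq.le hw⟩
  obtain ⟨y', -, y0', -, h5⟩ := (alt_iso3 (aForm h2)).exists_perp ⊤ [y, w] (by simp; omega)
  have h6 : f₂ y' y = 0 := h5 y (by simp)
  have h7 : f₂ y' w = 0 := h5 w (by simp)
  let J := toLin' (fl e P (w2 F))
  have hJ : ∀ (x : Fin 2 → F) (y : Fin m → F),
      J (tv e P fun p => x p.1 * y p.2) = tv e P fun p => (w2 F *ᵥ x) p.1 * y p.2 := fl_pure e P _
  let u := (tv e P fun p => ![1, 0] p.1 * y p.2) + tv e P fun p => ![0, 1] p.1 * y' p.2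
  obtain ⟨g, hg⟩ := Form.exists_isEich (f := qForm hQ) (u := u) (v := (1 : F) • J u) (t := 0)
    (by simp only [u, Form.Q_add, hP, qForm_Q, hp, s2.refl h6]; simp)
    (by simp only [u, map_add, one_smul, hJ, hP, LinearMap.add_apply, h6, s2.refl h6,
      h2.alternating]; simp)
    (by simp only [u, map_add, one_smul, hJ, Form.Q_add, hP, qForm_Q, hp, s2.refl h6]; simp)
  have h8 := hg.comm (t := 1) (n := -1) (fun a b => ?_) fun a => ?_
  · obtain ⟨a, b, h9⟩ := Big.tensor_pure ((qForm hQ).toGL g) (hle (Subgroup.mem_inf.2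
      ⟨mem_norm_of_comm fun x hx =>
      Algebra.commute_of_mem_adjoin_singleton_of_commute hx (mat_ext fun v => by
        rw [← mulVec_mulVec, ← mulVec_mulVec, Form.toGL_mulVec, Form.toGL_mulVec]; exact h8 v),
      omega_E hQ hn ▸ ⟨g, hg.mem_E, rfl⟩⟩)) _ ⟨![1, 0], w, fun _ => rfl⟩
    simp only [Form.toGL_mulVec, hg.app, u, map_add, one_smul, hJ, hP, LinearMap.add_apply, h7, hw,
      map_sub, map_smul, LinearEquiv.symm_apply_apply] at h9
    have e1 : w - y = a 0 • b := funext fun l => by simpa [w2] using h9 (0, l)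
    have e2 : - y' = a 1 • b := funext fun l => by simpa [w2] using h9 (1, l)
    have e3 := congrArg (f₂ y) e1
    have e4 := congrArg (f₂ y) e2
    rw [s2.sub', hw, h2.alternating, s2.smul'] at e3
    rw [s2.neg', s2.refl h6, s2.smul', neg_zero, eq_comm, mul_eq_zero] at e4
    rcases e4 with e4 | e4
    · exact y0' (by simpa [show a 1 = 0 from e4] using e2)
    · simp [e4] at e3
  · obtain ⟨a, rfl⟩ := (tv e P).surjective a
    obtain ⟨b, rfl⟩ := (tv e P).surjective b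
    simp only [J, toLin'_apply, fl_apply, cj_tv, hB, one_mul]
    rw [← one_mulVec b, gf_mulVec, one_mulVec, eq_sub_iff_add_eq]
    nth_rw 2 [← one_mulVec a]
    rw [gf_mulVec, ← kroneckerMap_transpose, RingHom.coe_id, Matrix.map_id, Matrix.map_id, mul_one,
      transpose_one, transpose_one, one_mul, ← mul_kronecker_mul, ← mul_kronecker_mul, one_mul,
      mul_one]
    simp only [gf, ← dotProduct_add, ← add_mulVec, ← add_kronecker]
    congr 3
    ext i j
    fin_cases i <;> fin_cases j <;> simp [w2, h3, mul_apply]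
  · simp only [J, toLin'_apply, mulVec_mulVec, ← map_mul]
    rw [show w2 F * w2 F = w2 F + 1 by ext i j; fin_cases i <;> fin_cases j <;> simp [w2], map_add,
      map_one, add_mulVec]
    simp

end H4.As
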