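import Cfsg.Agent.H4.Max2
import Cfsg.Agent.H4.SL2

/-! Two opposite root groups generate `SL₂` of a subfield; applications to sections. -/

set_option autoImplicit false

namespace H4

open MulAction Matrix OnePoint
open scoped MatrixGroups
open H2 (cj)

section Fld
variable {F : Type*} [Field F]

lemma subring_inv_mem [Finite F] (S : Subring F) {x : F} (hx : x ∈ S) : x⁻¹ ∈ S := by
  by_cases h0 : x = 0
  · simp [h0]
  have := Fintype.ofFinite F
  have h1 := FiniteField.pow_card_sub_one_eq_one x h0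
  have h2 : 1 < Fintype.card F := Fintype.one_lt_card
  have : x⁻¹ = x ^ (Fintype.card F - 2) := by
    apply inv_eq_of_mul_eq_one_right
    rw [← pow_succ', ← h1]; congr 1; omega
  rw [this]; exact S.pow_mem hx _

/-- `k` is a maximal subfield. -/
def MaxSf (k : Subfield F) : Prop := k ≠ ⊤ ∧ ∀ k' : Subfield F, k ≤ k' → k' = k ∨ k' = ⊤

lemma maxSf_of [Finite F] {k : Subfield F} {r : ℕ} (hr : r.Prime)
    (hF : Nat.card F = Nat.card k ^ r) : MaxSf k :=
  ⟨subfield_ne_top_of_pow hF hr.two_le, fun k' h => by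
    by_cases e : k' = ⊤
    · exact Or.inr e
    · exact Or.inl (subfield_eq_of_prime h hr hF e)⟩

lemma MaxSf.subring [Finite F] {k : Subfield F} (h : MaxSf k) (S : Subring F)
    (hS : ∀ c ∈ k, c ∈ S) {x : F} (hx : x ∈ S) (hk : x ∉ k) (c : F) : c ∈ S := by
  let k' : Subfield F := { S with inv_mem' := fun _ h => subring_inv_mem S h }
  rcases h.2 k' hS with e | e
  · exact absurd (e ▸ hx : x ∈ k) hk
  · exact (e ▸ Subfield.mem_top c : c ∈ k')

lemma MaxSf.eq_top {k k' : Subfield F} (h : MaxSf k) (hk : k ≤ k') {x : F} (hx : x ∈ k')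
    (hx' : x ∉ k) : k' = ⊤ :=
  (h.2 k' hk).resolve_left fun e => hx' (e ▸ hx)

lemma MaxSf.exists_not_mem {k : Subfield F} (h : MaxSf k) : ∃ x, x ∉ k := by
  by_contra hc
  push Not at hc
  exact h.1 (eq_top_iff.2 fun x _ => hc x)

lemma mem_of_sq_sq [Finite F] {k : Subfield F} {x : F} (h : x * x ∈ k) (h' : x + x ∈ k) :
    x ∈ k := by
  by_cases h2 : (2 : F) = 0
  · by_cases h0 : x = 0
    · simp [h0]
    have := Fintype.ofFinite F
    have h1 := FiniteField.pow_card x
    have h3 : ringChar F = 2 := by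
      have := (ringChar.spec F 2).1 (by exact_mod_cast h2)
      exact (Nat.prime_two.eq_one_or_self_of_dvd _ this).resolve_left CharP.ringChar_ne_one
    obtain ⟨m, hm⟩ := even_iff_two_dvd.1 (Nat.even_iff.2 (FiniteField.even_card_of_char_two h3))
    rw [hm, pow_mul, sq] at h1
    rw [← h1]; exact k.pow_mem h _
  · have : x = (x + x) / (1 + 1) := by
      rw [one_add_one_eq_two]; field_simp; ring
    rw [this]; exact k.div_mem h' (k.add_mem k.one_mem k.one_mem)

lemma mem_of_sq_succ [Finite F] {k : Subfield F} {x : F} (h : x * x ∈ k)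
    (h' : (1 + x) * (1 + x) ∈ k) : x ∈ k := by
  refine mem_of_sq_sq h ?_
  have := k.sub_mem (k.sub_mem h' h) k.one_mem
  convert this using 1; ring

lemma exists_sum_sq [Finite F] (c : F) : ∃ a b : F, c = a * a + b * b := by
  have := Fintype.ofFinite F
  by_cases h : ringChar F = 2
  · obtain ⟨a, ha⟩ := FiniteField.isSquare_of_char_two h c
    exact ⟨a, 0, by simp [ha]⟩
  · obtain ⟨a, b, hab⟩ := FiniteField.exists_root_sum_quadratic
      (f := Polynomial.X ^ 2) (g := Polynomial.X ^ 2 - Polynomial.C c)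
      (Polynomial.degree_X_pow 2) (Polynomial.degree_X_pow_sub_C (by decide) _)
      (FiniteField.odd_card_of_char_ne_two h)
    refine ⟨a, b, ?_⟩
    simp at hab
    linear_combination -hab

end Fld

section Root
variable {F : Type*} [Field F] [Finite F]

omit [Finite F] in
lemma aff_one_ne {μ : F} (h : μ ≠ 0) : aff 1 μ ≠ 1 := fun e => h (aff_inj (e.trans aff_one.symm)).2

omit [Finite F] in
lemma low_ne {ν : F} (h : ν ≠ 0) : mob (1 : F) 0 ν 1 (by simp) ≠ 1 := by
  rw [mob_lower, Ne, conj_eq_one_iff]; exact aff_one_ne h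

omit [Finite F] in
lemma low_pow {p : ℕ} [CharP F p] (ν : F) : mob (1 : F) 0 ν 1 (by simp) ^ p = 1 := by
  have : aff 1 ν ^ p = 1 := by rw [aff_one_pow, CharP.cast_eq_zero, zero_mul, aff_one]
  rw [mob_lower, conj_pow, this]; simp

lemma alt5_cube : ∀ a b : Equiv.Perm (Fin 5), a * a * a = 1 → b * b * b = 1 → a * b = b * a →
    a = 1 ∨ b = 1 ∨ b = a ∨ b * a = 1 := by
  decide +kernel

theorem two_root_pgl (H : Subgroup PGL(2, F)) {ν μ₁ μ₂ : F} (hν : ν ≠ 0) (h1 : μ₁ ≠ 0)
    (h2 : μ₂ ≠ 0) (h3 : μ₂ ≠ μ₁) (h4 : μ₂ + μ₁ ≠ 0) (hL : mob 1 0 ν 1 (by simp) ∈ H)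
    (hU1 : aff 1 μ₁ ∈ H) (hU2 : aff 1 μ₂ ∈ H) : ∃ k : Subfield F,
    (∀ μ, aff 1 μ ∈ H → ν * μ ∈ k) ∧
    ∀ c ∈ k, aff 1 (c / ν) ∈ H ∧ mob 1 0 (c * ν) 1 (by simp) ∈ H := by
  classical
  obtain ⟨p, hp⟩ := CharP.exists F
  haveI : Fact p.Prime := ⟨CharP.char_is_prime F p⟩
  have ap : ∀ μ : F, aff 1 μ ^ p = 1 := fun μ => by
    rw [aff_one_pow, CharP.cast_eq_zero, zero_mul, aff_one]
  have hpH : p ∣ Nat.card H := by
    have := H.orderOf_dvd_natCard hU1
    rwa [orderOf_eq_prime (ap _) (aff_one_ne h1)] at this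
  have fx1 := (isU_aff.2 rfl : IsU (aff 1 μ₁) ∞).2.resolve_left (aff_one_ne h1)
  have fx2 := (low_isU ν).2.resolve_left (low_ne hν)
  rcases dickson_wild (algebraMap F (AlgebraicClosure F)) H hpH with
    ⟨x, hx⟩ | ⟨-, x, y, hxy, hp, -⟩ | ⟨k, m, hm⟩ | ⟨rfl, ⟨e⟩⟩
  · exact absurd ((fx1 x (hx _ hU1)).symm.trans (fx2 x (hx _ hL))) (OnePoint.infty_ne_coe _)
  · exfalso
    set φ := algebraMap F (AlgebraicClosure F)
    have key : ∀ g ∈ H, ProjGenLinGroup.map φ g • x = x ∨ ProjGenLinGroup.map φ g • x = y :=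
      fun g hg => hp ⟨_, g, hg, rfl⟩
    have i1 : φ μ₁ ≠ 0 := (map_ne_zero φ).2 h1
    induction x using OnePoint.rec with
    | infty =>
      have a1 := key _ hL
      have a2 := key _ (H.mul_mem hU1 hL)
      rw [map_mul, mul_smul] at a2
      rw [pgl_map_mob, mob_smul_infty, if_neg ((map_ne_zero φ).2 hν)] at a1 a2
      rw [pgl_map_aff, aff_smul_coe] at a2
      have a3 := a1.resolve_left (OnePoint.coe_ne_infty _)
      have a4 := a2.resolve_left (OnePoint.coe_ne_infty _)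
      have := OnePoint.coe_injective (a4.trans a3.symm)
      simp at this
      exact h1 this
    | coe z =>
      have a1 := key _ hU1
      have a2 := key _ hU2
      rw [pgl_map_aff, aff_smul_coe] at a1 a2
      have a3 := a1.resolve_left fun e => h1 (by simpa using OnePoint.coe_injective e)
      have a4 := a2.resolve_left fun e => h2 (by simpa using OnePoint.coe_injective e)
      have := OnePoint.coe_injective (a4.trans a3.symm)
      exact h3 (φ.injective (by simpa using this))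
  · set φ := k.subtype
    have hle : H ≤ cj m (pglSub φ) := by
      rcases hm with rfl | rfl
      · exact le_rfl
      · exact H2.cj_mono _ (pslSub_le_pglSub _)
    have hge : cj m (pslSub φ) ≤ H := by
      rcases hm with rfl | rfl
      · exact H2.cj_mono _ (pslSub_le_pglSub _)
      · exact le_rfl
    have fix : ∀ g ∈ H, g ^ p = 1 → ∃ x : OnePoint k, g • m • OnePoint.map φ x =
        m • OnePoint.map φ x := by
      intro g hg hgp
      obtain ⟨g₀, e⟩ := H2.mem_cj.1 (hle hg)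
      obtain ⟨x, hx⟩ := exists_fix_of_pow (p := p) (g := g₀) (pgl_map_injective φ (by
        rw [map_pow, map_one, e]
        have : m⁻¹ * g * m = m⁻¹ * g * m⁻¹⁻¹ := by rw [inv_inv]
        rw [this, conj_pow, hgp]; simp))
      refine ⟨x, ?_⟩
      have := pgl_map_smul φ g₀ x
      rw [hx, e, mul_smul, mul_smul, inv_smul_eq_iff] at this
      exact this
    obtain ⟨x₀, hx⟩ := fix _ hU1 (ap _)
    obtain ⟨y₀, hy⟩ := fix _ hL (low_pow ν)
    have hx := fx1 _ hx
    have hy := fx2 _ hy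
    obtain ⟨s, hs1, hs2⟩ := exists_double (x := x₀) (y := y₀) (by
      rintro rfl; exact OnePoint.infty_ne_coe _ (hx.symm.trans hy))
    obtain ⟨a, ha⟩ := exists_aff_zero (g := m * ProjGenLinGroup.map φ s) (by
      have := pgl_map_smul φ s ∞
      rw [hs1, OnePoint.map_infty] at this
      rw [mul_smul, this, hx]) (by
      have := pgl_map_smul φ s ((0 : k) : OnePoint k)
      rw [hs2, OnePoint.map_some, map_zero] at this
      rw [mul_smul, this, hy])
    have inP : ∀ g ∈ H, ∀ x : OnePoint k, ∃ y : OnePoint k,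
        ((aff a 0)⁻¹ * g * aff a 0) • OnePoint.map φ x = OnePoint.map φ y := by
      intro g hg x
      obtain ⟨g₀, e⟩ := H2.mem_cj.1 (hle hg)
      refine ⟨(s⁻¹ * g₀ * s) • x, ?_⟩
      rw [← pgl_map_smul, map_mul, map_mul, e, ← ha, map_inv]
      congr 1; group
    have outP : ∀ g ∈ Lsub k, aff a 0 * ProjGenLinGroup.map φ g * (aff a 0)⁻¹ ∈ H := by
      intro g hg
      apply hge
      rw [H2.mem_cj, ← map_Lsub, ← ha]
      refine ⟨s * g * s⁻¹, Lsub_normal.conj_mem _ hg _, ?_⟩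
      rw [map_mul, map_mul, map_inv]; group
    have hk1 : ν * a ∈ k := by
      obtain ⟨y, hy⟩ := inP _ hL ∞
      rw [OnePoint.map_infty, mul_smul, mul_smul, aff_smul_infty, mob_smul_infty, if_neg hν,
        aff_inv, aff_smul_coe] at hy
      induction y using OnePoint.rec with
      | infty => exact absurd hy (OnePoint.coe_ne_infty _)
      | coe z =>
        have := OnePoint.coe_injective hy
        have e : ν * a = (φ z)⁻¹ := by rw [← this]; simp
        rw [e]; exact k.inv_mem z.2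
    have ha0 : (a : F) ≠ 0 := a.ne_zero
    refine ⟨k, fun μ hμ => ?_, fun c hc => ⟨?_, ?_⟩⟩
    · obtain ⟨y, hy⟩ := inP _ hμ ((0 : k) : OnePoint k)
      rw [OnePoint.map_some, mul_smul, mul_smul, aff_smul_coe, aff_smul_coe,
        aff_inv, aff_smul_coe] at hy
      induction y using OnePoint.rec with
      | infty => exact absurd hy (OnePoint.coe_ne_infty _)
      | coe z =>
        have := OnePoint.coe_injective hy
        have e : ν * μ = ν * a * φ z := by rw [← this]; simp; field_simp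
        rw [e]; exact k.mul_mem hk1 z.2
    · have := outP (aff 1 ⟨c / (ν * a), k.div_mem hc hk1⟩) (aff_mem_Lsub.2 ⟨1, by simp⟩)
      rw [pgl_map_aff, aff_inv, aff_mul, aff_mul] at this
      convert this using 2
      · simp
      · simp [φ]; field_simp
    · have := outP (mob 1 0 ⟨c * (ν * a), k.mul_mem hc hk1⟩ 1 (by simp))
        (mob_mem_Lsub.2 ⟨1, by simp⟩)
      rw [pgl_map_mob, aff_inv, aff, aff, mob_mul, mob_mul] at this
      convert this using 1
      apply mob_eq_of_smul 1 one_ne_zero <;> simp [φ]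
      field_simp
  · exfalso
    let a : H := ⟨_, hU1⟩
    let b : H := ⟨_, hU2⟩
    have c3 : ∀ x : H, x.1 ^ 3 = 1 → (e x).1 * (e x).1 * (e x).1 = 1 := fun x hx => by
      have : x * x * x = 1 := Subtype.ext (by
        rw [pow_three, ← mul_assoc] at hx; exact hx)
      have := congrArg (fun y => (e y).1) this
      simpa using this
    have hc : a * b = b * a := Subtype.ext (by
      change aff 1 μ₁ * aff 1 μ₂ = aff 1 μ₂ * aff 1 μ₁
      rw [aff_mul, aff_mul]; simp [add_comm])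
    have inj : ∀ x y : H, (e x).1 = (e y).1 → x.1 = y.1 := fun x y h =>
      congrArg Subtype.val (e.injective (Subtype.ext h))
    rcases alt5_cube _ _ (c3 a (ap _)) (c3 b (ap _))
      (by simpa using congrArg (fun y => (e y).1) hc) with h | h | h | h
    · exact aff_one_ne h1 (inj a 1 (by simpa using h))
    · exact aff_one_ne h2 (inj b 1 (by simpa using h))
    · exact h3 (aff_inj (inj b a h)).2
    · have := inj (b * a) 1 (by simpa using h)
      change aff 1 μ₂ * aff 1 μ₁ = 1 at this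
      rw [aff_mul, ← aff_one] at this
      exact h4 (by simpa [add_comm] using (aff_inj this).2)

theorem two_root (S : Subgroup SL(2, F)) {ν μ₁ μ₂ : F} (hν : ν ≠ 0) (h1 : μ₁ ≠ 0)
    (h2 : μ₂ ≠ 0) (h3 : μ₂ ≠ μ₁) (h4 : μ₂ + μ₁ ≠ 0) (hL : slLow ν ∈ S)
    (hU1 : slUp μ₁ ∈ S) (hU2 : slUp μ₂ ∈ S) : ∃ k : Subfield F,
    (∀ μ, slUp μ ∈ S → ν * μ ∈ k) ∧ ∀ c ∈ k, slUp (c / ν) ∈ S ∧ slLow (c * ν) ∈ S := by
  obtain ⟨p, hp⟩ := CharP.exists F
  have pp := CharP.char_is_prime F p
  have lift : ∀ u : SL(2, F), u ^ p = 1 → Matrix.SpecialLinearGroup.toPGL u ∈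
      S.map Matrix.SpecialLinearGroup.toPGL → u ∈ S := by
    intro u hu h
    rcases pp.eq_two_or_odd' with rfl | ho
    · obtain ⟨g, hg, e⟩ := h
      rcases toPGL_eq_iff.1 e with rfl | e
      · exact hg
      · have : -u = u := by
          ext i j
          simp [CharTwo.neg_eq]
        rwa [← this, ← e]
    · exact mem_of_toPGL_mem ho hu h
  obtain ⟨k, hk1, hk2⟩ := two_root_pgl (S.map Matrix.SpecialLinearGroup.toPGL) hν h1 h2 h3 h4
    ⟨_, hL, toPGL_slLow _⟩ ⟨_, hU1, toPGL_slUp _⟩ ⟨_, hU2, toPGL_slUp _⟩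
  refine ⟨k, fun μ h => hk1 μ ⟨_, h, toPGL_slUp _⟩, fun c hc => ⟨lift _ ?_ ?_, lift _ ?_ ?_⟩⟩
  · rw [slUp_pow, CharP.cast_eq_zero, zero_mul, slUp_zero]
  · rw [toPGL_slUp]; exact (hk2 c hc).1
  · rw [slLow_pow, CharP.cast_eq_zero, zero_mul, slLow_zero]
  · rw [toPGL_slLow]; exact (hk2 c hc).2

variable {G V : Type*} [Monoid G] [AddCommGroup V] [Module F V]

/-- `l` acts on the section `⟨a, v⟩ + W / W` by the matrix with entries `x y z w`. -/
def Sec (ρ : G →* Module.End F V) (N : Submonoid G) (W : Submodule F V) (a v : V)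
    (x y z w : F) : Prop :=
  ∃ l ∈ N, (∀ u ∈ W, ρ l u ∈ W) ∧ ρ l a - (x • a + z • v) ∈ W ∧ ρ l v - (y • a + w • v) ∈ W

omit [Finite F] in
lemma Sec.mul {ρ : G →* Module.End F V} {N : Submonoid G} {W : Submodule F V} {a v : V}
    {x y z w x' y' z' w' : F} (h : Sec ρ N W a v x y z w) (h' : Sec ρ N W a v x' y' z' w') :
    Sec ρ N W a v (x * x' + y * z') (x * y' + y * w') (z * x' + w * z') (z * y' + w * w') := by
  obtain ⟨l, hl, h1, h2, h3⟩ := h
  obtain ⟨l', hl', h1', h2', h3'⟩ := h'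
  refine ⟨l * l', N.mul_mem hl hl', fun u hu => by rw [map_mul]; exact h1 _ (h1' u hu), ?_, ?_⟩
  · have := W.add_mem (h1 _ h2') (W.add_mem (W.smul_mem x' h2) (W.smul_mem z' h3))
    convert this using 1
    simp only [map_mul, Module.End.mul_apply, map_sub, map_add, _root_.map_smul]
    module
  · have := W.add_mem (h1 _ h3') (W.add_mem (W.smul_mem y' h2) (W.smul_mem w' h3))
    convert this using 1
    simp only [map_mul, Module.End.mul_apply, map_sub, map_add, _root_.map_smul]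
    module

/-- The matrices of determinant one induced on a section. -/
def secSub (ρ : G →* Module.End F V) (N : Submonoid G) (W : Submodule F V) (a v : V) :
    Subgroup SL(2, F) :=
  let M : Submonoid SL(2, F) :=
    { carrier := {m | Sec ρ N W a v (m 0 0) (m 0 1) (m 1 0) (m 1 1)}
      mul_mem' := fun {m m'} h h' => by
        have := Sec.mul h h'
        simpa [Matrix.mul_apply, Fin.sum_univ_two] using this
      one_mem' := ⟨1, N.one_mem, fun u hu => by simpa using hu, by simp, by simp⟩ }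
  { M with
    inv_mem' := fun {m} h => by
      have h1 : m⁻¹ = m ^ (orderOf m - 1) := by
        apply inv_eq_of_mul_eq_one_right
        rw [← pow_succ', Nat.sub_add_cancel (orderOf_pos m), pow_orderOf_eq_one]
      rw [h1]; exact M.pow_mem h _ }

theorem sec_dickson {ρ : G →* Module.End F V} {N : Submonoid G} {W : Submodule F V} {a v : V}
    {ν μ₁ μ₂ : F} (hν : ν ≠ 0) (h1 : μ₁ ≠ 0) {k₀ : Subfield F} (h2 : μ₂ / μ₁ ∉ k₀)
    (hL : Sec ρ N W a v 1 0 ν 1) (hU1 : Sec ρ N W a v 1 μ₁ 0 1)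
    (hU2 : Sec ρ N W a v 1 μ₂ 0 1) : ∃ k : Subfield F,
    (∀ μ, Sec ρ N W a v 1 μ 0 1 → ν * μ ∈ k) ∧ ∀ c ∈ k, c ≠ 0 →
      (∃ l ∈ N, ρ l a - c • a ∈ W) ∧ ∃ l ∈ N, ρ l v - (c / ν) • a ∈ W := by
  have up : ∀ μ, slUp μ ∈ secSub ρ N W a v ↔ Sec ρ N W a v 1 μ 0 1 := fun μ => Iff.rfl
  have low : ∀ μ, slLow μ ∈ secSub ρ N W a v ↔ Sec ρ N W a v 1 0 μ 1 := fun μ => Iff.rfl
  obtain ⟨k, hk1, hk2⟩ := two_root (secSub ρ N W a v) (μ₂ := μ₂) hν h1
    (fun e => h2 (by rw [e, zero_div]; exact k₀.zero_mem))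
    (fun e => h2 (by rw [e, div_self h1]; exact k₀.one_mem))
    (fun e => h2 (by
      rw [eq_neg_of_add_eq_zero_left e, neg_div, div_self h1]; exact k₀.neg_mem k₀.one_mem))
    hL hU1 hU2
  refine ⟨k, hk1, fun c hc h0 => ⟨?_, ?_⟩⟩
  · obtain ⟨l, hl, -, h, -⟩ := ((low _).1 (hk2 _ (k.neg_mem (k.inv_mem hc))).2).mul
      (((up _).1 (hk2 _ (k.sub_mem hc k.one_mem)).1).mul hL)
    refine ⟨l, hl, ?_⟩
    convert h using 2
    have e1 : 1 * (1 * 1 + (c - 1) / ν * ν) + 0 * (0 * 1 + 1 * ν) = c := by field_simp; ring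
    have e2 : -c⁻¹ * ν * (1 * 1 + (c - 1) / ν * ν) + 1 * (0 * 1 + 1 * ν) = 0 := by
      field_simp; ring
    rw [e1, e2]; simp
  · obtain ⟨l, hl, -, -, h⟩ := ((low _).1 (hk2 _ (k.neg_mem (k.inv_mem hc))).2).mul
      ((up _).1 (hk2 _ hc).1)
    refine ⟨l, hl, ?_⟩
    convert h using 2
    have e2 : -c⁻¹ * ν * (c / ν) + 1 * 1 = 0 := by field_simp; ring
    rw [e2]; simp

end Root

end H4
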