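import Cfsg.Agent.H4.SfA
import Cfsg.Agent.H4.TbA

/-! Maximality of subfield subgroups of the special linear groups. -/

set_option autoImplicit false

namespace H4

open Matrix Cfsg.Geo
open scoped MatrixGroups

variable {ι : Type} {F : Type*} [Fintype ι] [DecidableEq ι] [Field F] {k : Subfield F}

/-- Vectors with entries in `k`. -/
def Rv (k : Subfield F) (v : ι → F) : Prop := ∀ i, v i ∈ k

/-- Functionals defined over `k`. -/
def Rf (k : Subfield F) (φ : (ι → F) →ₗ[F] F) : Prop := ∀ v, Rv k v → φ v ∈ k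

section Basic
omit [Fintype ι]

lemma Rv.single (i : ι) : Rv k (Pi.single i 1 : ι → F) := fun j => by
  by_cases h : j = i
  · subst h; simp [k.one_mem]
  · simp [h, k.zero_mem]

omit [DecidableEq ι]

lemma Rv.zero : Rv k (0 : ι → F) := fun _ => k.zero_mem
lemma Rv.add {u v : ι → F} (h : Rv k u) (h' : Rv k v) : Rv k (u + v) :=
  fun i => k.add_mem (h i) (h' i)
lemma Rv.neg {u : ι → F} (h : Rv k u) : Rv k (-u) := fun i => k.neg_mem (h i)
lemma Rv.sub {u v : ι → F} (h : Rv k u) (h' : Rv k v) : Rv k (u - v) :=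
  fun i => k.sub_mem (h i) (h' i)
lemma Rv.smul {c : F} (hc : c ∈ k) {u : ι → F} (h : Rv k u) : Rv k (c • u) :=
  fun i => k.mul_mem hc (h i)
lemma Rf.proj (i : ι) : Rf k (LinearMap.proj i : (ι → F) →ₗ[F] F) := fun _ h => h i
lemma Rf.sub {φ ψ : (ι → F) →ₗ[F] F} (h : Rf k φ) (h' : Rf k ψ) : Rf k (φ - ψ) :=
  fun v hv => k.sub_mem (h v hv) (h' v hv)
lemma Rf.smul {c : F} (hc : c ∈ k) {φ : (ι → F) →ₗ[F] F} (h : Rf k φ) : Rf k (c • φ) :=
  fun v hv => k.mul_mem hc (h v hv)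

end Basic

omit [DecidableEq ι] in
lemma Rf.dot {c : ι → F} (h : Rv k c) : Rf k (dotProductBilin F F c) :=
  fun v hv => k.sum_mem fun i _ => k.mul_mem (h i) (hv i)

lemma exists_single_ne {φ : (ι → F) →ₗ[F] F} (h : φ ≠ 0) : ∃ i, φ (Pi.single i 1) ≠ 0 := by
  by_contra hc
  push Not at hc
  exact h ((Pi.basisFun F ι).ext fun i => by simpa using hc i)

lemma Rf.exists_one {φ : (ι → F) →ₗ[F] F} (h : Rf k φ) (h0 : φ ≠ 0) : ∃ w, Rv k w ∧ φ w = 1 := by
  obtain ⟨i, hi⟩ := exists_single_ne h0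
  exact ⟨(φ (Pi.single i 1))⁻¹ • Pi.single i 1,
    (Rv.single i).smul (k.inv_mem (h _ (Rv.single i))), by simp [hi]⟩

omit [Fintype ι] [DecidableEq ι] in
lemma Rv.exists_one {a : ι → F} (h : Rv k a) (h0 : a ≠ 0) : ∃ ψ, Rf k ψ ∧ ψ a = 1 := by
  obtain ⟨i, hi⟩ := Function.ne_iff.1 h0
  exact ⟨(a i)⁻¹ • LinearMap.proj i, (Rf.proj i).smul (k.inv_mem (h i)), by
    simp at hi; simp [hi]⟩

lemma exists_delta (l : List ((ι → F) →ₗ[F] F)) (hl : ∀ φ ∈ l, Rf k φ) :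
    ∃ (S : Finset ι) (x : ι → ι → F), Fintype.card ι ≤ S.card + l.length ∧ ∀ s ∈ S,
      Rv k (x s) ∧ (∀ φ ∈ l, φ (x s) = 0) ∧ ∀ s' ∈ S, x s s' = if s' = s then 1 else 0 := by
  induction l with
  | nil => exact ⟨Finset.univ, fun s => Pi.single s 1, by simp,
      fun s _ => ⟨Rv.single s, by simp, fun s' _ => by simp [Pi.single_apply]⟩⟩
  | cons φ l ih =>
    obtain ⟨S, x, h1, h2⟩ := ih fun ψ h => hl ψ (List.mem_cons_of_mem _ h)
    have hφ := hl φ List.mem_cons_self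
    by_cases h : ∀ s ∈ S, φ (x s) = 0
    · exact ⟨S, x, by simp; omega, fun s hs => ⟨(h2 s hs).1, by
        simpa using ⟨h s hs, (h2 s hs).2.1⟩, (h2 s hs).2.2⟩⟩
    push Not at h
    obtain ⟨t, ht, h0⟩ := h
    refine ⟨S.erase t, fun s => x s - (φ (x s) / φ (x t)) • x t, by
      rw [Finset.card_erase_of_mem ht]; simp; omega, fun s hs => ?_⟩
    have hs' := Finset.mem_of_mem_erase hs
    refine ⟨(h2 s hs').1.sub ((h2 t ht).1.smul
      (k.div_mem (hφ _ (h2 s hs').1) (hφ _ (h2 t ht).1))), fun ψ hψ => ?_, fun s' h' => ?_⟩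
    · rcases List.mem_cons.1 hψ with rfl | hψ
      · simp [h0]
      · simp [(h2 s hs').2.1 ψ hψ, (h2 t ht).2.1 ψ hψ]
    · have h3 := Finset.mem_of_mem_erase h'
      simp [(h2 s hs').2.2 s' h3, (h2 t ht).2.2 s' h3, Finset.ne_of_mem_erase h']

lemma exists_pair (l : List (ι → F)) (l' : List ((ι → F) →ₗ[F] F)) (hl : ∀ v ∈ l, Rv k v)
    (hl' : ∀ φ ∈ l', Rf k φ) (h : l.length + l'.length < Fintype.card ι) :
    ∃ w χ, Rv k w ∧ Rf k χ ∧ (∀ v ∈ l, χ v = 0) ∧ (∀ φ ∈ l', φ w = 0) ∧ χ w = 1 := by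
  obtain ⟨S, c, h1, h2⟩ := exists_delta (k := k) (l.map (dotProductBilin F F)) (by
    simpa using fun v hv => Rf.dot (hl v hv))
  obtain ⟨T, x, h3, h4⟩ := exists_delta (k := k)
    (l' ++ Sᶜ.toList.map fun i => LinearMap.proj i) (by
      intro φ hφ
      rcases List.mem_append.1 hφ with h | h
      · exact hl' φ h
      · obtain ⟨i, -, rfl⟩ := List.mem_map.1 h
        exact Rf.proj i)
  obtain ⟨t, ht⟩ : T.Nonempty := by
    rw [← Finset.card_pos]
    have := S.card_le_univ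
    simp [Finset.card_compl] at h1 h3
    omega
  obtain ⟨r1, r2, r3⟩ := h4 t ht
  have hz : ∀ i, i ∉ S → x t i = 0 := fun i hi => r2 (LinearMap.proj i)
    (List.mem_append_right _ (List.mem_map.2 ⟨i, by simpa using hi, rfl⟩))
  have h5 : x t t = 1 := by simpa using r3 t ht
  have hS : t ∈ S := by
    by_contra hc
    exact one_ne_zero (h5.symm.trans (hz t hc))
  obtain ⟨q1, q2, q3⟩ := h2 t hS
  refine ⟨x t, dotProductBilin F F (c t), r1, Rf.dot q1, fun v hv => ?_,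
    fun φ hφ => r2 φ (List.mem_append_left _ hφ), ?_⟩
  · have := q2 _ (List.mem_map.2 ⟨v, hv, rfl⟩)
    simpa [dotProduct_comm] using this
  · change ∑ i, c t i * x t i = 1
    rw [Finset.sum_eq_single t]
    · simp [h5, q3 t hS]
    · intro i _ hi
      by_cases h : i ∈ S
      · simp [q3 i h, hi]
      · simp [hz i h]
    · simp

section SL
variable {N : Subgroup ((ι → F) ≃ₗ[F] (ι → F))} (hn : 5 ≤ Fintype.card ι)
  (hN : ∀ u φ, Rv k u → Rf k φ → φ u = 0 → TIn N u φ)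
include hn hN

lemma sl_spreadA {c : F} {a : ι → F} {χ χ₁ : (ι → F) →ₗ[F] F} (ha : Rv k a) (hχ : Rf k χ)
    (h0 : χ ≠ 0) (h1 : χ a = 0) (h : TIn N (c • a) χ) (hχ₁ : Rf k χ₁) (h2 : χ₁ a = 0) :
    TIn N (c • a) χ₁ := by
  obtain ⟨w₂, r2, e2⟩ := hχ.exists_one h0
  obtain ⟨w₁, χ₂, r1, r3, e3, e4, e5⟩ := exists_pair (k := k) [a, w₂] [χ₁] (by simp [ha, r2])
    (by simp [hχ₁]) (by simp; omega)
  simp only [List.mem_cons, List.not_mem_nil, or_false, forall_eq_or_imp, forall_eq] at e3 e4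
  have a1 := h.comm (hN w₂ χ₂ r2 r3 e3.2) (by simp [h1]) e3.2 (by simp [e3.1])
  rw [e2, one_smul] at a1
  have a2 := a1.comm (hN w₁ χ₁ r1 hχ₁ e4) (by simp [e3.1]) e4 (by simp [h2])
  rwa [e5, one_smul] at a2

lemma sl_spreadB {c : F} {a a' : ι → F} {χ : (ι → F) →ₗ[F] F} (ha : Rv k a) (hχ : Rf k χ)
    (h0 : a ≠ 0) (h1 : χ a = 0) (h : TIn N (c • a) χ) (ha' : Rv k a') (h2 : χ a' = 0) :
    TIn N (c • a') χ := by
  obtain ⟨ψ₂, r2, e2⟩ := ha.exists_one h0
  obtain ⟨a₂, ψ₁, r1, r3, e3, e4, e5⟩ := exists_pair (k := k) [a'] [χ, ψ₂] (by simp [ha'])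
    (by simp [hχ, r2]) (by simp; omega)
  simp only [List.mem_cons, List.not_mem_nil, or_false, forall_eq_or_imp, forall_eq] at e3 e4
  have a1 := (hN a₂ ψ₂ r1 r2 e4.2).comm h e4.2 (by simp [h1]) e4.1
  rw [map_smul, e2, smul_eq_mul, mul_one] at a1
  have a2 := (hN a' ψ₁ ha' r3 e3).comm a1 e3 (by simp [e4.1]) h2
  rwa [map_smul, e5, smul_eq_mul, mul_one] at a2

/-- The ring of coefficients of rational transvections in `N`. -/
def slRing : Subring F where
  carrier := {c | ∀ u φ, Rv k u → Rf k φ → φ u = 0 → TIn N (c • u) φ}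
  mul_mem' {c d} hc hd u φ hu hφ h := by
    obtain ⟨w, ψ, r1, r2, e1, e2, e3⟩ := exists_pair (k := k) [u] [φ] (by simp [hu])
      (by simp [hφ]) (by simp; omega)
    simp only [List.mem_cons, List.not_mem_nil, or_false, forall_eq] at e1 e2
    have := (hc u ψ hu r2 e1).comm (hd w φ r1 hφ e2) (by simp [e1]) (by simp [e2]) (by simp [h])
    rwa [map_smul, e3, smul_eq_mul, mul_one, smul_smul, mul_comm] at this
  one_mem' u φ hu hφ h := by rw [one_smul]; exact hN u φ hu hφ h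
  add_mem' {c d} hc hd u φ hu hφ h := by
    rw [add_smul]; exact (hc u φ hu hφ h).add_left (hd u φ hu hφ h) (by simp [h])
  zero_mem' u φ _ _ _ := by rw [zero_smul]; exact TIn.zero_left
  neg_mem' {c} hc u φ hu hφ h := by
    rw [neg_smul]; exact (hc u φ hu hφ h).neg_left (by simp [h])

lemma mem_slRing {c : F} {a : ι → F} {χ : (ι → F) →ₗ[F] F} (ha : Rv k a) (hχ : Rf k χ)
    (h0 : a ≠ 0) (h0' : χ ≠ 0) (h1 : χ a = 0) (h : TIn N (c • a) χ) : c ∈ slRing hn hN := by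
  intro u φ hu hφ e
  obtain ⟨w, ψ, r1, r2, e1, -, e3⟩ := exists_pair (k := k) [a, u] [] (by simp [hu, ha])
    (by simp) (by simp; omega)
  simp only [List.mem_cons, List.not_mem_nil, or_false, forall_eq_or_imp, forall_eq] at e1
  exact sl_spreadA hn hN hu r2 (fun h => by simp [h] at e3) e1.2
    (sl_spreadB hn hN ha r2 h0 e1.1 (sl_spreadA hn hN ha hχ h0' h1 h r2 e1.1) hu e1.2) hφ e

variable (hG : ∀ c ∈ slRing hn hN, c ∈ k)
include hG

lemma sl_good1 {a : ι → F} {φ : (ι → F) →ₗ[F] F} (ha : Rv k a) (h0 : a ≠ 0) (h1 : φ a = 0)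
    (h : TIn N a φ) : Rf k φ := by
  intro w hw
  obtain ⟨w₁, χ, -, r2, e1, -, e3⟩ := exists_pair (k := k) [a, w] [] (by simp [hw, ha])
    (by simp) (by simp; omega)
  simp only [List.mem_cons, List.not_mem_nil, or_false, forall_eq_or_imp, forall_eq] at e1
  exact hG _ (mem_slRing hn hN ha r2 h0 (fun h => by simp [h] at e3) e1.1
    (h.comm (hN w χ hw r2 e1.2) h1 e1.2 e1.1))

lemma sl_good2 {u : ι → F} {χ : (ι → F) →ₗ[F] F} (hχ : Rf k χ) (h0 : χ ≠ 0) (h1 : χ u = 0)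
    (h : TIn N u χ) : Rv k u := by
  intro i
  obtain ⟨a, ψ, r1, -, -, e2, e3⟩ := exists_pair (k := k) [] [χ, LinearMap.proj i] (by simp)
    (by simp [hχ, Rf.proj]) (by simp; omega)
  simp only [List.mem_cons, List.not_mem_nil, or_false, forall_eq_or_imp, forall_eq] at e2
  exact hG _ (mem_slRing hn hN r1 hχ (fun h => by simp [h] at e3) h0 e2.1
    ((hN a _ r1 (Rf.proj i) e2.2).comm h e2.2 h1 e2.1))

lemma sl_rat1 {u a : ι → F} {φ : (ι → F) →ₗ[F] F} (h1 : φ u = 0) (h : TIn N u φ) (ha : Rv k a)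
    (h0 : a ≠ 0) (h2 : φ a = 0) {x : ι → F} (hx : Rv k x) : Rv k (φ x • u) := by
  by_cases hφ : φ = 0
  · simpa [hφ] using Rv.zero
  by_cases hc : ∃ χ, Rf k χ ∧ χ a = 0 ∧ χ u ≠ 0
  · obtain ⟨χ, r, e1, e2⟩ := hc
    have a1 := sl_good1 hn hN hG ha h0 (by simp [h2])
      (TIn.smul_iff.1 ((hN a χ ha r e1).comm h e1 h1 h2))
    have a2 := sl_good2 hn hN hG (u := (χ u)⁻¹ • u) a1 (smul_ne_zero e2 hφ) (by simp [h1]) (by
      rw [TIn.smul_iff, smul_smul, inv_mul_cancel₀ e2, one_smul]; exact h)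
    have := a2.smul (a1 x hx)
    rwa [smul_smul, LinearMap.smul_apply, smul_eq_mul, mul_right_comm, mul_inv_cancel₀ e2,
      one_mul] at this
  · push Not at hc
    obtain ⟨i, hi⟩ := Function.ne_iff.1 h0
    simp only [Pi.zero_apply] at hi
    have e : u = (u i / a i) • a := funext fun j => by
      have := hc _ ((Rf.proj j).sub ((Rf.proj i).smul (k.div_mem (ha j) (ha i)))) (by simp [hi])
      simp at this
      simp only [Pi.smul_apply, smul_eq_mul]
      field_simp at this ⊢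
      linear_combination this
    rw [e] at h
    have a1 := sl_good1 hn hN hG ha h0 (by simp [h2]) (TIn.smul_iff.1 h)
    have := ha.smul (a1 x hx)
    rw [e, smul_smul, mul_comm]; exact this

lemma sl_rat2 {u : ι → F} {φ χ : (ι → F) →ₗ[F] F} (h1 : φ u = 0) (h : TIn N u φ) (hχ : Rf k χ)
    (h0 : χ ≠ 0) (h2 : χ u = 0) {x : ι → F} (hx : Rv k x) : Rv k (φ x • u) := by
  by_cases hu : u = 0
  · simpa [hu] using Rv.zero
  obtain ⟨w, ψ, r1, -, -, e2, e3⟩ := exists_pair (k := k) [] [χ] (by simp)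
    (by simp [hχ]) (by simp; omega)
  simp only [List.mem_cons, List.not_mem_nil, or_false, forall_eq] at e2
  by_cases hw : φ w = 0
  · exact sl_rat1 hn hN hG h1 h r1 (fun h => by simp [h] at e3) hw hx
  have a1 := sl_good2 hn hN hG hχ h0 (by simp [h2]) (h.comm (hN w χ r1 hχ e2) h1 e2 h2)
  have a2 := sl_good1 hn hN hG (φ := (φ w)⁻¹ • φ) a1 (smul_ne_zero hw hu) (by simp [h1]) (by
    rw [← TIn.smul_iff, smul_smul, inv_mul_cancel₀ hw, one_smul]; exact h)
  have := a1.smul (a2 x hx)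
  rwa [smul_smul, LinearMap.smul_apply, smul_eq_mul, mul_right_comm, inv_mul_cancel₀ hw,
    one_mul] at this

lemma sl_rat [Finite F] (hk : MaxSf k) {u : ι → F} {φ : (ι → F) →ₗ[F] F} (h1 : φ u = 0)
    (h : TIn N u φ) {y : ι → F} (hy : Rv k y) : Rv k (φ y • u) := by
  by_contra hc
  have n1 : ∀ a, Rv k a → a ≠ 0 → φ a ≠ 0 := fun a ha h0 e =>
    hc (sl_rat1 hn hN hG h1 h ha h0 e hy)
  have n2 : ∀ χ, Rf k χ → χ ≠ 0 → χ u ≠ 0 := fun χ hχ h0 e =>
    hc (sl_rat2 hn hN hG h1 h hχ h0 e hy)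
  obtain ⟨a, ψ, ra, -, -, -, e0⟩ := exists_pair (ι := ι) (k := k) [] [] (by simp) (by simp)
    (by simp; omega)
  have a0 : a ≠ 0 := fun h => by simp [h] at e0
  obtain ⟨x, χ₃, rx, r3, e1, -, e2⟩ := exists_pair (k := k) [a] [] (by simp [ra]) (by simp)
    (by simp; omega)
  obtain ⟨w₁, χ₁, rw1, r1, e3, -, e4⟩ := exists_pair (k := k) [a, x] [] (by simp [ra, rx])
    (by simp) (by simp; omega)
  obtain ⟨w₂, χ₂, -, r2, e5, e6, e7⟩ := exists_pair (k := k) [a, x] [χ₁]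
    (by simp [ra, rx]) (by simp [r1]) (by simp; omega)
  simp only [List.mem_cons, List.not_mem_nil, or_false, forall_eq_or_imp, forall_eq] at e1 e3 e5 e6
  have u1 : χ₁ u ≠ 0 := n2 _ r1 fun h => by simp [h] at e4
  have u2 : χ₂ u / χ₁ u ∉ k := fun hm => n2 _ (r2.sub (r1.smul hm))
    (fun h => by simpa [e6, e7] using LinearMap.congr_fun h w₂) (by simp [u1])
  let M : Submonoid ((ι → F) ≃ₗ[F] (ι → F)) :=
    { carrier := {l | l ∈ N ∧ ∀ x, l x - x ∈ Submodule.span F {a, u}}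
      mul_mem' := fun {l l'} h h' => ⟨N.mul_mem h.1 h'.1, fun x => by
        have := Submodule.add_mem _ (h.2 (l' x)) (h'.2 x)
        simpa using this⟩
      one_mem' := ⟨N.one_mem, by simp⟩ }
  have ma : a ∈ Submodule.span F {a, u} := Submodule.subset_span (by simp)
  have mu : u ∈ Submodule.span F {a, u} := Submodule.subset_span (by simp)
  have up : ∀ χ, Rf k χ → χ a = 0 → Sec LinearEquiv.automorphismGroup.toLinearMapMonoidHom M ⊥
      a u 1 (χ u) 0 1 := fun χ hχ e => by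
    obtain ⟨g, hg, eg⟩ := hN a χ ra hχ e
    refine ⟨g, ⟨hg, fun x => by simpa [eg] using Submodule.smul_mem _ _ ma⟩, by simp, ?_, ?_⟩
    · simp [eg, e]
    · simp [eg, add_comm]
  obtain ⟨k', hk1, hk2⟩ := sec_dickson (n1 a ra a0) u1 u2 (by
    obtain ⟨g, hg, eg⟩ := h
    refine ⟨g, ⟨hg, fun x => by simpa [eg] using Submodule.smul_mem _ _ mu⟩, by simp, ?_, ?_⟩
    · simp [eg]
    · simp [eg, h1]) (up χ₁ r1 e3.1) (up χ₂ r2 e5.1)
  have p0 : φ a * χ₁ u ≠ 0 := mul_ne_zero (n1 a ra a0) u1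
  have hk' : k' = ⊤ := hk.eq_top (x := χ₂ u / χ₁ u) (fun c hc => by
      have := k'.div_mem (hk1 _ (up _ (r1.smul hc) (by simp [e3.1]))) (hk1 _ (up _ r1 e3.1))
      convert this using 1
      simp; field_simp [n1 a ra a0]) (by
      have := k'.div_mem (hk1 _ (up _ r2 e5.1)) (hk1 _ (up _ r1 e3.1))
      convert this using 1
      field_simp [n1 a ra a0]) u2
  obtain ⟨β, hβ⟩ := hk.exists_not_mem
  have β0 : β ≠ 0 := fun e => hβ (e ▸ k.zero_mem)
  obtain ⟨⟨l, hl, el⟩, -⟩ := hk2 β (hk' ▸ Subfield.mem_top β) β0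
  have el : l a = β • a := by simpa [sub_eq_zero] using el
  obtain ⟨η, ξ, e8⟩ := Submodule.mem_span_pair.1 (hl.2 (l⁻¹ x))
  rw [lin_apply_inv] at e8
  have key : ∀ χ, Rf k χ → χ a = 0 → β * (χ x - ξ * χ u) ∈ k := fun χ hχ e => by
    have b1 := (hN a χ ra hχ e).conj hl.1
    rw [el, TIn.smul_iff] at b1
    have b2 := sl_good1 hn hN hG ra a0 (by
      have : (l⁻¹ : (ι → F) ≃ₗ[F] (ι → F)) a = β⁻¹ • a := lin_inv_eq (by
        rw [map_smul, el, smul_smul, inv_mul_cancel₀ β0, one_smul])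
      rw [LinearMap.smul_apply, LinearMap.comp_apply, LinearEquiv.coe_coe, this]
      simp [e]) b1 x rx
    have : (l⁻¹ : (ι → F) ≃ₗ[F] (ι → F)) x = x - (η • a + ξ • u) := by rw [e8]; abel
    rw [LinearMap.smul_apply, LinearMap.comp_apply, LinearEquiv.coe_coe, this] at b2
    simpa [e] using b2
  have k1 := key _ r1 e3.1
  have k2 := key _ r2 e5.1
  have ξ0 : ξ = 0 := by
    by_contra h0
    apply u2
    convert k.div_mem k2 k1 using 1
    rw [e3.2, e5.2]; field_simp; ring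
  simpa [ξ0, e2, hβ] using key _ r3 e1

lemma sl_norm [Finite F] (hk : MaxSf k) {g : (ι → F) ≃ₗ[F] (ι → F)} (hg : g ∈ N) :
    ∃ c : F, c ≠ 0 ∧ ∀ j, Rv k (c • g (Pi.single j 1)) := by
  have h1 : ∀ i j, i ≠ j → ∀ x, Rv k x → Rv k ((g⁻¹ : (ι → F) ≃ₗ[F] (ι → F)) x j •
      g (Pi.single i 1)) := fun i j hij x hx =>
    sl_rat hn hN hG hk (by simp [hij.symm])
      ((hN _ _ (Rv.single i) (Rf.proj j) (by simp [hij.symm])).conj hg) hx
  obtain ⟨j⟩ : Nonempty ι := Fintype.card_pos_iff.1 (by omega)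
  obtain ⟨m, hm⟩ := exists_single_ne (φ := LinearMap.proj j ∘ₗ
    ((g⁻¹ : (ι → F) ≃ₗ[F] (ι → F)) : (ι → F) →ₗ[F] (ι → F))) (fun h => by
      simpa using LinearMap.congr_fun h (g (Pi.single j 1)))
  refine ⟨_, hm, fun i => ?_⟩
  by_cases hij : i = j
  · subst hij
    obtain ⟨t, ht⟩ := Fintype.exists_ne_of_one_lt_card (by omega) i
    simpa using h1 i t ht.symm _ (h1 t i ht _ (Rv.single m))
  · exact h1 i j hij _ (Rv.single m)

end SL

theorem sl_sub_one [Finite F] (hk : MaxSf k) (hn : 5 ≤ Fintype.card ι) {H : Subgroup (GL ι F)}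
    (hH : ∀ g ∈ specialLinear ι F, (∀ i j, g.1 i j ∈ k) → g ∈ H) :
    specialLinear ι F ≤ H ∨ ∀ g ∈ H, ∃ c : F, c ≠ 0 ∧ ∀ i j, c * g.1 i j ∈ k := by
  have hN : ∀ u φ, Rv k u → Rf k φ → φ u = 0 → TIn (linOf H) u φ := fun u φ hu hφ h =>
    tIn_of_tvGL h (hH _ (tvGL_mem h) fun i j => by
      have := congrFun (tvGL_mulVec h (Pi.single j 1)) i
      rw [mulVec_single_one, col_apply] at this
      rw [this]; exact (Rv.single j).add (hu.smul (hφ _ (Rv.single j))) i)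
  by_cases hG : ∀ c ∈ slRing hn hN, c ∈ k
  · refine Or.inr fun g hg => ?_
    obtain ⟨c, h0, hc⟩ := sl_norm hn hN hG hk (glEquiv_mem_linOf.2 hg)
    exact ⟨c, h0, fun i j => by simpa using hc j i⟩
  · push Not at hG
    obtain ⟨c, h1, h2⟩ := hG
    refine Or.inl (sl_le_of_elem fun i j hij d => ?_)
    have := hk.subring (slRing hn hN)
      (fun c hc u φ hu hφ h => hN _ _ (Rv.smul hc hu) hφ (by simp [h])) h1 h2 d
      _ _ (Rv.single i) (Rf.proj j) (by simp [hij.symm])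
    rwa [← Pi.single_smul', smul_eq_mul, mul_one] at this

theorem sl_sub_max [Fintype F] (hn : 5 ≤ Fintype.card ι) {r : ℕ} (hr : r.Prime)
    (hF : Fintype.card F = Nat.card k ^ r) (P : GL ι F) :
    IsMaximalIn (specialLinear ι F) (subfieldSubgroup k P ⊓ specialLinear ι F) := by
  refine isMaximalIn_of (SetLike.not_le_iff_exists.1
    ((As.big_SL (by omega)).not_sub (by omega) hr hF P)) fun N hN g hg _ hg' => ?_
  rcases sl_sub_one (maxSf_of hr (by rwa [Nat.card_eq_fintype_card])) hn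
    (H := N.comap (MulAut.conj P).toMonoidHom) (fun x hx h => hN _ (As.sl_normal P x hx)
      (As.mem_subfieldSubgroup.2 ⟨1, one_ne_zero, fun i j => by
        have : As.cjG P⁻¹ (P * x * P⁻¹ : GL ι F).1 = x := by
          rw [As.cjG_coe]; congr 1; group
        change 1 * As.cjG P⁻¹ (P * x * P⁻¹ : GL ι F).1 i j ∈ k
        rw [this, one_mul]; exact h i j⟩)) with h | h
  · intro x hx
    have := h (As.sl_normal P⁻¹ x hx)
    simpa [mul_assoc] using this
  · obtain ⟨c, h0, hc⟩ := h (P⁻¹ * g * P⁻¹⁻¹) (by simpa [mul_assoc] using hg)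
    exact absurd (As.mem_subfieldSubgroup.2 ⟨c, h0, by rw [As.cjG_coe]; exact hc⟩) hg'

end H4
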