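import Cfsg.Agent.H4.SfB

/-! Rational structures on formed spaces and overgroups of subfield subgroups. -/

set_option autoImplicit false

namespace H4

open Module

namespace Form

variable {F : Type*} [Field F] {K : Kind F} {V : Type*} [AddCommGroup V] [Module F V]
  {f : Form K V}

/-- `R` is a `k`-form of `V` on which `ζ B` is `k`-valued. -/
structure Rat (f : Form K V) (k : Subfield F) (ζ : F) (R : AddSubgroup V) : Prop where
  nd : f.ND
  fd : FiniteDimensional F V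
  ζ0 : ζ ≠ 0
  smul : ∀ c ∈ k, ∀ x ∈ R, c • x ∈ R
  val : ∀ x ∈ R, ∀ y ∈ R, ζ * f.B x y ∈ k
  dual : ∀ c, (∀ x ∈ R, ζ * f.B x c ∈ k) → c ∈ R
  span : Submodule.span F (R : Set V) = ⊤
  iso : ∀ l : List V, (∀ x ∈ l, x ∈ R) → l.length ≤ 10 →
    ∃ a ∈ R, a ≠ 0 ∧ f.Q a = 0 ∧ ∀ x ∈ l, f.B x a = 0
  tv : ∀ x ∈ R, ∃ s ∈ k, K.T (ζ * s) = f.Q (ζ • x)
  σk : ∀ c ∈ k, K.σ c ∈ k

lemma B_ne_comm {x y : V} (h : f.B x y ≠ 0) : f.B y x ≠ 0 := fun e => h (refl e)

lemma eps_mem (K : Kind F) (k : Subfield F) : K.ε ∈ k := by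
  rcases mul_self_eq_one_iff.1 K.εε with h | h <;> rw [h]
  exacts [k.one_mem, k.neg_mem k.one_mem]

lemma InN.shift {N : Subgroup f.Isom} {a a₁ c d : V} (h1 : InN N a₁ d) (h : InN N a c)
    (e1 : f.B a₁ a = 0) (e2 : f.B d a = 0) (e3 : f.B a₁ c = 0) :
    InN N a ((K.ε * f.B d c) • a₁) := by
  obtain ⟨g, t, hg, hN⟩ := h1
  have := h.sub (h.conj_fix hN (hg.fix e1 e2))
  rwa [hg.shift e3, sub_sub_cancel] at this

namespace Rat
variable {k : Subfield F} {ζ : F} {R : AddSubgroup V} (h : f.Rat k ζ R)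
include h

lemma div_mem {x y z w : V} (hx : x ∈ R) (hy : y ∈ R) (hz : z ∈ R) (hw : w ∈ R) :
    f.B x y / f.B z w ∈ k := by
  rw [← mul_div_mul_left _ _ h.ζ0]
  exact k.div_mem (h.val _ hx _ hy) (h.val _ hz _ hw)

lemma span_perp (l : List V) (hl : ∀ x ∈ l, x ∈ R) {v : V} (hv : ∀ x ∈ l, f.B x v = 0) :
    v ∈ Submodule.span F {y | y ∈ R ∧ ∀ x ∈ l, f.B x y = 0} := by
  induction l generalizing v with
  | nil => simp [h.span]
  | cons a l ih =>
    have ha := hl a List.mem_cons_self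
    have h1 := ih (fun x hx => hl x (List.mem_cons_of_mem _ hx))
      fun x hx => hv x (List.mem_cons_of_mem _ hx)
    by_cases hc : ∀ y ∈ R, (∀ x ∈ l, f.B x y = 0) → f.B a y = 0
    · refine Submodule.span_mono (fun y hy => ?_) h1
      exact ⟨hy.1, by simpa using ⟨hc y hy.1 hy.2, hy.2⟩⟩
    push Not at hc
    obtain ⟨y, hy, e1, e2⟩ := hc
    let π : V →ₗ[F] V := LinearMap.id - ((f.B a y)⁻¹ • f.B a).smulRight y
    have e3 : π v = v := by simp [π, hv a List.mem_cons_self]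
    rw [← e3]
    refine Submodule.map_span_le π _ _ |>.2 (fun z hz => Submodule.subset_span ?_)
      (Submodule.mem_map_of_mem h1)
    constructor
    · refine R.sub_mem hz.1 (h.smul _ ?_ _ hy)
      have := h.div_mem ha hz.1 ha hy
      rwa [div_eq_inv_mul] at this
    · intro x hx
      rcases List.mem_cons.1 hx with rfl | hx
      · simp [π]; field_simp; ring
      · simp [π, hz.2 x hx, e1 x hx]

lemma sep (l : List V) (hl : ∀ x ∈ l, x ∈ R) {c : V} (hc : c ∉ Submodule.span F {x | x ∈ l}) :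
    ∃ y ∈ R, (∀ x ∈ l, f.B x y = 0) ∧ f.B y c ≠ 0 := by
  have := h.fd
  by_contra hn
  push Not at hn
  apply hc
  rw [← h.nd.perp_perp (Submodule.span F _), mem_perp]
  intro v hv
  have h1 := h.span_perp l hl (f.mem_perp_span.1 hv)
  apply refl
  refine Submodule.span_induction (p := fun v _ => f.B c v = 0) (fun y hy => refl (hn y hy.1 hy.2))
    (by simp) (fun x y _ _ h1 h2 => by simp [h1, h2]) (fun a x _ h1 => by simp [h1]) h1

lemma exists_ne {c : V} (hc : c ≠ 0) : ∃ y ∈ R, f.B y c ≠ 0 := by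
  obtain ⟨y, hy, -, e⟩ := h.sep [] (by simp) (c := c) (by simpa using hc)
  exact ⟨y, hy, e⟩

lemma σζ : K.σ ζ / ζ ∈ k := by
  obtain ⟨a, ha, h0, -⟩ := h.iso [] (by simp) (by simp)
  obtain ⟨y, hy, e⟩ := h.exists_ne h0
  have h1 := k.div_mem (k.mul_mem (eps_mem K k) (h.σk _ (h.val _ hy _ ha))) (h.val _ ha _ hy)
  have h2 := h.ζ0
  have h3 := K.ε_ne
  have h4 : K.σ (f.B y a) ≠ 0 := by simpa using e
  convert h1 using 1
  rw [f.symm y a, map_mul]; field_simp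

lemma val' {x y : V} (hx : x ∈ R) (hy : y ∈ R) : K.σ ζ * f.B x y ∈ k := by
  have := k.mul_mem h.σζ (h.val _ hx _ hy)
  convert this using 1
  field_simp [h.ζ0]

lemma sing_add {u w : V} (hu : u ∈ R) (hw : w ∈ R) (hQ : f.Q u = 0) (hB : f.B u w ≠ 0) :
    ∃ c ∈ k, f.Q (w + c • u) = 0 := by
  obtain ⟨s, hs, e⟩ := h.tv w hw
  have h1 := B_ne_comm hB
  have h2 := h.ζ0
  have h3 : K.σ ζ ≠ 0 := by simpa using h2
  refine ⟨-s / (K.σ ζ * f.B w u), k.div_mem (k.neg_mem hs) (h.val' hw hu), ?_⟩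
  have e1 : K.T (s / K.σ ζ) = f.Q w := by
    apply mul_left_cancel₀ (mul_ne_zero h2 h3)
    rw [← K.T_norm, ← f.Q_smul, ← e]; congr 1; field_simp
  rw [f.Q_add, f.Q_smul, hQ, f.B_smul_right, ← e1, mul_zero, add_zero, ← map_add]
  convert map_zero K.T
  field_simp; ring

lemma exists_dual_list (l : List V) (hl : ∀ x ∈ l, x ∈ R) : ∃ l' : List V, (∀ x ∈ l', x ∈ R) ∧
    l'.length ≤ l.length ∧
    ∀ v ∈ Submodule.span F {x | x ∈ l}, (∀ y ∈ l', f.B y v = 0) → v = 0 := by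
  induction l with
  | nil => exact ⟨[], by simp, by simp, by simp⟩
  | cons a l ih =>
    have hl' := fun x hx => hl x (List.mem_cons_of_mem _ hx)
    obtain ⟨l', h1, h2, h3⟩ := ih hl'
    have es : {x | x ∈ a :: l} = insert a {x | x ∈ l} := by ext; simp
    by_cases ha : a ∈ Submodule.span F {x | x ∈ l}
    · exact ⟨l', h1, by simp; omega, by rwa [es, Submodule.span_insert_eq_span ha]⟩
    obtain ⟨y, hy, e1, e2⟩ := h.sep l hl' ha
    refine ⟨y :: l', by simpa using ⟨hy, h1⟩, by simpa using h2, fun v hv e => ?_⟩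
    rw [es, Submodule.mem_span_insert] at hv
    obtain ⟨c, w, hw, rfl⟩ := hv
    have e3 : f.B y w = 0 := (f.mem_perp'.1 (f.mem_perp_span.2 e1)) w hw
    have e4 : c = 0 := by simpa [e3, e2] using e y List.mem_cons_self
    subst e4
    simpa using h3 w hw fun z hz => by simpa using e z (List.mem_cons_of_mem _ hz)

lemma exists_hyp (l : List V) (hl : ∀ x ∈ l, x ∈ R) (hn : l.length ≤ 5) :
    ∃ p ∈ R, ∃ p' ∈ R, f.Q p = 0 ∧ f.Q p' = 0 ∧ f.B p' p ≠ 0 ∧
      ∀ x ∈ l, f.B x p = 0 ∧ f.B x p' = 0 := by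
  obtain ⟨l', h1, h2, h3⟩ := h.exists_dual_list l hl
  obtain ⟨p, hp, h0, hQ, e⟩ := h.iso (l ++ l') (fun x hx => by
    rcases List.mem_append.1 hx with hx | hx
    exacts [hl x hx, h1 x hx]) (by simp; omega)
  obtain ⟨y, hy, e1, e2⟩ := h.sep l hl (c := p) fun hm =>
    h0 (h3 p hm fun y hy => e y (List.mem_append_right _ hy))
  obtain ⟨c, hc, e3⟩ := h.sing_add hp hy hQ (B_ne_comm e2)
  refine ⟨p, hp, _, R.add_mem hy (h.smul c hc p hp), hQ, e3, ?_, fun x hx => ?_⟩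
  · simpa [f.B_smul_left, B_self_of_Q hQ] using e2
  · have := e x (List.mem_append_left _ hx)
    simp [this, e1 x hx]

lemma mem_of_sing (l : List V) (hl : ∀ x ∈ l, x ∈ R) (hn : l.length ≤ 5) (A : AddSubgroup V)
    (hA : ∀ y ∈ R, f.Q y = 0 → (∀ x ∈ l, f.B x y = 0) → y ∈ A) {v : V} (hv : v ∈ R)
    (e : ∀ x ∈ l, f.B x v = 0) : v ∈ A := by
  obtain ⟨p, hp, p', hp', q1, q2, e1, e2⟩ := h.exists_hyp l hl hn
  have key : ∀ v ∈ R, (∀ x ∈ l, f.B x v = 0) → f.B p v ≠ 0 → v ∈ A := fun v hv e e3 => by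
    obtain ⟨c, hc, e4⟩ := h.sing_add hp hv q1 e3
    have := A.sub_mem (hA _ (R.add_mem hv (h.smul c hc p hp)) e4 fun x hx => by
      simp [e x hx, (e2 x hx).1]) (hA _ (h.smul c hc p hp) (by simp [f.Q_smul, q1]) fun x hx => by
      simp [(e2 x hx).1])
    simpa using this
  by_cases e3 : f.B p v = 0
  · have := A.sub_mem (key _ (R.add_mem hv hp') (fun x hx => by simp [e x hx, (e2 x hx).2])
      (by simpa [e3] using B_ne_comm e1)) (hA _ hp' q2 fun x hx => (e2 x hx).2)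
    simpa using this
  · exact key v hv e e3

lemma sep_sing (l : List V) (hl : ∀ x ∈ l, x ∈ R) (hn : l.length ≤ 5) {c : V}
    (hc : c ∉ Submodule.span F {x | x ∈ l}) :
    ∃ y ∈ R, f.Q y = 0 ∧ (∀ x ∈ l, f.B x y = 0) ∧ f.B y c ≠ 0 := by
  obtain ⟨y, hy, e1, e2⟩ := h.sep l hl hc
  by_contra hn'
  push Not at hn'
  exact B_ne_comm e2 (h.mem_of_sing l hl hn (LinearMap.ker (f.B c)).toAddSubgroup
    (fun y hy q e => refl (hn' y hy q e)) hy e1)

lemma dual_mod {a c : V} (ha : a ∈ R) (h0 : a ≠ 0)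
    (hc : ∀ b ∈ R, f.B a b = 0 → ζ * f.B b c ∈ k) : ∃ c₀ ∈ R, ∃ d : F, c = c₀ + d • a := by
  obtain ⟨y, hy, e⟩ := h.exists_ne h0
  refine ⟨c - (f.B y c / f.B y a) • a, h.dual _ fun x hx => ?_, f.B y c / f.B y a, by simp⟩
  have e' := B_ne_comm e
  have e1 : f.B a (x - (f.B a x / f.B a y) • y) = 0 := by simp [e']
  have := hc _ (R.sub_mem hx (h.smul _ (h.div_mem ha hx ha hy) _ hy)) e1
  convert this using 2
  have e2 := refl e1
  simp only [map_sub, LinearMap.sub_apply, f.B_smul_left, f.B_smul_right] at e2 ⊢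
  rw [sub_eq_zero.1 e2]
  field_simp

lemma coef_mem {x y p : V} {d : F} (hx : x ∈ R) (hy : y ∈ R) (hp : p ∈ R) (e : f.B y p ≠ 0)
    (e' : f.B y (x + d • p) = 0) : d ∈ k := by
  have : d = -(f.B y x / f.B y p) := by
    simp at e'; field_simp; linear_combination e'
  rw [this]; exact k.neg_mem (h.div_mem hy hx hy hp)

section Grp
variable {N : Subgroup f.Isom}
  (hN : ∀ g a b s, f.IsEich g a (ζ • b) (ζ * s) → a ∈ R → b ∈ R → s ∈ k → g ∈ N)
include hN

lemma inN {a b : V} (ha : a ∈ R) (hQ : f.Q a = 0) (hb : b ∈ R) (e : f.B a b = 0) :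
    InN N a (ζ • b) := by
  obtain ⟨s, hs, e1⟩ := h.tv b hb
  obtain ⟨g, hg⟩ := exists_isEich hQ (by simp [e] : f.B a (ζ • b) = 0) e1
  exact ⟨g, _, hg, hN g a b s hg ha hb hs⟩

lemma move {a a₁ a₂ c : V} (hc : InN N a c) (ha : a ∈ R) (h1 : a₁ ∈ R) (h2 : a₂ ∈ R)
    (q1 : f.Q a₁ = 0) (q2 : f.Q a₂ = 0) (e1 : f.B a a₁ = 0) (e2 : f.B a a₂ = 0)
    (e3 : f.B a₁ a₂ = 0) {η : F} (hη : η ∈ k) : InN N a ((η * f.B a₁ c) • ζ • a₂) := by
  obtain ⟨p, hp, p', hp', -, -, e4, e5⟩ := h.exists_hyp [a, a₁, a₂] (by simp [ha, h1, h2])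
    (by simp)
  simp only [List.mem_cons, List.not_mem_nil, or_false, forall_eq_or_imp, forall_eq] at e5
  obtain ⟨⟨b1, b2⟩, ⟨b3, b4⟩, b5, b6⟩ := e5
  have z1 : K.σ ζ ≠ 0 := by simpa using h.ζ0
  have hρ : η / (K.ε * (K.σ ζ * f.B p' p)) ∈ k :=
    k.div_mem hη (k.mul_mem (eps_mem K k) (h.val' hp' hp))
  obtain ⟨g, t, hg, hgN⟩ := h.inN hN h1 q1 (h.smul _ hρ p hp) (by simp [b3])
  have a1 := (hc.conj_fix hgN (hg.fix (refl e1) (by
    simp [f.B_smul_left, refl b1]))).sub hc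
  have a2 := (h.inN hN h2 q2 hp' b6).shift a1 (refl e2) (by simp [f.B_smul_left, refl b2]) (by
    simp [hg.app, refl e3, b5])
  convert a2 using 1
  rw [smul_smul]; congr 1
  simp only [hg.app, map_add, map_sub, map_smul, f.B_smul_left, refl b4, smul_eq_mul]
  field_simp [K.ε_ne]; ring

lemma spread1 {a a' : V} {c : F} (ha : a ∈ R) (ha' : a' ∈ R) (hc : InN N a (c • ζ • a'))
    (e : a' ∉ F ∙ a) {b : V} (hb : b ∈ R) (e1 : f.B a b = 0) : InN N a (c • ζ • b) := by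
  have hQ := hc.Qu
  refine h.mem_of_sing [a] (by simp [ha]) (by simp) ((inNGrp N a hQ).comap
    (DistribSMul.toAddMonoidHom V (c * ζ))) (fun a₂ h2 q2 e2 => ?_) hb (by simpa using e1) |>
    fun h => by simpa [mem_inNGrp, mul_smul] using h
  obtain ⟨p, hp, p', hp', q3, q4, e4, e5⟩ := h.exists_hyp [a, a', a₂] (by simp [ha, ha', h2])
    (by simp)
  simp only [List.mem_cons, List.not_mem_nil, or_false, forall_eq_or_imp, forall_eq] at e5 e2
  obtain ⟨⟨b1, b2⟩, ⟨b3, b4⟩, b5, b6⟩ := e5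
  obtain ⟨a₁, h1, q1, e6, e7⟩ := h.sep_sing [a, p] (by simp [ha, hp]) (by simp) (c := a') (by
    intro hm
    have es : {x | x ∈ [a, p]} = {a, p} := by ext; simp
    rw [es, Submodule.mem_span_pair] at hm
    obtain ⟨x, y, rfl⟩ := hm
    have : y = 0 := by simpa [refl b2, e4] using refl b4
    exact e (by simp [this, Submodule.smul_mem, Submodule.mem_span_singleton_self]))
  simp only [List.mem_cons, List.not_mem_nil, or_false, forall_eq_or_imp, forall_eq] at e6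
  have z0 := h.ζ0
  have a1 := h.move hN hc ha h1 hp q1 q3 e6.1 b1 (refl e6.2) (k.inv_mem (h.val _ h1 _ ha'))
  have e8 : (ζ * f.B a₁ a')⁻¹ * f.B a₁ (c • ζ • a') = c := by simp; field_simp
  rw [e8] at a1
  have a2 := h.move hN a1 ha hp' h2 q4 q2 b2 e2 (refl b6) (k.inv_mem (h.val _ hp' _ hp))
  have e9 : (ζ * f.B p' p)⁻¹ * f.B p' (c • ζ • p) = c := by simp; field_simp
  rw [e9] at a2
  simpa [mem_inNGrp, mul_smul] using a2

omit hN in
lemma mul_step {a a₁ : V} {c d : F} (ha : a ∈ R) (h1 : a₁ ∈ R) (e : f.B a₁ a = 0)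
    (hc : ∀ b ∈ R, f.B a b = 0 → InN N a (c • ζ • b))
    (hd : ∀ b ∈ R, f.B a₁ b = 0 → InN N a₁ (d • ζ • b)) : InN N a ((K.σ d * c) • ζ • a₁) := by
  obtain ⟨p, hp, p', hp', -, -, e4, e5⟩ := h.exists_hyp [a, a₁] (by simp [ha, h1]) (by simp)
  simp only [List.mem_cons, List.not_mem_nil, or_false, forall_eq_or_imp, forall_eq] at e5
  obtain ⟨⟨b1, b2⟩, b3, b4⟩ := e5
  have z1 : K.σ ζ ≠ 0 := by simpa using h.ζ0
  have hρ : (K.ε * (K.σ ζ * f.B p' p))⁻¹ ∈ k :=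
    k.inv_mem (k.mul_mem (eps_mem K k) (h.val' hp' hp))
  have := (hd p' hp' b4).shift (hc _ (h.smul _ hρ p hp) (by simp [b1])) e
    (by simp [f.B_smul_left, refl b2]) (by simp [b3])
  convert this using 1
  rw [smul_smul]; congr 1
  simp only [map_smul, f.B_smul_left, smul_eq_mul]
  field_simp [K.ε_ne]

lemma spread2 {a a' : V} {c : F} (ha : a ∈ R) (ha' : a' ∈ R) (hQ : f.Q a' = 0)
    (e : a ∉ F ∙ a') (e1 : f.B a a' = 0) (hc : ∀ b ∈ R, f.B a b = 0 → InN N a (c • ζ • b)) :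
    ∀ b ∈ R, f.B a' b = 0 → InN N a' (K.σ c • ζ • b) := fun b hb e2 => by
  have := h.mul_step (c := 1) ha' ha e1 (fun b hb e => by
    rw [one_smul]; exact h.inN hN ha' hQ hb e) hc
  rw [mul_one] at this
  exact h.spread1 hN ha' ha this e hb e2

/-- The ring of coefficients. -/
def ring : Subring F where
  carrier := {c | ∀ a ∈ R, f.Q a = 0 → ∀ b ∈ R, f.B a b = 0 → InN N a (c • ζ • b)}
  mul_mem' {c d} hc hd := by
    have key : ∀ c d : F, (∀ a ∈ R, f.Q a = 0 → ∀ b ∈ R, f.B a b = 0 → InN N a (c • ζ • b)) →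
        (∀ a ∈ R, f.Q a = 0 → ∀ b ∈ R, f.B a b = 0 → InN N a (d • ζ • b)) →
        ∀ a ∈ R, f.Q a = 0 → ∀ b ∈ R, f.B a b = 0 → InN N a ((K.σ d * c) • ζ • b) := by
      intro c d hc hd a ha hQ b hb e
      refine h.mem_of_sing [a] (by simp [ha]) (by simp) ((inNGrp N a hQ).comap
        (DistribSMul.toAddMonoidHom V (K.σ d * c * ζ))) (fun a₁ h1 q1 e1 => ?_) hb
        (by simpa using e) |> fun h => by simpa [mem_inNGrp, mul_smul] using h
      have := h.mul_step ha h1 (refl (by simpa using e1)) (hc a ha hQ) (hd a₁ h1 q1)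
      simpa [mem_inNGrp, mul_smul] using this
    have := key d _ hd (key 1 c (fun a ha hQ b hb e => by
      rw [one_smul]; exact h.inN hN ha hQ hb e) hc)
    rwa [mul_one, K.σσ] at this
  one_mem' a ha hQ b hb e := by rw [one_smul]; exact h.inN hN ha hQ hb e
  add_mem' {c d} hc hd a ha hQ b hb e := by
    rw [add_smul]; exact (hc a ha hQ b hb e).add (hd a ha hQ b hb e)
  zero_mem' a _ hQ b _ _ := by rw [zero_smul]; exact InN.zero hQ
  neg_mem' {c} hc a ha hQ b hb e := by rw [neg_smul]; exact (hc a ha hQ b hb e).neg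

lemma mem_ring {a a' : V} {c : F} (ha : a ∈ R) (h0 : a ≠ 0) (ha' : a' ∈ R)
    (hc : InN N a (c • ζ • a')) (e : a' ∉ F ∙ a) : c ∈ h.ring hN := by
  intro a₁ h1 q1
  obtain ⟨p, hp, p', hp', q3, -, e4, e5⟩ := h.exists_hyp [a, a₁] (by simp [ha, h1]) (by simp)
  simp only [List.mem_cons, List.not_mem_nil, or_false, forall_eq_or_imp, forall_eq] at e5
  have a1 := h.spread2 hN ha hp q3 (fun hm => by
    obtain ⟨x, rfl⟩ := Submodule.mem_span_singleton.1 hm
    have : x = 0 := by simpa [e4] using refl e5.1.2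
    exact h0 (by simp [this])) e5.1.1 fun b hb e1 => h.spread1 hN ha ha' hc e hb e1
  have a2 := h.spread2 hN hp h1 q1 (not_mem_span_of_B e4 (refl e5.2.2)) (refl e5.2.1) a1
  rwa [K.σσ] at a2

lemma inN_all [Finite F] (hk : MaxSf k) (hG : ¬ ∀ c ∈ h.ring hN, c ∈ k) {a : V} (ha : a ∈ R)
    (hQ : f.Q a = 0) {c : V} (e : f.B a c = 0) : InN N a c := by
  push Not at hG
  obtain ⟨x, h1, h2⟩ := hG
  have h3 := hk.subring (h.ring hN) (fun c hc a ha hQ b hb e => by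
    rw [smul_comm]; exact h.inN hN ha hQ (h.smul c hc b hb) (by simp [e])) h1 h2
  have := Submodule.span_induction (p := fun v _ => ∀ d : F, InN N a (d • v))
    (fun y hy d => by
      have := h3 (d / ζ) a ha hQ y hy.1 (by simpa using hy.2)
      rwa [smul_smul, div_mul_cancel₀ _ h.ζ0] at this)
    (fun d => by rw [smul_zero]; exact InN.zero hQ)
    (fun x y _ _ h1 h2 d => by rw [smul_add]; exact (h1 d).add (h2 d))
    (fun c x _ h1 d => by rw [smul_smul]; exact h1 _)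
    (h.span_perp [a] (by simp [ha]) (v := c) (by simpa using e)) 1
  rwa [one_smul] at this

variable (hG : ∀ c ∈ h.ring hN, c ∈ k)
include hG

lemma good {a c : V} (ha : a ∈ R) (h0 : a ≠ 0) (hc : InN N a (ζ • c)) :
    ∃ b ∈ R, ∃ d : F, c = b + d • a := by
  refine h.dual_mod ha h0 fun b hb e => ?_
  refine h.mem_of_sing [a] (by simp [ha]) (by simp) (k.toAddSubgroup.comap
    { toFun := fun b => ζ * f.B b c, map_zero' := by simp, map_add' := by simp [mul_add] })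
    (fun a₁ h1 q1 e1 => ?_) hb (by simpa using e)
  obtain ⟨p, hp, p', hp', q3, -, e4, e5⟩ := h.exists_hyp [a, a₁] (by simp [ha, h1]) (by simp)
  simp only [List.mem_cons, List.not_mem_nil, or_false, forall_eq_or_imp, forall_eq] at e5 e1
  have := h.move hN hc ha h1 hp q1 q3 e1 e5.1.1 e5.2.1 k.one_mem
  have := hG _ (h.mem_ring hN ha h0 hp this (not_mem_span_of_B e4 (refl e5.1.2)))
  simpa using this

lemma scale {l : f.Isom} (hl : l ∈ N) {a : V} (ha : a ∈ R) (h0 : a ≠ 0) (hQ : f.Q a = 0) {β : F}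
    (e : l.1 a = β • a) {b : V} (hb : b ∈ R) (e1 : f.B a b = 0) :
    ∃ b' ∈ R, ∃ d : F, K.σ β • l.1 b = b' + d • a := by
  have β0 : β ≠ 0 := fun h => isom_ne_zero l h0 (by simp [e, h])
  have := (h.inN hN ha hQ hb e1).conj hl
  rw [e] at this
  have := this.of_smul β0
  rw [map_smul, smul_comm] at this
  exact h.good hN hG ha h0 this

lemma norm_mem {l : f.Isom} (hl : l ∈ N) {a : V} (ha : a ∈ R) (h0 : a ≠ 0) (hQ : f.Q a = 0)
    {β : F} (e : l.1 a = β • a) : β * K.σ β ∈ k := by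
  obtain ⟨p, hp, p', hp', -, -, e4, e5⟩ := h.exists_hyp [a] (by simp [ha]) (by simp)
  simp only [List.mem_cons, List.not_mem_nil, or_false, forall_eq] at e5
  have β0 : β ≠ 0 := fun h => isom_ne_zero l h0 (by simp [e, h])
  have o : ∀ b, f.B a b = 0 → f.B a (l.1 b) = 0 := fun b eb => by
    have := isom_B l a b
    rw [e, f.B_smul_left, eb] at this
    simpa [β0] using this
  obtain ⟨b, hb, d, e1⟩ := h.scale hN hG hl ha h0 hQ e hp e5.1
  obtain ⟨b', hb', d', e2⟩ := h.scale hN hG hl ha h0 hQ e hp' e5.2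
  have o1 : f.B a b = 0 := by
    simpa [o p e5.1, B_self_of_Q hQ] using congrArg (f.B a) e1.symm
  have o2 : f.B a b' = 0 := by
    simpa [o p' e5.2, B_self_of_Q hQ] using congrArg (f.B a) e2.symm
  have e3 : f.B (K.σ β • l.1 p') (K.σ β • l.1 p) = f.B b' b := by
    rw [e1, e2]; simp [f.B_smul_left, o1, refl o2, B_self_of_Q hQ]
  rw [f.B_smul_left, f.B_smul_right, isom_B, K.σσ] at e3
  have : β * K.σ β = f.B b' b / f.B p' p := by rw [← e3]; field_simp
  rw [this]; exact h.div_mem hb' hb hp' hp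

lemma rat_of_fix {g : f.Isom} (hg : g ∈ N) (l : List V) (hl : ∀ x ∈ l, x ∈ R) (hn : l.length ≤ 4)
    (e : ∀ y, (∀ x ∈ l, f.B x y = 0) → g.1 y = y) {b : V} (hb : b ∈ R) : g.1 b ∈ R := by
  obtain ⟨p, hp, p', hp', q1, q2, e4, e5⟩ := h.exists_hyp (b :: l) (by simpa using ⟨hb, hl⟩)
    (by simp; omega)
  have f1 := e p fun x hx => (e5 x (List.mem_cons_of_mem _ hx)).1
  have f2 := e p' fun x hx => (e5 x (List.mem_cons_of_mem _ hx)).2
  obtain ⟨e6, e7⟩ := e5 b List.mem_cons_self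
  obtain ⟨b', hb', d, e1⟩ := h.scale hN hG hg hp (fun h => by simp [h] at e4) q1 (β := 1)
    (by simp [f1]) hb (refl e6)
  rw [map_one, one_smul] at e1
  rw [e1]
  refine R.add_mem hb' (h.smul _ (h.coef_mem hb' hp' hp e4 ?_) _ hp)
  rw [← e1, ← f2, isom_B]; exact refl e7

end Grp

theorem norm {g : V ≃ₗ[F] V} {η : F} (hη : η ∈ k) (h0 : η ≠ 0)
    (H : ∀ u ∈ R, ∀ v ∈ R, f.Q u = 0 → f.Q v = 0 → f.B u v = 0 → ∀ x ∈ R,
      (ζ * f.B u (g.symm x)) • g v - (η * (ζ * f.B v (g.symm x))) • g u ∈ R) :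
    ∃ c : F, c ≠ 0 ∧ ∀ x ∈ R, c • g x ∈ R := by
  have z0 := h.ζ0
  have h1 : ∀ u ∈ R, ∀ w ∈ R, f.Q u = 0 → f.Q w = 0 → f.B u w = 0 → ∀ x ∈ R,
      (ζ * f.B w (g.symm x)) • g u ∈ R := by
    intro u hu w hw q1 q2 e x hx
    obtain ⟨p, hp, p', hp', q3, q4, e4, e5⟩ := h.exists_hyp [u, w] (by simp [hu, hw]) (by simp)
    simp only [List.mem_cons, List.not_mem_nil, or_false, forall_eq_or_imp, forall_eq] at e5
    have := h.smul _ (k.neg_mem (k.inv_mem (k.mul_mem hη (h.val _ hp' _ hp)))) _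
      (H u hu p' hp' q1 q4 e5.1.2 _ (H w hw p hp q2 q3 e5.2.1 x hx))
    convert this using 1
    simp only [map_sub, map_smul, LinearEquiv.symm_apply_apply, e, e5.1.1, refl e5.2.2,
      smul_eq_mul]
    match_scalars <;> field_simp <;> ring
  have h2 : ∀ u ∈ R, ∀ w ∈ R, f.Q u = 0 → f.Q w = 0 → ∀ x ∈ R,
      (ζ * f.B w (g.symm x)) • g u ∈ R := by
    intro u hu w hw q1 q2 x hx
    obtain ⟨p, hp, p', hp', q3, q4, e4, e5⟩ := h.exists_hyp [u, w] (by simp [hu, hw]) (by simp)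
    simp only [List.mem_cons, List.not_mem_nil, or_false, forall_eq_or_imp, forall_eq] at e5
    have := h.smul _ (k.inv_mem (h.val _ hp' _ hp)) _
      (h1 u hu p' hp' q1 q4 e5.1.2 _ (h1 p hp w hw q3 q2 (refl e5.2.1) x hx))
    convert this using 1
    simp only [map_smul, LinearEquiv.symm_apply_apply, smul_eq_mul]
    match_scalars
    field_simp
  obtain ⟨x, hx, x0, -⟩ := h.iso [] (by simp) (by simp)
  obtain ⟨w, hw, q, -, e⟩ := h.sep_sing [] (by simp) (by simp) (c := g.symm x) (by simpa using x0)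
  refine ⟨_, mul_ne_zero z0 e, fun u hu => ?_⟩
  exact h.mem_of_sing [] (by simp) (by simp) (R.comap
    ((ζ * f.B w (g.symm x)) • (g : V →ₗ[F] V)).toAddMonoidHom)
    (fun y hy q1 _ => h2 y hy w hw q1 q x hx) hu (by simp)

end Rat

end Form

end H4
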