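import Cfsg.Agent.H4.SfC

/-! Overgroups of subfield subgroups: rationality of root elements. -/

set_option autoImplicit false

namespace H4

open Module

namespace Form

variable {F : Type*} [Field F] {K : Kind F} {V : Type*} [AddCommGroup V] [Module F V]

lemma IsEich.rebase {f : Form (quadKind F) V} {g : f.Isom} {u v : V} (h : f.IsEich g u v 0)
    {x y z w : F} (e : x * w - y * z = 1) : f.IsEich g (x • u + y • v) (z • u + w • v) 0 := by
  have q1 := h.Qu
  have q2 : f.Q v = 0 := by simpa using h.Tt.symm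
  have b := h.Buv
  have key : ∀ x y : F, f.Q (x • u + y • v) = 0 := fun x y => by
    simp [f.Q_add, f.Q_smul, q1, q2, f.B_smul_left, b]
  refine ⟨key _ _, by simp [b, refl b, B_self_of_Q q1, B_self_of_Q q2],
    by simp [key], fun a => ?_⟩
  rw [h.app]
  simp only [map_add, LinearMap.add_apply, f.B_smul_left, quadKind_σ, quadKind_ε]
  match_scalars
  · ring
  · linear_combination (-f.B u a) * e
  · linear_combination (f.B v a) * e

/-- The action of the isometry group. -/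
def act (f : Form K V) : f.Isom →* Module.End F V :=
  LinearEquiv.automorphismGroup.toLinearMapMonoidHom.comp f.Isom.subtype

@[simp] lemma act_apply (f : Form K V) (g : f.Isom) (x : V) : f.act g x = g.1 x := rfl

namespace Rat
variable {f : Form K V} {k : Subfield F} {ζ : F} {R : AddSubgroup V} (h : f.Rat k ζ R)
include h

lemma decomp {m : ℕ} (θ : Fin m → F)
    (hθ : ∀ c : F, ∃ x : Fin m → F, (∀ i, x i ∈ k) ∧ c = ∑ i, x i * θ i) (v : V) :
    ∃ x : Fin m → V, (∀ i, x i ∈ R) ∧ v = ∑ i, θ i • x i := by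
  have := Submodule.span_induction (s := (R : Set V))
    (p := fun v _ => ∀ d : F, ∃ x : Fin m → V, (∀ i, x i ∈ R) ∧ d • v = ∑ i, θ i • x i)
    (fun y hy d => by
      obtain ⟨x, h1, h2⟩ := hθ d
      exact ⟨fun i => x i • y, fun i => h.smul _ (h1 i) _ hy, by
        simp [h2, Finset.sum_smul, smul_smul, mul_comm]⟩)
    (fun d => ⟨0, fun _ => R.zero_mem, by simp⟩)
    (fun x y _ _ h1 h2 d => by
      obtain ⟨x', a1, a2⟩ := h1 d
      obtain ⟨y', b1, b2⟩ := h2 d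
      exact ⟨x' + y', fun i => R.add_mem (a1 i) (b1 i), by
        simp [a2, b2, Finset.sum_add_distrib]⟩)
    (fun c x _ h1 d => by rw [smul_smul]; exact h1 _) (x := v) (by rw [h.span]; trivial) 1
  rwa [one_smul] at this

variable {N : Subgroup f.Isom}
  (hN : ∀ g a b s, f.IsEich g a (ζ • b) (ζ * s) → a ∈ R → b ∈ R → s ∈ k → g ∈ N)
include hN

lemma E_le_of [Finite F] (hk : MaxSf k) (hG : ¬ ∀ c ∈ h.ring hN, c ∈ k)
    (hZ : ∀ a ∈ R, f.Q a = 0 → (∀ c, f.B a c = 0 → InN N a c) →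
      ∀ g t, f.IsEich g a 0 t → g ∈ N) : f.E ≤ N := by
  have := h.fd
  have key : ∀ a ∈ R, f.Q a = 0 → UIn N a := fun a ha hQ =>
    UIn.of_inN (hZ a ha hQ fun _ => h.inN_all hN hk hG ha hQ) fun _ => h.inN_all hN hk hG ha hQ
  obtain ⟨p, hp, p', hp', q1, q2, e, -⟩ := h.exists_hyp [] (by simp) (by simp)
  exact E_le_of_opp h.nd (key p' hp' q2) (key p hp q1) q2 q1 e

omit hN in
lemma center_of (hZ : ∀ t, K.T t = 0 → ∃ c, t = c - K.ε * K.σ c) : ∀ a ∈ R, f.Q a = 0 →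
    (∀ c, f.B a c = 0 → InN N a c) → ∀ g t, f.IsEich g a 0 t → g ∈ N := by
  intro a ha hQ H g t hg
  obtain ⟨c, rfl⟩ := hZ t (by rw [hg.Tt, f.Q_zero])
  obtain ⟨p, hp, p', hp', -, -, e4, e5⟩ := h.exists_hyp [a] (by simp [ha]) (by simp)
  simp only [List.mem_cons, List.not_mem_nil, or_false, forall_eq] at e5
  obtain ⟨g1, t1, a1, n1⟩ := H p' e5.2
  obtain ⟨g2, t2, a2, n2⟩ := H ((c / f.B p' p) • p) (by simp [e5.1])
  have := a1.commutator a2
  rw [f.symm p', f.B_smul_right, div_mul_cancel₀ _ e4] at this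
  rw [hg.ext this]
  exact N.mul_mem (N.mul_mem (N.mul_mem n1 n2) (N.inv_mem n1)) (N.inv_mem n2)

variable (hG : ∀ c ∈ h.ring hN, c ∈ k)
include hG

lemma rat_tv {t : f.Isom} {u : V} {s : F} (ht : f.IsEich t u 0 s) (hm : t ∈ N) {a : V}
    (ha : a ∈ R) (h0 : a ≠ 0) (hQ : f.Q a = 0) (e : f.B a u = 0) {b : V} (hb : b ∈ R) :
    t.1 b ∈ R := by
  by_cases hs : s = 0
  · simpa [ht.app, hs] using hb
  by_cases hu : u ∈ Submodule.span F {x | x ∈ [a]}
  · obtain ⟨c, rfl⟩ := Submodule.mem_span_singleton.1 (by simpa using hu)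
    exact h.rat_of_fix hN hG hm [a] (by simp [ha]) (by simp) (fun y hy =>
      ht.fix (by simp [f.B_smul_left, hy a (by simp)]) (by simp)) hb
  obtain ⟨y, hy, e1, e2⟩ := h.sep [a] (by simp [ha]) hu
  obtain ⟨b', hb', d, e3⟩ := h.scale hN hG hm ha h0 hQ (β := 1)
    (by rw [one_smul]; exact ht.fix (refl e) (by simp)) hy (by simpa using e1)
  refine h.rat_of_fix hN hG hm [a, b' - y] (by simp [ha, R.sub_mem hb' hy]) (by simp)
    (fun z hz => ht.fix ?_ (by simp)) hb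
  simp only [List.mem_cons, List.not_mem_nil, or_false, forall_eq_or_imp, forall_eq] at hz
  have e4 := congrArg (f.B z) e3
  have e5 := refl hz.2
  simp [ht.app, refl hz.1] at e4 e5
  apply refl
  have := mul_ne_zero K.ε_ne (mul_ne_zero hs (B_ne_comm e2))
  apply mul_left_cancel₀ this
  linear_combination -e4 - e5

lemma rat_tv' [Finite F] (hk : MaxSf k) (hσ : (∀ c, K.σ c = c) ∨ ∃ θ ∈ k, K.σ θ ≠ θ) {s₁ : F}
    (hs1 : s₁ ∈ k) (s0 : s₁ ≠ 0) (hT : K.T (ζ * s₁) = 0) {t : f.Isom} {u : V} {s : F}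
    (ht : f.IsEich t u 0 s) (hm : t ∈ N) {b : V} (hb : b ∈ R) : t.1 b ∈ R := by
  by_contra hc
  have hs : s ≠ 0 := fun hs => hc (by simpa [ht.app, hs] using hb)
  have n1 : ∀ a ∈ R, a ≠ 0 → f.Q a = 0 → f.B u a ≠ 0 := fun a ha h0 hQ e =>
    hc (h.rat_tv hN hG ht hm ha h0 hQ (refl e) hb)
  obtain ⟨a, ha, p, hp, q1, -, e1, -⟩ := h.exists_hyp [] (by simp) (by simp)
  obtain ⟨a', ha', p', hp', q2, -, e2, e3⟩ := h.exists_hyp [a, p] (by simp [ha, hp]) (by simp)
  simp only [List.mem_cons, List.not_mem_nil, or_false, forall_eq_or_imp, forall_eq] at e3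
  obtain ⟨⟨b1, b2⟩, b3, b4⟩ := e3
  have a0 : a ≠ 0 := fun h => by simp [h] at e1
  have qq : ∀ x y : F, f.Q (x • a + y • a') = 0 := fun x y => by
    simp [f.Q_add, f.Q_smul, q1, q2, f.B_smul_left, b1]
  have mm : ∀ x ∈ k, ∀ y ∈ k, x • a + y • a' ∈ R := fun x hx y hy =>
    R.add_mem (h.smul _ hx _ ha) (h.smul _ hy _ ha')
  have α0 := n1 a ha a0 q1
  set α := f.B u a with hα
  set α' := f.B u a' with hα'
  have sα : K.σ α ≠ 0 := by simpa using α0
  have r1 : α' / α ∉ k := fun hm => n1 _ (mm _ (k.neg_mem hm) _ k.one_mem)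
    (fun e => by simpa [refl b2, e2] using congrArg (f.B p') e) (qq _ _) (by
      simp [← hα, ← hα', α0])
  obtain ⟨x, hx, y, hy, r2⟩ : ∃ x ∈ k, ∃ y ∈ k,
      (x * α + y * α') * K.σ (x * α + y * α') / (α * K.σ α) ∉ k := by
    by_contra hn
    push Not at hn
    have tr : ∀ y ∈ k, y * (α' / α) + K.σ y * K.σ (α' / α) ∈ k := fun y hy => by
      have := k.sub_mem (k.sub_mem (hn 1 k.one_mem y hy) (hn 0 k.zero_mem y hy)) k.one_mem
      convert this using 1
      simp only [map_add, map_mul, map_div₀, map_one, map_zero]; field_simp; ring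
    rcases hσ with hσ | ⟨θ, h1, h2⟩
    · refine r1 (mem_of_sq_sq ?_ (by simpa [hσ] using tr 1 k.one_mem))
      convert hn 0 k.zero_mem 1 k.one_mem using 1
      simp only [hσ]; field_simp; ring
    · have := k.div_mem (k.sub_mem (tr θ h1) (k.mul_mem (h.σk θ h1) (tr 1 k.one_mem)))
        (k.sub_mem h1 (h.σk θ h1))
      refine r1 ?_
      convert this using 1
      have := sub_ne_zero.2 h2.symm
      rw [map_one, eq_div_iff this]; ring
  let W : Submodule F V := F ∙ (α' • a - α • a')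
  have wm : α' • a - α • a' ∈ W := Submodule.mem_span_singleton_self _
  have z0 := h.ζ0
  have ε0 := K.ε_ne
  have up : ∀ x ∈ k, ∀ y ∈ k, Sec f.act N.toSubmonoid W a u 1
      (-(ζ * s₁ / α) * ((x * α + y * α') * K.σ (x * α + y * α'))) 0 1 := by
    intro x hx y hy
    obtain ⟨g, hg⟩ := exists_isEich (v := 0) (t := ζ * s₁) (qq x y) (by simp)
      (by rw [hT, f.Q_zero])
    have f1 : g.1 a = a := hg.fix (by simp [f.B_smul_left, B_self_of_Q q1, refl b1]) (by simp)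
    have f2 : g.1 a' = a' := hg.fix (by simp [f.B_smul_left, B_self_of_Q q2, b1]) (by simp)
    refine ⟨g, hN g _ 0 s₁ (by rwa [smul_zero]) (mm x hx y hy) R.zero_mem hs1,
      fun w hw => ?_, by simp [f1], ?_⟩
    · obtain ⟨c, rfl⟩ := Submodule.mem_span_singleton.1 hw
      simpa [f1, f2] using hw
    · convert W.smul_mem (ζ * s₁ * K.σ (x * α + y * α') * y / α) wm using 1
      rw [act_apply, hg.app, f.symm u (x • a + y • a')]
      simp only [map_add, f.B_smul_right, ← hα, ← hα', map_zero, LinearMap.zero_apply]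
      have := K.εε
      match_scalars
      · ring
      · field_simp
        linear_combination (-(K.σ (x * α) + K.σ (y * α')) * x * α * ζ * s₁) * this
      · field_simp
        linear_combination (-(K.σ (x * α) + K.σ (y * α')) * y * ζ * s₁) * this
  have ν0 : -(K.ε * s * α) ≠ 0 := by simp [ε0, hs, α0]
  have μ0 : -(ζ * s₁ / α) * ((1 * α + 0 * α') * K.σ (1 * α + 0 * α')) ≠ 0 := by
    simp [z0, s0, α0]
  have er : -(ζ * s₁ / α) * ((x * α + y * α') * K.σ (x * α + y * α')) /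
      (-(ζ * s₁ / α) * ((1 * α + 0 * α') * K.σ (1 * α + 0 * α'))) =
      (x * α + y * α') * K.σ (x * α + y * α') / (α * K.σ α) := by
    simp only [one_mul, zero_mul, add_zero]; field_simp
  obtain ⟨k', hk1, hk2⟩ := sec_dickson ν0 μ0 (k₀ := k) (by rw [er]; exact r2) (by
    refine ⟨t, hm, fun w hw => ?_, ?_, by simp [ht.fix_u]⟩
    · obtain ⟨c, rfl⟩ := Submodule.mem_span_singleton.1 hw
      rwa [act_apply, ht.fix (by simp [← hα, ← hα', mul_comm]) (by simp)]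
    · simp [ht.app, ← hα, mul_assoc, sub_eq_add_neg])
    (up 1 k.one_mem 0 k.zero_mem) (up x hx y hy)
  have r3 := k'.div_mem (hk1 _ (up x hx y hy)) (hk1 _ (up 1 k.one_mem 0 k.zero_mem))
  rw [mul_div_mul_left _ _ ν0, er] at r3
  set ρ := (x * α + y * α') * K.σ (x * α + y * α') / (α * K.σ α) with hρ
  have sρ : K.σ ρ = ρ := by simp only [hρ, map_div₀, map_mul, K.σσ]; ring
  set ν := -(K.ε * s * α) with hν
  let C := ζ * (ν * K.σ ν) / (K.ε * s * (α * K.σ α))
  let θ : Fin 4 → F := ![C * (α * K.σ α), C * (α * K.σ α'), C * (α' * K.σ α), C * (α' * K.σ α')]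
  let M : AddSubgroup F :=
    { carrier := {c | ∃ x : Fin 4 → F, (∀ i, x i ∈ k) ∧ c = ∑ i, x i * θ i}
      add_mem' := by
        rintro _ _ ⟨x, h1, rfl⟩ ⟨y, h2, rfl⟩
        exact ⟨x + y, fun i => k.add_mem (h1 i) (h2 i), by
          simp only [Pi.add_apply, add_mul, Finset.sum_add_distrib]⟩
      zero_mem' := ⟨0, fun _ => k.zero_mem, by simp⟩
      neg_mem' := by
        rintro _ ⟨x, h1, rfl⟩
        exact ⟨-x, fun i => k.neg_mem (h1 i), by
          simp only [Pi.neg_apply, neg_mul, Finset.sum_neg_distrib]⟩ }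
  let Y : Submonoid F :=
    { carrier := {c | ∃ x ∈ k, ∃ β ∈ k', c = x * (β * K.σ β)}
      mul_mem' := by
        rintro _ _ ⟨x, h1, β, h2, rfl⟩ ⟨y, h3, γ, h4, rfl⟩
        exact ⟨_, k.mul_mem h1 h3, _, k'.mul_mem h2 h4, by rw [map_mul]; ring⟩
      one_mem' := ⟨1, k.one_mem, 1, k'.one_mem, by simp⟩ }
  have YM : (Y : Set F) ⊆ M := by
    rintro _ ⟨κ, hκ, β, hβ, rfl⟩
    by_cases β0 : β = 0
    · simp [β0]
    obtain ⟨-, l, hl, el⟩ := hk2 β hβ β0
    obtain ⟨ω, el⟩ := Submodule.mem_span_singleton.1 el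
    have el : l.1 u = (β / ν + ω * α') • a + (-(ω * α)) • a' := by
      rw [act_apply, eq_sub_iff_add_eq] at el
      rw [← el]; module
    have ht' := ht.conj l
    rw [map_zero] at ht'
    obtain ⟨z, hz, e5⟩ := h.exists_ne (isom_ne_zero l (x := u) fun h => α0 (by simp [hα, h]))
    have e6 := R.sub_mem hz (h.rat_tv hN hG ht' (N.mul_mem (N.mul_mem hl hm) (N.inv_mem hl))
      ha a0 q1 (by simp [el, B_self_of_Q q1, b1]) hz)
    set c := K.ε * (s * f.B (l.1 u) z) with hc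
    have c0 : c ≠ 0 := mul_ne_zero ε0 (mul_ne_zero hs (B_ne_comm e5))
    have e7 : c • l.1 u ∈ R := by
      rw [ht'.app] at e6; simpa using e6
    have l1 : c * (β / ν + ω * α') ∈ k := by
      convert h.div_mem hp e7 hp ha using 1
      simp [el, b3]; field_simp
    have l2 : c * -(ω * α) ∈ k := by
      convert h.div_mem hp' e7 hp' ha' using 1
      simp [el, refl b2]; field_simp
    have l3 := h.val _ e7 _ hz
    have e8 : f.B (l.1 u) z = c / (K.ε * s) := by rw [hc]; field_simp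
    rw [f.B_smul_left, e8] at l3
    have sc : K.σ c ≠ 0 := by simpa using c0
    have sν : K.σ ν ≠ 0 := by simpa using ν0
    have l4 := k.div_mem hκ l3
    refine ⟨![κ / (ζ * (K.σ c * (c / (K.ε * s)))) * (c * (β / ν + ω * α') *
        K.σ (c * (β / ν + ω * α'))),
      κ / (ζ * (K.σ c * (c / (K.ε * s)))) * (c * (β / ν + ω * α') * K.σ (c * -(ω * α))),
      κ / (ζ * (K.σ c * (c / (K.ε * s)))) * (c * -(ω * α) * K.σ (c * (β / ν + ω * α'))),
      κ / (ζ * (K.σ c * (c / (K.ε * s)))) * (c * -(ω * α) * K.σ (c * -(ω * α)))], fun i => ?_, ?_⟩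
    rotate_left
    · simp only [Fin.sum_univ_four, θ, C, Matrix.cons_val, map_mul, map_add, map_neg, map_div₀]
      field_simp; ring
    · fin_cases i
      · exact k.mul_mem l4 (k.mul_mem l1 (h.σk _ l1))
      · exact k.mul_mem l4 (k.mul_mem l1 (h.σk _ l2))
      · exact k.mul_mem l4 (k.mul_mem l2 (h.σk _ l1))
      · exact k.mul_mem l4 (k.mul_mem l2 (h.σk _ l2))
  obtain ⟨γ, g1, g2⟩ : ∃ γ ∈ k', γ * K.σ γ ∉ k := by
    by_contra hn
    push Not at hn
    refine r2 (mem_of_sq_succ ?_ ?_)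
    · simpa [sρ] using hn ρ r3
    · simpa [sρ] using hn (1 + ρ) (k'.add_mem k'.one_mem r3)
  have all := hk.subring (Subring.closure Y) (fun c hc => Subring.subset_closure
    ⟨c, hc, 1, k'.one_mem, by simp⟩) (Subring.subset_closure ⟨1, k.one_mem, γ, g1, by simp⟩) g2
  obtain ⟨xs, x1, x2⟩ := h.decomp θ (fun c => by
    have := Subring.mem_closure_iff.1 (all c)
    rw [Submonoid.closure_eq] at this
    exact (AddSubgroup.closure_le M).2 YM this) u
  obtain ⟨d, hd, d0, qd, ed⟩ := h.iso (List.ofFn xs) (by simp [x1]) (by simp)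
  refine n1 d hd d0 qd (refl ?_)
  rw [x2, map_sum]
  exact Finset.sum_eq_zero fun i _ => by simp [refl (ed (xs i) (List.mem_ofFn.2 ⟨i, rfl⟩))]

omit hG in
theorem main_tv [Finite F] (hk : MaxSf k) (hσ : (∀ c, K.σ c = c) ∨ ∃ θ ∈ k, K.σ θ ≠ θ) {s₁ : F}
    (hs1 : s₁ ∈ k) (s0 : s₁ ≠ 0) (hT : K.T (ζ * s₁) = 0)
    (hZ : ∀ a ∈ R, f.Q a = 0 → (∀ c, f.B a c = 0 → InN N a c) →
      ∀ g t, f.IsEich g a 0 t → g ∈ N) :
    f.E ≤ N ∨ ∀ g ∈ N, ∃ c : F, c ≠ 0 ∧ ∀ x ∈ R, c • g.1 x ∈ R := by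
  by_cases hG : ∀ c ∈ h.ring hN, c ∈ k
  swap
  · exact Or.inl (h.E_le_of hN hk hG hZ)
  refine Or.inr fun g hg => h.norm (k.neg_mem k.one_mem) (by simp) fun u hu v hv q1 q2 e x hx => ?_
  have key : ∀ u ∈ R, f.Q u = 0 → (ζ * f.B u (g.1.symm x)) • g.1 u ∈ R := fun u hu q => by
    obtain ⟨t, ht⟩ := exists_isEich (v := 0) (t := ζ * s₁) q (by simp) (by rw [hT, f.Q_zero])
    have ht' := ht.conj g
    rw [map_zero] at ht'
    have := h.smul _ (k.inv_mem (k.mul_mem (eps_mem K k) hs1)) _ (R.sub_mem hx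
      (h.rat_tv' hN hG hk hσ hs1 s0 hT ht' (N.mul_mem (N.mul_mem hg
        (hN t u 0 s₁ (by rwa [smul_zero]) hu R.zero_mem hs1)) (N.inv_mem hg)) hx))
    convert this using 1
    rw [ht'.app, isom_B_left]
    simp only [map_zero, LinearMap.zero_apply]
    have := K.ε_ne
    have e : (g⁻¹ : f.Isom).1 x = g.1.symm x := rfl
    rw [e]
    match_scalars <;> field_simp <;> ring
  have := R.sub_mem (R.sub_mem (key _ (R.add_mem hu hv) (by simp [f.Q_add, q1, q2, e]))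
    (key u hu q1)) (key v hv q2)
  convert this using 1
  simp only [map_add, LinearMap.add_apply]
  module

omit hG in
lemma main_sieg [Finite F] (hk : MaxSf k) (hZ : ∀ t, K.T t = 0 → ∃ c, t = c - K.ε * K.σ c)
    (H : (∀ c ∈ h.ring hN, c ∈ k) → ∀ t ∈ N, ∀ u v, f.IsEich t u v 0 → ∀ x ∈ R, t.1 x ∈ R) :
    f.E ≤ N ∨ ∀ g ∈ N, ∃ c : F, c ≠ 0 ∧ ∀ x ∈ R, c • g.1 x ∈ R := by
  by_cases hG : ∀ c ∈ h.ring hN, c ∈ k
  swap
  · exact Or.inl (h.E_le_of hN hk hG (h.center_of hZ))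
  have z0 := h.ζ0
  refine Or.inr fun g hg => h.norm (k.mul_mem (eps_mem K k) h.σζ) (by simp [K.ε_ne, z0])
    fun u hu v hv q1 q2 e x hx => ?_
  obtain ⟨t, ht⟩ := exists_isEich (u := u) (v := ζ • v) (t := 0) q1 (by simp [e])
    (by simp [f.Q_smul, q2])
  have ht' := ht.conj g
  have := R.sub_mem (H hG _ (N.mul_mem (N.mul_mem hg
    (hN t u v 0 (by rwa [mul_zero]) hu hv k.zero_mem)) (N.inv_mem hg)) _ _ ht' x hx) hx
  convert this using 1
  have e : (g⁻¹ : f.Isom).1 x = g.1.symm x := rfl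
  rw [ht'.app, isom_B_left, isom_B_left, f.B_smul_left, map_smul, e]
  match_scalars <;> field_simp <;> ring

omit hG in
theorem main_two [Finite F] (hk : MaxSf k) (hZ : ∀ t, K.T t = 0 → ∃ c, t = c - K.ε * K.σ c)
    {θ : F} (hθ : ∀ c : F, ∃ x ∈ k, ∃ y ∈ k, c = x + y * θ) :
    f.E ≤ N ∨ ∀ g ∈ N, ∃ c : F, c ≠ 0 ∧ ∀ x ∈ R, c • g.1 x ∈ R := by
  refine h.main_sieg hN hk hZ fun hG t ht u v e x hx => ?_
  have key := h.decomp ![1, θ] fun c => by
    obtain ⟨x, hx, y, hy, e⟩ := hθ c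
    exact ⟨![x, y], fun i => by fin_cases i <;> assumption, by simp [e]⟩
  obtain ⟨a, a1, a2⟩ := key u
  obtain ⟨b, b1, b2⟩ := key v
  refine h.rat_of_fix hN hG ht [a 0, a 1, b 0, b 1] (by simp [a1, b1]) (by simp)
    (fun y hy => ?_) hx
  simp only [List.mem_cons, List.not_mem_nil, or_false, forall_eq_or_imp, forall_eq] at hy
  exact e.fix (by simp [a2, f.B_smul_left, hy]) (by simp [b2, f.B_smul_left, hy])

end Rat

namespace Rat
variable {k : Subfield F} {ζ : F} {R : AddSubgroup V}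

section Alt
variable {f : Form (altKind F) V} (h : f.Rat k ζ R) {N : Subgroup f.Isom}
  (hN : ∀ g a b s, f.IsEich g a (ζ • b) (ζ * s) → a ∈ R → b ∈ R → s ∈ k → g ∈ N)
include h hN

lemma center_alt [Finite F] : ∀ a ∈ R, f.Q a = 0 →
    (∀ c, f.B a c = 0 → InN N a c) → ∀ g t, f.IsEich g a 0 t → g ∈ N := by
  intro a ha hQ H g t hg
  have key : ∀ x ∈ R, f.B a x = 0 → ∀ y, f.B a y = 0 → f.B y x = 1 → ∀ c : F, ∀ g,
      f.IsEich g a ((ζ * c) • x) (ζ * (c * c)) → g ∈ N := by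
    intro x hx e y e1 e2 c g hg
    obtain ⟨l, s, hl, lN⟩ := H (c • y) (by simp [e1])
    obtain ⟨t, ht⟩ := exists_isEich (v := 0) (t := ζ * 1) (alt_Q f x) (by simp)
      (by simp [alt_Q])
    have tN := hN t x 0 1 (by rwa [smul_zero]) hx R.zero_mem k.one_mem
    have ht' := ht.conj l
    have e3 : l.1 x = x + c • a := by simp [hl.shift e, e2]
    rw [e3, map_zero] at ht'
    have : g * t = l * t * l⁻¹ := isom_ext fun z => by
      rw [isom_mul_apply, ht'.app, hg.app, ht.app]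
      simp only [map_add, map_sub, map_smul, LinearMap.add_apply, f.B_smul_left, e, alt_B_self,
        map_zero, LinearMap.zero_apply, altKind_σ, altKind_ε, smul_eq_mul]
      module
    rw [eq_mul_inv_of_mul_eq this]
    exact N.mul_mem (N.mul_mem (N.mul_mem lN tN) (N.inv_mem lN)) (N.inv_mem tN)
  obtain ⟨p, hp, p', hp', -, -, e1, e2⟩ := h.exists_hyp [a] (by simp [ha]) (by simp)
  obtain ⟨r, hr, r', hr', -, -, e3, e4⟩ := h.exists_hyp [a, p, p'] (by simp [ha, hp, hp'])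
    (by simp)
  simp only [List.mem_cons, List.not_mem_nil, or_false, forall_eq_or_imp, forall_eq] at e2 e4
  have sq : ∀ c : F, ∃ g ∈ N, f.IsEich g a 0 (ζ * (c * c)) := fun c => by
    obtain ⟨g1, h1⟩ := exists_isEich (v := (ζ * c) • p) (t := ζ * (c * c)) hQ (by simp [e2.1])
      (by simp [alt_Q])
    obtain ⟨g2, h2⟩ := exists_isEich (v := (ζ * c) • r) (t := ζ * (c * c)) hQ (by simp [e4.1.1])
      (by simp [alt_Q])
    obtain ⟨g3, h3⟩ := exists_isEich (v := (ζ * c) • (p + r)) (t := ζ * (c * c)) hQ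
      (by simp [e2.1, e4.1.1]) (by simp [alt_Q])
    refine ⟨g1 * g2 * g3⁻¹, N.mul_mem (N.mul_mem
      (key p hp e2.1 ((f.B p' p)⁻¹ • p') (by simp [e2.2]) (by simp [e1]) c _ h1)
      (key r hr e4.1.1 ((f.B r' r)⁻¹ • r') (by simp [e4.1.2]) (by simp [e3]) c _ h2))
      (N.inv_mem (key _ (R.add_mem hp hr) (by simp [e2.1, e4.1.1]) ((f.B p' p)⁻¹ • p')
        (by simp [e2.2]) (by simp [e1, e4.2.2.1]) c _ h3)), ?_⟩
    convert (h1.mul h2).mul h3.inv using 1
    · simp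
    · simp [← smul_add, alt_B_self, e4.2.1.1, refl e4.2.1.1]
  obtain ⟨x, y, e⟩ := exists_sum_sq (t / ζ)
  obtain ⟨g1, n1, h1⟩ := sq x
  obtain ⟨g2, n2, h2⟩ := sq y
  have := h1.mul h2
  rw [add_zero, map_zero, add_zero, ← mul_add, ← e, mul_div_cancel₀ _ h.ζ0] at this
  rw [hg.ext this]; exact N.mul_mem n1 n2

theorem main_alt [Finite F] (hk : MaxSf k) :
    f.E ≤ N ∨ ∀ g ∈ N, ∃ c : F, c ≠ 0 ∧ ∀ x ∈ R, c • g.1 x ∈ R :=
  h.main_tv hN hk (Or.inl fun _ => rfl) k.one_mem one_ne_zero rfl (h.center_alt hN)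

end Alt

section Quad
variable {f : Form (quadKind F) V} (h : f.Rat k ζ R) {N : Subgroup f.Isom}
  (hN : ∀ g a b s, f.IsEich g a (ζ • b) (ζ * s) → a ∈ R → b ∈ R → s ∈ k → g ∈ N)
  (hG : ∀ c ∈ h.ring hN, c ∈ k)
include h hN hG

lemma rat_sieg {t : f.Isom} {u v : V} (ht : f.IsEich t u v 0) (hm : t ∈ N) {a : V}
    (ha : a ∈ R) (h0 : a ≠ 0) (hQ : f.Q a = 0) (e1 : f.B a u = 0) (e2 : f.B a v = 0) {b : V}
    (hb : b ∈ R) : t.1 b ∈ R := by
  have base : ∀ c, f.IsEich t a c 0 → t.1 b ∈ R := fun c hc => by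
    obtain ⟨b', hb', d, e⟩ := h.good hN hG ha h0 (c := ζ⁻¹ • c) (by
      rw [smul_smul, mul_inv_cancel₀ h.ζ0, one_smul]; exact ⟨t, 0, hc, hm⟩)
    refine h.rat_of_fix hN hG hm [a, b'] (by simp [ha, hb']) (by simp) (fun y hy => ?_) hb
    simp only [List.mem_cons, List.not_mem_nil, or_false, forall_eq_or_imp, forall_eq] at hy
    refine hc.fix hy.1 (refl ?_)
    simpa [refl hy.1, refl hy.2, h.ζ0] using congrArg (f.B y) e
  by_cases hu : u ∈ Submodule.span F {x | x ∈ [a]}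
  · obtain ⟨c, rfl⟩ := Submodule.mem_span_singleton.1 (by simpa using hu)
    simpa using base _ (by simpa using ht.of_smul hQ e2)
  obtain ⟨y, hy, e3, e4⟩ := h.sep [a] (by simp [ha]) hu
  have e3 : f.B a y = 0 := by simpa using e3
  have e4' := B_ne_comm e4
  by_cases hn : f.B u y • v - f.B v y • u ∈ Submodule.span F {x | x ∈ [a]}
  · obtain ⟨c, e5⟩ := Submodule.mem_span_singleton.1 (by simpa using hn)
    by_cases c0 : c = 0
    · have : v = (f.B v y / f.B u y) • u := by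
        rw [c0, zero_smul, eq_comm, sub_eq_zero] at e5
        rw [div_eq_inv_mul, mul_smul, ← e5, smul_smul, inv_mul_cancel₀ e4', one_smul]
      rw [ht.app, this]
      simpa [smul_smul, mul_comm] using hb
    · refine base (-(c / f.B u y) • u) ?_
      convert ht.rebase (x := -(f.B v y / c)) (y := f.B u y / c) (z := -(c / f.B u y)) (w := 0)
        (by field_simp; ring) using 1
      · apply smul_right_injective V c0
        simp only [e5]
        match_scalars <;> field_simp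
      · simp
  obtain ⟨z, hz, e5, e6⟩ := h.sep [a] (by simp [ha]) hn
  have fa : t.1 a = (1 : F) • a := by rw [one_smul]; exact ht.fix (refl e1) (refl e2)
  obtain ⟨y', hy', d, e7⟩ := h.scale hN hG hm ha h0 hQ fa hy e3
  obtain ⟨z', hz', d', e8⟩ := h.scale hN hG hm ha h0 hQ fa hz (by simpa using e5)
  refine h.rat_of_fix hN hG hm [a, y' - y, z' - z]
    (by simp [ha, R.sub_mem hy' hy, R.sub_mem hz' hz]) (by simp) (fun x hx => ?_) hb
  simp only [List.mem_cons, List.not_mem_nil, or_false, forall_eq_or_imp, forall_eq] at hx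
  have i1 := congrArg (f.B x) e7
  have i2 := congrArg (f.B x) e8
  have i3 := refl hx.2.1
  have i4 := refl hx.2.2
  simp [ht.app, refl hx.1] at i1 i2 i3 i4 e6
  rw [quad_symm f z v, quad_symm f z u] at e6
  refine ht.fix (refl (mul_left_cancel₀ e6 ?_)) (refl (mul_left_cancel₀ e6 ?_))
  · linear_combination f.B u z * (i1 + i3) - f.B u y * (i2 + i4)
  · linear_combination f.B v z * (i1 + i3) - f.B v y * (i2 + i4)

lemma rat_sieg' [Finite F] (hk : MaxSf k) {t : f.Isom} {u v : V} (ht : f.IsEich t u v 0)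
    (hm : t ∈ N) {b : V} (hb : b ∈ R) : t.1 b ∈ R := by
  by_contra hc
  obtain ⟨a₀, ha₀, a0, q0, -⟩ := h.iso [] (by simp) (by simp)
  obtain ⟨u, v, ht, e0⟩ : ∃ u v, f.IsEich t u v 0 ∧ f.B a₀ v = 0 := by
    by_cases e : f.B a₀ v = 0
    · exact ⟨u, v, ht, e⟩
    · exact ⟨_, _, ht.rebase (x := 0) (y := 1) (z := -1) (w := f.B a₀ u / f.B a₀ v) (by simp),
        by simp [e]⟩
  have n1 : ∀ a ∈ R, a ≠ 0 → f.Q a = 0 → f.B a v = 0 → f.B u a ≠ 0 := fun a ha h0 hQ e e' =>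
    hc (h.rat_sieg hN hG ht hm ha h0 hQ (refl e') e hb)
  have z0 := h.ζ0
  have alt : ∀ a ∈ R, a ≠ 0 → (∃ b₁ ∈ R, ∃ b₂ ∈ R, f.B a b₁ = 0 ∧ f.B a b₂ = 0 ∧
      f.B b₁ v ≠ 0 ∧ f.B b₂ v / f.B b₁ v ∉ k) ∨ ∃ c ∈ R, ∃ x y : F, v = x • c + y • a ∧
        (x = 0 ∨ ∃ d, y = x * d) := fun a ha h0 => by
    by_cases hv : v ∈ Submodule.span F {x | x ∈ [a]}
    · obtain ⟨c, e⟩ := Submodule.mem_span_singleton.1 (by simpa using hv)
      exact Or.inr ⟨0, R.zero_mem, 0, c, by simp [e], Or.inl rfl⟩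
    obtain ⟨y, hy, e1, e2⟩ := h.sep [a] (by simp [ha]) hv
    by_contra hn
    push Not at hn
    obtain ⟨c, hc, d, e⟩ := h.dual_mod ha h0 (c := (ζ * f.B y v)⁻¹ • v) fun b hb e => by
      convert hn.1 y hy b hb (by simpa using e1) e e2 using 1
      simp; field_simp
    refine (hn.2 c hc (ζ * f.B y v) (ζ * f.B y v * d) ?_).2 d rfl
    rw [mul_smul _ d, ← smul_add, ← e, smul_smul, mul_inv_cancel₀ (mul_ne_zero z0 e2), one_smul]
  have q2 : f.Q v = 0 := by simpa using ht.Tt.symm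
  obtain ⟨a, ha, a0, q1, e1, b₁, h1, b₂, h2, e2, e3, e4, e5⟩ : ∃ a ∈ R, a ≠ 0 ∧ f.Q a = 0 ∧
      f.B a v = 0 ∧ ∃ b₁ ∈ R, ∃ b₂ ∈ R, f.B a b₁ = 0 ∧ f.B a b₂ = 0 ∧
      f.B b₁ v ≠ 0 ∧ f.B b₂ v / f.B b₁ v ∉ k := by
    rcases alt a₀ ha₀ a0 with H | ⟨c, hc', x, y, e, -⟩
    · exact ⟨a₀, ha₀, a0, q0, e0, H⟩
    obtain ⟨p, hp, p', hp', q3, -, e4, e5⟩ := h.exists_hyp [a₀, c] (by simp [ha₀, hc']) (by simp)
    simp only [List.mem_cons, List.not_mem_nil, or_false, forall_eq_or_imp, forall_eq] at e5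
    have p0 : p ≠ 0 := fun h => by simp [h] at e4
    have e6 : f.B p' v = 0 := by simp [e, refl e5.1.2, refl e5.2.2]
    have v0 : v ≠ 0 := fun e => hc (by simpa [ht.app, e] using hb)
    rcases alt p hp p0 with H | ⟨c', hc'', x', y', e', H⟩
    · exact ⟨p, hp, p0, q3, by simp [e, refl e5.1.1, refl e5.2.1], H⟩
    exfalso
    rcases H with rfl | ⟨d, rfl⟩
    · have : y' = 0 := by simpa [e', e4] using e6
      exact v0 (by simp [e', this])
    rw [mul_smul, ← smul_add] at e'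
    have x0 : x' ≠ 0 := fun h => v0 (by simp [e', h])
    have hd := h.coef_mem hc'' hp' hp e4 (d := d) (by
      rw [e', f.B_smul_right] at e6; simpa [x0] using e6)
    refine n1 _ (R.add_mem hc'' (h.smul _ hd _ hp)) (fun h => v0 (by simp [e', h])) ?_ ?_ ?_
    · rw [e', f.Q_smul] at q2; simpa [x0] using q2
    · have := B_self_of_Q q2
      rw [e', f.B_smul_left] at this
      rw [e']; simpa only [quadKind_σ, mul_eq_zero, x0, false_or] using this
    · have := ht.Buv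
      rw [e', f.B_smul_right] at this
      simpa only [mul_eq_zero, x0, false_or] using this
  have up : ∀ b ∈ R, f.B a b = 0 → Sec f.act N.toSubmonoid ⊥ a v 1 (-(ζ * f.B b v)) 0 1 := by
    intro b hb e
    obtain ⟨g, s, hg, gN⟩ := h.inN hN ha q1 hb e
    exact ⟨g, gN, by simp, by simp [hg.fix_u], by simp [hg.shift e1, add_comm, sub_eq_add_neg]⟩
  have ν0 := n1 a ha a0 q1 e1
  have μ0 : -(ζ * f.B b₁ v) ≠ 0 := by simp [z0, e4]
  have er : -(ζ * f.B b₂ v) / -(ζ * f.B b₁ v) = f.B b₂ v / f.B b₁ v := by field_simp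
  obtain ⟨k', hk1, hk2⟩ := sec_dickson ν0 μ0 (k₀ := k) (by rw [er]; exact e5)
    ⟨t, hm, by simp, by simp [ht.app, refl e1], by
      simp [ht.fix ht.Buv (B_self_of_Q q2)]⟩ (up b₁ h1 e2) (up b₂ h2 e3)
  have hk' : k' = ⊤ := hk.eq_top (fun c hc => by
      convert k'.div_mem (hk1 _ (up _ (h.smul c hc _ h1) (by simp [e2]))) (hk1 _ (up _ h1 e2))
        using 1
      simp; field_simp) (by
      have := k'.div_mem (hk1 _ (up _ h2 e3)) (hk1 _ (up _ h1 e2))
      rwa [mul_div_mul_left _ _ ν0, er] at this) e5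
  have sq : ∀ β : F, β * β ∈ k := fun β => by
    by_cases β0 : β = 0
    · simp [β0, k.zero_mem]
    obtain ⟨⟨l, hl, el⟩, -⟩ := hk2 β (hk' ▸ Subfield.mem_top β) β0
    exact h.norm_mem hN hG hl ha a0 q1 (by simpa [sub_eq_zero] using el)
  obtain ⟨β, hβ⟩ := hk.exists_not_mem
  exact hβ (mem_of_sq_succ (sq _) (sq _))

omit hG in
theorem main_quad [Finite F] (hk : MaxSf k) :
    f.E ≤ N ∨ ∀ g ∈ N, ∃ c : F, c ≠ 0 ∧ ∀ x ∈ R, c • g.1 x ∈ R :=
  h.main_sieg hN hk (fun t ht => ⟨0, by simpa using ht⟩)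
    fun hG _ ht _ _ e _ hx => h.rat_sieg' hN hG hk e ht hx

end Quad

end Rat

end Form

end H4
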