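import Cfsg.Agent.H4.TbE

/-! # Types of quadratic spaces with extra structure -/

set_option autoImplicit false

namespace H4.As
open Matrix Cfsg Cfsg.Geo Module
open scoped MatrixGroups Kronecker commutatorElement

variable {ι μ κ : Type} [Fintype ι] [DecidableEq ι] [Fintype μ] [DecidableEq μ] [Fintype κ]
  [DecidableEq κ] {F : Type*} [Field F] {Q : (ι → F) → F}

local notation "σ₀" => RingHom.id F
local notation "pol" => QuadraticMap.polar

lemma plus_of_le (hQ : IsNondegenerateQuadraticForm Q) {U : Submodule F (ι → F)}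
    (hU : IsTotallySingularQuad Q U) (h : Fintype.card ι ≤ 2 * finrank F U) : IsPlusTypeOn Q ⊤ := by
  have := ((q_ts hQ).2 hU).two_mul_finrank_le (qForm_ND hQ)
  exact ⟨U, le_top, hU, by simp at this ⊢; omega⟩

lemma plus_of_supp (hQ : IsNondegenerateQuadraticForm Q) {e : ι ≃ μ} {P : GL ι F} {p : μ → Prop}
    [DecidablePred p] (h : ∀ v ∈ supp F p, Q (tv e P v) = 0)
    (hc : Fintype.card μ ≤ 2 * Fintype.card {a // p a}) : IsPlusTypeOn Q ⊤ := by
  refine plus_of_le hQ (U := (supp F p).map (tv e P).toLinearMap) ?_ ?_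
  · rintro _ ⟨v, hv, rfl⟩
    exact h v hv
  · have := finrank_supp (F := F) p
    rw [LinearEquiv.finrank_map_eq, Fintype.card_congr e]
    omega

lemma plus_of_tensor (hQ : IsNondegenerateQuadraticForm Q) {m : ℕ} {e : ι ≃ Fin 2 × Fin m}
    {P : GL ι F} (h : ∀ (x : Fin 2 → F) (y : Fin m → F), Q (tv e P fun a => x a.1 * y a.2) = 0) :
    IsPlusTypeOn Q ⊤ := by
  refine plus_of_supp hQ (e := e) (P := P) (p := fun a => a.1 = 0) (fun v hv => ?_) ?_
  · convert h (Pi.single 0 1) fun j => v (0, j) using 2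
    congr 1
    funext ⟨i, j⟩
    fin_cases i
    · simp
    · simpa using hv (1, j) (by simp)
  · rw [Fintype.card_prod, Fintype.card_fin, Fintype.card_fin]
    refine Nat.mul_le_mul_left 2 ?_
    simpa using Fintype.card_le_of_injective (fun j : Fin m =>
      (⟨(0, j), rfl⟩ : {a : Fin 2 × Fin m // a.1 = 0})) fun a b h => by simpa using h

lemma plus_of_power (hQ : IsNondegenerateQuadraticForm Q) {t : ℕ} {e : ι ≃ (Fin t → Fin 2)}
    {P : GL ι F} {i : Fin t}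
    (h : ∀ v ∈ supp F fun a : Fin t → Fin 2 => a i = 0, Q (tv e P v) = 0) : IsPlusTypeOn Q ⊤ := by
  refine plus_of_supp hQ h ?_
  have := Fintype.card_le_of_injective (fun a : Fin t → Fin 2 =>
    ((a i, ⟨Function.update a i 0, by simp⟩) : Fin 2 × {a : Fin t → Fin 2 // a i = 0})) fun a b h => by
      simp only [Prod.mk.injEq, Subtype.mk.injEq] at h
      rw [← Function.update_eq_self i a, ← Function.update_idem 0, h.2, h.1, Function.update_idem,
        Function.update_eq_self]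
  rwa [Fintype.card_prod, Fintype.card_fin] at this

variable [Fintype F]

lemma plus_of_invol (hQ : IsNondegenerateQuadraticForm Q) (h2 : (2 : F) ≠ 0)
    (h4 : 4 ∣ Fintype.card ι) {x y : GL ι F} (hx : x ∈ Iso (pol Q)) (hy : y ∈ Iso (pol Q))
    (h1 : x * x = 1) (h : x.1 * y.1 = -(y.1 * x.1)) : IsPlusTypeOn Q ⊤ := by
  have hf := SF.of_quad hQ
  let W := LinearMap.ker (toLin' (x.1 - 1))
  let W' := LinearMap.ker (toLin' (x.1 + 1))
  have m1 : ∀ {v}, v ∈ W ↔ x.1 *ᵥ v = v := by simp [W, sub_mulVec, sub_eq_zero]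
  have m2 : ∀ {v}, v ∈ W' ↔ x.1 *ᵥ v = -v := by simp [W', add_mulVec, add_eq_zero_iff_eq_neg]
  have h3 : ∀ v, x.1 *ᵥ (x.1 *ᵥ v) = v := fun v => by
    rw [mulVec_mulVec, ← Units.val_mul, h1, Units.val_one, one_mulVec]
  have ho : AreOrthogonalFor (pol Q) W W' := fun u hu v hv => by
    have := mem_Iso.1 hx u v
    rw [m1.1 hu, m2.1 hv, hf.neg'] at this
    exact (mul_eq_zero.1 (show (2 : F) * _ = 0 by linear_combination -this)).resolve_left h2
  have hs : ∀ v, ∃ a ∈ W, ∃ b ∈ W', a + b = v := fun v =>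
    ⟨(2 : F)⁻¹ • (v + x.1 *ᵥ v), W.smul_mem _ (m1.2 (by rw [mulVec_add, h3, add_comm])),
      (2 : F)⁻¹ • (v - x.1 *ᵥ v), W'.smul_mem _ (m2.2 (by rw [mulVec_sub, h3, neg_sub])), by
        rw [← smul_add, add_add_sub_cancel, ← two_smul F, inv_smul_smul₀ h2]⟩
  have hn : IsNondegenerateOn (pol Q) W := hf.nd_iff.2 ((Submodule.eq_bot_iff _).2 fun w hw =>
    hf.nd' w fun v => by
      obtain ⟨a, ha, b, hb, rfl⟩ := hs v
      rw [hf.add', hf.mem_perp.1 hw.2 a ha, ho w hw.1 b hb, add_zero])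
  have h5 : ∀ v, x.1 *ᵥ (y.1 *ᵥ v) = -(y.1 *ᵥ (x.1 *ᵥ v)) := fun v => by
    rw [mulVec_mulVec, h, neg_mulVec, mulVec_mulVec]
  have h6 : W.map (toLin' y.1) = W' := by
    refine le_antisymm ?_ fun v hv => ⟨(y⁻¹).1 *ᵥ v, m1.2 ?_, gl_mulVec_cancel' y v⟩
    · rintro _ ⟨v, hv, rfl⟩
      exact m2.2 (by rw [toLin'_apply, h5, m1.1 hv])
    · have := h5 ((y⁻¹).1 *ᵥ v)
      rw [gl_mulVec_cancel', m2.1 hv, neg_inj] at this
      conv_rhs => rw [this, gl_mulVec_cancel]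
  have h7 : W ⊔ W' = ⊤ := eq_top_iff.2 fun v _ => Submodule.mem_sup.2 (hs v)
  have h8 := Submodule.finrank_sup_add_finrank_inf_eq W W'
  rw [h7, eq_bot_iff.2 ((inf_le_inf_left W (show W' ≤ hf.perp W from fun v hv =>
    hf.mem_perp.2 fun u hu => hf.refl (ho u hu v hv))).trans (hf.nd_iff.1 hn).le), ← h6,
    finrank_map_gl] at h8
  rw [← h7]
  exact plus_pair hQ hn (by simp at h8; rw [Nat.even_iff]; omega) ho
    (isometric_of_map (isometry_eq hQ h2 ▸ hy) h6)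

lemma Ext.plus (hQ : IsNondegenerateQuadraticForm Q) (h4 : 4 ∣ Fintype.card ι)
    {R : Subgroup (GL ι F)} (h : Ext 2 R) (hR : R ≤ Iso (pol Q)) (hc : 8 < Nat.card R) [Nonempty ι] :
    IsPlusTypeOn Q ⊤ := by
  classical
  have h2 : (2 : F) ≠ 0 := by exact_mod_cast h.ne_zero
  set z : GL ι F := sc ι (-1)
  have hz : z * z = 1 := by rw [← map_mul]; simp
  have hz' := sc_comm (sc_mem (ι := ι) (-1 : Fˣ))
  have h1 : ∀ x ∈ R, x ∈ scalars ι F → x = 1 ∨ x = z := by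
    rintro _ hx ⟨c, rfl⟩
    rcases mul_self_eq_one_iff.1 ((SF.of_quad hQ).sc_mem_Iso.1 (hR hx)) with h | h
    · exact Or.inl (by rw [show c = 1 from Units.ext h, map_one])
    · exact Or.inr (by rw [show c = -1 from Units.ext h]; rfl)
  have h3 : ∀ x ∈ R, x ∉ scalars ι F → ∃ y ∈ R, x * y = z * (y * x) ∧ x * y ≠ y * x := fun x hx hs => by
    by_contra! h3
    exact hs (h.cent x hx fun y hy => (h.tw_two hx hy).elim id (h3 y hy))
  obtain ⟨x, hx, hs, h5⟩ : ∃ x ∈ R, x ∉ scalars ι F ∧ x * x = 1 := by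
    by_contra! h5
    have h6 : ∀ x ∈ R, x ∉ scalars ι F → x * x = z := fun x hx hs =>
      (h1 _ (mul_mem hx hx) (sq x ▸ h.pow_sc x hx)).resolve_left (h5 x hx hs)
    obtain ⟨x, hx, hs⟩ := SetLike.not_le_iff_exists.1 h.nonscalar
    obtain ⟨y, hy, h7, -⟩ := h3 x hx hs
    have h8 : ∀ g ∈ R, x * g = g * x → g ∈ [1, z, x⁻¹, x⁻¹ * z] := fun g hg h8 => by
      by_cases h9 : g ∈ scalars ι F
      · rcases h1 g hg h9 with h | h <;> simp [h]
      have h10 : x * g ∈ scalars ι F := by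
        by_contra h10
        refine h5 _ (mul_mem hx hg) h10 ?_
        rw [mul_assoc, ← mul_assoc g, ← h8, mul_assoc, h6 g hg h9, ← mul_assoc, h6 x hx hs, hz]
      rcases h1 _ (mul_mem hx hg) h10 with h | h <;> simp [eq_inv_mul_of_mul_eq h]
    have h9 : (R : Set (GL ι F)) ⊆ ([1, z, x⁻¹, x⁻¹ * z] ++ [1, z, x⁻¹, x⁻¹ * z].map (· * y⁻¹)).toFinset :=
      fun g hg => by
        rw [Finset.mem_coe, List.mem_toFinset, List.mem_append, List.mem_map]
        refine (h.tw_two hx hg).imp (h8 g hg) fun h => ⟨g * y, h8 _ (mul_mem hg hy) ?_, by simp⟩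
        rw [← mul_assoc, h, mul_assoc, mul_assoc, h7, ← mul_assoc g, ← hz', ← mul_assoc, ← mul_assoc,
          ← mul_assoc, hz, one_mul]
    have h10 := (Set.ncard_le_ncard h9).trans_eq (Set.ncard_coe_finset _)
    exact hc.not_ge (h10.trans (List.toFinset_card_le _))
  obtain ⟨y, hy, h6, -⟩ := h3 x hx hs
  exact plus_of_invol hQ h2 h4 (hR hx) (hR hy) h5 (by
    simpa [z, sc_coe] using congrArg Units.val h6)

omit [Fintype F] in
open Polynomial in
lemma exists_root_quad [Finite F] {k : Subfield F} (hk : Nat.card F = Nat.card k ^ 2) {a b : F}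
    (ha : a ∈ k) (hb : b ∈ k) : ∃ t : F, t ^ 2 + a * t + b = 0 := by
  let p : k[X] := X ^ 2 + C ⟨a, ha⟩ * X + C ⟨b, hb⟩
  have h1 : p.Monic := by unfold p; monicity!
  have h2 : p.natDegree = 2 := by unfold p; compute_degree!
  have h3 : ∀ t : F, aeval t p = t ^ 2 + a * t + b := fun t => by simp [p]; rfl
  by_cases h : p.roots = 0
  · haveI := Fact.mk ((h1.irreducible_iff_roots_eq_zero_of_degree_le_three h2.ge (by omega)).2 h)
    have h4 : finrank k F = 2 := Nat.pow_right_injective (Finite.one_lt_card (α := k))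
      ((Module.natCard_eq_pow_finrank (K := k) (V := F)).symm.trans hk)
    obtain ⟨φ⟩ := FiniteField.nonempty_algHom_of_finrank_dvd (F := k) (K := AdjoinRoot p) (L := F) (by
      rw [h4, (AdjoinRoot.powerBasis h1.ne_zero).finrank, AdjoinRoot.powerBasis_dim, h2])
    exact ⟨φ (AdjoinRoot.root p), by rw [← h3, aeval_algHom_apply, AdjoinRoot.aeval_eq,
      AdjoinRoot.mk_self, map_zero]⟩
  · obtain ⟨t, ht⟩ := Multiset.exists_mem_of_ne_zero h
    refine ⟨t, ?_⟩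
    rw [← h3, show (t : F) = algebraMap k F t from rfl, aeval_algebraMap_apply,
      show aeval t p = 0 from isRoot_of_mem_roots ht, map_zero]

omit [Fintype F] in
theorem hasTS_of_sub [Finite F] (h2 : (2 : F) = 0) {k : Subfield F} (hk : Nat.card F = Nat.card k ^ 2)
    {ζ : F} (hζ : ζ ≠ 0) (m : ℕ) : ∀ (V : Type _) [AddCommGroup V] [Module F V] [FiniteDimensional F V]
    (f : Form (quadKind F) V) (S : Set V), f.ND → finrank F V = 2 * m → Submodule.span F S = ⊤ →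
    (∀ x ∈ S, ∀ y ∈ S, ∀ c ∈ k, x + c • y ∈ S) → (∀ x ∈ S, ζ * f.Q x ∈ k) → f.HasTS m := by
  induction m with
  | zero => exact fun V _ _ _ f _ _ _ _ _ _ => f.hasTS_zero
  | succ m ih =>
  intro V _ _ _ f S hf hn hS h1 h3
  have h4 : ∀ x ∈ S, ∀ y ∈ S, ζ * f.B x y ∈ k := fun x hx y hy => by
    have := sub_mem (sub_mem (h3 _ (h1 x hx y hy 1 (one_mem k))) (h3 x hx)) (h3 y hy)
    rwa [one_smul, ← mul_sub, ← mul_sub, ← quad_B_eq] at this
  have h5 : ∀ {a b : F}, ζ * a ∈ k → ζ * b ∈ k → a / b ∈ k := fun ha hb => by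
    simpa only [mul_div_mul_left _ _ hζ] using div_mem ha hb
  obtain ⟨u, hu, w, hw, h6⟩ : ∃ u ∈ S, ∃ w ∈ S, f.B u w ≠ 0 := by
    by_contra! h6
    have h7 : (⊤ : Submodule F V) ≤ f.perp ⊤ := by
      nth_rw 1 [← hS]
      exact Submodule.span_le.2 fun y hy => hS ▸ f.mem_perp_span.2 fun x hx => h6 x hx y hy
    rw [hf.perp_top] at h7
    have := Submodule.finrank_mono h7
    rw [finrank_top, finrank_bot] at this
    omega
  have h7 : ∀ x, f.B x x = 0 := fun x => by rw [quad_B_self, h2, zero_mul]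
  obtain ⟨u, hu, w, hw, h6, t, ht⟩ : ∃ u ∈ S, ∃ w ∈ S, f.B u w ≠ 0 ∧ ∃ t : F, f.Q (u + t • w) = 0 := by
    by_cases h : f.Q w = 0
    · exact ⟨w, hw, u, hu, by rwa [quad_symm], 0, by simpa using h⟩
    obtain ⟨t, ht⟩ := exists_root_quad hk (h5 (h4 u hu w hw) (h3 w hw)) (h5 (h3 u hu) (h3 w hw))
    refine ⟨u, hu, w, hw, h6, t, ?_⟩
    rw [quad_Q_add, quad_Q_smul, map_smul, smul_eq_mul, ← mul_zero (f.Q w), ← ht]
    field_simp
    ring
  have h8 : f.B (u + t • w) w = f.B u w := by simp [h7]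
  obtain ⟨a, c, h9, h10⟩ := Form.exists_hyp_of_B ht (h8 ▸ h6)
  have h11 : ∀ {y}, y ∈ f.perp (Submodule.span F {u + t • w, a • w + c • (u + t • w)}) ↔
      f.B u y = 0 ∧ f.B w y = 0 := fun {y} => by
    rw [f.mem_perp_pair]
    simp only [map_add, LinearMap.add_apply, Form.B_smul_left, quadKind_σ]
    refine ⟨fun ⟨h, h'⟩ => ?_, fun ⟨h, h'⟩ => by simp [h, h']⟩
    have : f.B w y = 0 := (mul_eq_zero.1 (by simpa [h] using h')).resolve_left
      (left_ne_zero_of_mul_eq_one h10)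
    exact ⟨by simpa [this] using h, this⟩
  let π : V →ₗ[F] V := LinearMap.id - ((f.B u w)⁻¹ • f.B w).smulRight u - ((f.B u w)⁻¹ • f.B u).smulRight w
  have h12 : ∀ x, π x = x + (-(f.B w x / f.B u w)) • u + (-(f.B u x / f.B u w)) • w := fun x => by
    simp [π, div_eq_inv_mul, sub_eq_add_neg]
  have h13 : ∀ x, π x ∈ f.perp (Submodule.span F {u + t • w, a • w + c • (u + t • w)}) := fun x =>
    h11.2 (by simp [h12, h7, h6, quad_symm f w u])
  refine (h9.hasTS_iff hf).1 (ih _ _ (Subtype.val ⁻¹' S) (f.restrict_ND.2 (h9.NDOn.perp hf))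
    (by have := h9.finrank_perp; omega) (eq_top_iff.2 fun y _ => ?_)
    (fun x hx y hy c hc => h1 _ hx _ hy c hc) fun x hx => h3 _ hx)
  have h14 : y = π.codRestrict _ h13 y := Subtype.ext (by
    simp [h12, (h11.1 y.2).1, (h11.1 y.2).2])
  rw [h14]
  refine Submodule.span_le.2 ?_ (Submodule.map_span_le _ _ _ |>.2 (fun x hx =>
    Submodule.subset_span (s := (π.codRestrict _ h13) '' S) ⟨x, hx, rfl⟩) ⟨y, hS.ge trivial, rfl⟩)
  rintro _ ⟨x, hx, rfl⟩
  refine Submodule.subset_span (show π x ∈ S from ?_)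
  rw [h12]
  exact h1 _ (h1 x hx u hu _ (neg_mem (h5 (h4 w hw x hx) (h4 u hu w hw)))) w hw _
    (neg_mem (h5 (h4 u hu x hx) (h4 u hu w hw)))

theorem plus_of_sub (hQ : IsNondegenerateQuadraticForm Q) (he : Even (Fintype.card ι))
    {k : Subfield F} (hk : Fintype.card F = Nat.card k ^ 2) {ζ : F} (hζ : ζ ≠ 0) {P : GL ι F}
    (h : IsQuadFormRationalStructure (fun v => ζ * Q v) k P) : IsPlusTypeOn Q ⊤ := by
  obtain ⟨m, hm⟩ := he
  rw [← two_mul] at hm
  rw [← Nat.card_eq_fintype_card] at hk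
  by_cases h2 : (2 : F) = 0
  · refine (plus_top_iff hQ hm).2 (hasTS_of_sub h2 hk hζ m _ _ ((P.1 *ᵥ ·) '' {u | ∀ i, u i ∈ k})
      (qForm_ND hQ) (by simpa) (eq_top_iff.2 fun v _ => ?_) ?_ ?_)
    · rw [← gl_mulVec_cancel' P v, pi_eq_sum_univ' ((P⁻¹).1 *ᵥ v), mulVec_sum]
      exact sum_mem fun i _ => by
        rw [mulVec_smul]
        exact Submodule.smul_mem _ _ (Submodule.subset_span ⟨_, single_mem i (one_mem k), rfl⟩)
    · rintro _ ⟨x, hx, rfl⟩ _ ⟨y, hy, rfl⟩ c hc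
      exact ⟨x + c • y, fun i => add_mem (hx i) (mul_mem hc (hy i)), by simp [mulVec_add, mulVec_smul]⟩
    · rintro _ ⟨x, hx, rfl⟩
      exact h x hx
  have h3 : ∀ a ∈ k, IsSquare a := fun a ha => by
    obtain ⟨t, ht⟩ := exists_root_quad hk (zero_mem k) (neg_mem ha)
    exact ⟨t, by linear_combination -ht⟩
  have hf := (SF.of_quad hQ).pb (tv (Equiv.refl ι) P)
  rw [plus_iff_disc hQ h2 hm, disc_pb hQ hf.eq_gf', chi_eq_one.2 (h3 _ (neg_mem (one_mem k))), one_pow,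
    chi_eq_one]
  obtain ⟨s, hs⟩ := h3 _ (det_mem (M := ζ • gramMatrix (pb (tv (Equiv.refl ι) P) (pol Q))) fun i j =>
    pol_mem h _ _ (single_mem i (one_mem k)) (single_mem j (one_mem k)))
  refine ⟨s / ζ ^ m, ?_⟩
  rw [det_smul, hm] at hs
  field_simp
  linear_combination hs

section Field
variable (hQ : IsNondegenerateQuadraticForm Q) {K : Subalgebra F (Matrix ι ι F)} {d : ℕ}
  {H : Subgroup (GL ι F)}

omit [Fintype F] in
lemma cyc_inv (v : ι → F) : ∀ k ∈ K, ∀ w ∈ cyc K v, k *ᵥ w ∈ cyc K v := by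
  intro k hk w hw
  obtain ⟨x, hx, rfl⟩ := mem_cyc.1 hw
  exact mem_cyc.2 ⟨k * x, mul_mem hk hx, (mulVec_mulVec _ _ _).symm⟩

omit [Fintype F] in
lemma cyc_eq (hK : IsFieldSubalgebra d K) {U : Submodule F (ι → F)} (hd : finrank F U = d)
    (hU : ∀ k ∈ K, ∀ v ∈ U, k *ᵥ v ∈ U) {v : ι → F} (hv : v ∈ U) (h0 : v ≠ 0) : cyc K v = U :=
  Submodule.eq_of_le_of_finrank_eq (by rintro _ ⟨k, hk, rfl⟩; exact hU k hk v hv)
    ((finrank_cyc hK h0).trans hd.symm)

omit [Fintype F] in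
lemma Nrm.mem_cyc (hN : Nrm H K) {g : GL ι F} (hg : g ∈ H) {v w : ι → F} (hw : w ∈ cyc K v) :
    g.1 *ᵥ w ∈ cyc K (g.1 *ᵥ v) := by
  obtain ⟨k, hk, rfl⟩ := hw
  exact ⟨_, hN g hg k hk, cjG_mulVec g k v⟩

include hQ

lemma unit_scale (h2 : 2 ≤ Fintype.card ι) (hI : Irr H) (hH : H ≤ isometryGroup F Q)
    (hK : IsFieldSubalgebra 2 K) (hN : H ≤ subalgebraNormalizer K)
    (ha : ∀ x ∈ K, adj σ₀ (pol Q) x ∈ K) (hs : ¬ IsSelfAdjointFor (pol Q) K) :
    ∀ k ∈ K, ∃ c : F, ∀ v, Q (k *ᵥ v) = c * Q v := fun k hk => by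
  haveI : Nonempty ι := Fintype.card_pos_iff.1 (by omega)
  have hf := SF.of_quad hQ
  rw [hf.selfAdj] at hs
  push Not at hs
  obtain ⟨x, hx, hs⟩ := hs
  have hli : LinearIndependent F ![(1 : K), ⟨x, hx⟩] := by
    rw [LinearIndependent.pair_iff' one_ne_zero]
    intro c hc
    have : x = c • 1 := (congrArg Subtype.val hc).symm
    exact hs (by rw [this, hf.adj_smul, hf.adj_one]; rfl)
  obtain ⟨c, b, h1⟩ := exists_basis_two hK.finrank_eq hli ⟨_, mul_mem (ha k hk) hk⟩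
  replace h1 : adj σ₀ (pol Q) k * k = c • 1 + b • x := congrArg Subtype.val h1
  have h3 := congrArg (adj σ₀ (pol Q)) h1
  rw [hf.adj_mul, hf.adj_adj, h1, hf.adj_add, hf.adj_smul, hf.adj_smul, hf.adj_one, RingHom.id_apply,
    RingHom.id_apply, add_right_inj] at h3
  obtain rfl : b = 0 := by
    by_contra h
    exact hs (smul_right_injective _ h h3).symm
  rw [zero_smul, add_zero] at h1
  have h4 : ∀ u v, pol Q (k *ᵥ u) (k *ᵥ v) = c * pol Q u v := fun u v => by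
    rw [hf.adj_spec, mulVec_mulVec, h1, smul_mulVec, one_mulVec, hf.smul']; rfl
  refine ⟨c, fun v => ?_⟩
  by_cases hc : (2 : F) = 0
  · obtain ⟨a, h5, h6, h7⟩ := hf.exists_trace_one hc hK ha hx hs
    rw [quad_unique h2 hI (hasQ_self hQ hH) ((hf.neg_one hc).hasQ_elt hc h6
      (hH.trans (isometry_le Q)) fun g hg => h7 g (hN hg))]
    simp only
    rw [mulVec_mulVec, hK.comm a h5 k hk, ← mulVec_mulVec, h4]
  · refine mul_left_cancel₀ hc ?_
    rw [← polar_self hQ, h4, polar_self hQ, mul_left_comm]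

omit [Fintype F] in
lemma even_of_unit [Nonempty ι] (hK : IsFieldSubalgebra 2 K) (ha : ∀ x ∈ K, adj σ₀ (pol Q) x ∈ K)
    (hs : ∀ k ∈ K, ∃ c : F, ∀ v, Q (k *ᵥ v) = c * Q v) (hp : IsPlusTypeOn Q ⊤) :
    4 ∣ Fintype.card ι := by
  have hf := SF.of_quad hQ
  obtain ⟨U, ⟨h1, h2⟩, h3⟩ := exists_max_sub (fun U : Submodule F (ι → F) =>
    IsTotallySingularQuad Q U ∧ ∀ k ∈ K, ∀ v ∈ U, k *ᵥ v ∈ U)
    ⟨fun v hv => by rw [show v = 0 from hv, q_zero hQ], fun k _ v hv => by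
      rw [show v = 0 from hv, mulVec_zero]; exact zero_mem _⟩
  obtain ⟨U', -, h4, h5⟩ := hp
  have h6 := ((q_ts hQ).2 h1).finrank_le_of_maximal (qForm_ND hQ) (fun X h6 h7 =>
    le_antisymm (fun x hx => (h3 (U ⊔ cyc K x) ⟨fun v hv => ?_, fun k hk v hv => ?_⟩ le_sup_left).le
      (Submodule.mem_sup_right (self_mem_cyc x))) h6) ((q_ts hQ).2 h4)
  · have h7 := ((q_ts hQ).2 h1).two_mul_finrank_le (qForm_ND hQ)
    have h8 := inv_dvd hK h2
    simp at h5 h7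
    omega
  · obtain ⟨u, hu, _, ⟨k, hk, rfl⟩, rfl⟩ := Submodule.mem_sup.1 hv
    obtain ⟨c, hc⟩ := hs k hk
    rw [quad_add Q, h1 u hu, show ev x k = k *ᵥ x from rfl, hc, hf.adj_spec', show Q x = 0 from h7.1 x hx,
      show pol Q _ x = 0 from h7.2 _ (h6 (h2 _ (ha k hk) u hu)) x hx]
    simp
  · obtain ⟨u, hu, w, hw, rfl⟩ := Submodule.mem_sup.1 hv
    rw [mulVec_add]
    exact Submodule.add_mem_sup (h2 k hk u hu) (cyc_inv x k hk w hw)

lemma omega_unit (h5 : 5 ≤ Fintype.card ι) (hn : Fintype.card ι = 2 * d) (hd : Odd d)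
    (hK : IsFieldSubalgebra d K) {g : GL ι F} (hg : g ∈ omegaGL Q) (h : g ∈ cenG K) :
    g = 1 ∨ IsUnit (1 - g.1) := by
  haveI : Nonempty ι := Fintype.card_pos_iff.1 (by omega)
  have hf := qForm_ND hQ
  obtain ⟨g, h1, rfl⟩ := (omegaGL_eq (qForm hQ)).le hg
  have h2 := dick_eq_one_iff.1 ((mem_commutator_iff hf (hgen_of hf (Or.inr (by simp; omega)))).1 h1).1
  obtain ⟨c, h3⟩ := inv_dvd hK (U := mov g) (by
    rintro k hk _ ⟨y, rfl⟩
    refine mem_mov.2 ⟨k *ᵥ y, ?_⟩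
    rw [← Form.toGL_mulVec, mulVec_mulVec, cjG_eq_iff.1 (h k hk), ← mulVec_mulVec, Form.toGL_mulVec,
      ← mulVec_sub]; rfl)
  have h4 := Submodule.finrank_le (mov g)
  rw [finrank_fintype_fun_eq_card, hn, h3, mul_comm] at h4
  have h6 := Nat.le_of_mul_le_mul_right h4 hd.pos
  rw [h3, Nat.even_mul] at h2
  obtain rfl | rfl : c = 0 ∨ c = 2 := by
    have := Nat.even_iff.1 (h2.resolve_left (Nat.not_even_iff_odd.2 hd)); omega
  · refine Or.inl (Units.ext (mat_ext fun v => ?_))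
    have := (Submodule.finrank_eq_zero.1 h3).le (mem_mov.2 ⟨v, rfl⟩)
    rw [Form.toGL_mulVec, Units.val_one, one_mulVec]
    exact (sub_eq_zero.1 this).symm
  · refine Or.inr (mulVec_surjective_iff_isUnit.1 fun v => ?_)
    obtain ⟨y, hy⟩ := mem_mov.1 ((Submodule.eq_top_of_finrank_eq (S := mov g) (by
      simp [h3, hn, mul_comm])).ge (Submodule.mem_top : v ∈ _))
    exact ⟨y, by rw [sub_mulVec, one_mulVec, Form.toGL_mulVec, hy]⟩

omit hQ [Fintype F] in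
lemma commData_adjoin {f : (ι → F) → (ι → F) → F} {ε : F} (hf : SF σ₀ ε f)
    (hK : IsFieldSubalgebra d K) (hN : Nrm H K) (hs : ∀ x ∈ K, adj σ₀ f x = x) {a : Matrix ι ι F}
    (h0 : a ∉ K) (h1 : ∀ x ∈ K, a * x = x * a)
    (h2 : ∀ g ∈ H, ∃ k ∈ K, ∃ k' ∈ K, cjG g a = k + k' * a)
    (h3 : ∃ k ∈ K, ∃ k' ∈ K, adj σ₀ f a = k + k' * a) :
    ∃ L, CommData H L ∧ (∀ x ∈ L, adj σ₀ f x ∈ L) ∧ K < L := by
  have h4 : K ≤ Algebra.adjoin F (insert a K) := fun x hx => Algebra.subset_adjoin (Or.inr hx)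
  have h5 : a ∈ Algebra.adjoin F (insert a (K : Set _)) := Algebra.subset_adjoin (Or.inl rfl)
  refine ⟨Algebra.adjoin F (insert a K), ⟨fun g hg x hx => ?_, fun x hx y hy => ?_, a, h5, ?_⟩,
    fun x hx => ?_, lt_of_le_of_ne h4 fun h => h0 (h ▸ h5)⟩
  · induction hx using Algebra.adjoin_induction with
    | mem x hx =>
      rcases hx with rfl | hx
      · obtain ⟨k, hk, k', hk', h⟩ := h2 g hg
        rw [h]; exact add_mem (h4 hk) (mul_mem (h4 hk') h5)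
      · exact h4 (hN g hg x hx)
    | algebraMap c => rw [AlgEquiv.commutes]; exact Subalgebra.algebraMap_mem _ c
    | add x y _ _ hx hy => rw [map_add]; exact add_mem hx hy
    | mul x y _ _ hx hy => rw [map_mul]; exact mul_mem hx hy
  · refine congrArg Subtype.val ((Algebra.isMulCommutative_adjoin F ?_).is_comm.comm
      (⟨x, hx⟩ : Algebra.adjoin F (insert a K)) ⟨y, hy⟩)
    rintro u (rfl | hu) w (rfl | hw)
    exacts [rfl, h1 w hw, (h1 u hu).symm, hK.comm u hu w hw]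
  · rintro c rfl
    exact h0 (K.smul_mem (one_mem K) c)
  · induction hx using Algebra.adjoin_induction with
    | mem x hx =>
      rcases hx with rfl | hx
      · obtain ⟨k, hk, k', hk', h⟩ := h3
        exact h ▸ add_mem (h4 hk) (mul_mem (h4 hk') h5)
      · rw [hs x hx]; exact h4 hx
    | algebraMap c =>
      rw [hs _ (K.algebraMap_mem c)]; exact Subalgebra.algebraMap_mem _ c
    | add x y _ _ hx hy => rw [hf.adj_add]; exact add_mem hx hy
    | mul x y _ _ hx hy => rw [hf.adj_mul]; exact mul_mem hy hx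

omit hQ [Fintype F] in
lemma Nrm.comm (hN : Nrm H K) {g : GL ι F} (hg : g ∈ H) {a : Matrix ι ι F}
    (h : ∀ x ∈ K, a * x = x * a) : ∀ x ∈ K, cjG g a * x = x * cjG g a := fun x hx => by
  rw [← cjG_inv' g x, ← map_mul, h _ (hN _ (inv_mem hg) x hx), map_mul]

omit hQ [Fintype F] in
lemma mem_of_lines (hK : IsFieldSubalgebra d K) {s : Matrix ι ι F} (h1 : ∀ x ∈ K, s * x = x * s)
    (h : ∀ v, s *ᵥ v ∈ cyc K v) [Nonempty ι] : s ∈ K := by
  obtain ⟨i⟩ := ‹Nonempty ι›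
  obtain ⟨k, hk, h2⟩ := mem_cyc.1 (h (Pi.single i 1))
  convert hk
  refine mat_ext fun u => ?_
  by_cases hu : u ∈ cyc K (Pi.single i 1)
  · obtain ⟨x, hx, rfl⟩ := mem_cyc.1 hu
    rw [mulVec_mulVec, h1 x hx, ← mulVec_mulVec, ← h2, mulVec_mulVec, mulVec_mulVec, hK.comm k hk x hx]
  obtain ⟨k', hk', h3⟩ := mem_cyc.1 (h u)
  obtain ⟨k'', hk'', h4⟩ := mem_cyc.1 (h (Pi.single i 1 + u))
  have h5 : (k'' - k) *ᵥ Pi.single i 1 = (k' - k'') *ᵥ u := by
    rw [mulVec_add, mulVec_add, ← h2, ← h3] at h4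
    rw [sub_mulVec, sub_mulVec]; linear_combination h4
  have h6 : k' - k'' = 0 := by
    by_contra h6
    obtain ⟨y, hy, h7⟩ := hK.inv _ (sub_mem hk' hk'') h6
    refine hu (mem_cyc.2 ⟨y * (k'' - k), mul_mem hy (sub_mem hk'' hk), ?_⟩)
    rw [← mulVec_mulVec, h5, mulVec_mulVec, hK.comm y hy _ (sub_mem hk' hk''), h7, one_mulVec]
  rw [h6, zero_mulVec] at h5
  rw [← h3, sub_eq_zero.1 h6, sub_eq_zero.1 ((field_ker hK (sub_mem hk'' hk)).resolve_right
    fun h => by simpa using h _ h5)]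

omit hQ [Fintype F] in
lemma deg_eq [Nonempty ι] (hn : Fintype.card ι = 2 * d) (hK : IsFieldSubalgebra d K)
    {L : Subalgebra F (Matrix ι ι F)} {e : ℕ} (he : IsFieldSubalgebra e L) (h : K < L) : e = 2 * d := by
  have h12 := Submodule.finrank_lt_finrank_of_lt (s := K.toSubmodule) (t := L.toSubmodule) h
  rw [Subalgebra.finrank_toSubmodule, Subalgebra.finrank_toSubmodule, hK.finrank_eq, he.finrank_eq] at h12
  obtain ⟨c, hc⟩ := field_dvd he
  have := Fintype.card_pos (α := ι)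
  rcases (by rw [hn] at hc; rcases c with _ | _ | c; omega; omega; nlinarith : c = 1) with rfl
  omega

lemma half_even (h5 : 5 ≤ Fintype.card ι) (hn : Fintype.card ι = 2 * d) (hd : Odd d) (h2 : (2 : F) = 0)
    (hI : Irr H) (hH : H ≤ omegaGL Q) (hK : IsFieldSubalgebra d K) (hN : Nrm H K)
    (hs : ∀ x ∈ K, adj σ₀ (pol Q) x = x) : ∃ L, CommData H L ∧ (∀ x ∈ L, adj σ₀ (pol Q) x ∈ L) ∧
      ∀ e, IsFieldSubalgebra e L → e = 2 * d := by
  haveI : Nonempty ι := Fintype.card_pos_iff.1 (by omega)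
  have hf := SF.of_quad hQ
  have hH₁ := hH.trans (omega_le Q)
  have hH₂ := hH₁.trans (isometry_le Q)
  by_cases h : ∀ g ∈ H, g ∈ cenG K → g = 1
  · have hc : ∀ g ∈ H, ∀ h ∈ H, g.1 * h.1 = h.1 * g.1 := fun a ha b hb => congrArg Units.val
      (commutatorElement_eq_one_iff_mul_comm.1 (h _ (commutator_le_self H
        (Subgroup.commutator_mem_commutator ha hb)) (comm_le_cenG hK hN.le_normalizer
          (Subgroup.commutator_mem_commutator ha hb))))
    obtain ⟨g, hg, h1⟩ := SetLike.not_le_iff_exists.1 (nonscalar_of_irr (by omega) hI)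
    refine ⟨alg H, ⟨NormalIn.nrm_alg ⟨le_rfl, fun a ha b hb => mul_mem (mul_mem ha hb) (inv_mem ha)⟩,
      fun x hx y hy => comm_alg (fun g hg => (comm_alg (hc g hg) hx).symm) hy, g, coe_mem_alg hg,
      fun c hc => h1 (mem_scalars_of_smul hc)⟩, fun x => hf.adj_mem_alg (hH₂.trans (Iso_le_Sim _)),
      fun e he => ?_⟩
    obtain ⟨i⟩ := ‹Nonempty ι›
    have h3 := finrank_cyc he (v := Pi.single i 1) (by simp)
    rcases hI (cyc (alg H) (Pi.single i 1)) (fun g hg => cyc_inv _ _ (coe_mem_alg hg)) with h4 | h4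
    · simpa [h4] using self_mem_cyc (K := alg H) (Pi.single i 1)
    · rw [← h3, h4, ← hn]; simp
  push Not at h
  obtain ⟨g, hg, h1, h3⟩ := h
  obtain ⟨b, hb⟩ := (omega_unit hQ h5 hn hd hK (hH hg) h1).resolve_left h3
  have h4 : ∀ v, pol Q ((b⁻¹).1 *ᵥ v) v = Q v := fun v => by
    obtain ⟨u, rfl⟩ : ∃ u, v = b.1 *ᵥ u := ⟨_, (gl_mulVec_cancel' b v).symm⟩
    rw [gl_mulVec_cancel, hb, sub_mulVec, one_mulVec, sub_eq_add_neg, quad_add Q, hf.add', alt_pol hQ h2,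
      ← neg_one_smul F (g.1 *ᵥ u), hQ.smul, mem_isometryGroup.1 (hH₁ hg)]
    linear_combination -Q u * h2
  have h6 : ∀ x ∈ K, (b⁻¹).1 * x = x * (b⁻¹).1 := fun x hx => cjG_eq_iff.1 (inv_mem (show b ∈ cenG K from
    fun x hx => cjG_eq_iff.2 (by rw [hb, sub_mul, mul_sub, one_mul, mul_one, cjG_eq_iff.1 (h1 x hx)])) x hx)
  have h7 := hf.selfadj_alt (alt_pol hQ h2) hK hs
  have h8 : ∀ t, (∀ x ∈ K, t * x = x * t) → (∀ v, pol Q (t *ᵥ v) v = Q v) →
      ∃ k ∈ K, ∃ k' ∈ K, t = k + k' * (b⁻¹).1 := fun t h8 h9 => by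
    have h10 : ∀ x ∈ K, (t - (b⁻¹).1) * x = x * (t - (b⁻¹).1) := fun x hx => by
      rw [sub_mul, mul_sub, h8 x hx, h6 x hx]
    refine ⟨t - (b⁻¹).1, mem_of_lines hK h10 fun v => ?_, 1, one_mem K, by simp⟩
    rcases eq_or_ne v 0 with rfl | hv
    · rw [mulVec_zero]; exact zero_mem _
    have h11 : ∀ w, (∀ x ∈ K, pol Q (x *ᵥ w) v = 0) → w ∈ (qForm hQ).perp (cyc K v) := by
      rintro w h _ ⟨x, hx, rfl⟩
      rw [qForm_B, QuadraticMap.polar_comm, show ev v x = x *ᵥ v from rfl, hf.adj_spec', hs x hx, h x hx]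
    have h12 := (qForm_ND hQ).finrank_perp (cyc K v)
    rw [Submodule.eq_of_le_of_finrank_eq (show cyc K v ≤ (qForm hQ).perp (cyc K v) by
      rintro _ ⟨y, hy, rfl⟩
      exact h11 _ fun x hx => by
        rw [show ev v y = y *ᵥ v from rfl, mulVec_mulVec, h7 _ (mul_mem hx hy)]) (by
        rw [finrank_cyc hK hv] at h12 ⊢; simp at h12; omega)]
    refine h11 _ fun x hx => ?_
    obtain ⟨y, hy, rfl⟩ := exists_sq_sub h2 hK hx
    rw [← mulVec_mulVec, hf.adj_spec, hs y hy, mulVec_mulVec, ← h10 y hy, ← mulVec_mulVec, sub_mulVec,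
      hf.sub, h9, h4, sub_self]
  refine (commData_adjoin hf hK hN hs (fun h => ?_) h6
    (fun x hx => h8 _ (hN.comm hx h6) fun v => ?_) (h8 _ (fun x hx => ?_) fun v => ?_)).imp
    fun L ⟨h9, h10, h11⟩ => ⟨h9, h10, fun e he => deg_eq hn hK he h11⟩
  · obtain ⟨i⟩ := ‹Nonempty ι›
    refine (by simp : (Pi.single i 1 : ι → F) ≠ 0) (hf.nd _ fun x => ?_)
    have h0 : ∀ v, Q v = 0 := fun v => by rw [← h4, h7 _ h]
    simp [QuadraticMap.polar, h0]
  · rw [← gl_mulVec_cancel' x v, cjG_mulVec, mem_Iso.1 (hH₂ hx), h4, mem_isometryGroup.1 (hH₁ hx)]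
  · rw [← hs x hx, ← hf.adj_mul, ← hf.adj_mul, h6 x hx]
  · rw [← hf.adj_spec', QuadraticMap.polar_comm, h4]

lemma half_odd (h5 : 5 ≤ Fintype.card ι) (hn : Fintype.card ι = 2 * d) (hd : Odd d) (h2 : (2 : F) ≠ 0)
    (hI : Irr H) (hH : H ≤ omegaGL Q) (hK : IsFieldSubalgebra d K) (hN : Nrm H K)
    (hs : ∀ x ∈ K, adj σ₀ (pol Q) x = x) : ∃ L, CommData H L ∧ (∀ x ∈ L, adj σ₀ (pol Q) x ∈ L) ∧
      ∀ e, IsFieldSubalgebra e L → e = 2 * d := by
  haveI : Nonempty ι := Fintype.card_pos_iff.1 (by omega)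
  suffices ∃ L, CommData H L ∧ (∀ x ∈ L, adj σ₀ (pol Q) x ∈ L) ∧ K < L from
    this.imp fun L ⟨h9, h10, h11⟩ => ⟨h9, h10, fun e he => deg_eq hn hK he h11⟩
  haveI : Nonempty ι := Fintype.card_pos_iff.1 (by omega)
  have hf := SF.of_quad hQ
  have hH₂ := ((hH.trans (omega_le Q)).trans (isometry_le Q)).trans (Iso_le_Sim _)
  have hd0 := hd.pos
  obtain ⟨i⟩ := ‹Nonempty ι›
  have hv : (Pi.single i 1 : ι → F) ≠ 0 := by simp
  generalize (Pi.single i 1 : ι → F) = v at hv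
  have h1 := finrank_cyc hK hv
  have hp : ∀ {U}, (∀ k ∈ K, ∀ v ∈ U, k *ᵥ v ∈ U) → ∀ k ∈ K, ∀ v ∈ hf.perp U, k *ᵥ v ∈ hf.perp U :=
    fun hU k hk v hv => hf.mem_perp.2 fun w hw => by
      rw [hf.adj_spec, hs k hk, hf.mem_perp.1 hv _ (hU k hk w hw)]
  have hA : IsNondegenerateOn (pol Q) (cyc K v) := hf.nd_iff.2 (by
    by_contra h
    obtain ⟨w, hw, h0⟩ := Submodule.exists_mem_ne_zero_of_ne_bot h
    have h3 : IsTotallySingularQuad Q (cyc K v) := fun x hx => q_of_pol hQ h2 (by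
      rw [← cyc_eq hK h1 (cyc_inv v) hw.1 h0] at hx
      obtain ⟨k, hk, rfl⟩ := hx
      exact hf.mem_perp.1 (hp (cyc_inv v) k hk w hw.2) _ (cyc_inv v k hk w hw.1))
    refine (hI (cyc K v) fun g hg => inv_stab _ g (omega_fix hQ h5 hn h3 h1 (hH hg) fun h4 => ?_)).elim
      (fun h => hv (h.le (self_mem_cyc v))) fun h => by rw [h] at h1; simp at h1; omega
    rw [map_eq_of_le (W' := cyc K (g.1 *ᵥ v)) (fun w hw => hN.mem_cyc hg hw)
      (h1.trans (finrank_cyc hK (mt gl_mulVec_eq_zero.1 hv)).symm)] at h4 ⊢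
    refine Nat.le_of_dvd (Nat.pos_of_ne_zero fun h => ?_) (inv_dvd hK fun k hk x hx =>
      ⟨cyc_inv _ k hk x hx.1, cyc_inv _ k hk x hx.2⟩)
    rw [h] at h4
    exact Nat.not_even_iff_odd.2 hd h4)
  have hc := hf.isCompl_perp hA
  have h3 := hf.finrank_perp hA
  have h4 : ∀ u, ∃ a ∈ cyc K v, ∃ b ∈ hf.perp (cyc K v), a + b = u := fun u =>
    Submodule.mem_sup.1 (hc.sup_eq_top ▸ Submodule.mem_top)
  have h6 : ∀ t, (∀ x ∈ K, t * x = x * t) → adj σ₀ (pol Q) t = -t → ∀ u, t *ᵥ u ∈ hf.perp (cyc K u) :=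
    fun t h6 h7 u => hf.mem_perp.2 (by
      rintro _ ⟨k, hk, rfl⟩
      have := hf.adj_spec t u (k *ᵥ u)
      rw [h7, neg_mulVec, hf.neg', mulVec_mulVec, h6 k hk, ← mulVec_mulVec, hf.adj_spec' k u, hs k hk,
        QuadraticMap.polar_comm _ (k *ᵥ u)] at this
      exact (mul_eq_zero.1 (show (2 : F) * pol Q (t *ᵥ u) (k *ᵥ u) = 0 by
        linear_combination this)).resolve_left h2)
  have h7 : ∀ t, (∀ x ∈ K, t * x = x * t) → adj σ₀ (pol Q) t = -t → t *ᵥ v = 0 → t = 0 :=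
    fun t h7 h8 h9 => mat_ext fun u => by
      have h10 : ∀ a ∈ cyc K v, t *ᵥ a = 0 := by
        rintro _ ⟨k, hk, rfl⟩
        rw [show ev v k = k *ᵥ v from rfl, mulVec_mulVec, h7 k hk, ← mulVec_mulVec, h9, mulVec_zero]
      obtain ⟨a, ha, b, hb, rfl⟩ := h4 u
      rw [mulVec_add, h10 a ha, zero_add, zero_mulVec]
      rcases eq_or_ne b 0 with rfl | h0
      · exact mulVec_zero _
      have h11 := h6 t h7 h8 b
      rw [cyc_eq hK (by omega) (hp (cyc_inv v)) hb h0] at h11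
      exact (hf.nd_iff.1 (hf.nd_perp hA)).le ⟨hf.mem_perp.2 fun w hw => by
        rw [hf.adj_spec, h8, neg_mulVec, h10 w hw, neg_zero, hf.zero'], h11⟩
  have h8 : ∀ {t}, (∀ x ∈ K, t * x = x * t) → ∀ x ∈ K, adj σ₀ (pol Q) t * x = x * adj σ₀ (pol Q) t :=
    fun h x hx => by rw [← hs x hx, ← hf.adj_mul, ← hf.adj_mul, h x hx]
  by_cases h : ∃ a, (∀ x ∈ K, a * x = x * a) ∧ adj σ₀ (pol Q) a = -a ∧ a ≠ 0
  · obtain ⟨a, h9, h10, h11⟩ := h
    refine commData_adjoin hf hK hN hs (fun h => h11 ?_) h9 (fun g hg => ?_)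
      ⟨0, zero_mem K, -1, neg_mem (one_mem K), by simp [h10]⟩
    · rw [hs a h, eq_neg_iff_add_eq_zero, ← two_smul F] at h10
      exact (smul_eq_zero.1 h10).resolve_left h2
    have h12 := hN.comm hg h9
    have h13 : adj σ₀ (pol Q) (cjG g a) = -cjG g a := by rw [hf.adj_cjG (hH₂ hg), h10, map_neg]
    have h14 := h6 _ h12 h13 v
    rw [← cyc_eq hK (by omega) (hp (cyc_inv v)) (h6 a h9 h10 v) (mt (h7 a h9 h10) h11)] at h14
    obtain ⟨k, hk, h14⟩ := mem_cyc.1 h14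
    refine ⟨0, zero_mem K, k, hk, (sub_eq_zero.1 (h7 _ (fun x hx => ?_) ?_ ?_)).trans (zero_add _).symm⟩
    · rw [sub_mul, mul_sub, h12 x hx, mul_assoc, h9 x hx, ← mul_assoc, hK.comm k hk x hx, mul_assoc]
    · rw [hf.adj_sub, h13, hf.adj_mul, h10, hs k hk, neg_mul, h9 k hk, neg_sub_neg, neg_sub]
    · rw [sub_mulVec, ← mulVec_mulVec, h14, sub_self]
  push Not at h
  have h9 : ∀ t, (∀ x ∈ K, t * x = x * t) → adj σ₀ (pol Q) t = t := fun t ht =>
    (sub_eq_zero.1 (h (t - adj σ₀ (pol Q) t) (fun x hx => by rw [sub_mul, mul_sub, ht x hx, h8 ht x hx])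
      (by rw [hf.adj_sub, hf.adj_adj, neg_sub]))).symm
  let p := LinearMap.toMatrix' ((cyc K v).projection _ hc)
  have h10 : ∀ a ∈ cyc K v, ∀ b ∈ hf.perp (cyc K v), p *ᵥ (a + b) = a := fun a ha b hb => by
    rw [LinearMap.toMatrix'_mulVec, map_add, Submodule.projection_apply_of_mem_left hc ha,
      Submodule.projection_apply_of_mem_right hc hb, add_zero]
  have h11 : ∀ x ∈ K, p * x = x * p := fun x hx => mat_ext fun u => by
    obtain ⟨a, ha, b, hb, rfl⟩ := h4 u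
    rw [← mulVec_mulVec, ← mulVec_mulVec, h10 a ha b hb, mulVec_add,
      h10 _ (cyc_inv v x hx a ha) _ (hp (cyc_inv v) x hx b hb)]
  have h12 : p ∉ K := fun h => by
    obtain ⟨b, hb, h0⟩ := exists_ne_of_pos (X := hf.perp (cyc K v)) (by omega)
    rcases field_ker hK h with h | h
    · exact hv (by simpa [h] using (h10 v (self_mem_cyc v) 0 (zero_mem _)).symm)
    · exact h0 (h b (by simpa using h10 0 (zero_mem _) b hb))
  have h13 : ∀ {t}, t ∈ Subalgebra.centralizer F (K : Set (Matrix ι ι F)) ↔ ∀ x ∈ K, t * x = x * t :=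
    ⟨fun h x hx => (h x hx).symm, fun h x hx => (h x hx).symm⟩
  refine ⟨Subalgebra.centralizer F K, ⟨fun g hg t ht => h13.2 (hN.comm hg (h13.1 ht)),
    fun x hx y hy => ?_, p, h13.2 h11, ?_⟩, fun t ht => h13.2 (h8 (h13.1 ht)),
    lt_of_le_of_ne (fun x hx => h13.2 (hK.comm x hx)) fun h => h12 (h ▸ h13.2 h11)⟩
  · rw [← h9 _ (h13.1 (mul_mem hx hy)), hf.adj_mul, h9 x (h13.1 hx), h9 y (h13.1 hy)]
  · rintro c hc
    exact h12 (hc ▸ K.smul_mem (one_mem K) c)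

end Field

end H4.As
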