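import Cfsg.Agent.H4.TbF

/-! # The table of maximal subgroups of even-dimensional orthogonal groups -/

set_option autoImplicit false

namespace H4.As
open Matrix Cfsg Cfsg.Geo Module
open scoped MatrixGroups Kronecker commutatorElement

variable {ι μ κ : Type} [Fintype ι] [DecidableEq ι] [Fintype μ] [DecidableEq μ] [Fintype κ]
  [DecidableEq κ] {F : Type*} [Field F] [Fintype F] {Q : (ι → F) → F}

local notation "σ₀" => RingHom.id F
local notation "pol" => QuadraticMap.polar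

theorem o_comm' (hQ : IsNondegenerateQuadraticForm Q) (h2 : 2 ≤ Fintype.card ι)
    {H : Subgroup (GL ι F)} (hI : Irr H) (hH : H ≤ isometryGroup F Q)
    {K : Subalgebra F (Matrix ι ι F)} (hK : CommData H K) (ha : ∀ x ∈ K, adj σ₀ (pol Q) x ∈ K) :
    (∃ (t m : ℕ) (D : Fin t → Submodule F (ι → F)), IsOrthogonalMDecomposition Q m D ∧
      H ≤ decompositionStabilizer D) ∨
    (∃ (m : ℕ) (D : Fin 2 → Submodule F (ι → F)), IsMDecomposition m D ∧
      (∀ i, IsTotallySingularQuad Q (D i)) ∧ H ≤ decompositionStabilizer D) ∨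
    IsFieldSubalgebra (finrank F K) K := by
  haveI : Nonempty ι := Fintype.card_pos_iff.1 (by omega)
  have hf := SF.of_quad hQ
  have hH' := hH.trans (isometry_le Q)
  rcases hf.comm_case (hH'.trans (Iso_le_Sim _)) hI K hK.nrm hK.comm ha with
    ⟨t, m, D, -, h1, h3, h4⟩ | ⟨m, D, h1, h3, h4⟩ | h
  · exact Or.inl ⟨t, m, D, ⟨h1, fun i j => (h4 i j).elim fun g hg =>
      isometric_of_map (hH hg.1) hg.2⟩, h3⟩
  · refine Or.inr (Or.inl ⟨m, D, h1, ?_, h4⟩)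
    by_cases hc : (2 : F) = 0
    · obtain ⟨Q', h5, h6⟩ := (hf.neg_one hc).hasQ_pair hc h1 h3
      rwa [quad_unique h2 hI (hasQ_self hQ hH) ⟨h5.1, h5.2.1, (le_inf h4 hH').trans h5.2.2⟩]
    · exact fun i w hw => q_of_pol hQ hc (h3 i w hw w hw)
  · exact Or.inr (Or.inr h)

lemma card_ne_six : Fintype.card F ≠ 6 := fun h => by
  obtain ⟨p, hp, n, hn, h1⟩ := FiniteField.card' F
  exact not_prime_pow hn Nat.prime_two Nat.prime_three (by decide) (by decide) (by decide) (h ▸ h1)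

lemma all_or_none {t m : ℕ} {D : Fin t → Submodule F (ι → F)} (hD : IsOrthogonalMDecomposition Q m D) :
    (∀ i, IsPlusTypeOn Q (D i)) ∨ ∀ i, ¬ IsPlusTypeOn Q (D i) := by
  by_contra h
  push Not at h
  obtain ⟨⟨i, hi⟩, j, hj⟩ := h
  exact hi (plus_of_isometric (hD.isometric j i) hj)

lemma tensor_type (hQ : IsNondegenerateQuadraticForm Q) (h2 : (2 : F) ≠ 0) {e : ι ≃ Fin 3 × Fin 4}
    {P : GL ι F} {G₁ : Matrix (Fin 3) (Fin 3) F} {G₂ : Matrix (Fin 4) (Fin 4) F}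
    (h1 : SF σ₀ 1 (gf σ₀ G₁)) (h3 : SF σ₀ 1 (gf σ₀ G₂))
    (h : pb (tv e P) (pol Q) = gf σ₀ (G₁ ⊗ₖ G₂)) :
    IsPlusTypeOn Q ⊤ ↔ IsPlusTypeOn (fun v => gf σ₀ G₂ v v) ⊤ := by
  have h4 := h1.gf_unit.ne_zero
  have h5 := h3.gf_unit.ne_zero
  have h6 : ∀ (k : ℕ) (x : ℤˣ), x ^ (2 * k) = 1 := fun k x => by rw [pow_mul, Int.units_sq, one_pow]
  rw [plus_iff_disc hQ h2 (k := 2 * 3) (by simpa using Fintype.card_congr e), disc_pb hQ h,
    plus_iff_disc (h3.quad h2) h2 (k := 2 * 1) (by simp), disc_eq _ (Pi.basisFun F _), gram_quad h3 h2,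
    h6, h6, det_kronecker, det_smul]
  simp only [Fintype.card_fin]
  rw [show G₁.det ^ 4 * G₂.det ^ 3 = (G₁.det ^ 2 * G₂.det) ^ 2 * G₂.det by ring,
    show (2 : F) ^ 4 = (2 ^ 2) ^ 2 by ring, chi_sq_mul (by simp [h4, h5]), chi_sq_mul (by simp [h2])]

omit [Fintype F] in
lemma pow_even_mod {q k : ℕ} (h : Odd q) (hk : Even k) : q ^ k % 4 = 1 := by
  obtain ⟨k, rfl⟩ := hk
  have h1 : q ^ 2 % 4 = 1 := by
    rcases (by have := Nat.odd_iff.1 h; omega : q % 4 = 1 ∨ q % 4 = 3) with h | h <;>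
      rw [Nat.pow_mod, h]
  rw [← two_mul, pow_mul, Nat.pow_mod, h1, one_pow]; rfl

omit [Fintype F] in
lemma pow_odd_mod {q k : ℕ} (h : Odd q) (hk : Odd k) : q ^ k % 4 = q % 4 := by
  obtain ⟨k, rfl⟩ := hk
  rw [pow_succ, Nat.mul_mod, pow_even_mod h (even_two_mul k), one_mul, Nat.mod_mod]

/-- The table for even-dimensional orthogonal groups. -/
def OTab (Q : (ι → F) → F) (H : Subgroup (GL ι F)) : Prop :=
  (∃ W, W ≠ ⊥ ∧ IsTotallySingularQuad Q W ∧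
    (IsPlusTypeOn Q ⊤ → 2 * (finrank F W + 1) ≠ Fintype.card ι) ∧
    H = subspaceStabilizer W ⊓ omegaGL Q) ∨
  (∃ W : Submodule F (ι → F), W ≠ ⊥ ∧ W ≠ ⊤ ∧ IsNondegenerateOn (pol Q) W ∧
    2 * finrank F W ≤ Fintype.card ι ∧
    (2 * finrank F W = Fintype.card ι → Even (finrank F W) ∧ ¬ IsPlusTypeOn Q ⊤) ∧
    (Odd (finrank F W) → Odd (Fintype.card F)) ∧
    (finrank F W = 2 → IsPlusTypeOn Q W → 4 ≤ Fintype.card F) ∧
    H = subspaceStabilizer W ⊓ omegaGL Q) ∨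
  (¬ Odd (Fintype.card F) ∧ ∃ v, Q v ≠ 0 ∧ H = subspaceStabilizer (F ∙ v) ⊓ omegaGL Q) ∨
  (∃ (t m : ℕ) (D : Fin t → Submodule F (ι → F)), IsOrthogonalMDecomposition Q m D ∧
    (Odd m → Odd (Fintype.card F) ∧
      (IsPlusTypeOn Q ⊤ ↔ Fintype.card F ^ (Fintype.card ι / 2) % 4 = 1)) ∧
    (m = 1 → (Fintype.card F).Prime) ∧ (m = 3 → 5 ≤ Fintype.card F) ∧
    (m = 2 → (7 ≤ Fintype.card F ∧ ∀ i, IsPlusTypeOn Q (D i)) ∨
      (Fintype.card F ≠ 3 ∧ ∀ i, ¬ IsPlusTypeOn Q (D i))) ∧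
    H = decompositionStabilizer D ⊓ omegaGL Q) ∨
  (∃ (m : ℕ) (D : Fin 2 → Submodule F (ι → F)), Odd m ∧ Odd (Fintype.card F) ∧
    (IsPlusTypeOn Q ⊤ ↔ Fintype.card F % 4 ≠ 1) ∧ IsNondegenerateMDecomposition (pol Q) m D ∧
    ¬ AreIsometricFor Q (D 0) (D 1) ∧ H = decompositionStabilizer D ⊓ omegaGL Q) ∨
  (∃ (m : ℕ) (D : Fin 2 → Submodule F (ι → F)), Even m ∧ IsPlusTypeOn Q ⊤ ∧ IsMDecomposition m D ∧
    (∀ i, IsTotallySingularQuad Q (D i)) ∧ H = decompositionStabilizer D ⊓ omegaGL Q) ∨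
  (∃ (r : ℕ) (K : Subalgebra F (Matrix ι ι F)), r.Prime ∧ Odd r ∧ r ∣ Fintype.card ι ∧
    Fintype.card ι ≠ 2 * r ∧ IsFieldSubalgebra r K ∧ H = subalgebraNormalizer K ⊓ omegaGL Q) ∨
  (∃ K : Subalgebra F (Matrix ι ι F), IsFieldSubalgebra 2 K ∧ IsSelfAdjointFor (pol Q) K ∧
    (Odd (Fintype.card F) ∨ 4 ∣ Fintype.card ι) ∧ H = subalgebraNormalizer K ⊓ omegaGL Q) ∨
  (∃ K : Subalgebra F (Matrix ι ι F), IsFieldSubalgebra 2 K ∧ IsAdjointClosedFor (pol Q) K ∧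
    ¬ IsSelfAdjointFor (pol Q) K ∧ (∀ k ∈ K, ∃ c : F, ∀ v, Q (k *ᵥ v) = c * Q v) ∧
    (IsPlusTypeOn Q ⊤ → 4 ∣ Fintype.card ι) ∧ H = subalgebraNormalizer K ⊓ omegaGL Q) ∨
  (∃ (F₀ : Subfield F) (r : ℕ) (P : GL ι F) (ζ : F), r.Prime ∧ (¬ IsPlusTypeOn Q ⊤ → Odd r) ∧
    Fintype.card F = Nat.card F₀ ^ r ∧ ζ ≠ 0 ∧ IsQuadFormRationalStructure (fun v => ζ * Q v) F₀ P ∧
    H = subfieldSubgroup F₀ P ⊓ omegaGL Q) ∨
  (IsPlusTypeOn Q ⊤ ∧ Fintype.card ι = 8) ∨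
  (Odd (Fintype.card F) ∧ 5 ≤ Fintype.card F ∧ ∃ (e : ι ≃ Fin 3 × Fin 4) (P : GL ι F)
    (G₁ : Matrix (Fin 3) (Fin 3) F) (G₂ : Matrix (Fin 4) (Fin 4) F), SF σ₀ 1 (gf σ₀ G₁) ∧
    SF σ₀ 1 (gf σ₀ G₂) ∧ pb (tv e P) (pol Q) = gf σ₀ (G₁ ⊗ₖ G₂) ∧
    H = tensorProductSubgroup 3 4 e P ⊓ omegaGL Q) ∨
  (IsPlusTypeOn Q ⊤ ∧ 3 ≤ Fintype.card F ∧ ∃ (e : ι ≃ Fin 2 × Fin 6) (P : GL ι F)
    (f₁ : (Fin 2 → F) → (Fin 2 → F) → F) (f₂ : (Fin 6 → F) → (Fin 6 → F) → F), IsSymplecticForm f₁ ∧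
    IsSymplecticForm f₂ ∧ IsTensorFormStructure id (pol Q) f₁ f₂ e P ∧
    (∀ (x : Fin 2 → F) (y : Fin 6 → F), Q (tv e P fun a => x a.1 * y a.2) = 0) ∧
    H = tensorProductSubgroup 2 6 e P ⊓ omegaGL Q) ∨
  InOrthogonalResidualClass H

section
variable (hQ : IsNondegenerateQuadraticForm Q) {n : ℕ} (hn : Fintype.card ι = 2 * n) (h4 : 4 ≤ n)
  {H : Subgroup (GL ι F)} (hH : IsMaximalIn (omegaGL Q) H)
include hQ hn h4 hH

omit hH in
lemma o_not_dec {t m : ℕ} {D : Fin t → Submodule F (ι → F)} (hD : IsMDecomposition m D) :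
    ¬ omegaGL Q ≤ decompositionStabilizer D := (big_O hQ (by omega)).not_dec hD (by
  have h1 := dec_card hD
  have := Nat.mul_le_mul_right m hD.two_le
  omega)

lemma otab_sub (h : OSub Q H) : OTab Q H := by
  obtain ⟨k, r, P, ζ, h1, h2, h3, h5, h6⟩ := h
  iterate 9 right
  refine Or.inl ⟨k, r, P, ζ, h1, fun h => h1.odd_of_ne_two ?_, h2, h3, h5,
    eq_of_max hH h6 ((big_O hQ (by omega)).not_sub (by omega) h1 h2 P)⟩
  rintro rfl
  exact h (plus_of_sub hQ ⟨n, by omega⟩ h2 h3 h5)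

lemma otab_dec₀ {t m : ℕ} {D : Fin t → Submodule F (ι → F)} (hD : IsOrthogonalMDecomposition Q m D)
    (h : H ≤ decompositionStabilizer D) (h1 : m = 1 → (Fintype.card F).Prime)
    (h3 : m = 3 → 5 ≤ Fintype.card F)
    (h2 : m = 2 → (7 ≤ Fintype.card F ∧ ∀ i, IsPlusTypeOn Q (D i)) ∨
      (Fintype.card F ≠ 3 ∧ ∀ i, ¬ IsPlusTypeOn Q (D i))) : OTab Q H := by
  iterate 3 right
  refine Or.inl ⟨t, m, D, hD, fun hm => ?_, h1, h3, h2,
    eq_of_max hH h (o_not_dec hQ hn h4 hD.decomp.decomp)⟩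
  have h5 := dec_card hD.decomp.decomp
  have h6 := hD.decomp.decomp.two_le
  have h7 : (2 : F) ≠ 0 := fun h7 => Nat.not_even_iff_odd.2 hm (by
    rw [← hD.decomp.decomp.finrank_eq ⟨0, by omega⟩]
    exact (SF.of_quad hQ).even_of_nd (alt_pol hQ h7) (hD.decomp.nondegenerate _))
  refine ⟨odd_iff.2 h7, plus_iff_of_disc hQ h7 (by omega) (dec_disc hQ hD ?_)⟩
  exact (Nat.even_mul.1 (h5 ▸ hn ▸ even_two_mul n : Even (t * m))).resolve_right
    (Nat.not_even_iff_odd.2 hm)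

lemma otab_red (hI : ¬ Irr H) : OTab Q H := by
  have hB := big_O hQ (by omega)
  have hf := SF.of_quad hQ
  have hO := hH.1.le.trans (omega_le Q)
  have hS := (hO.trans (isometry_le Q)).trans (Iso_le_Sim _)
  have hp : (2 : F) = 0 → ∀ v, Q v ≠ 0 → Inv H (F ∙ v) → OTab Q H := fun h v h1 h2 => by
    have h3 : v ≠ 0 := by rintro rfl; exact h1 (q_zero hQ)
    have h5 := finrank_span_singleton (K := F) h3
    exact Or.inr (Or.inr (Or.inl ⟨even_iff.2 h, v, h1, eq_of_max hH h2.le_stab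
      (hB.not_stab (by simpa) (ne_top_of_lt (by omega)))⟩))
  rcases o_reducible hQ hO hI with ⟨W, h0, h1, h2⟩ | ⟨W, h0, h1, h2, h3⟩ | ⟨h, v, h1, h2⟩
  · by_cases h : IsPlusTypeOn Q ⊤ ∧ 2 * (finrank F W + 1) = Fintype.card ι
    · obtain ⟨U, h3, h5, h6, h7⟩ := ts_up hQ (by omega) h.1 h1 h.2
      have h8 : U ≠ ⊥ := ne_bot_of_pos (by omega)
      exact Or.inl ⟨U, h8, h5, fun _ => by omega, eq_of_max hH ((le_inf h2.le_stab hH.1.le).trans h7)
        (hB.not_stab h8 (ts_ne_top hQ h8 h5))⟩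
    · exact Or.inl ⟨W, h0, h1, fun h3 h5 => h ⟨h3, h5⟩,
        eq_of_max hH h2.le_stab (hB.not_stab h0 (ts_ne_top hQ h0 h1))⟩
  swap
  · exact hp h v h1 h2
  wlog h5 : finrank F W = 2 → IsPlusTypeOn Q W → 4 ≤ Fintype.card F generalizing W
  · push Not at h5
    obtain ⟨v, h6, h7⟩ := plane_inv hQ (by omega) h1 h5.1 h5.2.1
    by_cases hc : (2 : F) = 0
    · exact hp hc v (by simp [h6]) (h7 H hO h3)
    have h8 : v ≠ 0 := by rintro rfl; simp [q_zero hQ] at h6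
    have h9 := finrank_span_singleton (K := F) h8
    exact this (F ∙ v) (by simpa) (nd_span hQ hc (by simp [h6])) (by omega) (h7 H hO h3) (by omega)
  have h6 : Odd (finrank F W) → (2 : F) ≠ 0 := fun h hc =>
    Nat.not_even_iff_odd.2 h (hf.even_of_nd (alt_pol hQ hc) h1)
  have h7 : W ≠ ⊤ := ne_top_of_lt (by have := pos_of_ne_bot h0; omega)
  by_cases h : 2 * finrank F W = Fintype.card ι → Even (finrank F W) ∧ ¬ IsPlusTypeOn Q ⊤
  · exact Or.inr (Or.inl ⟨W, h0, h7, h1, h2, h, fun h => odd_iff.2 (h6 h), h5,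
      eq_of_max hH h3.le_stab (hB.not_stab h0 h7)⟩)
  push Not at h
  obtain ⟨h8, h9⟩ := hf.half_dec h1 h0 h.1
  replace h9 := (le_inf h3.le_stab hS).trans h9
  by_cases h10 : AreIsometricFor Q W (hf.perp W)
  · refine otab_dec₀ hQ hn h4 hH ⟨h8, ?_⟩ h9 (by omega) (by omega) (by omega)
    simp only [Fin.forall_fin_two, cons_val_zero, cons_val_one]
    exact ⟨⟨isometric_refl _, h10⟩, isometric_symm h10, isometric_refl _⟩
  have h11 := hf.finrank_perp h1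
  rcases Nat.even_or_odd (finrank F W) with h12 | h12
  · obtain ⟨k, hk⟩ := id h12
    refine (h10 (isometric_of_type hQ h1 (hf.nd_perp h1) (m := k) (by omega) (by omega)
      ⟨plus_perp hQ (h.2 h12) h1, fun h13 => ?_⟩)).elim
    have := plus_perp hQ (h.2 h12) (hf.nd_perp h1) h13
    rwa [← Submodule.eq_of_le_of_finrank_eq (S₁ := W) (fun w hw => hf.mem_perp.2 fun x hx =>
      hf.refl (hf.mem_perp.1 hx w hw)) (by have := hf.finrank_perp (hf.nd_perp h1); omega)] at this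
  · iterate 4 right
    refine Or.inl ⟨_, _, h12, odd_iff.2 (h6 h12), ?_, h8, h10,
      eq_of_max hH h9 (o_not_dec hQ hn h4 h8.decomp)⟩
    rw [plus_iff_disc hQ (h6 h12) h.1.symm, half_disc hQ (h6 h12) h1 h.1 h10, ← Nat.card_eq_fintype_card,
      Ne, ← chi_neg_one_eq_one_iff (h6 h12)]
    rcases Int.units_eq_one_or (chi (-1 : F)) with h | h <;> simp [h, h12.neg_one_pow]

lemma otab_dec (hI : Irr H) {t m : ℕ} {D : Fin t → Submodule F (ι → F)}
    (hD : IsOrthogonalMDecomposition Q m D) (h : H ≤ decompositionStabilizer D) : OTab Q H := by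
  have hO := hH.1.le.trans (omega_le Q)
  have h1 := le_inf h hO
  have h0 := hD.decomp.decomp.two_le
  have hc : Odd m → (2 : F) ≠ 0 := fun hm h7 => Nat.not_even_iff_odd.2 hm (by
    rw [← hD.decomp.decomp.finrank_eq ⟨0, by omega⟩]
    exact (SF.of_quad hQ).even_of_nd (alt_pol hQ h7) (hD.decomp.nondegenerate _))
  have hr : (Fintype.card F = 3 ∨ Fintype.card F = 5) → (∃ D' : Fin (Fintype.card ι) → _,
      IsOrthogonalMDecomposition Q 1 D' ∧ decompositionStabilizer D ⊓ isometryGroup F Q ≤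
        decompositionStabilizer D') → OTab Q H := fun h2 ⟨D', h3, h5⟩ =>
    otab_dec₀ hQ hn h4 hH h3 (h1.trans h5) (fun _ => by rcases h2 with h | h <;> rw [h] <;> decide)
      (by omega) (by omega)
  by_cases h2 : m = 1 ∧ ¬ (Fintype.card F).Prime
  · obtain ⟨rfl, h2⟩ := h2
    exact otab_sub hQ hn h4 hH (frames_sub hQ (hc odd_one) h2 hD h hO)
  by_cases h3 : m = 3 ∧ Fintype.card F = 3
  · obtain ⟨rfl, h3⟩ := h3
    exact hr (Or.inl h3) (three_refine hQ h3 rfl hD)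
  by_cases h5 : m = 2 → (7 ≤ Fintype.card F ∧ ∀ i, IsPlusTypeOn Q (D i)) ∨
      (Fintype.card F ≠ 3 ∧ ∀ i, ¬ IsPlusTypeOn Q (D i))
  · exact otab_dec₀ hQ hn h4 hH hD h (fun h => not_not.1 fun h' => h2 ⟨h, h'⟩)
      (fun h => five_le (odd_iff.2 (hc (h ▸ by decide))) fun h' => h3 ⟨h, h'⟩) h5
  rw [Classical.not_imp, not_or] at h5
  obtain ⟨rfl, h5, h6⟩ := h5
  rcases all_or_none hD with h7 | h7
  · have := card_ne_six (F := F)
    rcases (by have := not_and'.1 h5 h7; omega : Fintype.card F ≤ 3 ∨ Fintype.card F = 4 ∨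
      Fintype.card F = 5) with h8 | h8 | h8
    · obtain ⟨U, h9, h10, h11⟩ := planes_red hQ h8 hD h7
      exact ((hI U (h11.mono h1)).elim h9 h10).elim
    · obtain ⟨k, r, P, ζ, h9, h10, h11, h12, h13⟩ := planes_four hQ h8 hD h7
      exact otab_sub hQ hn h4 hH ⟨k, r, P, ζ, h9, h10, h11, h12, h1.trans h13⟩
    · exact hr (Or.inr h8) (planes_refine hQ rfl hD (Or.inr ⟨h8, h7⟩))
  · have h8 := not_not.1 (not_and'.1 h6 h7)
    exact hr (Or.inl h8) (planes_refine hQ rfl hD (Or.inl ⟨h8, h7⟩))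

lemma otab_pair (hI : Irr H) {m : ℕ} {D : Fin 2 → Submodule F (ι → F)} (hD : IsMDecomposition m D)
    (hT : ∀ i, IsTotallySingularQuad Q (D i)) (h : H ≤ decompositionStabilizer D) : OTab Q H := by
  have h1 := dec_card hD
  have h2 := hD.finrank_eq 0
  rcases Nat.even_or_odd m with hm | hm
  · iterate 5 right
    exact Or.inl ⟨m, D, hm, plus_of_le hQ (hT 0) (by omega), hD, hT,
      eq_of_max hH h (o_not_dec hQ hn h4 hD)⟩
  · exact ((hI _ ((inv_stab _).mono ((le_inf h hH.1.le).trans (pair_odd hQ (by omega) hm hD hT)))).elim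
      (ne_bot_of_pos (by omega)) (ne_top_of_lt (by omega))).elim

lemma otab_two (hI : Irr H) {K : Subalgebra F (Matrix ι ι F)} {d : ℕ} (hK : IsFieldSubalgebra d K)
    (hN : Nrm H K) (ha : ∀ x ∈ K, adj σ₀ (pol Q) x ∈ K) (hd : 2 ∣ d) : OTab Q H := by
  haveI : Nonempty ι := Fintype.card_pos_iff.1 (by omega)
  have hf := SF.of_quad hQ
  obtain ⟨L, h1, -, h2, h3⟩ := hf.prime_sub hK hN ha hd two_ne_zero
  have h5 := eq_of_max hH h2 ((big_O hQ (by omega)).not_field le_rfl h1)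
  iterate 7 right
  by_cases hs : IsSelfAdjointFor (pol Q) L
  · refine Or.inl ⟨L, h1, hs, or_iff_not_imp_left.2 fun h => ?_, h5⟩
    have h6 := alt_pol hQ (even_iff.1 h)
    exact hf.two_mul_dvd h6 h1 hs (hf.selfadj_alt h6 h1 (hf.selfAdj.1 hs))
  · have h6 := unit_scale hQ (by omega) hI (hH.1.le.trans (omega_le Q)) h1 h2 h3 hs
    exact Or.inr (Or.inl ⟨L, h1, hf.adjClosed.2 h3, hs, h6, even_of_unit hQ h1 h3 h6, h5⟩)

lemma otab_comm (hI : Irr H) (h : OComm Q H) : OTab Q H := by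
  haveI : Nonempty ι := Fintype.card_pos_iff.1 (by omega)
  have hf := SF.of_quad hQ
  rcases h with ⟨t, m, D, h1, h2⟩ | ⟨m, D, h1, h2, h3⟩ | ⟨d, K, h1, h2, h3, h5⟩
  · exact otab_dec hQ hn h4 hH hI h1 h2
  · exact otab_pair hQ hn h4 hH hI h1 h2 h3
  obtain ⟨r, hr, hd⟩ := Nat.exists_prime_and_dvd (by omega : d ≠ 1)
  rcases hr.eq_two_or_odd' with rfl | ho
  · exact otab_two hQ hn h4 hH hI h2 h3 h5 hd
  obtain ⟨L, h6, -, h7, h8⟩ := hf.prime_sub h2 h3 h5 hd hr.ne_zero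
  by_cases h9 : Fintype.card ι = 2 * r
  swap
  · iterate 6 right
    exact Or.inl ⟨r, L, hr, ho, field_dvd h6, h9, h6,
      eq_of_max hH h7 ((big_O hQ (by omega)).not_field hr.two_le h6)⟩
  have h10 := hf.selfadj_of_odd h6 h8 ho
  have h11 := (nrm_normalizer L).mono h7
  obtain ⟨M, h12, h13, h14⟩ := (em ((2 : F) = 0)).elim
    (fun h => half_even hQ (by omega) h9 ho h hI hH.1.le h6 h11 h10)
    fun h => half_odd hQ (by omega) h9 ho h hI hH.1.le h6 h11 h10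
  rcases o_comm' hQ (by omega) hI (hH.1.le.trans (omega_le Q)) h12 h13 with
    ⟨t, m, D, h1, h2⟩ | ⟨m, D, h1, h2, h3⟩ | h
  · exact otab_dec hQ hn h4 hH hI h1 h2
  · exact otab_pair hQ hn h4 hH hI h1 h2 h3
  · exact otab_two hQ hn h4 hH hI h h12.nrm h13 ⟨r, h14 _ h⟩

theorem o_even_table (h6 : n ≤ 6) : OTab Q H := by
  haveI : Nonempty ι := Fintype.card_pos_iff.1 (by omega)
  have hB := big_O hQ (by omega)
  by_cases hI : Irr H
  swap
  · exact otab_red hQ hn h4 hH hI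
  rcases o_core hQ (by omega) hI (hH.1.le.trans (omega_le Q)) with h | h | ⟨-, R, k, h1, -, h2, h3, h5⟩ |
    ⟨hc, d, m, e, P, G₁, G₂, h1, h2, h3, h5, h7, h8, h⟩ | ⟨d, m, e, P, G₁, G₂, h1, h2, h3, h5, h7, h8, h9, h⟩ |
    ⟨-, k, t, e, -, -, h1, h2, -⟩ | ⟨k, t, e, P, i, h1, h2, h3, h5⟩ | h
  · exact otab_comm hQ hn h4 hH hI h
  · exact otab_sub hQ hn h4 hH h
  · have h7 : k < 4 := (Nat.pow_lt_pow_iff_right one_lt_two).1 (by omega)
    obtain rfl : k = 3 := by interval_cases k <;> omega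
    iterate 10 right
    exact Or.inl ⟨h1.plus hQ (by omega) h2 (by omega), h3⟩
  · have h9 : Fintype.card ι = d * m := by simpa using Fintype.card_congr e
    obtain rfl : d = 3 := by nlinarith
    obtain rfl : m = 4 := by omega
    iterate 11 right
    exact Or.inl ⟨odd_iff.2 hc, five_le (odd_iff.2 hc) (h3 rfl), e, P, G₁, G₂, h5, h7, h8,
      eq_of_max hH h (hB.not_tensor' (by omega) (by omega) (by omega) e P)⟩
  · have h10 : Fintype.card ι = d * m := by simpa using Fintype.card_congr e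
    have h11 : d % 2 = 0 := by simpa [Nat.even_iff] using even_of_symp h5
    have h12 : m % 2 = 0 := by simpa [Nat.even_iff] using even_of_symp h7
    obtain rfl : d = 2 := by
      have : d < 4 := by nlinarith
      omega
    have h13 := plus_of_tensor hQ h9
    iterate 10 right
    rcases (by omega : m = 4 ∨ m = 6) with rfl | rfl
    · exact Or.inl ⟨h13, h10⟩
    · iterate 2 right
      exact Or.inl ⟨h13, h3 rfl, e, P, _, _, h5, h7, tensorStruct h8, h9,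
        eq_of_max hH h (hB.not_tensor' (by omega) (by omega) (by omega) e P)⟩
  · have h10 : k ^ t = Fintype.card ι := by simpa using (Fintype.card_congr e).symm
    obtain ⟨rfl, rfl⟩ := pow_cases h1 h2 h10 (by omega)
    omega
  · have h10 : k ^ t = Fintype.card ι := by simpa using (Fintype.card_congr e).symm
    obtain rfl : k = 2 := by
      by_contra h
      obtain ⟨rfl, -⟩ := pow_cases (by omega) h3 h10 (by omega)
      exact absurd h2 (by decide)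
    have h7 : t < 4 := (Nat.pow_lt_pow_iff_right one_lt_two).1 (by omega)
    iterate 10 right
    exact Or.inl ⟨plus_of_power hQ (h5 0), by interval_cases t <;> omega⟩
  · iterate 13 right
    exact h

end

end H4.As
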