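import Cfsg.Agent.H4.TbG

/-! # Special inclusions in dimension four -/

set_option autoImplicit false

namespace H4.As
open Matrix Cfsg Cfsg.Geo Module
open scoped MatrixGroups Kronecker commutatorElement

variable {ι μ κ : Type} [Fintype ι] [DecidableEq ι] [Fintype μ] [DecidableEq μ] [Fintype κ]
  [DecidableEq κ] {F : Type*} [Field F] {Q : (ι → F) → F}

local notation "σ₀" => RingHom.id F
local notation "pol" => QuadraticMap.polar

section Dec
variable {s : ℕ} {Q₀ : (κ → F) → F}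

/-- Inclusion of a block. -/
def inb (i : Fin s) : (κ → F) →ₗ[F] (Fin s × κ → F) where
  toFun x p := if p.1 = i then x p.2 else 0
  map_add' x y := funext fun p => by by_cases h : p.1 = i <;> simp [h]
  map_smul' c x := funext fun p => by by_cases h : p.1 = i <;> simp [h]

omit [Fintype κ] [DecidableEq κ] in
lemma blk_inb (i : Fin s) (x : κ → F) : blk (inb i x) i = x := funext fun _ => if_pos rfl

omit [Fintype κ] [DecidableEq κ] in
lemma blk_inb_ne {i j : Fin s} (h : j ≠ i) (x : κ → F) : blk (inb i x) j = 0 :=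
  funext fun _ => if_neg h

omit [Fintype κ] [DecidableEq κ] in
lemma eq_inb {i : Fin s} {v : Fin s × κ → F} (h : ∀ p : Fin s × κ, p.1 ≠ i → v p = 0) :
    inb i (blk v i) = v := funext fun p => by
  by_cases hp : p.1 = i
  · exact (if_pos hp).trans (by rw [← hp])
  · exact (if_neg hp).trans (h p hp).symm

lemma isQuad_sum (h₀ : IsNondegenerateQuadraticForm Q₀) :
    IsNondegenerateQuadraticForm fun x : Fin s × κ → F => ∑ i, Q₀ (blk x i) := by
  have h := SF.of_quad h₀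
  refine (SF.bm (G := fun _ => gramMatrix (pol Q₀)) (fun _ => rfl) (by simp)
    fun _ => h.eq_gf' ▸ h).isQuad (fun c v => ?_) fun u v => ?_
  · rw [Finset.mul_sum]
    exact Finset.sum_congr rfl fun i _ => h₀.smul c (blk v i)
  · simp only [QuadraticMap.polar, gf_bm, ← h.eq_gf, Finset.sum_sub_distrib]
    rfl

lemma dec_of_adapt [Nonempty κ] (hs : 2 ≤ s) (e : ι ≃ Fin s × κ) (P : GL ι F) :
    ∃ D : Fin s → Submodule F (ι → F), Adapt D e P ∧ IsMDecomposition (Fintype.card κ) D ∧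
      ∀ i, ∃ φ : (κ → F) ≃ₗ[F] D i, ∀ x, (φ x : ι → F) = tv e P (inb i x) := by
  have h1 : ∀ i : Fin s, Function.Injective ((tv e P).toLinearMap ∘ₗ inb (κ := κ) i) :=
    fun i x y h => by rw [← blk_inb i x, (tv e P).injective h, blk_inb]
  refine ⟨fun i => LinearMap.range ((tv e P).toLinearMap ∘ₗ inb i), fun i v => ⟨?_, fun h =>
    ⟨blk v i, congrArg (tv e P) (eq_inb h)⟩⟩, ⟨hs, Fintype.card_pos, fun i => ?_, fun i => ?_, ?_⟩,
    fun i => ⟨LinearEquiv.ofInjective _ (h1 i), fun _ => rfl⟩⟩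
  · rintro ⟨x, h⟩ p hp
    rw [← (tv e P).injective h]; exact if_neg hp
  · rw [LinearMap.finrank_range_of_inj (h1 i)]; simp
  · refine Submodule.disjoint_def.2 ?_
    rintro _ ⟨x, rfl⟩ h
    have := (iSup₂_le fun j hj => ?_ : _ ≤ (supp F fun p : Fin s × κ => p.1 ≠ i).map
      (tv e P).toLinearMap) h
    · obtain ⟨y, hy, h⟩ := this
      rw [← blk_inb i x, ← (tv e P).injective h, show blk y i = 0 from funext fun l => hy _ (by simp),
        map_zero]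
    · rintro _ ⟨y, rfl⟩
      exact ⟨inb j y, fun p hp => if_neg (by rw [not_not.1 hp]; exact hj.symm), rfl⟩
  · refine eq_top_iff.2 fun v _ => ?_
    obtain ⟨x, rfl⟩ := (tv e P).surjective v
    rw [show x = ∑ i, inb i (blk x i) from funext fun p => by simp [inb], map_sum]
    exact sum_mem fun i _ => Submodule.mem_iSup_of_mem i ⟨_, rfl⟩

lemma dec_of_q [Nonempty κ] (h₀ : IsNondegenerateQuadraticForm Q₀) (hs : 2 ≤ s) {e : ι ≃ Fin s × κ}
    {P : GL ι F} (h : ∀ x, Q (tv e P x) = ∑ i, Q₀ (blk x i)) :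
    ∃ D : Fin s → Submodule F (ι → F), Adapt D e P ∧
      IsOrthogonalMDecomposition Q (Fintype.card κ) D ∧
      ∀ i, ∃ φ : (κ → F) ≃ₗ[F] D i, ∀ x, Q (φ x) = Q₀ x := by
  obtain ⟨D, h1, h2, h3⟩ := dec_of_adapt hs e P
  choose φ hφ using h3
  have hf := SF.of_quad h₀
  have h4 : ∀ i j x y, pol Q (φ i x) (φ j y) = if i = j then pol Q₀ x y else 0 := fun i j x y => by
    have := congrFun (congrFun (pb_of_q h hf.eq_gf) (inb i x)) (inb j y)
    rw [hφ, hφ]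
    refine this.trans ?_
    rw [gf_bm, Finset.sum_eq_single i (fun k _ hk => by
      rw [blk_inb_ne hk, ← hf.eq_gf, hf.zero]) (by simp), blk_inb, ← hf.eq_gf]
    split_ifs with h
    · rw [h, blk_inb]
    · rw [blk_inb_ne h, hf.zero']
  have h5 : ∀ i x, Q (φ i x) = Q₀ x := fun i x => by
    rw [hφ, h, Finset.sum_eq_single i (fun k _ hk => by rw [blk_inb_ne hk, q_zero h₀]) (by simp), blk_inb]
  refine ⟨D, h1, ⟨⟨h2, fun i w hw h0 => ?_, fun i j hij u hu v hv => ?_⟩, fun i j =>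
    ⟨(φ i).symm.trans (φ j), fun w => ?_⟩⟩, fun i => ⟨φ i, h5 i⟩⟩
  · obtain ⟨x, hx⟩ := (φ i).surjective ⟨w, hw⟩
    obtain rfl : (φ i x : ι → F) = w := congrArg Subtype.val hx
    obtain ⟨y, hy⟩ := not_forall.1 (mt (hf.nd x) (by rintro rfl; simp at h0))
    exact ⟨⟨_, (φ i y).2, by simpa [h4]⟩, _, (φ i y).2, by
      rw [QuadraticMap.polar_comm]; simpa [h4]⟩
  · obtain ⟨x, hx⟩ := (φ i).surjective ⟨u, hu⟩
    obtain ⟨y, hy⟩ := (φ j).surjective ⟨v, hv⟩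
    simpa [hx, hy, hij] using h4 i j x y
  · rw [LinearEquiv.trans_apply, h5, ← h5 i, LinearEquiv.apply_symm_apply]

omit [DecidableEq κ] [Fintype κ] in
lemma plus_of_equiv {W : Submodule F (ι → F)} (φ : (κ → F) ≃ₗ[F] W) (h : ∀ x, Q (φ x) = Q₀ x) :
    IsPlusTypeOn Q W ↔ IsPlusTypeOn Q₀ ⊤ := by
  refine ⟨fun ⟨U, h1, h2, h3⟩ => ⟨(U.submoduleOf W).map φ.symm.toLinearMap, le_top, ?_, ?_⟩,
    fun ⟨U, _, h2, h3⟩ => ⟨(U.map φ.toLinearMap).map W.subtype, Submodule.map_subtype_le _ _, ?_, ?_⟩⟩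
  · rintro _ ⟨x, hx, rfl⟩
    rw [← h]; simpa using h2 _ hx
  · rw [LinearEquiv.finrank_map_eq, (Submodule.submoduleOfEquivOfLe h1).finrank_eq, h3, finrank_top,
      φ.finrank_eq]
  · rintro _ ⟨_, ⟨x, hx, rfl⟩, rfl⟩
    exact (h x).trans (h2 x hx)
  · rw [Submodule.finrank_map_subtype_eq, LinearEquiv.finrank_map_eq, h3, finrank_top, φ.finrank_eq]

variable [Fintype F]

lemma four_refine (hQ : IsNondegenerateQuadraticForm Q) (hq : Fintype.card F ≤ 2) {t : ℕ}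
    {D : Fin t → Submodule F (ι → F)} (hD : IsOrthogonalMDecomposition Q 4 D)
    (hp : ∀ i, IsPlusTypeOn Q (D i)) : ∃ D' : Fin (t * 2) → Submodule F (ι → F),
      IsOrthogonalMDecomposition Q 2 D' ∧ (∀ i, ¬ IsPlusTypeOn Q (D' i)) ∧
      decompositionStabilizer D ⊓ isometryGroup F Q ≤ decompositionStabilizer D' := by
  have h2 := two_eq_zero (F := F) (Or.inl (le_antisymm hq Fintype.one_lt_card))
  have hA := isQuad_A h2
  have h1 : ∀ v : Fin 2 → F, v ≠ 0 → v 0 ^ 2 + v 0 * v 1 + v 1 ^ 2 = 1 := fun v hv => by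
    by_cases h0 : v 0 = 0 <;> by_cases h1 : v 1 = 0
    · exact (hv (by ext i; fin_cases i <;> assumption)).elim
    · simp [h0, eq_one_of_two hq h1]
    · simp [h1, eq_one_of_two hq h0]
    · rw [eq_one_of_two hq h0, eq_one_of_two hq h1]; linear_combination h2
  obtain ⟨A, hA, h1⟩ : ∃ A : (Fin 2 → F) → F, IsNondegenerateQuadraticForm A ∧ ∀ v, v ≠ 0 → A v = 1 :=
    ⟨_, hA, h1⟩
  have h3 := hD.decomp.decomp.two_le
  have h4 := isQuad_sum (s := 2) hA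
  obtain ⟨D₀, -, h5, -⟩ := dec_of_q (e := Equiv.refl _) (P := 1)
    (Q := fun x : Fin 2 × Fin 2 → F => ∑ i, A (blk x i)) hA le_rfl fun x => by simp [tv_refl]
  obtain ⟨φ, hφ⟩ := exists_model hQ (hD.decomp.nondegenerate ⟨0, by omega⟩) h4 (m := 2)
    (hD.decomp.decomp.finrank_eq _) (by simp)
    (iff_of_true ((dec_plus_iff h4 h5 (by simp)).2 (Or.inl even_two)) (hp _))
  obtain ⟨e, P, h6, h7⟩ := q_adapt hQ hD φ hφ
  let e' : Fin t × Fin 2 × Fin 2 ≃ Fin (t * 2) × Fin 2 :=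
    (Equiv.prodAssoc _ _ _).symm.trans (finProdFinEquiv.prodCongr (Equiv.refl _))
  have h8 : ∀ x, tv (e.trans e') P x = tv e P (x ∘ e') := fun _ => rfl
  obtain ⟨D', h9, h10, h11⟩ := dec_of_q (Q := Q) (e := e.trans e') (P := P) hA (by omega) fun x => by
    rw [h8, h7, ← finProdFinEquiv.sum_comp, Fintype.sum_prod_type]; rfl
  choose ψ hψ using h11
  have h12 : ∀ k, ∀ v ∈ D' k, v ≠ 0 → Q v = 1 := fun k v hv h0 => by
    obtain ⟨x, hx⟩ := (ψ k).surjective ⟨v, hv⟩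
    rw [show v = ψ k x from (congrArg Subtype.val hx).symm] at h0 ⊢
    rw [hψ, h1 x (by rintro rfl; simp at h0)]
  refine ⟨D', by simpa using h10, fun i h => ?_, le_dec_of h10.decomp.decomp fun g hg k => ?_⟩
  · obtain ⟨u, h0, hu⟩ := (plus_two hA (by simp)).1 ((plus_of_equiv (ψ i) (hψ i)).1 h)
    exact one_ne_zero ((h1 u h0).symm.trans hu)
  have h13 : ∀ v ∈ D' k, v ≠ 0 → ∃ k', g.1 *ᵥ v ∈ D' k' := fun v hv h0 => by
    obtain ⟨π, hπ⟩ := hg.1
    have h13 := (mem_isometryGroup.1 hg.2 v).trans (h12 k v hv h0)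
    have h14 : g.1 *ᵥ v ∈ D (π (finProdFinEquiv.symm k).1) := by
      obtain ⟨x, rfl⟩ := (tv (e.trans e') P).surjective v
      rw [← hπ]
      refine ⟨_, (h6 _ (x ∘ e')).2 fun p hp => (h9 k x).1 hv _ fun h => hp ?_, rfl⟩
      rw [← h]; simp [e']
    generalize π (finProdFinEquiv.symm k).1 = i at h14
    obtain ⟨y, hy⟩ := (tv e P).surjective (g.1 *ᵥ v)
    rw [← hy] at h13 h14 ⊢
    have h15 := (h6 i y).1 h14
    rw [h7, Finset.sum_eq_single i (fun j _ hj => by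
      rw [show blk y j = 0 from funext fun l => h15 _ hj]; exact q_zero h4) (by simp)] at h13
    obtain ⟨j, hj⟩ : ∃ j, ∀ j', j' ≠ j → blk (blk y i) j' = 0 := by
      by_contra h
      push Not at h
      obtain ⟨j, hj, h16⟩ := h 0
      obtain ⟨j', hj', h17⟩ := h 1
      obtain rfl : j = 1 := by omega
      obtain rfl : j' = 0 := by omega
      rw [Fin.sum_univ_two, h1 _ h16, h1 _ h17] at h13
      exact one_ne_zero (by linear_combination h13 : (1 : F) = 0)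
    refine ⟨finProdFinEquiv (i, j), ?_⟩
    rw [show tv e P y = tv (e.trans e') P (y ∘ e'.symm) by rw [h8]; congr 1; ext; simp]
    refine (h9 _ _).2 fun p hp => ?_
    obtain ⟨⟨a, b, c⟩, rfl⟩ := e'.surjective p
    simp only [Function.comp_apply, Equiv.symm_apply_apply]
    by_cases ha : a = i
    · subst ha
      exact congrFun (hj b (by rintro rfl; exact hp rfl)) c
    · exact h15 _ ha
  obtain ⟨v₀, h14, h15⟩ := dec_ne h10.decomp.decomp k
  obtain ⟨k', h16⟩ := h13 v₀ h14 h15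
  refine ⟨k', fun v hv => ?_⟩
  rcases eq_or_ne v 0 with rfl | h0
  · rw [mulVec_zero]; exact zero_mem _
  rcases eq_or_ne (v + v₀) 0 with h | h
  · rw [eq_neg_of_add_eq_zero_left h, mulVec_neg]; exact neg_mem h16
  obtain ⟨k'', h17⟩ := h13 v hv h0
  by_contra h18
  have h19 := (mem_isometryGroup.1 hg.2 _).trans (h12 k _ (add_mem hv h14) h)
  rw [mulVec_add, quad_add Q, h10.decomp.orthogonal k'' k' (by rintro rfl; exact h18 h17) _ h17 _ h16,
    h12 _ _ h17 (mt gl_mulVec_eq_zero.1 h0), h12 _ _ h16 (mt gl_mulVec_eq_zero.1 h15)] at h19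
  exact one_ne_zero (by linear_combination h19 : (1 : F) = 0)

lemma four_tab (hQ : IsNondegenerateQuadraticForm Q) {n : ℕ} (hn : Fintype.card ι = 2 * n) (h4 : 4 ≤ n)
    {H : Subgroup (GL ι F)} (hH : IsMaximalIn (omegaGL Q) H) (hq : Fintype.card F ≤ 2) {t : ℕ}
    {D : Fin t → Submodule F (ι → F)} (hD : IsOrthogonalMDecomposition Q 4 D)
    (hp : ∀ i, IsPlusTypeOn Q (D i)) (h : H = decompositionStabilizer D ⊓ omegaGL Q) :
    ∃ D' : Fin (t * 2) → Submodule F (ι → F), IsOrthogonalMDecomposition Q 2 D' ∧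
      (∀ i, ¬ IsPlusTypeOn Q (D' i)) ∧ H = decompositionStabilizer D' ⊓ omegaGL Q := by
  obtain ⟨D', h1, h2, h3⟩ := four_refine hQ hq hD hp
  exact ⟨D', h1, h2, eq_of_max hH (h.le.trans ((inf_le_inf_left _ (omega_le Q)).trans h3))
    (o_not_dec hQ hn h4 h1.decomp.decomp)⟩

end Dec

section O4

/-- The swap of tensor factors. -/
def swU (κ : Type) [Fintype κ] [DecidableEq κ] (F : Type*) [Field F] : GL (κ × κ) F where
  val := (Equiv.prodComm κ κ).toPEquiv.toMatrix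
  inv := (Equiv.prodComm κ κ).toPEquiv.toMatrix
  val_inv := by rw [PEquiv.toMatrix_toPEquiv_mul]; ext; simp [one_apply, Prod.ext_iff, and_comm, eq_comm]
  inv_val := by rw [PEquiv.toMatrix_toPEquiv_mul]; ext; simp [one_apply, Prod.ext_iff, and_comm, eq_comm]

lemma cjG_swU (a b : Matrix κ κ F) : cjG (swU κ F) (a ⊗ₖ b) = b ⊗ₖ a := by
  rw [cjG_eq_iff]
  simp only [swU, PEquiv.toMatrix_toPEquiv_mul, PEquiv.mul_toMatrix_toPEquiv]
  ext; simp [mul_comm]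

lemma swU_mul_self : swU κ F * swU κ F = 1 := Units.ext (swU κ F).val_inv

lemma det_swU : (swU (Fin 2) F).1.det = -1 := by
  have := det_permutation (R := F) (Equiv.prodComm (Fin 2) (Fin 2))
  rw [show Equiv.Perm.sign (Equiv.prodComm (Fin 2) (Fin 2)) = -1 by decide] at this
  exact this.trans (by simp)

lemma sq_traceless {u : Matrix (Fin 2) (Fin 2) F} (h : u.trace = 0) : u * u = (-u.det) • 1 := by
  rw [trace_fin_two] at h
  rw [det_fin_two, show u 1 1 = -u 0 0 by linear_combination h]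
  ext i j
  fin_cases i <;> fin_cases j <;> simp [mul_apply, show u 1 1 = -u 0 0 by linear_combination h] <;> ring

lemma sf_JJ : SF σ₀ 1 (gf σ₀ (J2 F ⊗ₖ J2 F)) :=
  SF.of_gram (fun _ => rfl) (by simp) ((isUnit_iff_isUnit_det _).2 (by simp [det_kronecker, J2]))
    (by ext ⟨i, j⟩ ⟨k, l⟩; fin_cases i <;> fin_cases j <;> fin_cases k <;> fin_cases l <;> simp [J2])

lemma skew_JJ (h2 : (2 : F) ≠ 0) {x : Matrix (Fin 2 × Fin 2) (Fin 2 × Fin 2) F}
    (h : adj σ₀ (gf σ₀ (J2 F ⊗ₖ J2 F)) x = -x) : ∃ u w : Matrix (Fin 2) (Fin 2) F, u.trace = 0 ∧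
      w.trace = 0 ∧ x = u ⊗ₖ 1 + (1 : Matrix (Fin 2) (Fin 2) F) ⊗ₖ w := by
  suffices ∀ x, ∃ u w : Matrix (Fin 2) (Fin 2) F, u.trace = 0 ∧ w.trace = 0 ∧
      x - adj σ₀ (gf σ₀ (J2 F ⊗ₖ J2 F)) x = u ⊗ₖ 1 + (1 : Matrix (Fin 2) (Fin 2) F) ⊗ₖ w by
    obtain ⟨u, w, h1, h3, h4⟩ := this ((2 : F)⁻¹ • x)
    refine ⟨u, w, h1, h3, ?_⟩
    rw [← h4, sf_JJ.adj_smul, h, smul_neg, sub_neg_eq_add, RingHom.id_apply, ← add_smul, ← two_mul,
      mul_inv_cancel₀ h2, one_smul]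
  intro x
  induction x using Matrix.induction_on' with
  | h_zero => exact ⟨0, 0, by simp, by simp, by simp [sf_JJ.adj_zero]⟩
  | h_add x y hx hy =>
    obtain ⟨u, w, h1, h3, h4⟩ := hx
    obtain ⟨u', w', h1', h3', h4'⟩ := hy
    refine ⟨u + u', w + w', by simp [h1, h1'], by simp [h3, h3'], ?_⟩
    rw [sf_JJ.adj_add, add_kronecker, kronecker_add, add_add_add_comm, ← h4, ← h4']; abel
  | h_std_basis p q c =>
    rw [← mul_one c, ← single_kronecker_single, adj_gf, adjG_kron, adjG_J2, adjG_J2]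
    generalize single p.1 q.1 c = a
    generalize single p.2 q.2 (1 : F) = b
    refine ⟨b.trace • (a - (a.trace / 2) • 1), a.trace • (b - (b.trace / 2) • 1), ?_, ?_, ?_⟩
    · simp [div_mul_cancel₀ _ h2]
    · simp [div_mul_cancel₀ _ h2]
    · ext; simp; field_simp; ring

lemma kron_scalar (h2 : (2 : F) ≠ 0) {u w : Matrix (Fin 2) (Fin 2) F} (hu : u.trace = 0)
    (hw : w.trace = 0) {c : F} (h : u ⊗ₖ w = c • 1) : u = 0 ∨ w = 0 := by
  rw [trace_fin_two] at hu hw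
  have h1 : c = 0 := by
    have h3 := congrFun (congrFun h (0, 0)) (0, 0)
    have h4 := congrFun (congrFun h (0, 1)) (0, 1)
    simp at h3 h4
    exact mul_left_cancel₀ h2 (by linear_combination u 0 0 * hw - h3 - h4)
  by_contra h3
  push Not at h3
  obtain ⟨i, j, h4⟩ : ∃ i j, u i j ≠ 0 := by by_contra h; push Not at h; exact h3.1 (by ext; simp [h])
  obtain ⟨k, l, h5⟩ : ∃ i j, w i j ≠ 0 := by by_contra h; push Not at h; exact h3.2 (by ext; simp [h])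
  simpa [h1, h4, h5] using congrFun (congrFun h (i, k)) (j, l)

theorem o4_struct (h2 : (2 : F) ≠ 0) {b : GL (Fin 2 × Fin 2) F}
    (hb : b ∈ similarityGroup (gf σ₀ (J2 F ⊗ₖ J2 F))) :
    ∃ b₁ b₂, b = kronU b₁ b₂ ∨ b = swU _ F * kronU b₁ b₂ := by
  have h1 : ∀ a : Matrix (Fin 2) (Fin 2) F, a.trace = 0 → (∃ u, cjG b (a ⊗ₖ 1) = u ⊗ₖ 1) ∨
      ∃ w, cjG b (a ⊗ₖ 1) = (1 : Matrix (Fin 2) (Fin 2) F) ⊗ₖ w := fun a ha => by
    obtain ⟨u, w, h1, h3, h4⟩ := skew_JJ h2 (x := cjG b (a ⊗ₖ 1)) (by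
      rw [sf_JJ.adj_cjG hb, adj_gf, adjG_kron, adjG_J2, adjG_one sf_J2.gf_unit, ha, ← map_neg]
      congr 1; ext; simp)
    have h5 : cjG b (a ⊗ₖ 1) * cjG b (a ⊗ₖ 1) = (-a.det) • 1 := by
      rw [← map_mul, ← mul_kronecker_mul, sq_traceless ha, smul_kronecker, mul_one, one_kronecker_one,
        map_smul, map_one]
    rw [h4, add_mul, mul_add, mul_add, ← mul_kronecker_mul, ← mul_kronecker_mul, ← mul_kronecker_mul,
      ← mul_kronecker_mul, sq_traceless h1, sq_traceless h3] at h5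
    simp only [mul_one, one_mul, smul_kronecker, kronecker_smul, one_kronecker_one] at h5
    rcases kron_scalar h2 h1 h3 (c := (2 : F)⁻¹ * (u.det + w.det - a.det)) (by
      rw [mul_smul, eq_inv_smul_iff₀ h2, two_smul, sub_smul, add_smul]
      linear_combination (norm := module) h5) with rfl | rfl
    · exact Or.inr ⟨w, by simpa using h4⟩
    · exact Or.inl ⟨u, by simpa using h4⟩
  have h3 : ∀ g : GL (Fin 2 × Fin 2) F, (∀ a : Matrix (Fin 2) (Fin 2) F, a.trace = 0 →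
      ∃ u, cjG g (a ⊗ₖ 1) = u ⊗ₖ 1) → ∃ b₁ b₂, g = kronU b₁ b₂ := fun g h => kron_of_norm g fun x => by
    obtain ⟨u, hu⟩ := h (x - (x.trace / 2) • 1) (by simp [div_mul_cancel₀ _ h2])
    refine ⟨u + (x.trace / 2) • 1, ?_⟩
    rw [add_kronecker, ← hu, smul_kronecker, one_kronecker_one, ← map_one (cjG g), ← map_smul, ← map_add]
    congr 1; ext ⟨i, j⟩ ⟨k, l⟩; simp [one_apply]; split_ifs <;> simp_all
  by_cases h : ∀ a : Matrix (Fin 2) (Fin 2) F, a.trace = 0 → ∃ u, cjG b (a ⊗ₖ 1) = u ⊗ₖ 1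
  · obtain ⟨b₁, b₂, h⟩ := h3 b h
    exact ⟨b₁, b₂, Or.inl h⟩
  push Not at h
  obtain ⟨a₀, h4, h5⟩ := h
  obtain ⟨w₀, h6⟩ := (h1 a₀ h4).resolve_left (not_exists.2 h5)
  obtain ⟨b₁, b₂, h⟩ := h3 (swU _ F * b) fun a ha => by
    suffices ∃ w, cjG b (a ⊗ₖ 1) = (1 : Matrix (Fin 2) (Fin 2) F) ⊗ₖ w from
      this.imp fun w hw => by rw [cjG_mul, hw, cjG_swU]
    refine (h1 a ha).elim (fun ⟨u, hu⟩ => ?_) id
    rcases h1 (a + a₀) (by simp [ha, h4]) with ⟨u', h⟩ | ⟨w, h⟩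
    · refine (h5 (u' - u) ?_).elim
      rw [add_kronecker, map_add, hu] at h
      rw [eq_sub_of_add_eq' h]; ext; simp [sub_mul]
    · refine ⟨w - w₀, ?_⟩
      rw [add_kronecker, map_add, h6] at h
      rw [eq_sub_of_add_eq h]; ext; simp [mul_sub]
  exact ⟨b₁, b₂, Or.inr (by rw [← h, ← mul_assoc, swU_mul_self, one_mul])⟩

lemma cjU_left {κ' : Type} [Fintype κ'] [DecidableEq κ'] (e : ι ≃ κ × μ) (e' : μ ≃ κ') (P : GL ι F)
    (a : GL κ F) (b : GL μ F) : cjU e P (kronU a b) =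
      cjU (e.trans ((Equiv.refl κ).prodCongr e')) P (kronU a (cjU e'.symm 1 b)) := Units.ext (by
  rw [cjU_coe, cjU_coe, cj_trans]
  congr 1; ext; simp [cj_apply])

lemma pb_change {f : (ι → F) → (ι → F) → F} {e : ι ≃ κ × μ} {P : GL ι F} {G₁ : Matrix κ κ F}
    {G₂ G₃ : Matrix μ μ F} (h : pb (tv e P) f = gf σ₀ (G₁ ⊗ₖ G₂)) {c : GL μ F}
    (hc : c.1ᵀ * G₂ * c.1.map σ₀ = G₃) : ∃ P', pb (tv e P') f = gf σ₀ (G₁ ⊗ₖ G₃) ∧
      ∀ a b, cjU e P (kronU a b) = cjU e P' (kronU a (c⁻¹ * b * c⁻¹⁻¹)) := by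
  obtain ⟨P', h1, h2⟩ := exists_change e P (kronU 1 c)
  refine ⟨P', ?_, fun a b => Units.ext ?_⟩
  · ext x y
    have := congrFun (congrFun h ((kronU 1 c).1 *ᵥ x)) ((kronU 1 c).1 *ᵥ y)
    rw [gf_mulVec, kronU_coe, ← kroneckerMap_transpose, kron_map, ← mul_kronecker_mul,
      ← mul_kronecker_mul, hc] at this
    rw [pb, h2, h2]
    simpa [pb] using this
  · rw [cjU_coe, cjU_coe, h1, kronU_coe, kronU_coe, cjG_kronU, cjG_one, ← cjG_coe, cjG_inv']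

lemma o4_change [Fintype F] [Nonempty κ] (h2 : (2 : F) ≠ 0) {f : (ι → F) → (ι → F) → F} {ε ε₁ : F}
    (hf : SF σ₀ ε f) {e : ι ≃ κ × Fin 4} {P : GL ι F} {G₁ : Matrix κ κ F}
    {G₂ : Matrix (Fin 4) (Fin 4) F} (h1 : SF σ₀ ε₁ (gf σ₀ G₁)) (h3 : SF σ₀ 1 (gf σ₀ G₂))
    (hp : IsPlusTypeOn (fun v => gf σ₀ G₂ v v) ⊤) (h : pb (tv e P) f = gf σ₀ (G₁ ⊗ₖ G₂)) :
    ∃ (e' : ι ≃ κ × Fin 2 × Fin 2) (P' : GL ι F), pb (tv e' P') f = gf σ₀ (G₁ ⊗ₖ (J2 F ⊗ₖ J2 F)) ∧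
      ∀ a b, cjU e P (kronU a b) ∈ similarityGroup f → ∃ b₁ b₂,
        cjU e P (kronU a b) = cjU e' P' (kronU a (kronU b₁ b₂)) ∨
        cjU e P (kronU a b) = cjU e' P' (kronU a (swU _ F * kronU b₁ b₂)) := by
  let e₄ : Fin 4 ≃ Fin 2 × Fin 2 := (finProdFinEquiv (m := 2) (n := 2)).symm
  have h4 : SF σ₀ 1 (gf σ₀ (G₂.submatrix e₄.symm e₄.symm)) := SF.of_gram (fun _ => rfl) (by simp)
    ((isUnit_iff_isUnit_det _).2 (by simpa using h3.gf_unit)) (by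
      rw [transpose_submatrix, h3.gf_t]; ext; simp)
  rw [plus_iff_disc (h3.quad h2) h2 (k := 2) (by simp), disc_eq _ (Pi.basisFun F _), gram_quad h3 h2,
    Int.units_sq, det_smul, Fintype.card_fin, show (2 : F) ^ 4 = (2 ^ 2) ^ 2 by ring,
    chi_sq_mul (by simp [h2]), chi_eq_one] at hp
  obtain ⟨c, hc⟩ := exists_congr h2 sf_JJ h4 (by simpa [det_kronecker, J2] using hp)
  obtain ⟨P', h5, h6⟩ := pb_change (pb_trans (e' := (Equiv.refl κ).prodCongr e₄)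
    (G := G₁ ⊗ₖ G₂.submatrix e₄.symm e₄.symm) (h.trans (by congr 1; ext; simp))) hc
  refine ⟨_, P', h5, fun a b hs => ?_⟩
  rw [cjU_left e e₄, h6] at hs ⊢
  have h7 := cjU_mem_Sim.1 hs
  rw [h5] at h7
  obtain ⟨b₁, b₂, h8⟩ := o4_struct h2 (sim_right h1 sf_JJ (h5 ▸ hf.pb _) h7)
  exact ⟨b₁, b₂, h8.imp (fun h => by rw [h]) fun h => by rw [h]⟩

lemma omega_det {g : GL ι F} (hg : g ∈ omegaGL Q) : g.1.det = 1 := by
  obtain ⟨g, h, rfl⟩ := hg
  exact congrArg Units.val (Abelianization.commutator_subset_ker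
    ((GeneralLinearGroup.det : GL ι F →* Fˣ).comp (isometryGroup F Q).subtype) h)

lemma SF.kron {ε₁ ε₂ : F} {G₁ : Matrix κ κ F} {G₂ : Matrix μ μ F} (h1 : SF σ₀ ε₁ (gf σ₀ G₁))
    (h2 : SF σ₀ ε₂ (gf σ₀ G₂)) : SF σ₀ (ε₁ * ε₂) (gf σ₀ (G₁ ⊗ₖ G₂)) :=
  SF.of_gram (fun _ => rfl) (by
    rw [map_mul, mul_mul_mul_comm, h1.eps, h2.eps, one_mul])
    ((isUnit_iff_isUnit_det _).2 (by
      rw [det_kronecker]; exact (h1.gf_unit.pow _).mul (h2.gf_unit.pow _)))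
    (by rw [← kroneckerMap_transpose, h1.gf_t, h2.gf_t]; ext; simp; ring)

lemma SF.subm {ε : F} {G : Matrix κ κ F} (h : SF σ₀ ε (gf σ₀ G)) (e : μ ≃ κ) :
    SF σ₀ ε (gf σ₀ (G.submatrix e e)) := SF.of_gram (fun _ => rfl) h.eps
  ((isUnit_iff_isUnit_det _).2 (by simpa using h.gf_unit)) (by
    rw [transpose_submatrix, h.gf_t]; ext; simp)

lemma o34_tab [Fintype F] (hQ : IsNondegenerateQuadraticForm Q) (hp : IsPlusTypeOn Q ⊤)
    {H : Subgroup (GL ι F)} (hH : IsMaximalIn (omegaGL Q) H) (ho : Odd (Fintype.card F))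
    {e : ι ≃ Fin 3 × Fin 4} {P : GL ι F} {G₁ : Matrix (Fin 3) (Fin 3) F}
    {G₂ : Matrix (Fin 4) (Fin 4) F} (h1 : SF σ₀ 1 (gf σ₀ G₁)) (h3 : SF σ₀ 1 (gf σ₀ G₂))
    (h : pb (tv e P) (pol Q) = gf σ₀ (G₁ ⊗ₖ G₂)) (h4 : H = tensorProductSubgroup 3 4 e P ⊓ omegaGL Q) :
    ∃ (e : ι ≃ Fin 2 × Fin 6) (P : GL ι F) (f₁ : (Fin 2 → F) → (Fin 2 → F) → F)
      (f₂ : (Fin 6 → F) → (Fin 6 → F) → F), IsSymplecticForm f₁ ∧ IsSymplecticForm f₂ ∧
      IsTensorFormStructure id (pol Q) f₁ f₂ e P ∧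
      (∀ (x : Fin 2 → F) (y : Fin 6 → F), Q (tv e P fun a => x a.1 * y a.2) = 0) ∧
      H = tensorProductSubgroup 2 6 e P ⊓ omegaGL Q := by
  have h2 := odd_iff.1 ho
  have hf := SF.of_quad hQ
  have hn : Fintype.card ι = 12 := by simpa using Fintype.card_congr e
  obtain ⟨e₁, P₁, h5, h6⟩ := o4_change h2 hf h1 h3 ((tensor_type hQ h2 h1 h3 h).1 hp) h
  let e₆ : Fin 6 ≃ Fin 3 × Fin 2 := (finProdFinEquiv (m := 3) (n := 2)).symm
  let e₂ : Fin 3 × Fin 2 × Fin 2 ≃ Fin 2 × Fin 6 := ((Equiv.prodAssoc _ _ _).symm.trans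
    (Equiv.prodComm _ _)).trans ((Equiv.refl _).prodCongr e₆.symm)
  have h7 := (h1.kron sf_J2).subm e₆
  rw [one_mul] at h7
  have h8 : pb (tv (e₁.trans e₂) P₁) (pol Q) = gf σ₀ (J2 F ⊗ₖ (G₁ ⊗ₖ J2 F).submatrix e₆ e₆) :=
    pb_trans (h5.trans (by congr 1; ext; simp [e₂]; ring))
  refine ⟨_, P₁, _, _, sf_J2.symp (sf_J2.alt_of_odd h2), h7.symp (h7.alt_of_odd h2), tensorStruct h8,
    fun x y => q_of_pol hQ h2 ((congrFun (congrFun h8 _) _).trans ?_), eq_of_max hH (fun g hg => ?_)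
      ((big_O hQ (by omega)).not_tensor' (by omega) (by omega) (by omega) _ _)⟩
  · rw [gf_pure, sf_J2.alt_of_odd h2, zero_mul]
  rw [h4] at hg
  obtain ⟨a, b, rfl⟩ := mem_tensor'.1 hg.1
  have h9 := isometry_le Q (omega_le Q hg.2)
  obtain ⟨b₁, b₂, h10 | h10⟩ := h6 a b (Iso_le_Sim _ h9)
  · refine mem_tensor'.2 ⟨b₂, cjU e₆ 1 (kronU a b₁), h10.trans (Units.ext ?_)⟩
    rw [cjU_coe, cjU_coe, cj_trans]
    congr 1; ext; simp [cj_apply, e₂]; ring
  have h11 := omega_det hg.2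
  rw [h10] at h9 h11
  have h12 := cjU_mem_Iso.1 h9
  rw [h5] at h12
  obtain ⟨c, -, h13⟩ := gf_Sim (sim_left h1 sf_JJ (h1.kron sf_JJ) (Iso_le_Sim _ h12))
  have h14 : (swU _ F * kronU b₁ b₂).1ᵀ * (J2 F ⊗ₖ J2 F) * (swU _ F * kronU b₁ b₂).1.map σ₀ =
      (b₁.1.det * b₂.1.det) • (J2 F ⊗ₖ J2 F) := by
    have : (swU _ F).1ᵀ * (J2 F ⊗ₖ J2 F) * (swU _ F).1 = J2 F ⊗ₖ J2 F := by
      rw [mul_assoc, ← cjG_eq_iff.1 (cjG_swU _ _), ← mul_assoc,
        show (swU (Fin 2) F).1ᵀ = (swU (Fin 2) F).1 by ext; simp [swU, PEquiv.toMatrix_apply]; grind,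
        ← Units.val_mul, swU_mul_self, Units.val_one, one_mul]
    rw [RingHom.coe_id, Matrix.map_id, Units.val_mul, transpose_mul, mul_assoc (kronU _ _).1ᵀ,
      ← mul_assoc, mul_assoc (kronU _ _).1ᵀ, this, kronU_coe, ← kroneckerMap_transpose,
      ← mul_kronecker_mul, ← mul_kronecker_mul, t_J2, t_J2, smul_kronecker, kronecker_smul, smul_smul]
  rw [gf_Iso, kronU_coe, ← kroneckerMap_transpose, kron_map, ← mul_kronecker_mul, ← mul_kronecker_mul,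
    h13, h14, smul_kronecker, kronecker_smul, smul_smul] at h12
  have h15 := (h1.kron sf_JJ).gf_unit.ne_zero
  have h16 : c * (b₁.1.det * b₂.1.det) = 1 := by
    by_contra h16
    generalize G₁ ⊗ₖ (J2 F ⊗ₖ J2 F) = M at h12 h15
    obtain rfl : M = 0 :=
      (smul_eq_zero.1 (by rw [sub_smul, h12, one_smul, sub_self])).resolve_left (sub_ne_zero.2 h16)
    exact h15 det_zero
  have h17 := congrArg det h13
  rw [det_mul, det_mul, det_transpose, det_smul, RingHom.coe_id, Matrix.map_id, Fintype.card_fin] at h17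
  have h18 : a.1.det ^ 2 = c ^ 3 := mul_right_cancel₀ h1.gf_unit.ne_zero (by linear_combination h17)
  rw [cjU_coe, det_cj, kronU_coe, det_kronecker, Units.val_mul, det_mul, det_swU, kronU_coe,
    det_kronecker] at h11
  simp only [Fintype.card_prod, Fintype.card_fin] at h11
  refine (h2 ?_).elim
  have h19 : (c * (b₁.1.det * b₂.1.det)) ^ 6 = 1 := by rw [h16, one_pow]
  linear_combination -h11 - h19 - (a.1.det ^ 2 + c ^ 3) * (b₁.1.det * b₂.1.det) ^ 6 * h18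

end O4

end H4.As
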